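/- S5210, `q = 3`: realisation inside an ambient group. -/
import Cfsg.Agent.FUS.Alperin
import Cfsg.Agent.FUS.Realized

set_option autoImplicit false
set_option linter.unusedSectionVars false

namespace CL.U4.C3
open Subgroup Cfsg Cfsg.FusionSystem CL.Fus

/-- the facts on the ambient group (`Co₀`; `H = U₄(3)`, `n = -1`) -/
structure Amb (Γ : Type*) [Group Γ] where
  S : Subgroup Γ
  Q : Subgroup Γ
  J : Subgroup Γ
  H : Subgroup Γ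
  z : Γ
  t : Γ
  d : Γ
  g : Γ
  n : Γ
  QS : Q ≤ S
  JS : J ≤ S
  SH : S ≤ H
  cardS : Nat.card S = 3 ^ 6
  cardH : ¬ 3 ^ 7 ∣ Nat.card H
  wcJ : ∀ f : Γ → Γ, IsHomOn J f → Set.InjOn f J → (∀ x ∈ J, f x ∈ S) → ∀ x ∈ J, f x ∈ J
  wcQ : ∀ f : Γ → Γ, IsHomOn Q f → Set.InjOn f Q → (∀ x ∈ Q, f x ∈ S) → (∀ x ∈ Q, f x ∈ Q) ∧ (f z = z ∨ f z = z⁻¹)
  cenJ : centralizerIn S J ≤ J
  zQ : z ∈ Q
  zJ : z ∈ J
  tJ : t ∈ J
  z3 : z ^ 3 = 1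
  t3 : t ^ 3 = 1
  zt : z * t = t * z
  gen : S ≤ Q ⊔ zpowers t
  ind : ∀ f : Γ → Γ, IsHomOn Q f → Set.InjOn f Q → (∀ x ∈ Q, f x ∈ Q) → ∃ m, ∀ x ∈ Q, f x = cj m x
  cen : ∀ c ∈ centralizer (Q : Set Γ), c ∈ zpowers z ∨ n * c ∈ zpowers z
  n_comm : ∀ x, n * x = x * n
  nn : n * n = 1
  n_ne : n ≠ 1
  trc : ∀ y ∈ zpowers z, ∀ m, cj m z = t * y ∨ cj m z⁻¹ = t * y → y = 1
  gH : g ∈ H
  gJ : g ∈ normalizer (J : Set Γ)
  gz : cj g z = t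
  dH : d ∈ H
  dS : d ∈ normalizer (S : Set Γ)
  dW : d ∈ S ⊔ img (cj g) S
  nS : ∀ x ∈ H, x ∈ normalizer (S : Set Γ) → x ∈ S ⊔ zpowers d
  nJ : ∀ x ∈ normalizer (J : Set Γ), ∃ k ∈ H, k ∈ normalizer (J : Set Γ) ∧ k⁻¹ * x ∈ normalizer (S : Set Γ)
  lemD : ∀ x ∈ normalizer (S : Set Γ), (∀ y ∈ J, cj x y = cj d y) → x ^ 24 ∈ S ∧ (x ^ 8 ∈ S → x⁻¹ * d ∈ S ⊔ zpowers n)
  big : ∀ X : Subgroup Γ, X ≤ normalizer (Q : Set Γ) → S ≤ X → d ∈ X → ¬ 3 ^ 7 ∣ Nat.card X →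
    ∃ G : Subgroup Γ, X ≤ G ∧ ¬ 3 ^ 7 ∣ Nat.card G ∧ G ⊓ normalizer (Q : Set Γ) ≤ X ∧ H ⊓ normalizer (J : Set Γ) ≤ G
  core : (fusionSystemOfSubgroup H S SH).core = ⊥

/-- the elements inducing `F`-automorphisms on `P` -/
def mS {Γ : Type*} [Group Γ] {S : Subgroup Γ} (F : FusionSystem S) (P : Subgroup Γ) (hP : P ≤ S) : Subgroup Γ where
  carrier := {x | x ∈ normalizer (P : Set Γ) ∧ Mor F P (cj x)}
  one_mem' := ⟨one_mem _, mor_cj F hP (one_mem _)⟩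
  mul_mem' := fun {x y} hx hy => ⟨mul_mem hx.1 hy.1, (hx.2.comp hy.2 fun _ => cj_mem_of_mem_normalizer hy.1).congr
    fun w _ => (cj_mul x y w).symm⟩
  inv_mem' := fun {x} hx => ⟨inv_mem hx.1, mem_normalizer_iff_img_cj.1 hx.1 ▸ hx.2.of_leftInv fun w _ => cj_inv_cj x w⟩

namespace Amb
variable {Γ : Type*} [Group Γ] [Finite Γ] (A : Amb Γ)

theorem pS : IsPGroup 3 A.S := IsPGroup.of_card A.cardS

theorem nP {P : Subgroup Γ} (hP : IsPGroup 3 P) : A.n ∉ P := fun h => by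
  obtain ⟨k, e⟩ := hP ⟨_, h⟩
  replace e : A.n ^ 3 ^ k = 1 := congrArg Subtype.val e
  obtain ⟨j, o⟩ : Odd (3 ^ k) := Odd.pow (by decide)
  rw [o, pow_succ, pow_mul, pow_two, A.nn, one_pow, one_mul] at e
  exact A.n_ne e

theorem zS : zpowers A.z ≤ A.S := zpowers_le.2 (A.QS A.zQ)

theorem NQ : normalizer (A.S : Set Γ) ≤ normalizer (A.Q : Set Γ) := fun x hx => mem_normalizer_of_cj_mem
  (A.wcQ _ (isHomOn_cj _ x) (cj_injective x).injOn fun _ h => cj_mem_of_mem_normalizer hx (A.QS h)).1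

theorem NJ : normalizer (A.S : Set Γ) ≤ normalizer (A.J : Set Γ) := fun x hx => mem_normalizer_of_cj_mem
  (A.wcJ _ (isHomOn_cj _ x) (cj_injective x).injOn fun _ h => cj_mem_of_mem_normalizer hx (A.JS h))

theorem cenP {P : Subgroup Γ} (hP : IsPGroup 3 P) (le : zpowers A.z ≤ P) {c : Γ} (hc : c ∈ P)
    (h : c ∈ centralizer (A.Q : Set Γ)) : c ∈ zpowers A.z :=
  (A.cen c h).resolve_right fun e => A.nP hP ((mul_mem_cancel_right hc).1 (le e))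

section F

variable {A} {F : FusionSystem A.S}

theorem mQ {f : Γ → Γ} (h : Mor F A.Q f) : (∀ x ∈ A.Q, f x ∈ A.Q) ∧ (f A.z = A.z ∨ f A.z = A.z⁻¹) :=
  A.wcQ f h.isHomOn h.injOn fun _ => h.map_mem

theorem cQ : F.IsCentric A.Q := isCentric_iff.2 ⟨A.QS, fun f h => by
  rw [h.img_eq_self (mQ h).1]
  exact fun c hc => zpowers_le.2 A.zQ (A.cenP A.pS A.zS hc.1 hc.2)⟩

theorem cJ : F.IsCentric A.J := isCentric_iff.2 ⟨A.JS, fun f h => by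
  rw [h.img_eq_self (A.wcJ f h.isHomOn h.injOn fun _ => h.map_mem)]
  exact A.cenJ⟩

theorem ext (hF : F.IsSaturated 3) {P : Subgroup Γ} (hP : F.IsCentric P) (n : A.S ≤ normalizer (P : Set Γ)) {x : Γ}
    (hx : x ∈ normalizer (A.S : Set Γ)) (h : Mor F P (cj x)) : ∃ α, Mor F A.S α ∧ Set.EqOn α (cj x) P := by
  obtain ⟨α, h1, h2⟩ := exists_extend_of_isCentric A.pS hF h hP
  exact ⟨α, h1.mono fun s hs => ⟨hs, n hs, cj x s, cj_mem_of_mem_normalizer hx hs, fun y _ => by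
    simp only [cj_apply]; group⟩, h2⟩

theorem SX : A.S ≤ mS F A.Q A.QS := fun _ hs => ⟨A.NQ (le_normalizer hs), mor_cj F A.QS hs⟩

theorem SY : A.S ≤ mS F A.J A.JS := fun _ hs => ⟨A.NJ (le_normalizer hs), mor_cj F A.JS hs⟩

theorem sylX (hF : F.IsSaturated 3) : SylIn 3 A.S (mS F A.Q A.QS) := by
  obtain ⟨P, hP, le⟩ := exists_sylIn_ge (SX (F := F)) A.pS
  refine (le_antisymm (fun x hx => ?_) le : P = A.S) ▸ hP
  have e := (sylIn_of_fullyNormalized A.pS hF (fullyNormalized_of_normal F A.QS (le_normalizer.trans A.NQ))).eq_of_le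
    (fun α hα => by
      obtain ⟨g, hg, hn, rfl⟩ := mem_autInducedBy_iff_cjAut.1 hα
      exact (hP.le hg).2.mem_autGroup (autFun_cjAut hn))
    (isPGroup_autInducedBy hP.isPGroup A.Q) (autInducedBy_mono le _)
  obtain ⟨k, hk, c⟩ := (cjAut_mem_autInducedBy_iff (hP.le hx).1).1 (e ▸ cjAut_mem_autInducedBy hx _)
  exact (mul_mem_cancel_left (inv_mem hk)).1 (A.zS (A.cenP hP.isPGroup (A.zS.trans le) (mul_mem (inv_mem (le hk)) hx) c))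

variable (j1 : ∀ k ∈ A.H, k ∈ normalizer (A.J : Set Γ) → ∃ x ∈ A.H, x ∈ normalizer (A.S : Set Γ) ∧ Mor F A.J (cj (k * x)))
include j1

theorem dY : A.d ∈ mS F A.J A.JS := by
  obtain ⟨x, -, hx, h⟩ := j1 _ A.gH A.gJ
  have m : A.g * x ∈ mS F A.J A.JS := ⟨mul_mem A.gJ (A.NJ hx), h⟩
  refine sup_le SY (img_le_iff.2 fun s hs => ?_) A.dW
  rw [← cj_cj_inv x s, ← cj_mul]
  exact cj_mem m (SY (cj_mem_of_mem_normalizer (inv_mem hx) hs))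

theorem HY {k : Γ} (hk : k ∈ A.H) (n : k ∈ normalizer (A.J : Set Γ)) : k ∈ mS F A.J A.JS := by
  obtain ⟨x, xH, hx, h⟩ := j1 _ hk n
  exact (mul_mem_cancel_right (sup_le SY (zpowers_le.2 (dY j1)) (A.nS x xH hx))).1 ⟨mul_mem n (A.NJ hx), h⟩

variable (j2 : ∀ f, Mor F A.J f → ∃ k ∈ A.H, k ∈ normalizer (A.J : Set Γ) ∧ ∃ h, Mor F A.S h ∧ ∀ x ∈ A.J, f x = cj k (h x))
include j2

theorem top {α : Γ → Γ} (h : Mor F A.S α) : ∃ m, Set.EqOn α (cj m) A.S := by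
  have hQ := h.mono A.QS
  obtain ⟨m, e⟩ := A.ind α hQ.isHomOn hQ.injOn (mQ hQ).1
  have tS := A.JS A.tJ
  have c : m⁻¹ * (α A.t)⁻¹ * m * A.t ∈ centralizer (A.Q : Set Γ) := mem_centralizer_iff_cj.2 fun q hq => by
    have := h.map_cj tS (A.QS hq)
    rw [e _ (cj_mem_of_mem_normalizer (A.NQ (le_normalizer tS)) hq), e q hq] at this
    rw [cj_mul, cj_mul, this, cj_mul, cj_inv_cj, cj_inv_cj]
  have c1 : m⁻¹ * (α A.t)⁻¹ * m * A.t ∈ zpowers A.z := (A.cen _ c).resolve_right fun k => by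
    obtain ⟨j, o⟩ := A.pS ⟨_, mul_mem (A.zS k) (inv_mem tS)⟩
    replace o : (A.n * (m⁻¹ * (α A.t)⁻¹ * m * A.t) * A.t⁻¹) ^ 3 ^ j = 1 := congrArg Subtype.val o
    have a3 : (m⁻¹ * (α A.t)⁻¹ * m⁻¹⁻¹) ^ 3 = 1 := by rw [conj_pow, inv_pow, ← h.map_pow tS, A.t3, h.map_one]; group
    rw [mul_assoc, mul_inv_cancel_right, ← inv_inv m, inv_inv m⁻¹] at o
    refine A.nP (isPGroup_zpowers_of_pow_eq_one (k := j + 1) ?_) (mem_zpowers _)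
    generalize m⁻¹ * (α A.t)⁻¹ * m⁻¹⁻¹ = u at o a3
    have : (A.n * u) ^ 3 ^ (j + 1) = 1 := by rw [pow_succ, pow_mul, o, one_pow]
    rwa [Commute.mul_pow (A.n_comm _), pow_succ' 3, pow_mul u, a3, one_pow, mul_one, ← pow_succ'] at this
  obtain ⟨k, -, -, β, hβ, e2⟩ := j2 _ (h.comp (HY j1 A.gH A.gJ).2 fun x hx => A.JS (cj_mem_of_mem_normalizer A.gJ hx))
  have e3 := e2 _ A.zJ
  rw [Function.comp_apply, A.gz] at e3
  have e4 : cj (m⁻¹ * k) (β A.z) = A.t * (m⁻¹ * (α A.t)⁻¹ * m * A.t)⁻¹ := by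
    rw [cj_mul, ← e3, cj_apply]; group
  have e5 := A.trc _ (inv_mem c1) (m⁻¹ * k) ((mQ (hβ.mono A.QS)).2.imp (fun k => by rwa [k] at e4) fun k => by rwa [k] at e4)
  have e6 : α A.t = cj m A.t := by
    rw [e5, mul_one, cj_mul, ← e3] at e4
    rw [← e4, cj_cj_inv, e4]
  refine ⟨m, fun x hx => (h.isHomOn.mono (sup_le A.QS (zpowers_le.2 tS))).eqOn_sup (isHomOn_cj _ m) e ?_ (A.gen hx)⟩
  rintro _ ⟨i, rfl⟩
  simp only [h.map_zpow tS, e6, cj_apply, conj_zpow]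

theorem top' {α : Γ → Γ} (h : Mor F A.S α) : ∃ m ∈ mS F A.Q A.QS, m ∈ normalizer (A.S : Set Γ) ∧ Set.EqOn α (cj m) A.S := by
  obtain ⟨m, e⟩ := top j1 j2 h
  have n : m ∈ normalizer (A.S : Set Γ) := mem_normalizer_of_cj_mem fun x hx => e hx ▸ h.map_mem hx
  exact ⟨m, ⟨A.NQ n, (h.congr e).mono A.QS⟩, n, e⟩

variable (hF : F.IsSaturated 3)
include hF

theorem XS {x : Γ} (hx : x ∈ mS F A.Q A.QS) (n : x ∈ normalizer (A.S : Set Γ)) : Mor F A.S (cj x) := by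
  obtain ⟨α, h, e⟩ := ext hF cQ (le_normalizer.trans A.NQ) n hx.2
  obtain ⟨m, e'⟩ := top j1 j2 h
  have c : m⁻¹ * x ∈ centralizer (A.Q : Set Γ) := mem_centralizer_iff_cj.2 fun q hq => by
    rw [cj_mul, ← e hq, e' (A.QS hq), cj_inv_cj]
  obtain ⟨y, hy, k⟩ : ∃ y ∈ A.S, ∀ w, cj (m⁻¹ * x) w = cj y w := by
    rcases A.cen _ c with k | k
    · exact ⟨_, A.zS k, fun _ => rfl⟩
    · exact ⟨_, A.zS k, fun w => by rw [cj_mul A.n, cj_eq_self_iff.2 (A.n_comm _)]⟩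
  refine (h.comp (mor_cj F le_rfl hy) fun w => cj_mem hy).congr fun w hw => ?_
  rw [Function.comp_apply, e' (cj_mem hy hw), ← k, ← cj_mul, mul_inv_cancel_left]

theorem dX : A.d ∈ mS F A.Q A.QS := by
  obtain ⟨α, h, e⟩ := ext hF cJ (le_normalizer.trans A.NJ) A.dS (dY j1).2
  obtain ⟨x, hx, n, e'⟩ := top' j1 j2 h
  obtain ⟨k1, k2⟩ := A.lemD x n fun y hy => by rw [← e' (A.JS hy), e hy]
  obtain ⟨j, o⟩ := A.pS ⟨_, k1⟩
  replace o : (x ^ 24) ^ 3 ^ j = 1 := congrArg Subtype.val o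
  have := (sylX hF).le_of_le_normalizer' (zpowers_le.2 (pow_mem hx 8)) (isPGroup_zpowers_of_pow_eq_one (k := j + 1) (by
    rw [← o, pow_succ' 3, pow_mul, ← pow_mul x])) (zpowers_le.2 (pow_mem n 8)) (mem_zpowers _)
  refine (mul_mem_cancel_left (inv_mem hx)).1 (sup_le SX (zpowers_le.2 ?_) (k2 this))
  have c : ∀ w, cj A.n w = w := fun w => cj_eq_self_iff.2 (A.n_comm w)
  exact ⟨mem_normalizer_of_cj_mem fun w hw => (c w).symm ▸ hw, (mor_id F A.QS).congr fun w _ => (c w).symm⟩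

end F

/-- STUB `U4/CFus`.  `|S| = 3 ^ 6`, `3 ^ 7 ∤ |G|`. -/
theorem sylIn {G : Subgroup Γ} (h : A.S ≤ G) (h7 : ¬ 3 ^ 7 ∣ Nat.card G) : SylIn 3 A.S G := by
  obtain ⟨P, hP, le⟩ := exists_sylIn_ge h A.pS
  refine hP.of_card_le h A.pS ?_
  obtain ⟨k, e⟩ := IsPGroup.iff_card.1 hP.isPGroup
  rw [e, A.cardS]
  exact Nat.pow_le_pow_right (by norm_num) (not_lt.1 fun l => h7 ((pow_dvd_pow 3 l).trans (e ▸ card_dvd_of_le hP.le)))

/-- `N(S) ≤ N(Q), N(J)` and `S ≤ N(S)` (`wcQ`, `wcJ` with `cj x`); `Q`, `J` are `F`-centric (images are `Q`, `J`; `C_S(Q) ≤ Q` by `cen`, `n ∉ S`).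
(1) `Y = {x ∈ N(J) | Mor F J (cj x)}` is a subgroup containing `S`; `g n₀ ∈ Y` (`j1`) gives `img (cj g) S ≤ Y`, `d ∈ Y` (`dW`), `H ⊓ N(S) ≤ Y` (`nS`),
`H ⊓ N(J) ≤ Y` (`j1`).
(2) TOP: `Mor F S α` gives `m` with `α = cj m` on `S`: `ind` gives `m` on `Q`; `c = m⁻¹ (α t)⁻¹ m t` centralises `Q` (`map_cj`), so `m⁻¹ (α t) m = t y` or `t y n`,
`y ∈ ⟨z⟩`; cubes exclude `n`; `j2` for `α ∘ cj g` at `z` gives `α t = cj k (h z)`, `h z = z ^ ± 1`; `trc` gives `y = 1`; `gen`, `eqOn_sup`.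
(3) `X = {x ∈ N(Q) | Mor F Q (cj x)}` is a subgroup containing `S`, `n`, `C(Q)`; `3 ^ 7 ∤ |X|`: `SylIn 3 S X` since `cjAut : X → Aut_F(Q)` has kernel in
`⟨z, n⟩` and `Aut_S(Q)` is Sylow (`sylIn_of_fullyNormalized`): a `3`-subgroup `S ≤ P ≤ X` has image `Aut_S(Q)`, so `P ≤ S C(Q)`, `3`-elements of `S ⟨n⟩` are in `S`.
(4) `x ∈ X ⊓ N(S)` gives `Mor F S (cj x)`: `exists_extend_of_isCentric` (`Nphi = S`), (2), `cen`.
(5) `d ∈ X`: extend `cj d` from `J` to `S`, `= cj x` by (2), `x ∈ X ⊓ N(S)`; `x ^ 8` is a `3`-element (`lemD`) of `X` normalising the Sylow subgroup `S`.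
(6) `G` from `big`, `E = fusionSystemOfSubgroup G S`, saturated.  `alperin_isSubsystemOf` twice: `F ≤ E` by (2), `ind`, `j2`; `E ≤ F` by (4), `big`, `nJ` with (1), (4).
`isRealizable_of_isRealizedBy (isRealizedBy_ofSubgroup _)`. -/
theorem realizable (F : FusionSystem A.S) (hF : F.IsSaturated 3)
    (ess : ∀ E : FusionSystem A.S, E.IsSaturated 3 → ∀ R, E.IsEssential 3 R → R = A.J ∨ R = A.Q)
    (j1 : ∀ k ∈ A.H, k ∈ normalizer (A.J : Set Γ) → ∃ x ∈ A.H, x ∈ normalizer (A.S : Set Γ) ∧ Mor F A.J (cj (k * x)))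
    (j2 : ∀ f, Mor F A.J f → ∃ k ∈ A.H, k ∈ normalizer (A.J : Set Γ) ∧ ∃ h, Mor F A.S h ∧ ∀ x ∈ A.J, f x = cj k (h x)) :
    F.IsRealizable 3 := by
  obtain ⟨G, XG, g7, GX, HG⟩ := A.big (mS F A.Q A.QS) (fun _ h => h.1) SX (dX j1 j2 hF) fun k => by
    have := (sylX hF).card_eq_pow
    rw [A.cardS] at this
    have := (Nat.prime_three.pow_dvd_iff_le_factorization Nat.card_pos.ne').1 k
    have := Nat.pow_right_injective (by norm_num : 2 ≤ 3) ‹3 ^ 6 = _›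
    omega
  have SG := SX.trans XG
  have sy := A.sylIn SG g7
  have hE := isSaturated_ofSubgroup (hTH := SG) sy
  have h1 : F.IsSubsystemOf (fusionSystemOfSubgroup G A.S SG) := alperin_isSubsystemOf A.pS hF fun P f hP h im => by
    refine mor_ofSubgroup_iff.2 ⟨h.le, fun _ => h.map_mem, ?_⟩
    rcases hP.imp_right (ess F hF P) with rfl | rfl | rfl
    · obtain ⟨m, hm, -, e⟩ := top' j1 j2 h
      exact ⟨m, XG hm, e⟩
    · obtain ⟨k, kH, kJ, β, hβ, e⟩ := j2 f h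
      obtain ⟨m, hm, -, e'⟩ := top' j1 j2 hβ
      exact ⟨k * m, mul_mem (HG ⟨kH, kJ⟩) (XG hm), fun x hx => by rw [e x hx, e' (A.JS hx), cj_mul]⟩
    · obtain ⟨m, e⟩ := A.ind f h.isHomOn h.injOn (mQ h).1
      exact ⟨m, XG ⟨mem_normalizer_of_cj_mem fun x hx => e x hx ▸ (mQ h).1 x hx, h.congr e⟩, e⟩
  have h2 : (fusionSystemOfSubgroup G A.S SG).IsSubsystemOf F := alperin_isSubsystemOf A.pS hE fun P f hP h im => by
    obtain ⟨-, -, x, hx, e⟩ := mor_ofSubgroup_iff.1 h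
    have n : x ∈ normalizer (P : Set Γ) := mem_normalizer_iff_img_cj.2 (img_congr e ▸ im)
    refine Mor.congr ?_ e.symm
    rcases hP.imp_right (ess _ hE P) with rfl | rfl | rfl
    · exact XS j1 j2 hF (GX ⟨hx, A.NQ n⟩) n
    · obtain ⟨k, kH, kJ, n'⟩ := A.nJ x n
      exact ((mul_mem_cancel_left (inv_mem (HY j1 kH kJ))).1 ⟨A.NJ n',
        (XS j1 j2 hF (GX ⟨G.mul_mem (G.inv_mem (HG ⟨kH, kJ⟩)) hx, A.NQ n'⟩) n').mono A.JS⟩).2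
    · exact (GX ⟨hx, n⟩).2
  rw [FusionSystem_ext_mor fun P f => ⟨Mor.of_subsystem h1, Mor.of_subsystem h2⟩]
  exact isRealizable_of_isRealizedBy (isRealizedBy_ofSubgroup SG)
    ((sylIn_iff_exists_sylow.1 sy).2.imp fun R e => e.trans (inclusion_range SG).symm)

end Amb
end CL.U4.C3
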