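/- S5210, `q = 3`: the extraspecial group `3 ^ (1 + 4)` and its automorphisms. -/
import Mathlib

set_option autoImplicit false
set_option maxRecDepth 100000

namespace CL.U4.C3

abbrev Z3 := ZMod 3

@[ext] structure V4 where
  a : Z3
  b : Z3
  c : Z3
  e : Z3
deriving DecidableEq, Fintype

/-- the symplectic form -/
def om (u v : V4) : Z3 := u.a * v.b - u.b * v.a + u.c * v.e - u.e * v.c

/-- a matrix, by the images of the basis -/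
structure Mt where
  u1 : V4
  u2 : V4
  u3 : V4
  u4 : V4

def Mt.ap (M : Mt) (v : V4) : V4 :=
  ⟨v.a * M.u1.a + v.b * M.u2.a + v.c * M.u3.a + v.e * M.u4.a, v.a * M.u1.b + v.b * M.u2.b + v.c * M.u3.b + v.e * M.u4.b,
   v.a * M.u1.c + v.b * M.u2.c + v.c * M.u3.c + v.e * M.u4.c, v.a * M.u1.e + v.b * M.u2.e + v.c * M.u3.e + v.e * M.u4.e⟩

/-- similitude with multiplier `ε` -/
def Mt.Sy (M : Mt) (ε : Z3) : Prop :=
  om M.u1 M.u2 = ε ∧ om M.u3 M.u4 = ε ∧ om M.u1 M.u3 = 0 ∧ om M.u1 M.u4 = 0 ∧ om M.u2 M.u3 = 0 ∧ om M.u2 M.u4 = 0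

instance (M : Mt) (ε : Z3) : Decidable (M.Sy ε) := by unfold Mt.Sy; infer_instance

@[ext] structure Hs where
  v : V4
  k : Z3
deriving DecidableEq, Fintype

namespace Hs
instance : Mul Hs := ⟨fun x y => ⟨⟨x.v.a + y.v.a, x.v.b + y.v.b, x.v.c + y.v.c, x.v.e + y.v.e⟩, x.k + y.k - om x.v y.v⟩⟩
instance : One Hs := ⟨⟨⟨0, 0, 0, 0⟩, 0⟩⟩
instance : Inv Hs := ⟨fun x => ⟨⟨-x.v.a, -x.v.b, -x.v.c, -x.v.e⟩, -x.k⟩⟩
theorem mul_def (x y : Hs) :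
    x * y = ⟨⟨x.v.a + y.v.a, x.v.b + y.v.b, x.v.c + y.v.c, x.v.e + y.v.e⟩, x.k + y.k - om x.v y.v⟩ := rfl
theorem one_def : (1 : Hs) = ⟨⟨0, 0, 0, 0⟩, 0⟩ := rfl
theorem inv_def (x : Hs) : x⁻¹ = ⟨⟨-x.v.a, -x.v.b, -x.v.c, -x.v.e⟩, -x.k⟩ := rfl
instance : Group Hs := Group.ofLeftAxioms
  (fun x y z => by ext <;> simp only [mul_def, om] <;> ring)
  (fun x => by ext <;> simp only [mul_def, one_def, om] <;> ring)
  (fun x => by ext <;> simp only [mul_def, one_def, inv_def, om] <;> ring)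
end Hs

def e1 : Hs := ⟨⟨1, 0, 0, 0⟩, 0⟩
def e2 : Hs := ⟨⟨0, 1, 0, 0⟩, 0⟩
def e3 : Hs := ⟨⟨0, 0, 1, 0⟩, 0⟩
def e4 : Hs := ⟨⟨0, 0, 0, 1⟩, 0⟩
def ez : Hs := ⟨⟨0, 0, 0, 0⟩, 1⟩

/-- the map induced by a similitude -/
def act (M : Mt) (ε : Z3) (x : Hs) : Hs := ⟨M.ap x.v, ε * x.k⟩

/-- the six generators (multiplier `2`) -/
def Am : ℕ → Mt
  | 0 => ⟨⟨0, 0, 2, 0⟩, ⟨0, 0, 0, 1⟩, ⟨1, 0, 0, 0⟩, ⟨0, 2, 0, 0⟩⟩
  | 1 => ⟨⟨0, 0, 2, 0⟩, ⟨0, 0, 2, 1⟩, ⟨1, 0, 0, 0⟩, ⟨1, 2, 0, 0⟩⟩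
  | 2 => ⟨⟨1, 0, 2, 2⟩, ⟨0, 1, 0, 2⟩, ⟨2, 1, 2, 0⟩, ⟨0, 2, 0, 2⟩⟩
  | 3 => ⟨⟨2, 0, 2, 0⟩, ⟨0, 2, 2, 2⟩, ⟨2, 0, 1, 0⟩, ⟨1, 2, 0, 1⟩⟩
  | 4 => ⟨⟨0, 0, 0, 2⟩, ⟨0, 0, 2, 0⟩, ⟨0, 1, 0, 0⟩, ⟨1, 0, 0, 0⟩⟩
  | _ => ⟨⟨0, 0, 2, 2⟩, ⟨0, 0, 2, 0⟩, ⟨0, 1, 0, 0⟩, ⟨1, 2, 0, 0⟩⟩

/-- the unipotent element `τ ^ i` -/
def Tm (i : Z3) : Mt := ⟨⟨1, 0, 0, 0⟩, ⟨i, 1, 0, 0⟩, ⟨0, 0, 1, 0⟩, ⟨0, 0, i, 1⟩⟩

/-- action of a word -/
def wa (w : List ℕ) (v : V4) : V4 := w.foldr (fun j u => (Am j).ap u) v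

theorem card_Hs : Nat.card Hs = 243 := by rw [Nat.card_eq_fintype_card]; rfl

variable {Γ : Type*} [Group Γ]

/-- the relations -/
structure Rel (q1 q2 q3 q4 z : Γ) : Prop where
  p1 : q1 ^ 3 = 1
  p2 : q2 ^ 3 = 1
  p3 : q3 ^ 3 = 1
  p4 : q4 ^ 3 = 1
  pz : z ^ 3 = 1
  z1 : Commute z q1
  z2 : Commute z q2
  z3 : Commute z q3
  z4 : Commute z q4
  c12 : q1 * q2 = z * q2 * q1
  c34 : q3 * q4 = z * q4 * q3
  c13 : Commute q1 q3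
  c14 : Commute q1 q4
  c23 : Commute q2 q3
  c24 : Commute q2 q4

namespace CHs

/-- power with an exponent in `ZMod 3` -/
def pw (x : Γ) (a : Z3) : Γ := x ^ a.val

theorem pw_nat {x : Γ} (hx : x ^ 3 = 1) (n : ℕ) : pw x (n : Z3) = x ^ n := by
  unfold pw
  rw [ZMod.val_natCast]
  exact (pow_eq_pow_mod n hx).symm

theorem pw_add {x : Γ} (hx : x ^ 3 = 1) (a b : Z3) : pw x (a + b) = pw x a * pw x b := by
  have : a + b = ((a.val + b.val : ℕ) : Z3) := by simp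
  rw [this, pw_nat hx, pow_add]; rfl

theorem pw_zero (x : Γ) : pw x 0 = 1 := by simp [pw]
theorem pw_one (x : Γ) : pw x 1 = x := by
  unfold pw; rw [show (1 : Z3).val = 1 from rfl, pow_one]

theorem cpw {x y : Γ} (h : Commute x y) (a b : Z3) : Commute (pw x a) (pw y b) := h.pow_pow _ _

theorem sw1 {x y z : Γ} (hz : z ^ 3 = 1) (zx : Commute z x) (h : x * y = z * y * x) (zy : Commute z y) (m : ℕ) :
    y * x ^ m = x ^ m * y * z ^ (2 * m) := by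
  have h0 : y * x = x * y * z ^ 2 := by
    rw [h]
    have : z * y * x * z ^ 2 = y * x * z ^ 3 := by
      rw [zy.eq, mul_assoc y z x, zx.eq, pow_succ' z 2]; simp only [mul_assoc]
    rw [this, hz, mul_one]
  induction m with
  | zero => simp
  | succ m ih =>
    rw [pow_succ, ← mul_assoc, ih, mul_assoc, (zx.pow_left _).eq, ← mul_assoc, mul_assoc (x ^ m), h0,
      show 2 * (m + 1) = 2 + 2 * m by ring, pow_add]
    simp only [mul_assoc]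

theorem sw2 {x y z : Γ} (hz : z ^ 3 = 1) (zx : Commute z x) (h : x * y = z * y * x) (zy : Commute z y) (m n : ℕ) :
    y ^ n * x ^ m = x ^ m * y ^ n * z ^ (2 * m * n) := by
  induction n with
  | zero => simp
  | succ n ih =>
    rw [pow_succ', mul_assoc, ih, ← mul_assoc, ← mul_assoc, sw1 hz zx h zy, mul_assoc (x ^ m * y), (zy.pow_pow _ _).eq,
      show 2 * m * (n + 1) = 2 * m + 2 * m * n by ring, pow_add]
    simp only [mul_assoc]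

theorem sw {x y z : Γ} (hz : z ^ 3 = 1) (zx : Commute z x) (h : x * y = z * y * x) (zy : Commute z y) (a b : Z3) :
    pw y b * pw x a = pw x a * pw y b * pw z (2 * a * b) := by
  have : 2 * a * b = ((2 * a.val * b.val : ℕ) : Z3) := by simp
  rw [this, pw_nat hz]
  exact sw2 hz zx h zy _ _

/-- one Heisenberg factor -/
theorem heis {x y z : Γ} (hx : x ^ 3 = 1) (hy : y ^ 3 = 1) (hz : z ^ 3 = 1) (zx : Commute z x) (h : x * y = z * y * x)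
    (zy : Commute z y) (a b a' b' : Z3) :
    pw x a * pw y b * (pw x a' * pw y b') = pw x (a + a') * pw y (b + b') * pw z (2 * a' * b) := by
  rw [pw_add hx, pw_add hy, mul_assoc (pw x a), ← mul_assoc (pw y b), sw hz zx h zy, mul_assoc _ (pw z _), (cpw zy _ _).eq]
  simp only [mul_assoc]

theorem nf : ∀ x : Hs, x = e1 ^ x.v.a.val * e2 ^ x.v.b.val * (e3 ^ x.v.c.val * e4 ^ x.v.e.val) *
    ez ^ (x.k + x.v.a * x.v.b + x.v.c * x.v.e).val := by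
  decide +kernel

theorem ez_eq : ez = e1 * e2 * e1⁻¹ * e2⁻¹ := by decide +kernel

theorem cm_eq (x y : Hs) : x * y * x⁻¹ * y⁻¹ = ⟨⟨0, 0, 0, 0⟩, om x.v y.v⟩ := by
  have h3 : (3 : Z3) = 0 := rfl
  ext <;> simp only [Hs.mul_def, Hs.inv_def, om]
  · ring
  · ring
  · ring
  · ring
  · linear_combination (-(x.v.a * y.v.b - x.v.b * y.v.a + x.v.c * y.v.e - x.v.e * y.v.c)) * h3

theorem ez_pow : ∀ k : Z3, (⟨⟨0, 0, 0, 0⟩, k⟩ : Hs) = ez ^ k.val := by decide +kernel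

theorem z3_cases : ∀ k : Z3, k = 0 ∨ k = 1 ∨ k = 2 := by decide

theorem cen_ker {φ : Hs →* Γ} (h : φ ez ≠ 1) {k : Z3} (hk : φ ⟨⟨0, 0, 0, 0⟩, k⟩ = 1) : k = 0 := by
  rcases z3_cases k with rfl | rfl | rfl
  · rfl
  · exact absurd hk h
  · refine absurd ?_ h
    have : ez = (⟨⟨0, 0, 0, 0⟩, 2⟩ : Hs) * ⟨⟨0, 0, 0, 0⟩, 2⟩ := by decide +kernel
    rw [this, map_mul, hk, one_mul]

end CHs
open CHs

/-- STUB `U4/CHs`.  `φ ⟨⟨a, b, c, e⟩, k⟩ = q1 ^ a.val * q2 ^ b.val * q3 ^ c.val * q4 ^ e.val * z ^ (k + a b + c e).val`;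
`x ^ (a + b).val = x ^ a.val * x ^ b.val` if `x ^ 3 = 1`; `q2 ^ n * q1 ^ m = q1 ^ m * q2 ^ n * (z ^ (n m))⁻¹`. -/
theorem exists_lift {q1 q2 q3 q4 z : Γ} (h : Rel q1 q2 q3 q4 z) :
    ∃ φ : Hs →* Γ, φ e1 = q1 ∧ φ e2 = q2 ∧ φ e3 = q3 ∧ φ e4 = q4 ∧ φ ez = z := by
  refine ⟨MonoidHom.mk' (fun x => pw q1 x.v.a * pw q2 x.v.b * (pw q3 x.v.c * pw q4 x.v.e) *
    pw z (x.k + x.v.a * x.v.b + x.v.c * x.v.e)) fun x y => ?_, ?_, ?_, ?_, ?_, ?_⟩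
  · have hc : ∀ a b c e : Z3, Commute (pw q3 c * pw q4 e) (pw q1 a * pw q2 b) := fun a b c e =>
      ((cpw h.c13.symm _ _).mul_right (cpw h.c23.symm _ _)).mul_left ((cpw h.c14.symm _ _).mul_right (cpw h.c24.symm _ _))
    have hz1 : ∀ a b k : Z3, Commute (pw z k) (pw q1 a * pw q2 b) := fun a b k => (cpw h.z1 _ _).mul_right (cpw h.z2 _ _)
    have hz2 : ∀ a b k : Z3, Commute (pw z k) (pw q3 a * pw q4 b) := fun a b k => (cpw h.z3 _ _).mul_right (cpw h.z4 _ _)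
    have key : ∀ A B C D : Γ, ∀ k l : Z3, Commute B C → Commute (pw z k) C → Commute (pw z k) D →
        A * B * pw z k * (C * D * pw z l) = A * C * (B * D) * pw z (k + l) := by
      intro A B C D k l h1 h2 h3
      rw [pw_add h.pz, ← mul_assoc, mul_assoc (A * B), (h2.mul_right h3).eq, ← mul_assoc, ← mul_assoc, mul_assoc A B C, h1.eq]
      simp only [mul_assoc]
    have key2 : ∀ A B : Γ, ∀ k l m : Z3, Commute (pw z k) B →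
        A * pw z k * (B * pw z l) * pw z m = A * B * pw z (k + l + m) := by
      intro A B k l m h1
      rw [pw_add h.pz, pw_add h.pz, ← mul_assoc, mul_assoc A, h1.eq]
      simp only [mul_assoc]
    rw [key _ _ _ _ _ _ (hc _ _ _ _) (hz1 _ _ _) (hz2 _ _ _), heis h.p1 h.p2 h.pz h.z1 h.c12 h.z2,
      heis h.p3 h.p4 h.pz h.z3 h.c34 h.z4, key2 _ _ _ _ _ (hz2 _ _ _)]
    simp only [Hs.mul_def, om]
    congr 2
    ring
  all_goals simp [e1, e2, e3, e4, ez, pw_zero, pw_one]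

/-- `x = e1 ^ a.val * e2 ^ b.val * e3 ^ c.val * e4 ^ e.val * ez ^ (k + a b + c e).val` (decide), `ez = e1 e2 e1⁻¹ e2⁻¹` -/
theorem hom_ext {f g : Hs →* Γ} (h1 : f e1 = g e1) (h2 : f e2 = g e2) (h3 : f e3 = g e3) (h4 : f e4 = g e4) : f = g := by
  have hz : f ez = g ez := by rw [ez_eq]; simp only [map_mul, map_inv, h1, h2]
  ext x
  rw [nf x]
  simp only [map_mul, map_pow, h1, h2, h3, h4, hz]

/-- `φ x = 1` gives `φ ⁅x, e i⁆ = 1`, `⁅x, y⁆ = ez ^ (om x.v y.v).val` -/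
theorem inj_of {φ : Hs →* Γ} (h : φ ez ≠ 1) : Function.Injective φ := by
  rw [injective_iff_map_eq_one]
  intro x hx
  have h0 : ∀ y : Hs, om x.v y.v = 0 := fun y => cen_ker h (by
    rw [← cm_eq, map_mul, map_mul, map_mul, map_inv, map_inv, hx]; simp)
  have a1 := h0 e1
  have a2 := h0 e2
  have a3 := h0 e3
  have a4 := h0 e4
  simp only [om, e1, e2, e3, e4, mul_zero, mul_one, sub_zero, add_zero, zero_sub, zero_add, neg_eq_zero] at a1 a2 a3 a4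
  obtain ⟨⟨a, b, c, e⟩, k⟩ := x
  simp only at a1 a2 a3 a4
  subst a1 a2 a3 a4
  rw [cen_ker h hx]; rfl

theorem act_mul {M : Mt} {ε : Z3} (h : M.Sy ε) (x y : Hs) : act M ε (x * y) = act M ε x * act M ε y := by
  obtain ⟨h1, h2, h3, h4, h5, h6⟩ := h
  simp only [om] at h1 h2 h3 h4 h5 h6
  ext <;> simp only [Hs.mul_def, act, Mt.ap, om]
  · ring
  · ring
  · ring
  · ring
  · linear_combination (x.v.a * y.v.b - x.v.b * y.v.a) * h1 + (x.v.c * y.v.e - x.v.e * y.v.c) * h2 +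
      (x.v.a * y.v.c - x.v.c * y.v.a) * h3 + (x.v.a * y.v.e - x.v.e * y.v.a) * h4 + (x.v.b * y.v.c - x.v.c * y.v.b) * h5 +
      (x.v.b * y.v.e - x.v.e * y.v.b) * h6

/-- `hom_ext` for `MulAut.conj g ∘ φ` and `φ ∘ MonoidHom.mk' (act M ε) _` -/
theorem cj_act (φ : Hs →* Γ) {M : Mt} {ε : Z3} (h : M.Sy ε) {g : Γ} (h1 : g * φ e1 = φ ⟨M.u1, 0⟩ * g)
    (h2 : g * φ e2 = φ ⟨M.u2, 0⟩ * g) (h3 : g * φ e3 = φ ⟨M.u3, 0⟩ * g) (h4 : g * φ e4 = φ ⟨M.u4, 0⟩ * g) (x : Hs) :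
    g * φ x * g⁻¹ = φ (act M ε x) := by
  have key : ((MulAut.conj g).toMonoidHom.comp φ) = φ.comp (MonoidHom.mk' (act M ε) (act_mul h)) := by
    apply hom_ext
    · simp only [MonoidHom.comp_apply, MulEquiv.coe_toMonoidHom, MulAut.conj_apply, MonoidHom.mk'_apply, h1, mul_inv_cancel_right]
      congr 1; ext <;> simp [act, Mt.ap, e1]
    · simp only [MonoidHom.comp_apply, MulEquiv.coe_toMonoidHom, MulAut.conj_apply, MonoidHom.mk'_apply, h2, mul_inv_cancel_right]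
      congr 1; ext <;> simp [act, Mt.ap, e2]
    · simp only [MonoidHom.comp_apply, MulEquiv.coe_toMonoidHom, MulAut.conj_apply, MonoidHom.mk'_apply, h3, mul_inv_cancel_right]
      congr 1; ext <;> simp [act, Mt.ap, e3]
    · simp only [MonoidHom.comp_apply, MulEquiv.coe_toMonoidHom, MulAut.conj_apply, MonoidHom.mk'_apply, h4, mul_inv_cancel_right]
      congr 1; ext <;> simp [act, Mt.ap, e4]
  exact DFunLike.congr_fun key x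

/-- `x ↦ (α x).v` is additive and kills `ez` (`α ez` is central: an injective map of a finite group is onto); `ε` from `α ez = ⟨0, ε⟩` and commutators -/
theorem exists_mt (α : Hs →* Hs) (hα : Function.Injective α) :
    ∃ M : Mt, ∃ ε, ε ≠ 0 ∧ M.Sy ε ∧ α ez = ⟨⟨0, 0, 0, 0⟩, ε⟩ ∧ ∀ x, (α x).v = M.ap x.v := by
  have hs : Function.Surjective α := Finite.surjective_of_injective hα
  have hcm : ∀ x y : Hs, α ⟨⟨0, 0, 0, 0⟩, om x.v y.v⟩ = ⟨⟨0, 0, 0, 0⟩, om (α x).v (α y).v⟩ := fun x y => by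
    rw [← cm_eq, ← cm_eq]; simp only [map_mul, map_inv]
  have hz : α ez = ⟨⟨0, 0, 0, 0⟩, om (α e1).v (α e2).v⟩ := hcm e1 e2
  have h1 : α 1 = ⟨⟨0, 0, 0, 0⟩, 0⟩ := map_one α
  have h0 : ∀ x y : Hs, om x.v y.v = 0 → om (α x).v (α y).v = 0 := fun x y hxy => by
    have := hcm x y
    rw [hxy] at this
    exact (congrArg Hs.k (h1.symm.trans this)).symm
  refine ⟨⟨(α e1).v, (α e2).v, (α e3).v, (α e4).v⟩, om (α e1).v (α e2).v, fun h => ?_,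
    ⟨rfl, ?_, h0 _ _ rfl, h0 _ _ rfl, h0 _ _ rfl, h0 _ _ rfl⟩, hz, fun x => ?_⟩
  · rw [h] at hz
    exact absurd (hα (hz.trans h1.symm)) (by decide)
  · exact (congrArg Hs.k (hz.symm.trans (hcm e3 e4))).symm
  · have hp : ∀ (y : Hs) (n : ℕ), (y ^ n).v = ⟨n * y.v.a, n * y.v.b, n * y.v.c, n * y.v.e⟩ := fun y n => by
      induction n with
      | zero => simp [Hs.one_def]
      | succ n ih => rw [pow_succ, Hs.mul_def, ih]; ext <;> simp <;> ring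
    conv_lhs => rw [nf x]
    simp only [map_mul, map_pow, hz]
    simp only [Hs.mul_def, hp, Mt.ap]
    ext <;> simp <;> ring

/-- `α (e i) = e i * ez ^ (c i)`; take `h = ⟨⟨c₂, -c₁, c₄, -c₃⟩, 0⟩` up to sign, `hom_ext` -/
theorem inn_of_triv (α : Hs →* Hs) (h : ∀ x, (α x).v = x.v) : ∃ y, ∀ x, α x = y * x * y⁻¹ := by
  refine ⟨⟨⟨(α e2).k, -(α e1).k, (α e4).k, -(α e3).k⟩, 0⟩, fun x => ?_⟩
  have h3 : (3 : Z3) = 0 := rfl
  have key : α = (MulAut.conj (⟨⟨(α e2).k, -(α e1).k, (α e4).k, -(α e3).k⟩, 0⟩ : Hs)).toMonoidHom := by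
    apply hom_ext <;> simp only [MulEquiv.coe_toMonoidHom, MulAut.conj_apply] <;> refine Hs.ext ?_ ?_
    · rw [h]; ext <;> simp [Hs.mul_def, Hs.inv_def]
    · simp only [Hs.mul_def, Hs.inv_def, om, show e1.v = ⟨1, 0, 0, 0⟩ from rfl, show e1.k = 0 from rfl]
      linear_combination ((α e1).k) * h3
    · rw [h]; ext <;> simp [Hs.mul_def, Hs.inv_def]
    · simp only [Hs.mul_def, Hs.inv_def, om, show e2.v = ⟨0, 1, 0, 0⟩ from rfl, show e2.k = 0 from rfl]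
      linear_combination ((α e2).k) * h3
    · rw [h]; ext <;> simp [Hs.mul_def, Hs.inv_def]
    · simp only [Hs.mul_def, Hs.inv_def, om, show e3.v = ⟨0, 0, 1, 0⟩ from rfl, show e3.k = 0 from rfl]
      linear_combination ((α e3).k) * h3
    · rw [h]; ext <;> simp [Hs.mul_def, Hs.inv_def]
    · simp only [Hs.mul_def, Hs.inv_def, om, show e4.v = ⟨0, 0, 0, 1⟩ from rfl, show e4.k = 0 from rfl]
      linear_combination ((α e4).k) * h3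
  exact DFunLike.congr_fun key x

/-- words: `wa (W1 u) u = e1.v` for `u ≠ 0`; `W2 u` fixes `e1.v`, `u ↦ e2.v` if `om e1.v u ≠ 0`; `W3 u` fixes `e1.v, e2.v`, `u ↦ e3.v` if `u ≠ 0`,
`om e1.v u = om e2.v u = 0`; `W4 u` fixes `e1.v, e2.v, e3.v`, `u ↦ e4.v` if also `om e3.v u = 1`.  Index `a.val + 3 b.val + 9 c.val + 27 e.val`. -/
def W1 : List (List ℕ) := [[], [], [0, 0], [4, 0], [5, 1], [5, 0], [0, 4], [5, 0, 0, 0], [5, 4],
  [0], [3], [3, 0], [2, 4, 3], [5, 2, 1], [5, 2, 0], [2, 0, 1, 0], [0, 2], [4, 2, 3],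
  [0, 0, 0], [0, 3], [3, 0, 0], [0, 2, 1, 0], [2, 1], [2, 0], [2, 3, 2, 0], [2, 5, 0], [2, 5, 1],
  [4], [3, 2, 3], [0, 2, 1], [4, 2], [3, 2, 0], [3, 5, 0], [3, 4], [4, 3, 0, 0], [2, 5, 3],
  [5], [5, 2], [2], [4, 0, 3], [2, 0, 3], [2, 4, 1, 0], [3, 5], [2, 4, 1], [2, 3, 4, 0],
  [5, 4, 0], [2, 5, 1, 0], [3, 4, 3], [3, 2, 1], [3, 5, 1], [3, 4, 1], [3, 2], [2, 3, 0, 0], [5, 3, 1, 0],
  [4, 0, 0], [2, 0, 1], [2, 3, 2], [4, 2, 0], [5, 2, 3], [4, 3], [2, 3, 1], [5, 3, 0], [2, 4],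
  [5, 1, 0], [2, 1, 0], [5, 2, 1, 0], [2, 0, 4], [3, 5, 1, 0], [2, 3], [5, 2, 3, 0], [2, 3, 4], [5, 3, 1],
  [5, 0, 0], [2, 0, 0], [2, 5], [5, 3], [4, 3, 2], [3, 2, 0, 1], [4, 3, 0], [5, 2, 3, 1], [2, 3, 0]]
def W2 : List (List ℕ) := [[], [], [], [], [1, 0, 0, 0], [0, 1, 0, 0], [2, 1, 5, 1, 4, 2, 1], [2, 4, 5, 1, 2, 4, 0], [2, 1, 5, 1, 4, 2, 0],
  [], [], [], [5, 4, 2, 1, 3, 5], [2, 1, 4, 3, 5, 1], [2, 1, 4, 3, 5, 0], [2, 3, 2, 1, 5, 2, 4], [3, 2, 1, 5, 1, 4, 2, 3, 0], [3, 2, 1, 5, 3, 2, 4, 1, 0],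
  [], [], [], [5, 4, 3, 2, 1, 5, 1, 0], [3, 5, 2, 1, 5, 2], [5, 4, 3, 2, 1, 5, 0, 0], [2, 4, 2, 3, 0], [2, 4, 2, 3, 1], [1, 2, 5, 4, 3],
  [], [], [], [1, 3, 4, 3, 1, 2, 0, 1], [5, 1, 2, 3, 4, 5, 0, 0], [2, 5, 3, 4, 5, 2], [1, 2, 5, 3, 0, 1, 2], [4, 2, 1, 3, 2], [2, 1, 0, 5, 3, 2, 0],
  [], [], [], [3, 4, 3, 0, 1, 2], [3, 1, 4, 3, 1, 2], [1, 5, 3, 4, 1, 2], [4, 2, 3, 1, 2, 1, 0], [3, 2, 3, 1, 0, 5, 2], [3, 4, 2, 0, 1, 5, 4],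
  [], [], [], [1, 3, 5, 4, 1, 2, 1, 0], [4, 3, 4, 0, 1, 2, 1, 0], [1, 3, 4, 3, 1, 2, 1, 0], [2, 1, 0, 5, 3, 2, 1], [3, 4, 0, 2, 1, 5, 4, 1, 0], [2, 4, 2, 5, 3, 4, 0],
  [], [], [], [5, 3, 1, 2, 4, 5], [5, 2, 4, 5, 3, 2], [2, 5, 4, 1, 5, 2, 3, 2], [3, 4, 1, 2, 3, 4, 0], [3, 4, 1, 5, 2, 3, 0], [3, 4, 2, 5, 1],
  [], [], [], [2, 3, 1, 4, 3, 0], [1, 2, 0, 3, 1, 4, 3, 0], [2, 0, 3, 1, 4, 3, 2, 0], [3, 4, 5, 2, 0, 1, 0], [2, 3, 4, 1, 2, 5, 0], [3, 4, 1, 5, 2, 3, 1],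
  [], [], [], [1, 2, 0, 3, 1, 4, 3, 1], [3, 5, 1, 2, 4, 5, 1, 0], [2, 3, 1, 4, 3, 1], [3, 0, 1, 4, 5, 2, 0], [3, 4, 2, 5, 0], [1, 3, 4, 0, 5, 2, 0]]
def W3 : List (List ℕ) := [[], [], [], [], [], [], [], [], [],
  [], [], [], [], [], [], [], [], [],
  [1, 4, 5, 0, 1, 4, 5, 0], [], [], [], [], [], [], [], [],
  [0, 1, 4, 0, 5, 1], [], [], [], [], [], [], [], [],
  [1, 4, 5, 0], [], [], [], [], [], [], [], [],
  [4, 1, 0, 5], [], [], [], [], [], [], [], [],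
  [1, 5, 0, 4, 1, 0], [], [], [], [], [], [], [], [],
  [5, 0, 1, 4], [], [], [], [], [], [], [], [],
  [0, 5, 4, 1], [], [], [], [], [], [], [], []]
def W4 : List (List ℕ) := [[], [], [], [], [], [], [], [], [],
  [], [], [], [], [], [], [], [], [],
  [], [], [], [], [], [], [], [], [],
  [], [], [], [], [], [], [], [], [],
  [5, 2, 3, 4, 1, 0, 5, 4, 1, 2, 3, 4, 0, 1], [], [], [], [], [], [], [], [],
  [4, 5, 3, 2, 4, 1, 0, 5, 4, 3, 1, 2, 1, 0], [], [], [], [], [], [], [], [],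
  [], [], [], [], [], [], [], [], [],
  [], [], [], [], [], [], [], [], [],
  [], [], [], [], [], [], [], [], []]

namespace CHs

/-- composition of matrices -/
def cp (M N : Mt) : Mt := ⟨M.ap N.u1, M.ap N.u2, M.ap N.u3, M.ap N.u4⟩

theorem ap_cp (M N : Mt) (v : V4) : (cp M N).ap v = M.ap (N.ap v) := by
  ext <;> simp only [cp, Mt.ap] <;> ring

/-- equality of matrices -/
def Eqm (M N : Mt) : Prop := M.u1 = N.u1 ∧ M.u2 = N.u2 ∧ M.u3 = N.u3 ∧ M.u4 = N.u4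

instance (M N : Mt) : Decidable (Eqm M N) := by unfold Eqm; infer_instance

theorem Eqm.ap {M N : Mt} (h : Eqm M N) (v : V4) : M.ap v = N.ap v := by
  simp only [Mt.ap, h.1, h.2.1, h.2.2.1, h.2.2.2]

theorem ap1 (M : Mt) : M.ap ⟨1, 0, 0, 0⟩ = M.u1 := by ext <;> simp [Mt.ap]
theorem ap2 (M : Mt) : M.ap ⟨0, 1, 0, 0⟩ = M.u2 := by ext <;> simp [Mt.ap]
theorem ap3 (M : Mt) : M.ap ⟨0, 0, 1, 0⟩ = M.u3 := by ext <;> simp [Mt.ap]
theorem ap4 (M : Mt) : M.ap ⟨0, 0, 0, 1⟩ = M.u4 := by ext <;> simp [Mt.ap]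

theorem eqm_of {M N : Mt} (h : ∀ v, M.ap v = N.ap v) : Eqm M N :=
  ⟨by rw [← ap1, h, ap1], by rw [← ap2, h, ap2], by rw [← ap3, h, ap3], by rw [← ap4, h, ap4]⟩

/-- eighth power -/
def p8 (M : Mt) : Mt := cp (cp (cp M M) (cp M M)) (cp (cp M M) (cp M M))

/-- fourth power -/
def p4 (M : Mt) : Mt := cp (cp M M) (cp M M)

theorem ap_p4 (M : Mt) (v : V4) : (p4 M).ap v = M.ap^[4] v := by
  simp only [p4, ap_cp]; rfl

theorem ap_p8 (M : Mt) (v : V4) : (p8 M).ap v = M.ap^[8] v := by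
  simp only [p8, ap_cp]; rfl

/-- the 27 similitudes -/
def Dm (a c d : Z3) : Mt := ⟨⟨0, 0, 2, 0⟩, ⟨a, 0, c, 1⟩, ⟨1, 0, 0, 0⟩, ⟨d, 2, 2 * a, 0⟩⟩

theorem eq_Dm {M : Mt} (h : M.Sy 2) (h1 : M.u1 = (Am 0).u1) (h3 : M.u3 = (Am 0).u3) : ∃ a c d, M = Dm a c d := by
  obtain ⟨u1, ⟨a, b, c, e⟩, u3, ⟨a', b', c', e'⟩⟩ := M
  simp only at h1 h3
  subst h1 h3
  obtain ⟨k1, k2, -, k4, k5, k6⟩ := h
  simp only [om, Am] at k1 k2 k4 k5 k6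
  have h3 : (3 : Z3) = 0 := rfl
  have g1 : e = 1 := by linear_combination (-1) * k1 + (e - 1) * h3
  have g2 : b' = 2 := by linear_combination k2
  have g3 : e' = 0 := by linear_combination (-1) * k4 + e' * h3
  have g4 : b = 0 := by linear_combination (-1) * k5
  subst g1 g2 g3 g4
  have g5 : c' = 2 * a := by linear_combination (-1) * k6
  subst g5
  exact ⟨a, c, a', rfl⟩

theorem chkD : ∀ a c d i : Z3, Eqm (p8 (Dm a c d)) (Tm i) → ∃ j, Eqm (Dm a c d) (cp (Am 0) (Tm j)) := by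
  decide +kernel

theorem chkD' : ∀ a c d : Z3, Eqm (cp (p8 (Dm a c d)) (p4 (Dm a c d))) (Tm 0) := by
  decide +kernel

theorem Am_sy : ∀ j < 6, (Am j).Sy 2 := by decide +kernel

/-- the index of a vector -/
def ix (u : V4) : ℕ := u.a.val + 3 * u.b.val + 9 * u.c.val + 27 * u.e.val

theorem chk1 : ∀ u : V4, u ≠ ⟨0, 0, 0, 0⟩ → (∀ j ∈ W1.getD (ix u) [], j < 6) ∧ wa (W1.getD (ix u) []) u = e1.v := by
  decide +kernel

theorem chk2 : ∀ u : V4, om e1.v u ≠ 0 → (∀ j ∈ W2.getD (ix u) [], j < 6) ∧ wa (W2.getD (ix u) []) e1.v = e1.v ∧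
    wa (W2.getD (ix u) []) u = e2.v := by
  decide +kernel

theorem chk3 : ∀ u : V4, u ≠ ⟨0, 0, 0, 0⟩ → om e1.v u = 0 → om e2.v u = 0 → (∀ j ∈ W3.getD (ix u) [], j < 6) ∧
    wa (W3.getD (ix u) []) e1.v = e1.v ∧ wa (W3.getD (ix u) []) e2.v = e2.v ∧ wa (W3.getD (ix u) []) u = e3.v := by
  decide +kernel

theorem chk4 : ∀ u : V4, om e1.v u = 0 → om e2.v u = 0 → om e3.v u = 1 → (∀ j ∈ W4.getD (ix u) [], j < 6) ∧
    wa (W4.getD (ix u) []) e1.v = e1.v ∧ wa (W4.getD (ix u) []) e2.v = e2.v ∧ wa (W4.getD (ix u) []) e3.v = e3.v ∧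
    wa (W4.getD (ix u) []) u = e4.v := by
  decide +kernel

theorem act_inj {M : Mt} (h : M.Sy 2) : Function.Injective (MonoidHom.mk' (act M 2) (act_mul h)) :=
  inj_of (φ := MonoidHom.mk' (act M 2) (act_mul h)) (fun h' => by
    have := congrArg Hs.k h'
    exact absurd this (by simp only [MonoidHom.mk'_apply, act]; decide))

theorem word (φ : Hs →* Γ) (g : ℕ → Γ) (hg : ∀ j < 6, ∀ x, g j * φ x * (g j)⁻¹ = φ (act (Am j) 2 x)) (w : List ℕ)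
    (hw : ∀ j ∈ w, j < 6) : ∃ β : Hs →* Hs, Function.Injective β ∧ (∀ x, (β x).v = wa w x.v) ∧
      ∃ m : Γ, ∀ x, φ (β x) = m * φ x * m⁻¹ := by
  induction w with
  | nil => exact ⟨MonoidHom.id _, fun _ _ h => h, fun _ => rfl, 1, fun x => by simp⟩
  | cons j w ih =>
    obtain ⟨β, h1, h2, m, h3⟩ := ih fun k hk => hw k (List.mem_cons_of_mem _ hk)
    have hj := hw j List.mem_cons_self
    refine ⟨(MonoidHom.mk' (act (Am j) 2) (act_mul (Am_sy j hj))).comp β, (act_inj (Am_sy j hj)).comp h1, fun x => ?_,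
      g j * m, fun x => ?_⟩
    · simp only [MonoidHom.comp_apply, MonoidHom.mk'_apply, act, h2]; rfl
    · simp only [MonoidHom.comp_apply, MonoidHom.mk'_apply]
      rw [← hg j hj, h3]; group

theorem step (φ : Hs →* Γ) (g : ℕ → Γ) (hg : ∀ j < 6, ∀ x, g j * φ x * (g j)⁻¹ = φ (act (Am j) 2 x)) (w : List ℕ)
    (hw : ∀ j ∈ w, j < 6) (α : Hs →* Hs) (hα : Function.Injective α)
    (H : ∀ γ : Hs →* Hs, Function.Injective γ → (∀ x, (γ x).v = wa w (α x).v) → ∃ m : Γ, ∀ x, φ (γ x) = m * φ x * m⁻¹) :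
    ∃ m : Γ, ∀ x, φ (α x) = m * φ x * m⁻¹ := by
  obtain ⟨β, h1, h2, m, h3⟩ := word φ g hg w hw
  obtain ⟨n, hn⟩ := H (β.comp α) (h1.comp hα) fun x => h2 _
  refine ⟨m⁻¹ * n, fun x => ?_⟩
  have := hn x
  rw [MonoidHom.comp_apply, h3] at this
  calc φ (α x) = m⁻¹ * (m * φ (α x) * m⁻¹) * m := by group
    _ = _ := by rw [this]; group

theorem sy_of (α : Hs →* Hs) (hα : Function.Injective α) : ∃ ε, ε ≠ 0 ∧
    Mt.Sy ⟨(α e1).v, (α e2).v, (α e3).v, (α e4).v⟩ ε ∧ ∀ x, (α x).v = Mt.ap ⟨(α e1).v, (α e2).v, (α e3).v, (α e4).v⟩ x.v := by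
  obtain ⟨⟨u1, u2, u3, u4⟩, ε, h0, h1, -, h2⟩ := exists_mt α hα
  have k1 : (α e1).v = u1 := (h2 _).trans (ap1 _)
  have k2 : (α e2).v = u2 := (h2 _).trans (ap2 _)
  have k3 : (α e3).v = u3 := (h2 _).trans (ap3 _)
  have k4 : (α e4).v = u4 := (h2 _).trans (ap4 _)
  rw [k1, k2, k3, k4]
  exact ⟨ε, h0, h1, h2⟩

theorem om_zero (u : V4) : om ⟨0, 0, 0, 0⟩ u = 0 := by simp [om]

end CHs

/-- Call `α` good if `∃ m, ∀ x, φ (α x) = m * φ x * m⁻¹`.  For a word `w`, `β w = act (Am j₁) 2 ∘ ⋯` is an injective homomorphism induced by `g j₁ ⋯`,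
`(β w x).v = wa w x.v`; `β w ∘ α` good implies `α` good.  Four steps (`exists_mt` each time), then `inn_of_triv`. -/
theorem induced (φ : Hs →* Γ) (g : ℕ → Γ) (hg : ∀ j < 6, ∀ x, g j * φ x * (g j)⁻¹ = φ (act (Am j) 2 x)) (α : Hs →* Hs)
    (hα : Function.Injective α) : ∃ m : Γ, ∀ x, φ (α x) = m * φ x * m⁻¹ := by
  obtain ⟨ε, h0, hs, -⟩ := sy_of α hα
  obtain ⟨w1, a1⟩ := chk1 (α e1).v fun h => h0 (by rw [← hs.1]; simp only [h, om_zero])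
  refine step φ g hg _ w1 α hα fun α hα hγ => ?_
  have k1 : (α e1).v = e1.v := (hγ _).trans a1
  clear hγ a1 w1 hs h0
  obtain ⟨ε, h0, hs, -⟩ := sy_of α hα
  obtain ⟨w1, a1, a2⟩ := chk2 (α e2).v fun h => h0 (by rw [← hs.1, ← h, k1])
  refine step φ g hg _ w1 α hα fun β hβ hγ => ?_
  have k2 : (β e2).v = e2.v := (hγ _).trans a2
  replace k1 : (β e1).v = e1.v := (hγ _).trans (by rw [k1, a1])
  clear hγ a1 a2 w1 hs h0
  obtain ⟨ε, h0, hs, -⟩ := sy_of β hβ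
  obtain ⟨w1, a1, a2, a3⟩ := chk3 (β e3).v (fun h => h0 (by rw [← hs.2.1]; simp only [h, om_zero]))
    (by rw [← k1]; exact hs.2.2.1) (by rw [← k2]; exact hs.2.2.2.2.1)
  refine step φ g hg _ w1 β hβ fun γ hγ' hγ => ?_
  have k3 : (γ e3).v = e3.v := (hγ _).trans a3
  replace k1 : (γ e1).v = e1.v := (hγ _).trans (by rw [k1, a1])
  replace k2 : (γ e2).v = e2.v := (hγ _).trans (by rw [k2, a2])
  clear hγ a1 a2 a3 w1 hs h0
  obtain ⟨ε, h0, hs, -⟩ := sy_of γ hγ'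
  have hε : ε = 1 := by rw [← hs.1]; simp only [k1, k2]; rfl
  obtain ⟨w1, a1, a2, a3, a4⟩ := chk4 (γ e4).v (by rw [← k1]; exact hs.2.2.2.1) (by rw [← k2]; exact hs.2.2.2.2.2)
    (by rw [← k3, ← hε]; exact hs.2.1)
  refine step φ g hg _ w1 γ hγ' fun δ hδ hγ => ?_
  have k4 : (δ e4).v = e4.v := (hγ _).trans a4
  replace k1 : (δ e1).v = e1.v := (hγ _).trans (by rw [k1, a1])
  replace k2 : (δ e2).v = e2.v := (hγ _).trans (by rw [k2, a2])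
  replace k3 : (δ e3).v = e3.v := (hγ _).trans (by rw [k3, a3])
  obtain ⟨-, -, -, h2⟩ := sy_of δ hδ
  obtain ⟨y, hy⟩ := inn_of_triv δ fun x => by
    rw [h2, k1, k2, k3, k4]; ext <;> simp [Mt.ap, e1, e2, e3, e4]
  exact ⟨φ y, fun x => by rw [hy, map_mul, map_mul, map_inv]⟩

/-- check over `u2 u4 : V4` (27 similitudes) -/
theorem lemD {M : Mt} (h : M.Sy 2) (h1 : M.u1 = (Am 0).u1) (h3 : M.u3 = (Am 0).u3) {i : Z3}
    (h8 : ∀ v, M.ap^[8] v = (Tm i).ap v) : ∃ j, ∀ v, M.ap v = (Am 0).ap ((Tm j).ap v) := by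
  obtain ⟨a, c, d, rfl⟩ := eq_Dm h h1 h3
  obtain ⟨j, hj⟩ := chkD a c d i (eqm_of fun v => by rw [ap_p8, h8])
  exact ⟨j, fun v => by rw [hj.ap, ap_cp]⟩

/-- check over `u2 u4 : V4` -/
theorem lemD' {M : Mt} (h : M.Sy 2) (h1 : M.u1 = (Am 0).u1) (h3 : M.u3 = (Am 0).u3) (v : V4) : M.ap^[12] v = v := by
  obtain ⟨a, c, d, rfl⟩ := eq_Dm h h1 h3
  have := (chkD' a c d).ap v
  rw [ap_cp, ap_p8, ap_p4, ← Function.iterate_add_apply] at this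
  rw [this]; ext <;> simp [Tm, Mt.ap]

end CL.U4.C3
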