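/- S5210, `q = 3`: a model of the group of order `3 ^ 6`. -/
import Cfsg.Agent.FUS.U4.CHs

set_option autoImplicit false
set_option maxRecDepth 100000

namespace CL.U4.C3
open Subgroup

@[ext] structure Sm where
  h : Hs
  i : Z3
deriving DecidableEq, Fintype

namespace Sm
instance : Mul Sm := ⟨fun x y => ⟨x.h * act (Tm x.i) 1 y.h, x.i + y.i⟩⟩
instance : One Sm := ⟨⟨1, 0⟩⟩
instance : Inv Sm := ⟨fun x => ⟨act (Tm (-x.i)) 1 x.h⁻¹, -x.i⟩⟩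
theorem mul_def (x y : Sm) : x * y = ⟨x.h * act (Tm x.i) 1 y.h, x.i + y.i⟩ := rfl
theorem one_def : (1 : Sm) = ⟨1, 0⟩ := rfl
theorem inv_def (x : Sm) : x⁻¹ = ⟨act (Tm (-x.i)) 1 x.h⁻¹, -x.i⟩ := rfl
instance : Group Sm := Group.ofLeftAxioms
  (fun x y z => by ext <;> simp only [mul_def, Hs.mul_def, act, Tm, Mt.ap, om] <;> ring)
  (fun x => by ext <;> simp only [mul_def, one_def, Hs.mul_def, Hs.one_def, act, Tm, Mt.ap, om] <;> ring)
  (fun x => by ext <;> simp only [mul_def, one_def, inv_def, Hs.mul_def, Hs.one_def, Hs.inv_def, act, Tm, Mt.ap, om] <;> ring)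
end Sm

/-- the inclusion of the extraspecial group -/
def inq : Hs →* Sm := MonoidHom.mk' (fun x => ⟨x, 0⟩) fun x y => by
  ext <;> simp only [Sm.mul_def, Hs.mul_def, act, Tm, Mt.ap, om] <;> ring

def tm : Sm := ⟨1, 1⟩
def zm : Sm := inq ez

/-- the extraspecial subgroup -/
def Qm : Subgroup Sm := inq.range

/-- the elementary abelian subgroup of order `81` -/
def Jm : Subgroup Sm where
  carrier := {x | x.h.v.b = 0 ∧ x.h.v.e = 0}
  mul_mem' := fun {x y} hx hy => by simp [Sm.mul_def, Hs.mul_def, act, Tm, Mt.ap, hx.1, hx.2, hy.1, hy.2]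
  one_mem' := ⟨rfl, rfl⟩
  inv_mem' := fun {x} hx => by simp [Sm.inv_def, Hs.inv_def, act, Tm, Mt.ap, hx.1, hx.2]

theorem mem_Jm {x : Sm} : x ∈ Jm ↔ x.h.v.b = 0 ∧ x.h.v.e = 0 := Iff.rfl
theorem mem_Qm {x : Sm} : x ∈ Qm ↔ x.i = 0 :=
  ⟨by rintro ⟨y, rfl⟩; rfl, fun h => ⟨x.h, Sm.ext rfl h.symm⟩⟩

variable {Γ : Type*} [Group Γ]

/-- STUB `U4/CSm`.  `ψ ⟨h, i⟩ = φ h * t ^ i.val`. -/
theorem exists_psi (φ : Hs →* Γ) {t : Γ} (h3 : t ^ 3 = 1) (ht : ∀ x, t * φ x * t⁻¹ = φ (act (Tm 1) 1 x)) :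
    ∃ ψ : Sm →* Γ, (∀ x, ψ (inq x) = φ x) ∧ ψ tm = t := by
  have cj : ∀ (i : Z3) x, t ^ i.val * φ x = φ (act (Tm i) 1 x) * t ^ i.val := fun i x => by
    rw [← mul_inv_eq_iff_eq_mul]
    rcases (by decide : ∀ i : Z3, i = 0 ∨ i = 1 ∨ i = 2) i with rfl | rfl | rfl
    · rw [show act (Tm 0) 1 x = x by ext <;> simp [act, Tm, Mt.ap]]; simp
    · rw [← ht, show (1 : Z3).val = 1 from rfl, pow_one]
    · rw [show act (Tm 2) 1 x = act (Tm 1) 1 (act (Tm 1) 1 x) by ext <;> simp only [act, Tm, Mt.ap] <;> ring, ← ht, ← ht,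
        show (2 : Z3).val = 2 from rfl, pow_two]
      group
  refine ⟨MonoidHom.mk' (fun x => φ x.h * t ^ x.i.val) fun x y => ?_, fun x => by simp [inq], by simp [tm, ZMod.val_one]⟩
  simp only [Sm.mul_def, map_mul]
  rw [ZMod.val_add, ← pow_eq_pow_mod _ h3, pow_add, mul_assoc, ← mul_assoc (φ (act _ _ _)), ← cj]
  simp only [mul_assoc]

theorem CSm.tm_pow (i : Z3) : tm ^ i.val = ⟨1, i⟩ := by revert i; decide +kernel

theorem CSm.cen13 : ∀ x : Sm, x * inq e1 = inq e1 * x ∧ x * inq e3 = inq e3 * x → x.h.v.b = 0 ∧ x.h.v.e = 0 := by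
  decide +kernel

theorem eq_inq_mul (x : Sm) : x = inq x.h * tm ^ x.i.val := by
  rw [CSm.tm_pow]
  ext <;> simp only [inq, MonoidHom.mk'_apply, Sm.mul_def, Hs.mul_def, Hs.one_def, act, Tm, Mt.ap, om] <;> ring

theorem tm_cj (i : Z3) (x : Hs) : tm ^ i.val * inq x * (tm ^ i.val)⁻¹ = inq (act (Tm i) 1 x) := by
  rw [CSm.tm_pow]
  ext <;> simp only [inq, MonoidHom.mk'_apply, Sm.mul_def, Sm.inv_def, Hs.mul_def, Hs.one_def, Hs.inv_def, act, Tm, Mt.ap,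
    om] <;> ring

theorem card_Sm : Nat.card Sm = 729 := by
  rw [Nat.card_eq_fintype_card]; rfl

theorem card_Qm : Nat.card Qm = 243 := by
  rw [← card_Hs]
  exact Nat.card_congr (MonoidHom.ofInjective (f := inq) fun _ _ h => congrArg Sm.h h).toEquiv.symm

theorem card_Jm : Nat.card Jm = 81 := by
  rw [Nat.card_congr (Equiv.subtypeEquivRight fun x => mem_Jm), Nat.card_eq_fintype_card]; decide +kernel

instance : Qm.Normal := by
  exact ⟨fun n hn g => mem_Qm.2 (by simp [Sm.mul_def, Sm.inv_def, mem_Qm.1 hn])⟩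

instance : Jm.Normal := by
  exact ⟨fun n hn g => by simp [mem_Jm, Sm.mul_def, Sm.inv_def, Hs.mul_def, Hs.inv_def, act, Tm, Mt.ap, hn.1, hn.2]⟩

theorem comm_Jm {x y : Sm} (hx : x ∈ Jm) (hy : y ∈ Jm) : x * y = y * x := by
  ext <;> simp only [Sm.mul_def, Hs.mul_def, act, Tm, Mt.ap, om, hx.1, hx.2, hy.1, hy.2] <;> ring

theorem Jm_eq : Jm = closure {zm, inq e1, inq e3, tm} := by
  refine le_antisymm (fun x hx => ?_) ((closure_le _).2 (by rintro _ (rfl | rfl | rfl | rfl) <;> exact ⟨rfl, rfl⟩))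
  rw [(by decide +kernel : ∀ x : Sm, x.h.v.b = 0 ∧ x.h.v.e = 0 →
    x = zm ^ x.h.k.val * inq e1 ^ x.h.v.a.val * inq e3 ^ x.h.v.c.val * tm ^ x.i.val) x hx]
  refine mul_mem (mul_mem (mul_mem ?_ ?_) ?_) ?_ <;> exact pow_mem (subset_closure (by simp)) _

/-- test with `e1, …, e4` -/
theorem cen_Qm {x : Sm} (h : ∀ y, x * inq y = inq y * x) : x ∈ zpowers zm := by
  rw [(by decide +kernel : ∀ x : Sm, (x * inq e1 = inq e1 * x ∧ x * inq e2 = inq e2 * x) ∧ x * inq e3 = inq e3 * x ∧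
    x * inq e4 = inq e4 * x → x = zm ^ x.h.k.val) x ⟨⟨h _, h _⟩, h _, h _⟩]
  exact pow_mem (mem_zpowers _) _

/-- test with `e1, e3` and `tm` -/
theorem cen_Jm {x : Sm} (h : ∀ y ∈ Jm, x * y = y * x) : x ∈ Jm := by
  exact CSm.cen13 x ⟨h _ ⟨rfl, rfl⟩, h _ ⟨rfl, rfl⟩⟩

theorem zm_comm (x : Sm) : zm * x = x * zm := by
  revert x; decide +kernel

theorem cm_Qm {x y : Sm} (hx : x ∈ Qm) (hy : y ∈ Qm) (s : Sm) : Commute (x * y * x⁻¹ * y⁻¹) s := by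
  rw [mem_Qm] at hx hy
  change _ * s = s * _
  ext <;> simp only [Sm.mul_def, Sm.inv_def, Hs.mul_def, Hs.inv_def, act, Tm, Mt.ap, om, hx, hy] <;> ring

/-- the kernel is normal: if `ψ x = 1`, then `x.i = 0` (commutators with `e2`, then `e2` again), then `inj_of` -/
theorem inj_psi {ψ : Sm →* Γ} (h : ψ zm ≠ 1) : Function.Injective ψ := by
  refine (injective_iff_map_eq_one ψ).2 fun x hx => by_contra fun n => h ?_
  have cm : ∀ {x}, ψ x = 1 → ∀ y, ψ (x * y * x⁻¹ * y⁻¹) = 1 := fun h y => by simp [h]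
  have pm : ∀ {x}, ψ x = 1 → x = zm ∨ x⁻¹ = zm → ψ zm = 1 := by rintro x h (rfl | e); exacts [h, by simp [← e, h]]
  rcases (by decide +kernel : ∀ x : Sm, x ≠ 1 → (x = zm ∨ x⁻¹ = zm) ∨ ∃ y ∈ [inq e1, inq e2, inq e3, inq e4],
    (x * y * x⁻¹ * y⁻¹ = zm ∨ (x * y * x⁻¹ * y⁻¹)⁻¹ = zm) ∨
    ((x * y * x⁻¹ * y⁻¹) * y * (x * y * x⁻¹ * y⁻¹)⁻¹ * y⁻¹ = zm ∨
      ((x * y * x⁻¹ * y⁻¹) * y * (x * y * x⁻¹ * y⁻¹)⁻¹ * y⁻¹)⁻¹ = zm)) x n with e | ⟨y, -, e | e⟩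
  exacts [pm hx e, pm (cm hx y) e, pm (cm (cm hx y) y) e]

theorem CSm.card_lt {C : Subgroup Sm} (h : C ≤ Qm) (n : ¬ Qm ≤ C) : Nat.card C ≤ 81 :=
  (by decide +kernel : ∀ d ≤ 243, d ∣ 243 → d ≠ 243 → d ≤ 81) _ (card_Qm ▸ card_le_of_le h) (card_Qm ▸ card_dvd_of_le h)
    fun e => n (eq_of_le_of_card_ge h (by rw [e, card_Qm])).ge

theorem CSm.card_inf (R : Subgroup Sm) : Nat.card R ≤ Nat.card (R ⊓ Qm :) * 3 := by
  have i : Qm.index = 3 := by have := Qm.card_mul_index; rw [card_Qm, card_Sm] at this; omega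
  rw [← (Qm.subgroupOf R).card_mul_index, ← inf_subgroupOf_left,
    Nat.card_congr (subgroupOfEquivOfLe (inf_le_left : R ⊓ Qm ≤ R)).toEquiv, inf_subgroupOf_left]
  exact Nat.mul_le_mul_left _ (Nat.le_of_dvd (by decide) (i ▸ relIndex_dvd_index_of_normal Qm R))

theorem CSm.card_JQ : Nat.card (Jm ⊓ Qm :) = 27 := by
  rw [Nat.card_congr (Equiv.subtypeEquivRight (p := (· ∈ Jm ⊓ Qm)) (q := fun x : Sm => (x.h.v.b = 0 ∧ x.h.v.e = 0) ∧ x.i = 0)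
    fun x => and_congr mem_Jm mem_Qm), Nat.card_eq_fintype_card]
  decide +kernel

theorem CSm.mem_J {s y : Sm} (hs : s ∉ Qm) (hy : y ∈ Qm) (h : ∀ t, Commute (s * y * s⁻¹ * y⁻¹) t) : y ∈ Jm := by
  rw [mem_Qm] at hs hy
  obtain ⟨a, b⟩ := (by decide +kernel : ∀ c : Sm, c * inq e2 = inq e2 * c ∧ c * inq e4 = inq e4 * c →
    c.h.v.a = 0 ∧ c.h.v.c = 0) _ ⟨h _, h _⟩
  have : Fact (Nat.Prime 3) := ⟨Nat.prime_three⟩
  simp only [Sm.mul_def, Sm.inv_def, Hs.mul_def, Hs.inv_def, act, Tm, Mt.ap, hy] at a b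
  exact ⟨(mul_eq_zero_iff_left hs).1 (by linear_combination a), (mul_eq_zero_iff_left hs).1 (by linear_combination b)⟩

/-- If `R ≤ Qm`: `R ≰ ⟨zm⟩`, `R ≤ C_Q(x)` of order `81`, not commutative.  Else `s ∈ R \ Qm`, `R ⊓ Qm ≤ Jm ⊓ Qm` (elements of `Qm` commuting with `s`),
orders `≥ 27` and `27`, so `R` centralises `e1, e3`, which gives `R ≤ Jm`. -/
theorem eq_Jm {R : Subgroup Sm} (hc : Nat.card R = 81) (h : ∀ x ∈ R, ∀ y ∈ R, x * y = y * x) : R = Jm := by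
  by_cases hR : R ≤ Qm
  · obtain ⟨x, hx, n⟩ : ∃ x ∈ R, x ∉ zpowers zm := by
      by_contra! f
      have := card_le_of_le (show R ≤ zpowers zm from f)
      rw [hc, Nat.card_zpowers] at this
      exact absurd (this.trans (orderOf_le_of_pow_eq_one (n := 3) (by decide) (by decide +kernel))) (by decide)
    have le : R ≤ centralizer {x} ⊓ Qm := fun y hy => ⟨mem_centralizer_singleton_iff.2 (h y hy x hx), hR hy⟩
    have e := eq_of_le_of_card_ge le (hc ▸ CSm.card_lt inf_le_right fun f => n (cen_Qm fun y =>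
      (mem_centralizer_singleton_iff.1 (f ⟨y, rfl⟩).1).symm))
    obtain ⟨u, w, h1, h2, h3⟩ := (by decide +kernel : ∀ v : V4, ∃ u w : V4, om u v = 0 ∧ om w v = 0 ∧ om u w ≠ om w u) x.h.v
    have m : ∀ u, om u x.h.v = 0 → inq ⟨u, 0⟩ ∈ R := fun u hu => e.ge ⟨mem_centralizer_singleton_iff.2 (by
      simp only [om] at hu
      ext <;> simp only [inq, MonoidHom.mk'_apply, Sm.mul_def, Hs.mul_def, act, Tm, Mt.ap, om, mem_Qm.1 (hR hx)]
      any_goals ring1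
      linear_combination (-2) * hu), ⟨_, rfl⟩⟩
    have := congrArg (fun s : Sm => s.h.k) (h _ (m u h1) _ (m w h2))
    simp only [← map_mul] at this
    exact (h3 (by simpa [inq, Hs.mul_def] using this)).elim
  · obtain ⟨s, hs, n⟩ := SetLike.not_le_iff_exists.1 hR
    have e := eq_of_le_of_card_ge (show R ⊓ Qm ≤ Jm ⊓ Qm from fun y hy => ⟨CSm.mem_J n hy.2 fun t => by
      rw [h s hs y hy.1]; simp, hy.2⟩) (by have := CSm.card_inf R; rw [CSm.card_JQ]; omega)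
    exact eq_of_le_of_card_ge (fun x hx => CSm.cen13 x ⟨h x hx _ (e.ge ⟨⟨rfl, rfl⟩, ⟨_, rfl⟩⟩).1,
      h x hx _ (e.ge ⟨⟨rfl, rfl⟩, ⟨_, rfl⟩⟩).1⟩) (by rw [hc, card_Jm])

/-- If `s ∈ R \ Qm` then `R ⊓ Qm ≤ Jm ⊓ Qm`, orders `≥ 81` and `27`. -/
theorem eq_Qm {R : Subgroup Sm} (hc : Nat.card R = 243) (h : ∀ x ∈ R, ∀ y ∈ R, ∀ s, Commute (x * y * x⁻¹ * y⁻¹) s) : R = Qm := by
  refine eq_of_le_of_card_ge (fun s hs => by_contra fun n => ?_) (by rw [hc, card_Qm])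
  have := card_le_of_le (show R ⊓ Qm ≤ Jm ⊓ Qm from fun y hy => ⟨CSm.mem_J n hy.2 (h s hs y hy.1), hy.2⟩)
  have := CSm.card_inf R
  rw [CSm.card_JQ] at *
  omega

/-- an injective homomorphism on `Hs` has image `Qm`: the image `R` has index `3`, so is normal; `f ez` is central in `R`, `⟨f ez⟩ = Z(R)` is normal
of order `3`, so central; `eq_Qm` -/
theorem range_eq_Qm (f : Hs →* Sm) (hf : Function.Injective f) : f.range = Qm := by
  have hc : Nat.card f.range = 243 := card_Hs ▸ Nat.card_congr (MonoidHom.ofInjective hf).toEquiv.symm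
  by_contra n
  have c1 : Nat.card (f.range ⊓ Qm :) = 81 := le_antisymm (CSm.card_lt inf_le_right fun e => n
    (eq_of_le_of_card_ge (e.trans inf_le_left) (by rw [hc, card_Qm])).symm) (by have := CSm.card_inf f.range; omega)
  obtain ⟨_, ⟨⟨x, rfl⟩, hx⟩, _, ⟨⟨y, rfl⟩, hy⟩, e⟩ : ∃ x ∈ f.range ⊓ Qm, ∃ y ∈ f.range ⊓ Qm, x * y ≠ y * x := by
    by_contra! e
    exact absurd (mem_Qm.1 ((eq_Jm c1 e).ge (show tm ∈ Jm from ⟨rfl, rfl⟩)).2) (by decide)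
  have cm : ∀ x y : Hs, x * y * x⁻¹ * y⁻¹ = ⟨⟨0, 0, 0, 0⟩, -2 * om x.v y.v⟩ := fun x y => by
    ext <;> simp only [Hs.mul_def, Hs.inv_def, om] <;> ring
  refine n (eq_Qm hc ?_)
  rintro _ ⟨u, rfl⟩ _ ⟨w, rfl⟩ s
  obtain ⟨k, -, hk⟩ := (by decide +kernel : ∀ k l : Z3, (⟨⟨0, 0, 0, 0⟩, k⟩ : Hs) ≠ 1 →
    ∃ n < 3, (⟨⟨0, 0, 0, 0⟩, l⟩ : Hs) = ⟨⟨0, 0, 0, 0⟩, k⟩ ^ n) (-2 * om x.v y.v) (-2 * om u.v w.v) fun g => e (by
      rw [← cm, mul_inv_eq_one, mul_inv_eq_iff_eq_mul] at g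
      rw [← map_mul, g, map_mul])
  rw [← cm, ← cm] at hk
  have := (cm_Qm hx hy s).pow_left k
  simp only [← map_inv, ← map_mul, ← map_pow] at this ⊢
  rwa [hk]

end CL.U4.C3
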