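/- S5210, `q = 3`: the data on the ambient group, first consequences. -/
import Cfsg.Agent.FUS.U4.CE6
import Cfsg.Agent.FUS.U4.CSm
import Cfsg.Agent.FUS.U4.CFus

set_option autoImplicit false
set_option maxRecDepth 100000

namespace CL.U4.C3
open Subgroup Cfsg Cfsg.FusionSystem CL.Fus MulAction

/-- the reflections induced by the six generators -/
def gam : ℕ → Fin 36
  | 0 => 0
  | 1 => 1
  | 2 => 32
  | 3 => 18
  | 4 => 22
  | _ => 4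

/-- words carrying the reflection `0` to the reflection `k` -/
def RW : List (List ℕ) := [[], [0, 1], [4, 0, 5], [2, 4, 5], [0, 5], [3, 4, 5], [4, 5, 2, 0, 1], [5, 4, 1], [5, 2, 0, 1], [5, 4, 3, 2, 1],
  [5, 3, 2, 0, 1], [5, 0, 1], [4, 5], [5], [3, 4, 0, 5], [2, 4, 0, 5], [5, 3, 4, 1], [4, 5, 3, 4, 1], [2, 3, 1, 2, 0, 1], [3, 1, 2, 0, 1],
  [3, 2, 1], [3, 2, 0, 1], [1, 4, 0, 1], [4, 1], [4, 1, 2, 0, 1], [4, 0, 1], [4, 3, 2, 0, 1], [3, 4, 1], [3, 1, 4, 0, 1], [1, 4, 3, 2, 1],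
  [4, 3, 2, 1], [3, 4, 0, 1], [1, 2, 0, 1], [2, 1], [2, 0, 1], [1]]

theorem RW_chk : ∀ k : Fin 36, (∀ j ∈ RW.getD k [], j < 6) ∧ (RW.getD k []).foldr (fun j b => tn (gam j) b) 0 = k ∧
    ((∀ v ∈ [e1.v, e2.v, e3.v, e4.v], wa (RW.getD k []) ((Am 0).ap v) = (Am 0).ap (wa (RW.getD k []) v)) ∨
      (∀ v ∈ [e1.v, e2.v, e3.v, e4.v], wa (RW.getD k []) ((Am 0).ap v) =
        (Am 0).ap ((Am 0).ap ((Am 0).ap (wa (RW.getD k []) v)))) → k = 0) := by decide +kernel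

theorem lift {A B Γ : Type*} [Group A] [Group B] [Group Γ] (φ : A →* Γ) (χ : B →* Γ) (hφ : Function.Injective φ)
    (hχ : Function.Injective χ) {P : Subgroup Γ} (hP : ∀ a, φ a ∈ P) {f : Γ → Γ} (h : IsHomOn P f) (hi : Set.InjOn f P)
    (hm : ∀ a, ∃ b, χ b = f (φ a)) : ∃ α : A →* B, Function.Injective α ∧ ∀ a, χ (α a) = f (φ a) := by
  choose g hg using hm
  exact ⟨MonoidHom.mk' g fun a b => hχ (by rw [hg, map_mul, map_mul, hg, hg, h (hP a) (hP b)]),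
    fun a b e => hφ (hi (hP a) (hP b) (by rw [← hg, ← hg]; exact congrArg χ e)), hg⟩

/-- the data (`Γ = Co₀`, `Λ` the Leech lattice, `vec` the minimal vectors fixed by `z`) -/
structure Low (Γ Λ : Type*) [Group Γ] [MulAction Γ Λ] where
  ψ : Sm →* Γ
  gn : ℕ → Γ
  g : Γ
  n : Γ
  vec : Fin 54 → Λ
  dot : Λ → Λ → ℤ
  tr : Γ → ℚ
  inj : Function.Injective ψ
  dot_smul : ∀ (x : Γ) u v, dot (x • u) (x • v) = dot u v
  dot_vec : ∀ i j, dot (vec i) (vec j) = 8 * ((Dn i j : ℤ) - 4)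
  fixz : ∀ y, dot y y = 32 → ψ zm • y = y → ∃ i, y = vec i
  q_vec : ∀ x i, ψ (inq x) • vec i = vec i
  t_vec : ∀ i, ψ tm • vec i = vec (sr 0 (sr 1 i))
  gn_vec : ∀ j < 6, ∀ i, gn j • vec i = vec (sr (gam j) i)
  n_vec : ∀ i, n • vec i = vec (ng i)
  gn_act : ∀ j < 6, ∀ x, gn j * ψ (inq x) * (gn j)⁻¹ = ψ (inq (act (Am j) 2 x))
  dt : gn 0 * ψ tm * (gn 0)⁻¹ = (ψ tm)⁻¹
  n_comm : ∀ x, n * x = x * n
  nn : n * n = 1
  stab : ∀ i, ¬ 3 ^ 7 ∣ Nat.card (stabilizer Γ (vec i))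
  cardP : Nat.card ↥(⨅ i : Fin 6, stabilizer Γ (vec (i.castLE (by norm_num)))) ≤ 486
  tr_conj : ∀ k x, tr (k * x * k⁻¹) = tr x
  tr_z : tr (ψ zm) = -3
  tr_z' : tr (ψ zm)⁻¹ = -3
  tr_tz : tr (ψ tm * ψ zm) = 6
  tr_tz' : tr (ψ tm * (ψ zm)⁻¹) = 6
  g_vec : ∀ i : Fin 54, i.val < 3 → g • vec i = vec i
  gz : g * ψ zm * g⁻¹ = ψ tm
  gt : g * ψ tm * g⁻¹ = ψ zm
  g1 : g * ψ (inq e1) * g⁻¹ = ψ (inq e3)
  g3 : g * ψ (inq e3) * g⁻¹ = ψ (inq e1)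
  dW : gn 0 ∈ ψ.range ⊔ img (cj g) ψ.range

namespace Low
variable {Γ Λ : Type*} [Group Γ] [Finite Γ] [MulAction Γ Λ] (L : Low Γ Λ)

abbrev S : Subgroup Γ := L.ψ.range
abbrev Q : Subgroup Γ := Qm.map L.ψ
abbrev J : Subgroup Γ := Jm.map L.ψ
abbrev z : Γ := L.ψ zm
abbrev t : Γ := L.ψ tm
abbrev d : Γ := L.gn 0
/-- `U₄(3)` -/
def H : Subgroup Γ := stabilizer Γ (L.vec 0) ⊓ stabilizer Γ (L.vec 1) ⊓ stabilizer Γ (L.vec 2)

/-- `x` induces the permutation `a` -/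
def Pi (x : Γ) (a : Pm) : Prop := ∀ i, x • L.vec i = L.vec (a i)

/-- STUB `U4/CLow`.  `dot_vec`; check `Dn p p = 8`, `Dn p l = 8 → p = l`. -/
theorem vec_inj : Function.Injective L.vec := fun i j e => by
  have := L.dot_vec i j
  rw [e, L.dot_vec] at this
  exact Fin.ext ((by decide +kernel : ∀ p < 54, ∀ l < 54, Dn p l = Dn l l → p = l) _ i.2 _ j.2 (by omega))

variable {L}

theorem Pi.mul {x y : Γ} {a b : Pm} (h : L.Pi x a) (h' : L.Pi y b) : L.Pi (x * y) (a * b) := fun i => by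
  rw [mul_smul, h', h, Equiv.Perm.mul_apply]

theorem Pi.inv {x : Γ} {a : Pm} (h : L.Pi x a) : L.Pi x⁻¹ a⁻¹ := fun i => by
  rw [inv_smul_eq_iff, h]; simp

theorem Pi.uniq {x : Γ} {a b : Pm} (h : L.Pi x a) (h' : L.Pi x b) : a = b :=
  Equiv.ext fun i => L.vec_inj ((h i).symm.trans (h' i))

theorem Pi.iso {x : Γ} {a : Pm} (h : L.Pi x a) : Iso a := fun i j => by
  have := L.dot_smul x (L.vec i) (L.vec j)
  rw [h, h, L.dot_vec, L.dot_vec] at this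
  omega

/-- `z • x • vec i = x • (x⁻¹ z x) • vec i`, `q_vec`, `fixz`; an injective map of `Fin 54` -/
theorem exists_pi {x : Γ} (h : x ∈ normalizer (L.Q : Set Γ)) : ∃ a, L.Pi x a := by
  have : ∀ i, ∃ j, x • L.vec i = L.vec j := fun i => L.fixz _ (by
    rw [L.dot_smul, L.dot_vec, (by decide +kernel : ∀ p < 54, Dn p p = 8) _ i.2]; rfl) (by
    obtain ⟨_, ⟨y, rfl⟩, e⟩ := (mem_normalizer_iff''.1 h _).1 (⟨zm, ⟨ez, rfl⟩, rfl⟩ : L.z ∈ L.Q)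
    nth_rw 2 [← L.q_vec y i]
    rw [e, smul_smul, smul_smul]
    congr 1
    group)
  choose f hf using this
  exact ⟨Equiv.ofBijective f (Finite.injective_iff_bijective.1 fun i j e =>
    L.vec_inj (MulAction.injective x (by simp only [hf, e]))), hf⟩

variable (L)

theorem mem_Q {x : Γ} : x ∈ L.Q ↔ ∃ y, L.ψ (inq y) = x :=
  ⟨fun ⟨_, ⟨y, e⟩, e'⟩ => ⟨y, e ▸ e'⟩, fun ⟨y, e⟩ => ⟨_, ⟨y, rfl⟩, e⟩⟩

theorem gn_mem {j : ℕ} (hj : j < 6) : L.gn j ∈ normalizer (L.Q : Set Γ) := mem_normalizer_fintype fun q hq => by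
  obtain ⟨y, rfl⟩ := L.mem_Q.1 hq
  exact L.mem_Q.2 ⟨_, (L.gn_act j hj y).symm⟩

omit [Finite Γ] in
theorem ι_inj : Function.Injective (L.ψ.comp inq) := L.inj.comp fun _ _ e => congrArg Sm.h e
omit [Finite Γ] in
theorem ι_mem (y : Hs) : (L.ψ.comp inq) y ∈ L.Q := ⟨_, ⟨y, rfl⟩, rfl⟩
omit [Finite Γ] in
theorem pi_gn {j : ℕ} (hj : j < 6) : L.Pi (L.gn j) (sr (gam j)) := L.gn_vec j hj

/-- `x` normalises `Q` and acts on `V4` as `f` -/
def Av (x : Γ) (f : V4 → V4) : Prop := ∀ y : Hs, ∃ y' : Hs, y'.v = f y.v ∧ x * L.ψ (inq y) * x⁻¹ = L.ψ (inq y')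

section
variable {L} {x w : Γ} {f g : V4 → V4}
omit [Finite Γ] in
theorem Av.mul (h : L.Av x f) (h' : L.Av w g) : L.Av (x * w) fun v => f (g v) := fun y => by
  obtain ⟨y1, a, b⟩ := h' y
  obtain ⟨y2, c, d⟩ := h y1
  exact ⟨y2, by rw [c, a], by rw [← d, ← b]; group⟩
omit [Finite Γ] in
theorem Av.uniq (h : L.Av x f) (h' : L.Av x g) (v : V4) : f v = g v := by
  obtain ⟨y1, a, b⟩ := h ⟨v, 0⟩
  obtain ⟨y2, c, d⟩ := h' ⟨v, 0⟩
  rw [← a, ← c, show y1 = y2 from L.ι_inj (b.symm.trans d)]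
omit [Finite Γ] in
theorem Av.cg (h : L.Av x f) (e : ∀ v, f v = g v) : L.Av x g := funext e ▸ h
theorem Av.norm (h : L.Av x f) : x ∈ normalizer (L.Q : Set Γ) := mem_normalizer_fintype fun q hq => by
  obtain ⟨y, rfl⟩ := L.mem_Q.1 hq
  obtain ⟨y', -, e⟩ := h y
  exact L.mem_Q.2 ⟨y', e.symm⟩
omit [Finite Γ] in
theorem Av.one : L.Av 1 fun v => v := fun y => ⟨y, rfl, by group⟩
omit [Finite Γ] in
theorem Av.pow (h : L.Av x f) (n : ℕ) : L.Av (x ^ n) f^[n] := by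
  induction n with
  | zero => exact (pow_zero x).symm ▸ Av.one
  | succ n ih => exact (pow_succ x n).symm ▸ ih.mul h
end

omit [Finite Γ] in
theorem av_gn {j : ℕ} (hj : j < 6) : L.Av (L.gn j) (Am j).ap := fun y => ⟨_, rfl, L.gn_act j hj y⟩
omit [Finite Γ] in
theorem av_t (i : Z3) : L.Av (L.ψ (tm ^ i.val)) (Tm i).ap := fun y =>
  ⟨_, rfl, by rw [← map_inv, ← map_mul, ← map_mul, tm_cj]⟩
omit [Finite Γ] in
theorem av_cen {c : Γ} (h : c ∈ centralizer (L.Q : Set Γ)) : L.Av c fun v => v := fun y =>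
  ⟨y, rfl, mul_inv_eq_of_eq_mul (h _ (L.ι_mem y)).symm⟩
theorem av_Q {q : Γ} (h : q ∈ L.Q) : L.Av q fun v => v := fun y => by
  obtain ⟨w, rfl⟩ := L.mem_Q.1 h
  exact ⟨w * y * w⁻¹, by ext <;> simp [Hs.mul_def, Hs.inv_def], by simp only [map_mul, map_inv]⟩
theorem dd {c : Γ} (h : c ∈ centralizer (L.Q : Set Γ)) : L.d * L.d * c ∉ L.Q := fun k =>
  absurd ((L.av_Q k).uniq (((L.av_gn (j := 0) (by decide)).mul (L.av_gn (j := 0) (by decide))).mul (L.av_cen h)) e1.v)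
    (by decide)
theorem word (w : List ℕ) (hw : ∀ j ∈ w, j < 6) : ∃ W p, L.Pi W p ∧ L.Av W (wa w) ∧
    p * sr 0 * p⁻¹ = sr (w.foldr (fun j b => tn (gam j) b) 0) := by
  induction w with
  | nil => exact ⟨1, 1, fun i => one_smul _ _, Av.one, by simp⟩
  | cons j w ih =>
    obtain ⟨W, p, h1, h2, h3⟩ := ih fun i hi => hw i (List.mem_cons_of_mem _ hi)
    refine ⟨_, _, (L.pi_gn (hw j List.mem_cons_self)).mul h1, (L.av_gn (hw j List.mem_cons_self)).mul h2, ?_⟩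
    rw [List.foldr_cons, ← sr_conj, ← h3, mul_inv_rev, sr_inv (gam j)]
    group
theorem word' (k : Fin 36) : ∃ W p, L.Pi W p ∧ L.Av W (wa (RW.getD k [])) ∧ p * sr 0 * p⁻¹ = sr k := by
  have := L.word _ (RW_chk k).1
  rwa [(RW_chk k).2.1] at this

/-- `Q` and `d ^ 2 ∉ Q` (it acts on `V4` as `-1`, elements of `Q` act trivially) lie in the group of `cardP`, so `Q` has index `2` there -/
theorem ker {x : Γ} (h : L.Pi x 1) : x ∈ L.Q ∨ L.d * L.d * x ∈ L.Q := by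
  have mP : ∀ {x}, L.Pi x 1 → x ∈ ⨅ i : Fin 6, stabilizer Γ (L.vec (i.castLE (by norm_num))) := fun h =>
    mem_iInf.2 fun i => h _
  have le : L.Q ≤ _ := fun q hq => mP (by obtain ⟨y, rfl⟩ := L.mem_Q.1 hq; exact L.q_vec y)
  have dP := mP (sr_sr 0 ▸ (L.pi_gn (j := 0) (by decide)).mul (L.pi_gn (j := 0) (by decide)))
  have dQ : L.d * L.d ∉ L.Q := fun k => L.dd (c := 1) (one_mem _) (by rwa [mul_one])
  have c := card_mul_index (L.Q.subgroupOf (⨅ i : Fin 6, stabilizer Γ (L.vec (i.castLE (by norm_num)))))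
  rw [Nat.card_congr (subgroupOfEquivOfLe le).toEquiv, card_map_of_injective L.inj, card_Qm] at c
  have c1 := L.cardP
  have c2 := index_ne_zero_of_finite (H := L.Q.subgroupOf (⨅ i : Fin 6, stabilizer Γ (L.vec (i.castLE (by norm_num)))))
  have c3 := mt (index_eq_one.1) fun e => dQ (subgroupOf_eq_top.1 e dP)
  exact or_iff_not_imp_left.2 fun n => (mul_mem_iff_of_index_two
    (H := L.Q.subgroupOf (⨅ i : Fin 6, stabilizer Γ (L.vec (i.castLE (by norm_num))))) (by omega) (a := ⟨_, dP⟩)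
    (b := ⟨x, mP h⟩)).2 (iff_of_false dQ n)

/-- the automorphism of `Hs` induced by `x` -/
theorem exists_aut {x : Γ} (h : x ∈ normalizer (L.Q : Set Γ)) :
    ∃ α : Hs →* Hs, Function.Injective α ∧ ∀ y, L.ψ (inq (α y)) = x * L.ψ (inq y) * x⁻¹ :=
  lift (L.ψ.comp inq) (L.ψ.comp inq) L.ι_inj L.ι_inj L.ι_mem (isHomOn_cj _ x) (cj_injective x).injOn
    fun y => L.mem_Q.1 (cj_mem_of_mem_normalizer h (L.ι_mem y))

theorem Av.div {L : Low Γ Λ} {x w : Γ} {f : V4 → V4} (h : L.Av x f) (h' : L.Av w f) : L.Av (w⁻¹ * x) fun v => v := by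
  obtain ⟨α, hα, k⟩ := L.exists_aut (inv_mem h'.norm)
  obtain ⟨M, -, -, -, -, h2⟩ := exists_mt α hα
  have v : L.Av w⁻¹ M.ap := fun y => ⟨α y, h2 y, (k y).symm⟩
  exact (v.mul h).cg ((v.mul h').uniq ((inv_mul_cancel w).symm ▸ Av.one))

/-- For `c ∈ C(Q)` with permutation `a`: `a * sr 0 * a⁻¹ = sr k` (`refl_conj`); `W` = product of the `gn j` along `w = RW.getD k []` normalises `Q`, acts on `V4` by
`wa w`, its permutation conjugates `sr 0` to `sr k` (`sr_conj`; check `w.foldr (fun j b => tn (gam j) b) 0 = k`, letters `< 6`).  `e = c d c⁻¹ d⁻¹ ∈ C(Q)` and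
`W d W⁻¹ d⁻¹` have the same permutation, so (`ker`) the latter acts on `V4` as `± 1`; check for `k ≠ 0`: `wa w ∘ (Am 0).ap ≠ ± (Am 0).ap ∘ wa w` (on `e1, …, e4`).
So `a` commutes with `sr 0`; applied to `W⁻¹ c W`: with all `sr k`.  `pm`, `n_vec`, `ker`, `cen_Qm`. -/
theorem cen {c : Γ} (h : c ∈ centralizer (L.Q : Set Γ)) : c ∈ zpowers L.z ∨ L.n * c ∈ zpowers L.z := by
  have A : ∀ c ∈ centralizer (L.Q : Set Γ), ∀ a, L.Pi c a → a * sr 0 * a⁻¹ = sr 0 := fun c h a ha => by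
    obtain ⟨k, hk⟩ := refl_conj ha.iso 0
    obtain ⟨W, p, h1, h2, h3⟩ := L.word' k
    have d := L.pi_gn (j := 0) (by decide)
    have vd := L.av_gn (j := 0) (by decide)
    have vc := (((L.av_cen h).mul vd).mul (L.av_cen (inv_mem h))).mul h2
    have u := ((ha.mul d).mul ha.inv).mul ((h1.mul d).mul h1.inv).inv
    rw [show gam 0 = 0 from rfl, hk, h3, mul_inv_cancel] at u
    rw [hk, (RW_chk k).2.2 ((L.ker u).imp (fun e => ?_) fun e => ?_)]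
    · exact fun v _ => (((L.av_Q e).mul h2).mul vd).uniq (by convert vc using 1; group) v
    · exact fun v _ => (((L.av_Q e).mul h2).mul vd).uniq (by convert vd.mul (vd.mul vc) using 1; group) v
  have C : ∀ c ∈ centralizer (L.Q : Set Γ), L.Pi c 1 → c ∈ zpowers L.z := fun c h hc => by
    obtain ⟨y, rfl⟩ := L.mem_Q.1 ((L.ker hc).resolve_right (L.dd h))
    rw [← MonoidHom.map_zpowers]
    exact mem_map_of_mem _ (cen_Qm fun w => L.inj (by rw [map_mul, map_mul]; exact (h _ (L.ι_mem w)).symm))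
  obtain ⟨a, ha⟩ := exists_pi (centralizer_le_normalizer _ h)
  refine (pm ha.iso fun k => ?_).imp (fun e : a = 1 => C c h (e ▸ ha)) fun e => C _ (mul_mem (fun q _ => (L.n_comm q).symm) h) ?_
  · obtain ⟨W, p, h1, h2, h3⟩ := L.word' k
    have := A _ (fun q hq => by
      have := h _ (cj_mem_of_mem_normalizer h2.norm hq)
      calc _ = W⁻¹ * (cj W q * c) * W := by rw [cj]; group
        _ = _ := by rw [this, cj]; group) _ ((h1.inv.mul ha).mul h1)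
    rw [← h3]
    nth_rw 2 [← this]
    group
  · have := Pi.mul (L := L) L.n_vec ha
    rwa [e, show ng * ng = 1 from Equiv.ext fun i => Fin.ext (Ng_Ng _ i.2)] at this

/-- `induced` -/
theorem ind (f : Γ → Γ) (h : IsHomOn L.Q f) (hi : Set.InjOn f L.Q) (hm : ∀ x ∈ L.Q, f x ∈ L.Q) : ∃ m, ∀ x ∈ L.Q, f x = cj m x := by
  obtain ⟨α, hα, e⟩ := lift (L.ψ.comp inq) (L.ψ.comp inq) L.ι_inj L.ι_inj L.ι_mem h hi fun y => L.mem_Q.1 (hm _ (L.ι_mem y))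
  obtain ⟨m, k⟩ := induced (L.ψ.comp inq) L.gn L.gn_act α hα
  refine ⟨m, fun x hx => ?_⟩
  obtain ⟨y, rfl⟩ := L.mem_Q.1 hx
  exact (e y).symm.trans (k y)

/-- `eq_Jm` for `(img f J).comap ψ` -/
theorem wcJ (f : Γ → Γ) (h : IsHomOn L.J f) (hi : Set.InjOn f L.J) (hm : ∀ x ∈ L.J, f x ∈ L.S) : ∀ x ∈ L.J, f x ∈ L.J := by
  obtain ⟨α, hα, e⟩ := lift (L.ψ.comp Jm.subtype) L.ψ (L.inj.comp Jm.subtype_injective) L.inj
    (fun y => mem_map_of_mem L.ψ y.2) h hi fun y => hm _ (mem_map_of_mem L.ψ y.2)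
  have : α.range = Jm := eq_Jm (by rw [MonoidHom.range_eq_map, card_map_of_injective hα, card_top, card_Jm]) (by
    rintro _ ⟨x, rfl⟩ _ ⟨y, rfl⟩
    rw [← map_mul, ← map_mul, show x * y = y * x from Subtype.ext (comm_Jm x.2 y.2)])
  rintro _ ⟨y, hy, rfl⟩
  exact ⟨_, this.le ⟨⟨y, hy⟩, rfl⟩, e _⟩

/-- `range_eq_Qm`, `exists_mt` -/
theorem wcQ (f : Γ → Γ) (h : IsHomOn L.Q f) (hi : Set.InjOn f L.Q) (hm : ∀ x ∈ L.Q, f x ∈ L.S) :
    (∀ x ∈ L.Q, f x ∈ L.Q) ∧ (f L.z = L.z ∨ f L.z = L.z⁻¹) := by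
  obtain ⟨α, hα, e⟩ := lift (L.ψ.comp inq) L.ψ L.ι_inj L.inj L.ι_mem h hi fun y => hm _ (L.ι_mem y)
  have k : ∀ x ∈ L.Q, f x ∈ L.Q := fun x hx => by
    obtain ⟨y, rfl⟩ := L.mem_Q.1 hx
    exact ⟨_, (range_eq_Qm α hα).le ⟨y, rfl⟩, e y⟩
  obtain ⟨β, hβ, e'⟩ := lift (L.ψ.comp inq) (L.ψ.comp inq) L.ι_inj L.ι_inj L.ι_mem h hi fun y => L.mem_Q.1 (k _ (L.ι_mem y))
  obtain ⟨M, ε, h0, -, h1, -⟩ := exists_mt β hβ
  have := e' ez
  rw [h1] at this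
  refine ⟨k, ((by decide : ∀ ε : Z3, ε ≠ 0 → (⟨⟨0, 0, 0, 0⟩, ε⟩ : Hs) = ez ∨ (⟨⟨0, 0, 0, 0⟩, ε⟩ : Hs) = ez⁻¹) ε h0).imp
    (fun q => ?_) fun q => ?_⟩ <;> rw [q] at this
  · exact this.symm
  · exact this.symm.trans (map_inv _ _)

/-- `inn_of_triv`, `cen` -/
theorem mem_of_triv {x : Γ} (h : ∀ y, ∃ y' : Hs, y'.v = y.v ∧ x * L.ψ (inq y) * x⁻¹ = L.ψ (inq y')) :
    x ∈ L.S ∨ L.n * x ∈ L.S := by
  obtain ⟨α, -, e⟩ := L.exists_aut (Av.norm (f := id) h)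
  obtain ⟨w, hw⟩ := inn_of_triv α fun y => by
    obtain ⟨y', h1, h2⟩ := h y
    rw [show α y = y' from L.ι_inj ((e y).trans h2), h1]
  have hS : L.ψ (inq w) ∈ L.S := ⟨_, rfl⟩
  have zS : zpowers L.z ≤ L.S := zpowers_le.2 ⟨_, rfl⟩
  refine (L.cen (c := (L.ψ (inq w))⁻¹ * x) fun q hq => ?_).imp (fun k => (mul_mem_cancel_left (inv_mem hS)).1 (zS k))
    fun k => (mul_mem_cancel_left (inv_mem hS)).1 (zS ?_)
  · obtain ⟨y, rfl⟩ := L.mem_Q.1 hq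
    have := e y
    simp only [hw, map_mul, map_inv] at this
    calc _ = (L.ψ (inq w))⁻¹ * (L.ψ (inq w) * L.ψ (inq y) * (L.ψ (inq w))⁻¹) * x := by group
      _ = _ := by rw [this]; group
  · rwa [← mul_assoc, ← L.n_comm, mul_assoc]

/-- `exists_aut`, `exists_mt` (`ε = 2`, `u1`, `u3` from `zm, inq e1, inq e3 ∈ Jm`); `lemD'` gives `x ^ 12 ∈ S ∪ n S`; `x ^ 8 = ψ s` acts on `V4` as `Tm s.i`
(`eq_inq_mul`, `tm_cj`), `lemD`, `mem_of_triv` for `(d t ^ j.val)⁻¹ x` -/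
theorem lemD {x : Γ} (h : x ∈ normalizer (L.S : Set Γ)) (e : ∀ y ∈ L.J, cj x y = cj L.d y) :
    x ^ 24 ∈ L.S ∧ (x ^ 8 ∈ L.S → x⁻¹ * L.d ∈ L.S ⊔ zpowers L.n) := by
  have nQ : x ∈ normalizer (L.Q : Set Γ) := mem_normalizer_fintype (L.wcQ _ (isHomOn_cj _ x) (cj_injective x).injOn
    fun y hy => cj_mem_of_mem_normalizer h (map_le_range _ _ hy)).1
  obtain ⟨α, hα, k⟩ := L.exists_aut nQ
  obtain ⟨M, ε, -, hM, h1, h2⟩ := exists_mt α hα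
  have eα : ∀ y, inq y ∈ Jm → α y = act (Am 0) 2 y := fun y hy => L.ι_inj
    ((k y).trans ((e _ (mem_map_of_mem _ hy)).trans (L.gn_act 0 (by decide) y)))
  obtain rfl : ε = 2 := (congrArg Hs.k (h1.symm.trans (eα ez ⟨rfl, rfl⟩))).trans (by decide)
  have u1 : M.u1 = (Am 0).u1 := by
    have := (h2 e1).symm.trans (congrArg Hs.v (eα e1 ⟨rfl, rfl⟩))
    simpa [Mt.ap, e1, act, V4.ext_iff] using this
  have u3 : M.u3 = (Am 0).u3 := by
    have := (h2 e3).symm.trans (congrArg Hs.v (eα e3 ⟨rfl, rfl⟩))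
    simpa [Mt.ap, e3, act, V4.ext_iff] using this
  have vx : L.Av x M.ap := fun y => ⟨α y, h2 y, (k y).symm⟩
  refine ⟨?_, fun ⟨s, hs⟩ => ?_⟩
  · rcases L.mem_of_triv ((vx.pow 12).cg (lemD' hM u1 u3)) with q | q
    · rw [show 24 = 12 + 12 from rfl, pow_add]
      exact mul_mem q q
    · have := mul_mem q q
      rwa [mul_assoc, ← mul_assoc (x ^ 12), ← L.n_comm, ← mul_assoc, ← mul_assoc, L.nn, one_mul, ← pow_add] at this
  · have vs := (L.av_Q (L.ι_mem s.h)).mul (L.av_t s.i)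
    rw [MonoidHom.comp_apply, ← map_mul, ← eq_inq_mul, hs] at vs
    obtain ⟨j, hj⟩ := C3.lemD hM u1 u3 ((vx.pow 8).uniq vs)
    have := L.mem_of_triv ((vx.cg hj).div ((L.av_gn (j := 0) (by decide)).mul (L.av_t j)))
    have q : (L.d * L.ψ (tm ^ j.val))⁻¹ * x ∈ L.S ⊔ zpowers L.n := this.elim mem_sup_left fun q =>
      (mul_mem_cancel_left (mem_sup_right (mem_zpowers L.n))).1 (mem_sup_left q)
    have := mul_mem (inv_mem q) (inv_mem (mem_sup_left (⟨_, rfl⟩ : L.ψ (tm ^ j.val) ∈ L.S)))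
    rwa [mul_inv_rev, inv_inv, mul_assoc, mul_inv_cancel_right] at this

end Low
end CL.U4.C3
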