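/- S5210, `q = 3`: the ambient facts from the data. -/
import Cfsg.Agent.FUS.U4.CLow

set_option autoImplicit false
set_option linter.unusedSectionVars false
set_option maxRecDepth 100000

namespace CL.U4.C3
open Subgroup Cfsg Cfsg.FusionSystem CL.Fus MulAction

namespace CAmb

theorem c01 : ∀ p < 54, Rn 0 (Rn 1 p) = p → Rn 0 p = p ∧ Rn 1 p = p := by decide +kernel
theorem c8 : ∀ p < 54, Dn p p = 8 := by decide +kernel
theorem c4 : ∀ p < 4, Rn 0 p = p ∧ Rn 1 p = p := by decide +kernel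
theorem c32 : ∀ p < 3, Rn 32 p = p := by decide +kernel

theorem f4 {b : Fin 54} (h : b.val < 4) : sr 0 b = b ∧ sr 1 b = b := ⟨Fin.ext (c4 _ h).1, Fin.ext (c4 _ h).2⟩

theorem syl {Γ : Type*} [Group Γ] [Finite Γ] {S G : Subgroup Γ} (c : Nat.card S = 3 ^ 6) (h : S ≤ G)
    (h7 : ¬ 3 ^ 7 ∣ Nat.card G) : SylIn 3 S G := by
  have pS : IsPGroup 3 S := IsPGroup.of_card c
  obtain ⟨P, hP, le⟩ := exists_sylIn_ge h pS
  refine hP.of_card_le h pS ?_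
  obtain ⟨k, e⟩ := IsPGroup.iff_card.1 hP.isPGroup
  rw [e, c]
  exact Nat.pow_le_pow_right (by norm_num) (not_lt.1 fun l => h7 ((pow_dvd_pow 3 l).trans (e ▸ card_dvd_of_le hP.le)))

theorem zJ : zm ∈ Jm := ⟨rfl, rfl⟩
theorem tJ : tm ∈ Jm := ⟨rfl, rfl⟩

end CAmb

open CAmb

namespace Low
variable {Γ Λ : Type*} [Group Γ] [Finite Γ] [MulAction Γ Λ] (L : Low Γ Λ)

theorem cardS : Nat.card L.S = 3 ^ 6 := by
  rw [← Nat.card_congr (L.ψ.ofInjective L.inj).toEquiv, card_Sm]; rfl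

theorem QS : L.Q ≤ L.S := map_le_range _ _

theorem JS : L.J ≤ L.S := map_le_range _ _

theorem NQ : normalizer (L.S : Set Γ) ≤ normalizer (L.Q : Set Γ) := fun x hx => mem_normalizer_of_cj_mem
  (L.wcQ _ (isHomOn_cj _ x) (cj_injective x).injOn fun _ h => cj_mem_of_mem_normalizer hx (L.QS h)).1

theorem NJ : normalizer (L.S : Set Γ) ≤ normalizer (L.J : Set Γ) := fun x hx => mem_normalizer_of_cj_mem
  (L.wcJ _ (isHomOn_cj _ x) (cj_injective x).injOn fun _ h => cj_mem_of_mem_normalizer hx (L.JS h))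

theorem d32 (b : Fin 54) : L.dot (L.vec b) (L.vec b) = 32 := by rw [L.dot_vec, c8 _ b.2]; rfl

theorem pi_d : L.Pi L.d (sr 0) := L.gn_vec 0 (by norm_num)

theorem pi_dt : L.Pi (L.d * L.t) (sr 1) := by
  have := Pi.mul L.pi_d (show L.Pi L.t (sr 0 * sr 1) from L.t_vec)
  rwa [← mul_assoc, sr_sr, one_mul] at this

theorem mem_H {x : Γ} (h : ∀ i : Fin 54, i.val < 3 → x • L.vec i = L.vec i) : x ∈ L.H :=
  ⟨⟨h 0 (by decide), h 1 (by decide)⟩, h 2 (by decide)⟩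

theorem H_fix {x : Γ} (h : x ∈ L.H) (i : Fin 54) (hi : i.val < 3) : x • L.vec i = L.vec i := by
  obtain ⟨i, l⟩ := i
  change i < 3 at hi
  interval_cases i
  exacts [h.1.1, h.1.2, h.2]

theorem of_ker {X : Subgroup Γ} (hS : L.S ≤ X) (hd : L.d ∈ X) {x y : Γ} {a : Pm} (hy : y ∈ X) (h : L.Pi x a) (h' : L.Pi y a) :
    x ∈ X := by
  have := h'.inv.mul h
  rw [inv_mul_cancel] at this
  rw [← mul_mem_cancel_left (inv_mem hy)]
  exact (L.ker this).elim (fun e => hS (L.QS e)) fun e => (mul_mem_cancel_left (mul_mem hd hd)).1 (hS (L.QS e))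

/-- STUB `U4/CAmb`.  `eq_inq_mul`, `q_vec`, `t_vec`. -/
theorem S_fix {b : Fin 54} (h0 : sr 0 b = b) (h1 : sr 1 b = b) {s : Γ} (hs : s ∈ L.S) : s • L.vec b = L.vec b := by
  obtain ⟨x, rfl⟩ := hs
  rw [eq_inq_mul x, map_mul, map_pow]
  exact mul_mem (show _ ∈ stabilizer Γ (L.vec b) from L.q_vec _ b) (pow_mem (by rw [mem_stabilizer_iff, L.t_vec, h1, h0]) _)

/-- `fixz`, `t_vec`; check `Rn 0 (Rn 1 p) = p → Rn 0 p = p ∧ Rn 1 p = p` -/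
theorem fixJ {y : Λ} (h : L.dot y y = 32) (hJ : ∀ x ∈ L.J, x • y = y) : ∃ p, sr 0 p = p ∧ sr 1 p = p ∧ y = L.vec p := by
  obtain ⟨p, rfl⟩ := L.fixz y h (hJ _ (mem_map_of_mem _ zJ))
  have := c01 p p.2 (congrArg Fin.val (L.vec_inj ((L.t_vec p).symm.trans (hJ _ (mem_map_of_mem _ tJ)))))
  exact ⟨p, Fin.ext this.1, Fin.ext this.2, rfl⟩

theorem SH : L.S ≤ L.H := fun _ hs =>
  L.mem_H fun _ hi => L.S_fix (f4 (by omega)).1 (f4 (by omega)).2 hs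

theorem cardH : ¬ 3 ^ 7 ∣ Nat.card L.H := fun h =>
  L.stab 0 (h.trans (card_dvd_of_le (inf_le_left.trans inf_le_left)))

theorem dS : L.d ∈ normalizer (L.S : Set Γ) := by
  refine mem_normalizer_of_cj_mem ?_
  rintro _ ⟨x, rfl⟩
  rw [eq_inq_mul x, map_mul, map_pow, cj_apply, ← conj_mul, ← conj_pow, L.gn_act 0 (by norm_num), L.dt]
  exact mul_mem ⟨_, rfl⟩ (pow_mem (L.S.inv_mem ⟨_, rfl⟩) _)

/-- `Jm_eq` -/
theorem gJ : L.g ∈ normalizer (L.J : Set Γ) := by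
  refine mem_normalizer_of_cj_mem ?_
  rintro _ ⟨x, hx, rfl⟩
  rw [Jm_eq] at hx
  refine (closure_le ((L.J.comap (MulAut.conj L.g).toMonoidHom).comap L.ψ)).2 ?_ hx
  rintro _ (rfl | rfl | rfl | rfl)
  exacts [⟨_, tJ, L.gz.symm⟩, ⟨inq e3, ⟨rfl, rfl⟩, L.g1.symm⟩, ⟨inq e1, ⟨rfl, rfl⟩, L.g3.symm⟩, ⟨_, zJ, L.gt.symm⟩]

/-- `k • vec b` is fixed by `J`; `fixJ`, `b18_three` (first `b = 3`), `b18_ext` -/
theorem HJ_fix {k : Γ} (hk : k ∈ L.H) (hJ : k ∈ normalizer (L.J : Set Γ)) {b : Fin 54} (h0 : sr 0 b = b) (h1 : sr 1 b = b) :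
    k • L.vec b = L.vec b := by
  have key : ∀ b : Fin 54, sr 0 b = b → sr 1 b = b → ∃ p, sr 0 p = p ∧ sr 1 p = p ∧ k • L.vec b = L.vec p ∧
      ∀ c : Fin 54, k • L.vec c = L.vec c → Dn p c = Dn b c := fun b h0 h1 => by
    obtain ⟨p, p0, p1, e⟩ := L.fixJ (y := k • L.vec b) (by rw [L.dot_smul, L.d32]) fun x hx => by
      have := L.S_fix h0 h1 (L.JS (cj_mem_of_mem_normalizer (inv_mem hJ) hx))
      rwa [cj_apply, inv_inv, mul_smul, mul_smul, inv_smul_eq_iff] at this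
    refine ⟨p, p0, p1, e, fun c hc => ?_⟩
    have := L.dot_smul k (L.vec b) (L.vec c)
    rw [e, hc, L.dot_vec, L.dot_vec] at this
    omega
  have h3 : ∀ c : Fin 54, c.val < 4 → k • L.vec c = L.vec c := fun c hc => by
    rcases (by omega : c.val < 3 ∨ c.val = 3) with l | l
    · exact L.H_fix hk c l
    obtain rfl : c = 3 := Fin.ext l
    obtain ⟨p, p0, p1, e, f⟩ := key 3 (f4 hc).1 (f4 hc).2
    rw [e, b18_three p0 p1 fun b hb => f ⟨b, by omega⟩ (L.H_fix hk _ hb)]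
  obtain ⟨p, p0, p1, e, f⟩ := key b h0 h1
  rw [e, b18_ext p0 p1 h0 h1 fun b hb => f ⟨b, by omega⟩ (h3 _ hb)]

/-- `x ∈ N(Q) ⊓ N(J)` (`wcQ`, `wcJ`), `HJ_fix`, `par0`; `d` and `t⁻¹ d` induce `sr 0`, `sr 1`; `ker` -/
theorem nS {x : Γ} (hH : x ∈ L.H) (hS : x ∈ normalizer (L.S : Set Γ)) : x ∈ L.S ⊔ zpowers L.d := by
  obtain ⟨a, ha⟩ := exists_pi (L.NQ hS)
  have m := par0 ha.iso fun i hi => L.vec_inj ((ha i).symm.trans (L.HJ_fix hH (L.NJ hS) (f4 hi).1 (f4 hi).2))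
  have dm : L.d ∈ L.S ⊔ zpowers L.d := mem_sup_right (mem_zpowers _)
  obtain ⟨y, hy, e⟩ : ∃ y ∈ L.S ⊔ zpowers L.d, L.Pi y a := by
    clear ha
    induction m using closure_induction with
    | mem a ha =>
      rcases ha with rfl | rfl
      exacts [⟨_, dm, L.pi_d⟩, ⟨_, mul_mem dm (mem_sup_left ⟨_, rfl⟩), L.pi_dt⟩]
    | one => exact ⟨1, one_mem _, fun i => one_smul _ _⟩
    | mul a b _ _ h1 h2 =>
      obtain ⟨y, hy, e⟩ := h1
      obtain ⟨w, hw, f⟩ := h2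
      exact ⟨_, mul_mem hy hw, e.mul f⟩
    | inv a _ h =>
      obtain ⟨y, hy, e⟩ := h
      exact ⟨_, inv_mem hy, e.inv⟩
  exact L.of_ker le_sup_left dm hy ha e

/-- Frattini argument for `K = {k ∈ N(J) | k` fixes all `y` with `dot y y = 32` fixed by `J}`, normal in `N(J)`, `S ≤ K ≤ H` -/
theorem nJ {x : Γ} (h : x ∈ normalizer (L.J : Set Γ)) :
    ∃ k ∈ L.H, k ∈ normalizer (L.J : Set Γ) ∧ k⁻¹ * x ∈ normalizer (L.S : Set Γ) := by
  let K : Subgroup Γ := normalizer (L.J : Set Γ) ⊓ ⨅ y ∈ {y : Λ | L.dot y y = 32 ∧ ∀ x ∈ L.J, x • y = y}, stabilizer Γ y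
  have mK : ∀ k, k ∈ K ↔ k ∈ normalizer (L.J : Set Γ) ∧ ∀ y, L.dot y y = 32 → (∀ x ∈ L.J, x • y = y) → k • y = y := fun k => by
    simp only [K, mem_inf, mem_iInf, Set.mem_ofPred_eq, mem_stabilizer_iff, and_imp]
  have SK : L.S ≤ K := fun s hs => (mK s).2 ⟨L.NJ (le_normalizer hs), fun y h1 h2 => by
    obtain ⟨p, p0, p1, rfl⟩ := L.fixJ h1 h2
    exact L.S_fix p0 p1 hs⟩
  have KH : K ≤ L.H := fun k hk => L.mem_H fun i hi => ((mK k).1 hk).2 _ (L.d32 i) fun x hx =>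
    L.S_fix (f4 (by omega)).1 (f4 (by omega)).2 (L.JS hx)
  obtain ⟨c, hc, e⟩ := (syl L.cardS SK fun k => L.cardH (k.trans (card_dvd_of_le KH))).frattini (b := x)
    (mem_normalizer_of_cj_mem fun k hk => (mK _).2 ⟨cj_mem h ((mK k).1 hk).1, fun y h1 h2 => by
      rw [cj_apply, mul_smul, mul_smul, ((mK k).1 hk).2 _ (by rw [L.dot_smul, h1]) fun w hw => ?_, smul_inv_smul]
      have := h2 _ (cj_mem_of_mem_normalizer h hw)
      rwa [cj_apply, mul_smul, mul_smul, smul_eq_iff_eq_inv_smul] at this⟩)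
  exact ⟨c⁻¹, KH (inv_mem hc), ((mK _).1 (inv_mem hc)).1, by rwa [inv_inv]⟩

/-- `π : X →* Pm` (from `exists_pi`, `Pi.uniq`), `Q ≤ ker π`, so `9 ∤ |π.range|`; `B` from `e6`; `G = {y | ∃ x ∈ X, ∀ b ∈ B, y • vec b = x • vec b}`.
For `b₀ ∈ B` the orbits of `vec b₀` under `G` and `X` agree; `S ≤ X ⊓ Stab` gives `3 ∤ |orbit|`; `stab`.  `ker`, `HJ_fix`. -/
theorem big (X : Subgroup Γ) (hX : X ≤ normalizer (L.Q : Set Γ)) (hS : L.S ≤ X) (hd : L.d ∈ X) (h7 : ¬ 3 ^ 7 ∣ Nat.card X) :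
    ∃ G : Subgroup Γ, X ≤ G ∧ ¬ 3 ^ 7 ∣ Nat.card G ∧ G ⊓ normalizer (L.Q : Set Γ) ≤ X ∧ L.H ⊓ normalizer (L.J : Set Γ) ≤ G := by
  choose f hf using fun x : X => exists_pi (hX x.2)
  obtain ⟨π, hf⟩ : ∃ π : X →* Pm, ∀ x : X, L.Pi x (π x) :=
    ⟨MonoidHom.mk' f fun x y => (hf (x * y)).uniq ((hf x).mul (hf y)), hf⟩
  have h9 : ¬ 9 ∣ Nat.card π.range := fun k => h7 (by
    have l : L.Q.subgroupOf X ≤ π.ker := fun x hx => by
      obtain ⟨y, e⟩ := L.mem_Q.1 hx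
      exact (hf x).uniq fun i => (show _ = (x : Γ) from e) ▸ L.q_vec y i
    have := card_dvd_of_le l
    rw [Nat.card_congr (subgroupOfEquivOfLe (L.QS.trans hS)).toEquiv, card_map_of_injective L.inj, card_Qm] at this
    rw [← π.ker.card_mul_index, index_ker]
    exact (mul_dvd_mul this k : 243 * 9 ∣ _))
  obtain ⟨B, ⟨b₀, hb₀⟩, hB, h01, hI⟩ := e6 π.range (by rintro _ ⟨x, rfl⟩; exact (hf x).iso)
    ⟨⟨_, hd⟩, (hf _).uniq L.pi_d⟩ ⟨⟨_, mul_mem hd (hS ⟨_, rfl⟩)⟩, (hf _).uniq L.pi_dt⟩ h9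
  let G : Subgroup Γ :=
    { carrier := {y | ∃ x ∈ X, ∀ b ∈ B, y • L.vec b = x • L.vec b}
      one_mem' := ⟨1, one_mem _, fun _ _ => rfl⟩
      mul_mem' := by
        rintro y y' ⟨x, hx, e⟩ ⟨x', hx', e'⟩
        refine ⟨x * x', mul_mem hx hx', fun b hb => ?_⟩
        rw [mul_smul, mul_smul, e' b hb, hf ⟨x', hx'⟩ b, e _ (hB _ ⟨⟨x', hx'⟩, rfl⟩ b hb)]
      inv_mem' := by
        rintro y ⟨x, hx, e⟩
        refine ⟨x⁻¹, inv_mem hx, fun b hb => ?_⟩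
        rw [inv_smul_eq_iff, hf ⟨x⁻¹, inv_mem hx⟩ b, e _ (hB _ ⟨⟨x⁻¹, inv_mem hx⟩, rfl⟩ b hb), ← hf ⟨x⁻¹, inv_mem hx⟩ b,
          smul_inv_smul] }
  have XG : X ≤ G := fun x hx => ⟨x, hx, fun _ _ => rfl⟩
  refine ⟨G, XG, fun k => ?_, ?_, fun k hk => ⟨1, one_mem _, fun b hb => ?_⟩⟩
  · have eo : orbit G (L.vec b₀) = orbit X (L.vec b₀) := Set.Subset.antisymm
      (by rintro _ ⟨⟨y, x, hx, e⟩, rfl⟩; exact ⟨⟨x, hx⟩, (e b₀ hb₀).symm⟩)
      (by rintro _ ⟨⟨x, hx⟩, rfl⟩; exact ⟨⟨x, XG hx⟩, rfl⟩)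
    have c1 := (stabilizer G (L.vec b₀)).card_mul_index
    have c2 := (stabilizer X (L.vec b₀)).card_mul_index
    rw [index_stabilizer] at c1 c2
    rw [eo] at c1
    have c3 : 3 ^ 6 ∣ Nat.card (stabilizer X (L.vec b₀)) := by
      rw [← L.cardS, ← Nat.card_congr (subgroupOfEquivOfLe hS).toEquiv]
      exact card_dvd_of_le fun x hx => L.S_fix (h01 _ hb₀).1 (h01 _ hb₀).2 hx
    have c4 : Nat.card (stabilizer G (L.vec b₀)) ∣ Nat.card (stabilizer Γ (L.vec b₀)) := by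
      rw [← card_subtype]
      refine card_dvd_of_le ?_
      rintro _ ⟨x, hx, rfl⟩
      exact hx
    refine L.stab b₀ (((Nat.Coprime.pow_left 7 ((Nat.prime_three.coprime_iff_not_dvd).2 fun l => h7 ?_)).dvd_of_dvd_mul_right
      (c1 ▸ k)).trans c4)
    rw [← c2, pow_succ]
    exact mul_dvd_mul c3 l
  · rintro y ⟨⟨x, hx, e⟩, hy⟩
    obtain ⟨a, ha⟩ := exists_pi (mul_mem (inv_mem (hX hx)) hy)
    obtain ⟨x', rfl⟩ := hI a ha.iso fun b hb => L.vec_inj (by rw [← ha b, mul_smul, e b hb, inv_smul_smul])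
    exact (mul_mem_cancel_left (inv_mem hx)).1 (L.of_ker hS hd x'.2 ha (hf x'))
  · rw [one_smul, L.HJ_fix hk.1 hk.2 (h01 b hb).1 (h01 b hb).2]

/-- `R = core` is normal in the system, so strongly closed.  If `R ≠ ⊥`: `z ∈ R` (`R ⊴ S` meets the centre, `cen_Qm`), `t ∈ R` (`gz`), `e1, e3 ∈ R` (commutators of `t` with
`e2, e4`), `e4, e2 ∈ R` (`gn 2 ∈ H`), `R = S`; then `cj g` on `⟨z⟩` extends to `S`, so `t` is central in `S`. -/
theorem core : (fusionSystemOfSubgroup L.H L.S L.SH).core = ⊥ := by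
  refine sSup_eq_bot.2 fun R (hR : IsNormal _ R) => by_contra fun ne => ?_
  have sc := sc_of_normal hR
  have mor : ∀ k ∈ L.H, ∀ x y, k * L.ψ x * k⁻¹ = L.ψ y →
      Mor (fusionSystemOfSubgroup L.H L.S L.SH) (zpowers (L.ψ x)) (cj k) := fun k hk x y e =>
    mor_cj_ofSubgroup hk (zpowers_le.2 ⟨_, rfl⟩) (by
      rintro _ ⟨i, rfl⟩
      simp only [cj_apply, ← conj_zpow, e]
      exact L.S.zpow_mem ⟨_, rfl⟩ _)
  have cl : ∀ k ∈ L.H, ∀ x y, k * L.ψ x * k⁻¹ = L.ψ y → L.ψ x ∈ R → L.ψ y ∈ R := fun k hk x y e h =>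
    e ▸ sc_map_mem sc (mor k hk x y e) (mem_zpowers _) h
  have nR : (R.comap L.ψ).Normal := ⟨fun x hx s => cl (L.ψ s) (L.SH ⟨_, rfl⟩) x _ (by simp) hx⟩
  have zR : L.z ∈ R := by_contra fun k => ne ((eq_bot_iff_forall _).2 fun x hx => by
    obtain ⟨y, rfl⟩ := hR.1 hx
    rw [inj_psi (ψ := QuotientGroup.mk' (R.comap L.ψ)) (fun e => k ((QuotientGroup.eq_one_iff (N := R.comap L.ψ) zm).1 e))
      (((QuotientGroup.eq_one_iff y).2 hx).trans (map_one _).symm), map_one])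
  have gH := L.mem_H L.g_vec
  have tR : tm ∈ R.comap L.ψ := cl _ gH _ _ L.gz zR
  have h3 := mul_mem tR (nR.conj_mem _ (inv_mem tR) (inq e4))
  rw [show tm * (inq e4 * tm⁻¹ * (inq e4)⁻¹) = inq ⟨⟨0, 0, 1, 0⟩, 1⟩ by decide] at h3
  have h4 := cl _ (L.mem_H fun i hi => (L.gn_vec 2 (by norm_num) i).trans (congrArg L.vec (Fin.ext (c32 _ hi)))) _ _
    (L.gn_act 2 (by norm_num) _) h3
  obtain ⟨f, hf, e1, e2⟩ := normal_ext hR (mor _ gH _ _ L.gz)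
  obtain ⟨r, hr, e3⟩ := (hf.mono le_sup_right).mem_img.1 (e2.ge h4)
  obtain ⟨y, rfl⟩ := hR.1 hr
  have z1 : L.z ∈ zpowers L.z ⊔ R := mem_sup_right zR
  have := hf.map_mul z1 (mem_sup_right hr)
  rw [← map_mul, zm_comm, map_mul, hf.map_mul (mem_sup_right hr) z1, e3, e1 (mem_zpowers _), cj_apply, L.gz, ← map_mul,
    ← map_mul] at this
  exact absurd (L.inj this) (by decide)

theorem exists_amb : ∃ A : Amb Γ, A.S = L.S ∧ A.Q = L.Q ∧ A.J = L.J ∧ A.H = L.H := by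
  have z3 : L.z ^ 3 = 1 := by rw [← map_pow, show zm ^ 3 = 1 by decide, map_one]
  refine ⟨⟨L.S, L.Q, L.J, L.H, L.z, L.t, L.d, L.g, L.n, L.QS, L.JS, L.SH, L.cardS, L.cardH, L.wcJ, L.wcQ, ?_,
    mem_map_of_mem _ ⟨_, rfl⟩, mem_map_of_mem _ zJ, mem_map_of_mem _ tJ, z3, ?_, ?_, ?_, L.ind, fun _ => L.cen, L.n_comm, L.nn, ?_, ?_,
    L.mem_H L.g_vec, L.gJ, L.gz, L.mem_H fun i hi => (L.pi_d i).trans (congrArg L.vec (f4 (by omega)).1), L.dS, L.dW,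
    fun _ => L.nS, fun _ => L.nJ, fun _ => L.lemD, L.big, L.core⟩, rfl, rfl, rfl, rfl⟩
  · rintro _ ⟨⟨x, rfl⟩, h⟩
    exact mem_map_of_mem _ (cen_Jm fun y hy => L.inj (by rw [map_mul, map_mul, h _ (mem_map_of_mem _ hy)]))
  · rw [← map_pow, show tm ^ 3 = 1 by decide, map_one]
  · rw [← map_mul, zm_comm, map_mul]
  · rintro _ ⟨x, rfl⟩
    rw [eq_inq_mul x, map_mul, map_pow]
    exact mul_mem (mem_sup_left (mem_map_of_mem _ ⟨_, rfl⟩)) (mem_sup_right (pow_mem (mem_zpowers _) _))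
  · intro e
    have := L.n_vec 0
    rw [e, one_smul] at this
    exact absurd (congrArg Fin.val (L.vec_inj this)) (by decide +kernel)
  · rintro _ ⟨i, rfl⟩ m h
    have t3 : L.tr (L.t * L.z ^ i) = -3 := by
      rcases h with h | h <;> rw [← h, cj_apply, L.tr_conj]
      exacts [L.tr_z, L.tr_z']
    have e : L.z ^ i = L.z ^ (i % 3) := by
      nth_rw 1 [← Int.mul_ediv_add_emod i 3]
      rw [zpow_add, zpow_mul, zpow_ofNat, z3, one_zpow, one_mul]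
    have z2 : L.z ^ (2 : ℤ) = L.z⁻¹ := eq_inv_of_mul_eq_one_left (by rw [← z3, zpow_ofNat, ← pow_succ])
    simp only [e] at t3 ⊢
    rcases (by omega : i % 3 = 0 ∨ i % 3 = 1 ∨ i % 3 = 2) with k | k | k <;> rw [k] at t3 ⊢
    · exact zpow_zero _
    · rw [zpow_one, L.tr_tz] at t3; norm_num at t3
    · rw [z2, L.tr_tz'] at t3; norm_num at t3

end Low
end CL.U4.C3
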