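/- S5210, `q = 3`: the pointwise stabiliser of the six basis vectors. -/
import Cfsg.Agent.FUS.U4.CDat

set_option autoImplicit false
set_option maxRecDepth 100000
set_option exponentiation.threshold 700

namespace CL.U4.C3
open Cfsg CL.Leech CL.MT CL.K CL.Pack MulAction
open CL.Golay (E)

/-- words in the letters `0, 1, 2, 3, 5, 6, 12`; the vectors `wd w • vv 4` are distinct -/
def OW : List (List ℕ) := [[], [5], [12], [5, 5], [12, 5], [1, 12], [3, 12], [12, 5, 5], [1, 12, 5], [3, 12, 5], [1, 1, 12], [3, 1, 12], [5, 1, 12], [12, 1, 12], [3, 3, 12], [5, 3, 12], [12, 3, 12], [3, 1, 12, 5], [12, 1, 12, 5], [6, 3, 12, 5], [3, 1, 1, 12], [3, 3, 1, 12], [3, 5, 1, 12], [1, 12, 1, 12], [3, 12, 3, 12], [3, 3, 1, 12, 5], [6, 3, 1, 12, 5], [3, 3, 1, 1, 12], [1, 1, 12, 1, 12], [3, 3, 12, 3, 12]]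

namespace CCard

theorem vv_eq {i : Fin 54} {y : leechLattice} (hy : sqNorm (y : GolayPt → ℤ) ≤ 80) (e : VC i = enc (y : GolayPt → ℤ)) : vv i = y := by
  have := (RepF.one.smul_eq_iff RepF.one (le_vv i) hy).2 (by rw [enc_vv, e])
  rwa [one_smul, one_smul] at this

theorem v0 : vv 0 = Spor.leechU := vv_eq le_U (by rw [enc_U]; decide +kernel)
theorem v1 : vv 1 = X0 := vv_eq le_X0 (by rw [enc_X0]; decide +kernel)
theorem v2 : vv 2 = W0 - Spor.leechU := vv_eq (by decide +kernel) (by decide +kernel)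
theorem v3 : vv 3 = Y112 := vv_eq le_Y112 (by rw [enc_Y112]; decide +kernel)

theorem fx {j : ℕ} (hj : j < 13) {i : Fin 54} (e : ap (cc j) (VC i) = VC i) : el j ∈ stabilizer Co0 (vv i) :=
  smul_vv (rep_el hj) e

theorem ok : ∀ j ∈ [0, 1, 2, 3, 5, 6, 12], j < 13 ∧ ∀ i : Fin 54, i.val < 4 → ap (cc j) (VC i) = VC i := by decide +kernel

theorem okO : (∀ w ∈ OW, okw w = true ∧ ∀ j ∈ w, j ∈ [0, 1, 2, 3, 5, 6, 12]) ∧ (OW.map fun w => aw w (VC 4)).Nodup := by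
  decide +kernel

end CCard
open CCard

theorem H_eq : stabilizer Co0 (vv 0) ⊓ stabilizer Co0 (vv 1) ⊓ stabilizer Co0 (vv 2) = GU43 := by
  rw [v0, v1, v2, inf_right_comm, ← stab_summand]

theorem cardP : Nat.card ↥(⨅ i : Fin 6, stabilizer Co0 (vv (i.castLE (by norm_num)))) ≤ 486 := by
  have mem {j : ℕ} (hj : j ∈ [0, 1, 2, 3, 5, 6, 12]) : el j ∈ GU43 ⊓ stabilizer Co0 (vv 3) := by
    have k := fun i hi => fx (ok j hj).1 ((ok j hj).2 i hi)
    exact ⟨H_eq ▸ ⟨⟨k 0 (by decide), k 1 (by decide)⟩, k 2 (by decide)⟩, k 3 (by decide)⟩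
  have fin (K : Subgroup Co0) (x : leechLattice) : (orbit K x).Finite := Set.finite_range _
  have h1 := card_eq_orbit_mul GU43 (vv 3)
  have h2 := card_eq_orbit_mul (GU43 ⊓ stabilizer Co0 (vv 3)) (vv 4)
  have h3 := card_eq_orbit_mul (GU43 ⊓ stabilizer Co0 (vv 3) ⊓ stabilizer Co0 (vv 4)) (vv 5)
  have o1 : 112 ≤ (orbit GU43 (vv 3)).ncard := v3 ▸ orb_Y112
  have o2 : 30 ≤ (orbit (GU43 ⊓ stabilizer Co0 (vv 3) : Subgroup Co0) (vv 4)).ncard := by
    have nd : (OW.map fun w => wd w • vv 4).Nodup := by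
      refine (List.nodup_map_iff_inj_on (okO.2.of_map _)).2 fun u hu w hw e => ?_
      refine List.inj_on_of_nodup_map okO.2 hu hw ?_
      have := ((rep_wd (okO.1 u hu).1).smul_eq_iff (rep_wd (okO.1 w hw).1) (le_vv 4) (le_vv 4)).1 e
      rwa [enc_vv] at this
    classical
    refine le_trans (le_of_eq ?_) (Set.ncard_le_ncard (s := ((OW.map fun w => wd w • vv 4).toFinset : Set leechLattice))
      (fun x hx => ?_) (fin _ _))
    · rw [Set.ncard_coe_finset, List.toFinset_card_of_nodup nd, List.length_map]; rfl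
    · obtain ⟨w, hw, rfl⟩ := List.mem_map.1 (List.mem_toFinset.1 hx)
      exact ⟨⟨wd w, wd_mem fun j hj => mem ((okO.1 w hw).2 j hj)⟩, rfl⟩
  have o3 : 1 < (orbit (GU43 ⊓ stabilizer Co0 (vv 3) ⊓ stabilizer Co0 (vv 4) : Subgroup Co0) (vv 5)).ncard :=
    (Set.one_lt_ncard (fin _ _)).2 ⟨_, ⟨⟨el 6, mem (by simp), fx (by norm_num) (by decide +kernel)⟩, rfl⟩, _, mem_orbit_self _,
      fun e => by
        have := ((rep_el (j := 6) (by norm_num)).smul_eq_iff RepF.one (le_vv 5) (le_vv 5)).1 (e.trans (one_smul _ _).symm)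
        rw [enc_vv] at this
        exact absurd this (by decide +kernel)⟩
  have le : (⨅ i : Fin 6, stabilizer Co0 (vv (i.castLE (by norm_num)))) ≤
      GU43 ⊓ stabilizer Co0 (vv 3) ⊓ stabilizer Co0 (vv 4) ⊓ stabilizer Co0 (vv 5) := fun g hg => by
    have k := Subgroup.mem_iInf.1 hg
    exact ⟨⟨⟨H_eq ▸ ⟨⟨k 0, k 1⟩, k 2⟩, k 3⟩, k 4⟩, k 5⟩
  have := Subgroup.card_le_of_le le
  have := Nat.mul_le_mul o1 (Nat.mul_le_mul o2 (Nat.mul_le_mul (Nat.succ_le_of_lt o3) this))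
  rw [← h3, ← h2, ← h1, card_GU43] at this
  omega

end CL.U4.C3
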