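/-
S5210: the Sylow `p`-subgroup of `SU₄(q)` in coordinates. `U σ` consists of the unitriangular matrices with rows
`(1, a, b, x - b σa)`, `(0, 1, y, σb - y σa)`, `(0, 0, 1, -σa)` (`x, y` fixed by `σ`), preserving the skew-Hermitian form
`antidiag(1, 1, -1, -1)`. `V = {a = 0}` is the group of Hermitian matrices `[[x, b], [σb, y]]`.
-/
import Cfsg.Agent.FUS.U5.Dd
import Cfsg.Agent.FUS.U5.Gen

set_option autoImplicit false
set_option linter.unusedSimpArgs false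
set_option linter.unusedSectionVars false
set_option linter.unnecessarySeqFocus false

namespace CL.U4

open CL.Fus Subgroup Cfsg CL.U5.Un
open CL.U5 (Un Dg ru σu ru_val σu_val map_σ)
open scoped commutatorElement

variable {K : Type*} [Field K] {σ : K →+* K} [T : Un σ]

/-- the Sylow subgroup -/
@[ext] structure U (σ : K →+* K) where
  a : K
  b : K
  x : K
  y : K
  hx : σ x = x
  hy : σ y = y

namespace U

instance : One (U σ) := ⟨⟨0, 0, 0, 0, by simp, by simp⟩⟩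

instance : Mul (U σ) := ⟨fun g h => ⟨g.a + h.a, g.b + h.b + g.a * h.y,
  g.x + h.x + g.a * σ h.b + σ g.a * h.b + g.a * σ g.a * h.y, g.y + h.y, by
    simp only [map_add, map_mul, T.sq, g.hx, h.hx, h.hy]; ring, by rw [map_add, g.hy, h.hy]⟩⟩

instance : Inv (U σ) := ⟨fun g => ⟨-g.a, g.a * g.y - g.b, g.a * σ g.b + σ g.a * g.b - g.a * σ g.a * g.y - g.x, -g.y, by
    simp only [map_add, map_sub, map_mul, T.sq, g.hx, g.hy]; ring, by rw [map_neg, g.hy]⟩⟩

variable (g h : U σ)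

@[simp] theorem one_a : (1 : U σ).a = 0 := rfl
@[simp] theorem one_b : (1 : U σ).b = 0 := rfl
@[simp] theorem one_x : (1 : U σ).x = 0 := rfl
@[simp] theorem one_y : (1 : U σ).y = 0 := rfl
theorem mul_a : (g * h).a = g.a + h.a := rfl
theorem mul_b : (g * h).b = g.b + h.b + g.a * h.y := rfl
theorem mul_x : (g * h).x = g.x + h.x + g.a * σ h.b + σ g.a * h.b + g.a * σ g.a * h.y := rfl
theorem mul_y : (g * h).y = g.y + h.y := rfl
theorem inv_a : g⁻¹.a = -g.a := rfl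
theorem inv_b : g⁻¹.b = g.a * g.y - g.b := rfl
theorem inv_x : g⁻¹.x = g.a * σ g.b + σ g.a * g.b - g.a * σ g.a * g.y - g.x := rfl
theorem inv_y : g⁻¹.y = -g.y := rfl

end U

/-- expands products, inverses, commutators and conjugates into coordinates -/
scoped macro "usimp" loc:(Lean.Parser.Tactic.location)? : tactic => `(tactic| simp only [U.ext_iff, commutatorElement_def, CL.Fus.cj,
  U.one_a, U.one_b, U.one_x, U.one_y, U.mul_a, U.mul_b, U.mul_x, U.mul_y, U.inv_a, U.inv_b, U.inv_x, U.inv_y,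
  map_add, map_sub, map_mul, map_neg, map_zero, map_one, Un.sq, U.hx, U.hy] $[$loc]?)

namespace U

instance : Group (U σ) := Group.ofLeftAxioms
  (fun x y z => by usimp; refine ⟨?_, ?_, ?_, ?_⟩ <;> ring) (fun x => by usimp; simp)
  (fun x => by usimp; refine ⟨?_, ?_, ?_, ?_⟩ <;> ring)

instance [Finite K] : Finite (U σ) := Finite.of_injective (fun g : U σ => (g.a, g.b, g.x, g.y)) fun x y h => by
  simpa [U.ext_iff] using h

/-- the element with prescribed `a, b` and `x = y = 0` -/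
@[simps] def el (a b : K) : U σ := ⟨a, b, 0, 0, map_zero σ, map_zero σ⟩

/-- the root element for `a` -/
@[simps] def xa (a : K) : U σ := ⟨a, 0, 0, 0, map_zero σ, map_zero σ⟩

/-- the root element for `b` -/
@[simps] def xb (b : K) : U σ := ⟨0, b, 0, 0, map_zero σ, map_zero σ⟩

/-- the root element for `x` -/
@[simps] def zx (x : K) (h : σ x = x) : U σ := ⟨0, 0, x, 0, h, map_zero σ⟩

/-- the root element for `y` -/
@[simps] def zy (y : K) (h : σ y = y) : U σ := ⟨0, 0, 0, y, map_zero σ, h⟩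

end U

open U

/-- `Z(S)` -/
def sZ : Subgroup (U σ) where
  carrier := {g | g.a = 0 ∧ g.b = 0 ∧ g.y = 0}
  one_mem' := by simp
  mul_mem' ha hb := by simp only [Set.mem_ofPred_eq] at *; usimp; simp [ha, hb]
  inv_mem' ha := by simp only [Set.mem_ofPred_eq] at *; usimp; simp [ha]

/-- `W = V ⊓ Q = S' = Z₂(S) = Φ(S)` -/
def sW : Subgroup (U σ) where
  carrier := {g | g.a = 0 ∧ g.y = 0}
  one_mem' := by simp
  mul_mem' ha hb := by simp only [Set.mem_ofPred_eq] at *; usimp; simp [ha, hb]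
  inv_mem' ha := by simp only [Set.mem_ofPred_eq] at *; usimp; simp [ha]

/-- `V = J(S)`, elementary abelian of order `q ^ 4` -/
def sV : Subgroup (U σ) where
  carrier := {g | g.a = 0}
  one_mem' := by simp
  mul_mem' ha hb := by simp only [Set.mem_ofPred_eq] at *; usimp; simp [ha, hb]
  inv_mem' ha := by simp only [Set.mem_ofPred_eq] at *; usimp; simp [ha]

/-- `Q = q ^ (1 + 4)` -/
def sQ : Subgroup (U σ) where
  carrier := {g | g.y = 0}
  one_mem' := by simp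
  mul_mem' ha hb := by simp only [Set.mem_ofPred_eq] at *; usimp; simp [ha, hb]
  inv_mem' ha := by simp only [Set.mem_ofPred_eq] at *; usimp; simp [ha]

variable {g h : U σ}

theorem mem_sZ : g ∈ sZ ↔ g.a = 0 ∧ g.b = 0 ∧ g.y = 0 := Iff.rfl
theorem mem_sW : g ∈ sW ↔ g.a = 0 ∧ g.y = 0 := Iff.rfl
theorem mem_sV : g ∈ sV ↔ g.a = 0 := Iff.rfl
theorem mem_sQ : g ∈ sQ ↔ g.y = 0 := Iff.rfl

/-- membership in the named subgroups -/
scoped macro "msimp" loc:(Lean.Parser.Tactic.location)? : tactic => `(tactic| simp only [SetLike.mem_coe, mem_sZ, mem_sW, mem_sV,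
  mem_sQ] $[$loc]?)

instance : (sZ (σ := σ)).Normal := ⟨fun x hx s => by msimp at *; usimp; simp only [hx, map_zero]; and_intros <;> ring⟩
instance : (sW (σ := σ)).Normal := ⟨fun x hx s => by msimp at *; usimp; simp only [hx, map_zero]; and_intros <;> ring⟩
instance : (sV (σ := σ)).Normal := ⟨fun x hx s => by msimp at *; usimp; simp only [hx, map_zero]; ring⟩
instance : (sQ (σ := σ)).Normal := ⟨fun x hx s => by msimp at *; usimp; simp only [hx, map_zero]; ring⟩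

theorem Z_le_W : sZ ≤ sW (σ := σ) := fun _ h => ⟨h.1, h.2.2⟩
theorem W_le_V : sW ≤ sV (σ := σ) := fun _ h => h.1
theorem W_le_Q : sW ≤ sQ (σ := σ) := fun _ h => h.2
theorem Z_le_V : sZ ≤ sV (σ := σ) := fun _ h => h.1
theorem Z_le_Q : sZ ≤ sQ (σ := σ) := fun _ h => h.2.2

theorem brk_a (g h : U σ) : ⁅g, h⁆.a = 0 := by usimp; ring
theorem brk_y (g h : U σ) : ⁅g, h⁆.y = 0 := by usimp; ring
theorem brk_b (g h : U σ) : ⁅g, h⁆.b = g.a * h.y - h.a * g.y := by usimp; ring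
theorem brk_x (g h : U σ) : ⁅g, h⁆.x = g.a * σ h.b + σ g.a * h.b - h.a * σ g.b - σ h.a * g.b + g.a * σ g.a * h.y -
    h.a * σ h.a * g.y := by usimp; ring
theorem brk_top (g h : U σ) : ⁅g, h⁆ ∈ sW := ⟨brk_a g h, brk_y g h⟩

theorem brk_W (g : U σ) (hh : h ∈ sW) : ⁅g, h⁆ ∈ sZ := ⟨brk_a g h, by rw [brk_b, hh.1, hh.2]; simp, brk_y g h⟩

theorem brk_x_W (g : U σ) (hh : h ∈ sW) : ⁅g, h⁆.x = g.a * σ h.b + σ g.a * h.b := by rw [brk_x, hh.1, hh.2]; simp

theorem brk_x_V (g : U σ) (hh : h ∈ sV) : ⁅g, h⁆.x = g.a * σ h.b + σ g.a * h.b + g.a * σ g.a * h.y := by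
  rw [brk_x, mem_sV.1 hh]; simp

theorem brk_Q (hg : g ∈ sQ) (hh : h ∈ sQ) : ⁅g, h⁆ ∈ sZ ∧ ⁅g, h⁆.x = g.a * σ h.b + σ g.a * h.b - h.a * σ g.b - σ h.a * g.b :=
  ⟨⟨brk_a g h, by rw [brk_b, mem_sQ.1 hg, mem_sQ.1 hh]; simp, brk_y g h⟩, by rw [brk_x, mem_sQ.1 hg, mem_sQ.1 hh]; simp⟩

theorem cj_a (s g : U σ) : (cj s g).a = g.a := by usimp; ring
theorem cj_y (s g : U σ) : (cj s g).y = g.y := by usimp; ring
theorem cj_b (s g : U σ) : (cj s g).b = g.b + s.a * g.y - g.a * s.y := by usimp; ring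
theorem cj_x_V (s : U σ) (hg : g ∈ sV) : (cj s g).x = g.x + s.a * σ g.b + σ s.a * g.b + s.a * σ s.a * g.y := by
  msimp at hg; usimp; simp only [hg, map_zero]; ring

theorem brk_symm {B : Subgroup (U σ)} (k : ⁅g, h⁆ ∈ B) : ⁅h, g⁆ ∈ B := commutatorElement_inv g h ▸ inv_mem k

theorem comm_iff : g * h = h * g ↔ ⁅g, h⁆ = 1 := commutatorElement_eq_one_iff_mul_comm.symm

theorem eq_one_of_Z (hg : g ∈ sZ) (e : g.x = 0) : g = 1 := U.ext hg.1 hg.2.1 e hg.2.2

theorem eq_of_Z (hg : g ∈ sZ) (hh : h ∈ sZ) (e : g.x = h.x) : g = h := by msimp at *; usimp; simp [hg, hh, e]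

theorem comm_Z (hg : g ∈ sZ) (h : U σ) : h * g = g * h := by
  msimp at hg; usimp; simp [hg, add_comm]

theorem comm_V (hg : g ∈ sV) (hh : h ∈ sV) : h * g = g * h := by
  msimp at *; usimp; simp [hg, hh, add_comm]

theorem comm_W (hh : h ∈ sW) : g * h = h * g ↔ g.a * σ h.b + σ g.a * h.b = 0 :=
  comm_iff.trans ⟨fun k => (brk_x_W g hh).symm.trans (by rw [k]; rfl), fun k => eq_one_of_Z (brk_W g hh) (by rw [brk_x_W g hh, k])⟩

/-- the trace form is nondegenerate -/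
theorem eq_zero_of_tr {a : K} (k : ∀ b, a * σ b + σ a * b = 0) : a = 0 :=
  neg_eq_zero.1 (lin_ind (σ := σ) (x := σ a) (y := -a) fun b => by linear_combination k b).2

/-- the trace form is onto the fixed field -/
theorem exists_tr {a x : K} (ha : a ≠ 0) (hx : σ x = x) : ∃ b, a * σ b + σ a * b = x :=
  ⟨τ σ * x / σ a, by
    have : σ a ≠ 0 := (map_ne_zero σ).2 ha
    rw [map_div₀, map_mul, τ_eq, hx, T.sq]; field_simp; ring⟩

/-- `[g, W] = Z` for `g ∉ V` -/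
theorem exists_brk_W (hg : g.a ≠ 0) {z : U σ} (hz : z ∈ sZ) : ∃ b, ⁅g, xb b⁆ = z :=
  let ⟨b, e⟩ := exists_tr hg z.hx
  ⟨b, eq_of_Z (brk_W g ⟨rfl, rfl⟩) hz ((brk_x_W g ⟨rfl, rfl⟩).trans e)⟩

theorem V_of_comm (k : ∀ b, g * xb b = xb b * g) : g ∈ sV := eq_zero_of_tr fun b => (comm_W (h := xb b) ⟨rfl, rfl⟩).1 (k b)

theorem isPGroup_U (p : ℕ) [Fact p.Prime] [CharP K p] : IsPGroup p (U σ) := by
  have key : ∀ (B : Subgroup (U σ)) (φ : U σ → K), (∀ x ∈ B, ∀ y ∈ B, φ (x * y) = φ x + φ y) → ∀ x ∈ B, φ (x ^ p) = 0 :=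
    fun B φ hφ x hx => by
      have h0 : φ 1 = 0 := by simpa using hφ 1 (one_mem _) 1 (one_mem _)
      have : ∀ n : ℕ, φ (x ^ n) = n * φ x := fun n => by
        induction n with
        | zero => simpa using h0
        | succ n ih => rw [pow_succ, hφ _ (pow_mem hx n) _ hx, ih]; push_cast; ring
      rw [this, CharP.cast_eq_zero, zero_mul]
  intro g
  have h1 : g ^ p ∈ sV := key ⊤ U.a (fun _ _ _ _ => rfl) g trivial
  refine ⟨2, ?_⟩
  rw [pow_two, pow_mul]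
  exact U.ext (pow_mem h1 p) (key sV U.b (fun x hx y _ => by rw [mul_b, mem_sV.1 hx]; simp) _ h1)
    (key sV U.x (fun x hx y _ => by rw [mul_x, mem_sV.1 hx]; simp) _ h1) (key ⊤ U.y (fun _ _ _ _ => rfl) _ trivial)

theorem isPGroup_top (p : ℕ) [Fact p.Prime] [CharP K p] : IsPGroup p (⊤ : Subgroup (U σ)) := (isPGroup_U p).to_subgroup _

/-- singular vectors of `V` (the transvections) -/
def Sing (g : U σ) : Prop := g.x * g.y = g.b * σ g.b

/-- the reflection normalising `V` -/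
@[simps] def wV (g : U σ) : U σ := ⟨0, -σ g.b, g.y, g.x, g.hy, g.hx⟩

/-- the opposite root group acting on `V` -/
@[simps] def tp (c : K) (g : U σ) : U σ := ⟨0, g.b + c * g.x, g.x, g.y + g.b * σ c + σ g.b * c + c * σ c * g.x, g.hx, by
  simp only [map_add, map_mul, T.sq, g.hx, g.hy]; ring⟩

/-- the reflection normalising `Q` -/
@[simps] def wQ (g : U σ) : U σ := ⟨g.b, -g.a, g.x - g.a * σ g.b - σ g.a * g.b, 0, by
  simp only [map_sub, map_mul, T.sq, g.hx]; ring, map_zero σ⟩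

/-- the inverse of `wQ` -/
@[simps] def wQ' (g : U σ) : U σ := ⟨-g.b, g.a, g.x - g.a * σ g.b - σ g.a * g.b, 0, by
  simp only [map_sub, map_mul, T.sq, g.hx]; ring, map_zero σ⟩

theorem isoOn_wV : IsoOn (sV (σ := σ)) sV wV wV :=
  have e : ∀ g ∈ sV (σ := σ), wV (wV g) = g := fun g hg => by ext <;> simp [mem_sV.1 hg, T.sq]
  ⟨fun x hx y hy => by
    usimp; simp only [wV_a, wV_b, wV_x, wV_y]; usimp; simp only [mem_sV.1 hx, mem_sV.1 hy, map_zero]; and_intros <;> ring,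
    fun _ _ => rfl, fun _ _ => rfl, e, e⟩

theorem isoOn_tp (c : K) : IsoOn (sV (σ := σ)) sV (tp c) (tp (-c)) :=
  ⟨fun x hx y hy => by
    usimp; simp only [tp_a, tp_b, tp_x, tp_y]; usimp; simp only [mem_sV.1 hx, mem_sV.1 hy, map_zero]; and_intros <;> ring,
    fun _ _ => rfl, fun _ _ => rfl, fun g hg => by ext <;> simp [mem_sV.1 hg, g.hx] <;> ring,
    fun g hg => by ext <;> simp [mem_sV.1 hg, g.hx] <;> ring⟩

theorem isoOn_wQ : IsoOn (sQ (σ := σ)) sQ wQ wQ' :=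
  ⟨fun x hx y hy => by
    usimp; simp only [wQ_a, wQ_b, wQ_x, wQ_y]; usimp; simp only [mem_sQ.1 hx, mem_sQ.1 hy, map_zero]; and_intros <;> ring,
    fun _ _ => rfl, fun _ _ => rfl, fun g hg => by ext <;> simp [mem_sQ.1 hg] <;> ring,
    fun g hg => by ext <;> simp [mem_sQ.1 hg] <;> ring⟩

/-- the central automorphism `x ↦ x + φ y` -/
def th (φ : K →+ K) (hφ : ∀ y, σ y = y → σ (φ y) = φ y) : MulAut (U σ) where
  toFun g := ⟨g.a, g.b, g.x + φ g.y, g.y, by rw [map_add, g.hx, hφ _ g.hy], g.hy⟩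
  invFun g := ⟨g.a, g.b, g.x - φ g.y, g.y, by rw [map_sub, g.hx, hφ _ g.hy], g.hy⟩
  left_inv g := by ext <;> simp
  right_inv g := by ext <;> simp
  map_mul' g h := by ext <;> simp only [mul_a, mul_b, mul_x, mul_y, map_add] <;> ring

section
variable (φ : K →+ K) (hφ : ∀ y, σ y = y → σ (φ y) = φ y) (g : U σ)
@[simp] theorem th_a : (th φ hφ g).a = g.a := rfl
@[simp] theorem th_b : (th φ hφ g).b = g.b := rfl
@[simp] theorem th_x : (th φ hφ g).x = g.x + φ g.y := rfl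
@[simp] theorem th_y : (th φ hφ g).y = g.y := rfl
end

variable [Finite K]

/-- diagonal times field automorphisms of `U σ` -/
def Dd (σ : K →+* K) : Subgroup (Dg K) where
  carrier := {d | σ d.m = d.m}
  one_mem' := by simp
  mul_mem' {a b} ha hb := by
    simp only [Set.mem_ofPred_eq, Dg.mul_m, Units.val_mul, ru_val, map_mul, ← map_σ] at *
    rw [ha, hb]
  inv_mem' {a} ha := by
    change σ (a.ρ⁻¹ ((a.m⁻¹ : Kˣ) : K)) = a.ρ⁻¹ ((a.m⁻¹ : Kˣ) : K)
    rw [← map_σ, Units.val_inv_eq_inv_val, map_inv₀ σ, ha]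

theorem σm (d : Dd σ) : σ d.1.m = d.1.m := d.2

/-- the action of `Dd σ` on the coordinates -/
@[simps] def ddf (d : Dd σ) (g : U σ) : U σ :=
  ⟨d.1.l * d.1.ρ g.a, d.1.l * d.1.m * d.1.ρ g.b, d.1.l * σ d.1.l * d.1.m * d.1.ρ g.x, d.1.m * d.1.ρ g.y, by
    simp only [map_mul, ← map_σ, T.sq, σm, g.hx]; ring, by simp only [map_mul, ← map_σ, σm, g.hy]⟩

theorem ddf_mul (x y : Dd σ) (g : U σ) : ddf (x * y) g = ddf x (ddf y g) := by
  ext <;> simp [map_σ] <;> ring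

theorem ddf_one (g : U σ) : ddf 1 g = g := by ext <;> simp

/-- diagonal times field automorphisms -/
def dd : Dd σ →* MulAut (U σ) := MonoidHom.mk' (fun x =>
  { toFun := ddf x
    invFun := ddf x⁻¹
    left_inv := fun g => by rw [← ddf_mul, inv_mul_cancel, ddf_one]
    right_inv := fun g => by rw [← ddf_mul, mul_inv_cancel, ddf_one]
    map_mul' := fun g h => by
      ext <;> simp only [mul_a, mul_b, mul_x, mul_y, ddf_a, ddf_b, ddf_x, ddf_y, map_add, map_sub, map_mul,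
        map_σ, T.sq, σm] <;> ring }) fun x y => MulEquiv.ext (ddf_mul x y)

section
variable (d : Dd σ) (g : U σ)

@[simp] theorem dd_a : (dd d g).a = d.1.l * d.1.ρ g.a := rfl
@[simp] theorem dd_b : (dd d g).b = d.1.l * d.1.m * d.1.ρ g.b := rfl
@[simp] theorem dd_x : (dd d g).x = d.1.l * σ d.1.l * d.1.m * d.1.ρ g.x := rfl
@[simp] theorem dd_y : (dd d g).y = d.1.m * d.1.ρ g.y := rfl

variable {g}

theorem dd_Z (h : g ∈ sZ) : dd d g ∈ sZ := by msimp at *; simp [h]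
theorem dd_W (h : g ∈ sW) : dd d g ∈ sW := by msimp at *; simp [h]
theorem dd_V (h : g ∈ sV) : dd d g ∈ sV := by msimp at *; simp [h]
theorem dd_Q (h : g ∈ sQ) : dd d g ∈ sQ := by msimp at *; simp [h]

theorem dd_sing (h : Sing g) : Sing (dd d g) := by
  have := congrArg d.1.ρ h
  simp only [Sing, dd_x, dd_y, dd_b, map_mul, map_σ, σm] at *
  linear_combination (d.1.l * σ d.1.l * d.1.m ^ 2) * this

end

/-- the diagonal matrix `(s, t, σt⁻¹, σs⁻¹)`; it lies in `SU₄(q)` iff `σ (s t) = s t` -/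
def ts (σ : K →+* K) [Un σ] (s t : Kˣ) : Dd σ := ⟨⟨s * t⁻¹, t * σu σ t, 1⟩, by
  change σ (t * σ t) = t * σ t
  rw [map_mul, Un.sq, mul_comm]⟩

@[simp] theorem ts_l (s t : Kˣ) : (ts σ s t).1.l = s * t⁻¹ := rfl
@[simp] theorem ts_m (s t : Kˣ) : (ts σ s t).1.m = t * σu σ t := rfl
@[simp] theorem ts_ρ (s t : Kˣ) : (ts σ s t).1.ρ = 1 := rfl

theorem ts_mul (s t s' t' : Kˣ) : ts σ s t * ts σ s' t' = ts σ (s * s') (t * t') :=
  Subtype.ext (Dg.ext (Units.ext (by simp; ring)) (Units.ext (by simp; ring)) (mul_one _))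

theorem cj_sing (s : U σ) (hg : g ∈ sV) (h : Sing g) : Sing (cj s g) := by
  simp only [Sing, cj_x_V s hg, cj_y, cj_b, mem_sV.1 hg, map_add, map_mul, g.hy, zero_mul, sub_zero] at *
  linear_combination h

variable {F : FusionSystem (⊤ : Subgroup (U σ))}

/-- `f` is an `F`-automorphism of `P` -/
def AF (F : FusionSystem (⊤ : Subgroup (U σ))) (P : Subgroup (U σ)) (f : U σ → U σ) : Prop := Mor F P f ∧ ∀ x ∈ P, f x ∈ P

/-- an element of `Z` is conjugate into `W ∖ Z` (only for `q = 2`, the case `A₈`) -/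
def NT (F : FusionSystem (⊤ : Subgroup (U σ))) : Prop := ∃ f, AF F sV f ∧ ∃ z ∈ sZ, f z ∈ sW ∧ f z ∉ sZ

/-- `Aut_F(V)` preserves the singular vectors -/
def SP (F : FusionSystem (⊤ : Subgroup (U σ))) : Prop := ∀ f, AF F sV f → ∀ v ∈ sV, Sing v → Sing (f v)

/-- `Aut_F(V)` is in standard position and contains `Ω₄⁻(q)` -/
def VStd (F : FusionSystem (⊤ : Subgroup (U σ))) : Prop := SP F ∧ ∀ c, Mor F sV (tp c)

/-- the `Aut_F(Q)`-conjugates of `W` are the `K`-lines of `Q / Z` of `SU₂(q)` -/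
def PtQ (F : FusionSystem (⊤ : Subgroup (U σ))) : Prop :=
  ∀ f, AF F sQ f → (∀ w ∈ sW, f w ∈ sW) ∨ ∃ m, σ m = m ∧ ∀ w ∈ sW, (f w).b = m * (f w).a

/-- the automorphisms of `S` in `F` are in standard position -/
def Std (F : FusionSystem (⊤ : Subgroup (U σ))) : Prop := ∀ f, Mor F ⊤ f → ∃ u d, ∀ g, f g = cj u (dd d g)

/-- the diagonal automorphisms in `F` -/
def DF (F : FusionSystem (⊤ : Subgroup (U σ))) : Subgroup (Dd σ) where
  carrier := {x | Mor F ⊤ (dd (σ := σ) x)}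
  one_mem' := (mor_id F le_rfl).congr fun g _ => by simp
  mul_mem' {x y} hx hy := (Mor.comp hx hy fun _ _ => trivial).congr fun g _ => by simp
  inv_mem' {x} hx := (Mor.of_leftInv hx fun g _ => by simp).mono (Mor.img_top hx).ge

theorem mem_DF {x : Dd σ} : x ∈ DF F ↔ Mor F ⊤ (dd (σ := σ) x) := Iff.rfl

theorem Std.dd_mem (hS : Std F) {k : U σ → U σ} (hk : Mor F ⊤ k) : ∃ u, ∃ x ∈ DF F, ∀ g, k g = cj u (dd x g) :=
  let ⟨u, x, hu⟩ := hS k hk
  ⟨u, x, (hk.cj_comp (s := u⁻¹) trivial).congr fun g _ => by rw [Function.comp, hu, cj_inv_cj], hu⟩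

/-- conjugation by `xa a` on `V` -/
def tv (a : K) : MulAut (sV (σ := σ)) := cjAut sV (xa a) (le_normalizer_of_normal (mem_top _))

theorem tv_coe (a : K) (v : sV (σ := σ)) : (tv a v : U σ) = cj (xa a) v := rfl

/-- `Aut_S(V)` -/
abbrev Tv (σ : K →+* K) [Un σ] : Subgroup (MulAut (sV (σ := σ))) := autInducedBy ⊤ sV

/-- a group of automorphisms of `V` with Sylow subgroup `Aut_S(V)` in which no element of `Z` is conjugate into `W ∖ Z` -/
structure VG (p : ℕ) (G : Subgroup (MulAut (sV (σ := σ)))) : Prop where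
  syl : SylIn p (Tv σ) G
  nt : ∀ g ∈ G, ∀ z : sV (σ := σ), z.1 ∈ sZ → (g z).1 ∈ sW → (g z).1 ∈ sZ

/-- a group with Sylow subgroup `U σ`, the two reflections, and an action of `Dd σ` -/
structure Md (σ : K →+* K) [Un σ] (p : ℕ) (G : Type*) [Group G] where
  u : U σ →* G
  inj : Function.Injective u
  idx : ¬ p ∣ u.range.index
  n1 : G
  n2 : G
  n1u : ∀ g ∈ sV, n1 * u g * n1⁻¹ = u (wV g)
  n2u : ∀ g ∈ sQ, n2 * u g * n2⁻¹ = u (wQ g)
  φ : Dd σ →* MulAut G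
  φu : ∀ x g, φ x (u g) = u (dd x g)
  nrm : ∀ x ∈ normalizer (u.range : Set G), ∃ v, ∃ s t : Kˣ, σ (s * t) = s * t ∧ ∀ g, x * u g * x⁻¹ = u (cj v (dd (ts σ s t) g))
  sing : ∀ x : G, ∀ g ∈ sV, ∀ g' ∈ sV, x * u g * x⁻¹ = u g' → Sing g → Sing g'

end CL.U4
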