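/-
S5210: essential subgroups inside `V` or `Q`, or containing `W`.
-/
import Cfsg.Agent.FUS.U4.Defs
import Cfsg.Agent.FUS.U5.Pair

set_option autoImplicit false
set_option linter.unusedSimpArgs false
set_option linter.unusedSectionVars false
set_option linter.unusedVariables false

namespace CL.U4

open CL.Fus CL.RF4 Subgroup Cfsg Cfsg.FusionSystem U CL.U5.Un
open CL.U5 (Un Dg ru σu ru_val σu_val map_σ Cp Qd Pr)
open scoped commutatorElement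

variable {K : Type*} [Field K] [Finite K] {σ : K →+* K} [T : Un σ] {p : ℕ} [Fact p.Prime] [CharP K p]
  {F F' : FusionSystem (⊤ : Subgroup (U σ))} {E : Subgroup (U σ)} {A : Set (U σ → U σ)}

/-- `V ⋊ T_{a F}` -/
def Ka (a : K) : Subgroup (U σ) where
  carrier := {g | ∃ c, σ c = c ∧ g.a = a * c}
  one_mem' := ⟨0, map_zero σ, by simp⟩
  mul_mem' := by
    rintro g h ⟨c, hc, e⟩ ⟨c', hc', e'⟩
    exact ⟨c + c', by rw [map_add, hc, hc'], by rw [mul_a, e, e', mul_add]⟩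
  inv_mem' := by
    rintro g ⟨c, hc, e⟩
    exact ⟨-c, by rw [map_neg, hc], by rw [inv_a, e, mul_neg]⟩

theorem mem_Ka {a : K} {g : U σ} : g ∈ Ka a ↔ ∃ c, σ c = c ∧ g.a = a * c := Iff.rfl

theorem Z_le (h : Cp ⊤ E A) : sZ ≤ E := fun _ hz => h.mem1 trivial fun y _ => (comm_Z hz y).symm

namespace EsA

omit [Finite K] in
theorem σδ : σ (θ σ - σ (θ σ)) = -(θ σ - σ (θ σ)) := by rw [map_sub, T.sq, neg_sub]

omit [Finite K] in
theorem xbW (b : K) : xb b ∈ sW (σ := σ) := ⟨rfl, rfl⟩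

theorem not_ZW (h : Cp ⊤ E A) (hW : sW ≤ E) (iZ : Ivs E A sZ) (iW : Ivs E A sW) : False :=
  h.ne fun s _ => h.mem3 trivial iZ iW (fun y _ hy => comm_Z hy s) (fun y _ hy => brk_W s hy) le_rfl hW fun y _ => brk_top s y

omit [Finite K] in
theorem Zn_W (hW : sW ≤ E) {g m : U σ} (hg : g ∈ E) (ha : g.a ≠ 0) (hm : m ∈ Zn E) :
    m ∈ sW ∧ ∀ x ∈ E, x.a * σ m.b + σ x.a * m.b = 0 := by
  have h1 : m.a = 0 := V_of_comm fun b => hm.2 _ (hW (xbW b))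
  have h2 := brk_b m g
  rw [comm_iff.1 (hm.2 g hg), h1] at h2
  have h3 : m ∈ sW := ⟨h1, by simpa [ha] using h2⟩
  exact ⟨h3, fun x hx => (comm_W h3).1 (hm.2 x hx).symm⟩

omit [Finite K] in
theorem mem_Zn' (hW : sW ≤ E) {a : K} (hK : E ≤ Ka a) {m : U σ} (hm : m ∈ sW) (e : a * σ m.b + σ a * m.b = 0) : m ∈ Zn E :=
  ⟨hW hm, fun x hx => by
    obtain ⟨c, hc, k⟩ := hK hx
    exact ((comm_W hm).2 (by rw [k, map_mul, hc]; linear_combination c * e)).symm⟩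

omit [Finite K] in
theorem brk_Ka {a : K} {x y : U σ} (hx : x ∈ Ka a) (hy : y ∈ Ka a) : ∃ c, σ c = c ∧ ⁅x, y⁆.b = a * c := by
  obtain ⟨c, hc, e⟩ := hx
  obtain ⟨c', hc', e'⟩ := hy
  exact ⟨c * y.y - c' * x.y, by rw [map_sub, map_mul, map_mul, hc, hc', x.hy, y.hy], by rw [brk_b, e, e']; ring⟩

end EsA

open EsA

theorem essV (h : Cp ⊤ E A) (h1 : E ≤ sV) : E = sV :=
  le_antisymm h1 fun g hg => h.mem1 trivial fun y hy => (comm_V hg (h1 hy)).symm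

/-- If `Q ≰ E`: `pair` with `B = Q`, `Z = Z`, `N = ⊥` gives `w = ψ z ∈ Z(E) ∖ Z` with `C_Q(w) ≤ E` (`U5.Pr.cent` in `U5/EsA`). Then every element of `Z` is a commutator in `E`, so `Z` is invariant (`iv_brk`, `brk_Q`), absurd:
if `w.a ≠ 0`, `E ∋ xb (w.a (θ - σ θ))` and `el a b'` for every `a` (`exists_tr`); if `w.a = 0`, `E ≥ W` and `E ∋ xa (w.b (θ - σ θ))`, `exists_brk_W`. -/
theorem essQ (h : Cp ⊤ E A) (h1 : E ≤ sQ) : E = sQ := by
  have hZ := Z_le h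
  refine le_antisymm h1 (by_contra fun hn => ?_)
  have q : Qd ⊤ E A sQ sZ ⊥ := ⟨le_top, hn, hZ, fun y _ z hz => Normal.conj_mem inferInstance z hz y, bot_le, h.iv_bot,
    fun b hb y hy => (brk_Q hb (h1 hy)).1, fun b _ z hz => mem_bot.2 (comm_iff.1 (comm_Z hz b)),
    fun b _ n hn => by simp [mem_bot.1 hn]⟩
  obtain ⟨ψ, hψ, pr⟩ := h.pair _ _ _ q
  obtain ⟨z, hz, hw⟩ := pr.1
  have hC : ∀ b ∈ sQ, b * ψ z = ψ z * b → b ∈ E := fun b hb e => pr.2 z hz hw b hb 1 (one_mem _)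
    (by rw [(h.hom ψ hψ).map_one]; exact comm_iff.1 e)
  have w1 := h1 (h.maps ψ hψ z (hZ hz))
  obtain ⟨x, hx, y, hy, rfl⟩ : ∃ x ∈ E, ∃ y ∈ E, ⁅x, y⁆ = z := by
    generalize ψ z = w at hC w1 hw
    by_cases hwa : w.a = 0
    · have ne : w.b * (θ σ - σ (θ σ)) ≠ 0 := mul_ne_zero (fun e => hw ⟨hwa, e, w1⟩) (θ_sub σ)
      obtain ⟨b, hb⟩ := exists_brk_W (g := xa _) ne hz
      exact ⟨_, hC _ rfl ((comm_W ⟨hwa, w1⟩).2 (by rw [xa_a, map_mul, σδ]; ring)), _,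
        hC _ rfl (comm_V hwa rfl), hb⟩
    have ne : w.a * (θ σ - σ (θ σ)) ≠ 0 := mul_ne_zero hwa (θ_sub σ)
    obtain ⟨a, ha⟩ := exists_tr ne z.hx
    obtain ⟨b, hb⟩ := exists_tr (σ := σ) (x := a * σ w.b + σ a * w.b) hwa (by rw [map_add, map_mul, map_mul, T.sq, T.sq, add_comm])
    refine ⟨el a b, hC _ rfl (comm_iff.2 (eq_one_of_Z (brk_Q rfl w1).1 ?_)), xb (w.a * (θ σ - σ (θ σ))),
      hC _ rfl ((comm_W (xbW _)).2 (by rw [xb_b, map_mul, σδ]; ring)).symm, eq_of_Z (brk_W _ (xbW _)) hz ?_⟩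
    · rw [(brk_Q (g := el a b) rfl w1).2, el_a, el_b]
      linear_combination -hb
    · rw [brk_x_W _ (xbW _), el_a, xb_b]
      linear_combination ha
  rw [(h.hom ψ hψ).map_commutator hx hy] at hw
  exact hw (brk_Q (h1 (h.maps ψ hψ x hx)) (h1 (h.maps ψ hψ y hy))).1

/-- `W ≤ E ≰ Q`, `g, g' ∈ E` with `F`-independent `a`-coordinates. `Z(E) = Z` (`V_of_comm`, `brk_b`, `comm_W`, `eq_zero_of_tr` with `decomp` of `b / g.a`), `{h ∈ E | [h, E] ≤ Z} = W` (`brk_b`), so `mem3`/`f1` puts every `s` in `E`, against `h.ne`. -/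
theorem essC1 (h : Cp ⊤ E A) (hW : sW ≤ E) (hQ : ¬ E ≤ sQ) {g : U σ} (hg : g ∈ E) (ha : g.a ≠ 0) : E ≤ Ka g.a := by
  refine fun g' hg' => by_contra fun hn => ?_
  obtain ⟨e, he, ey⟩ := SetLike.not_le_iff_exists.1 hQ
  have iZ : Ivs E A sZ := h.iv_Zn.congr (fun m hm => ⟨fun k => by
    obtain ⟨k1, k2⟩ := Zn_W hW hg ha k
    refine ⟨k1.1, by_contra fun hb => hn ⟨g'.a / g.a, ?_, by field_simp⟩, k1.2⟩
    rw [map_div₀, div_eq_div_iff ((map_ne_zero σ).2 ha) ha]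
    refine mul_left_cancel₀ hb ?_
    linear_combination g.a * k2 g' hg' - g'.a * k2 g hg, fun k => ⟨hm, fun y _ => (comm_Z k y).symm⟩⟩) h.toAu
  refine not_ZW h hW iZ ((h.iv_comm h.iv_self iZ).congr (fun m hm => ⟨fun k => ?_, fun k x _ _ => brk_symm (brk_W x k)⟩) h.toAu)
  have k' : ∀ x ∈ E, m.a * x.y = x.a * m.y := fun x hx => sub_eq_zero.1 ((brk_b m x).symm.trans (k x hx hx).2.1)
  have my : m.y = 0 := by_contra fun my => by
    have gy : g.y ≠ 0 := fun e => by simpa [e, ha, my] using k' g hg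
    refine hn ⟨g'.y / g.y, by rw [map_div₀, g.hy, g'.hy], ?_⟩
    rw [mul_div_assoc', eq_div_iff gy]
    refine mul_left_cancel₀ my ?_
    linear_combination g'.y * k' g hg - g.y * k' g' hg'
  exact ⟨by simpa [my, show e.y ≠ 0 from ey] using k' e he, my⟩

/-- `p` odd. `Z(E) = U_a = {w ∈ W | Tr(a σ b) = 0}`, commutators have `b ∈ a F`, so `Z = {commutators} ∩ Z(E)` is invariant. `s = xa (a (θ - σ θ))` stabilises `1 < Z < U_a < E` (`mem3`), so `s ∈ E ≤ Ka a`, false. -/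
theorem essC2 (h2 : (2 : K) ≠ 0) (h : Cp ⊤ E A) (hW : sW ≤ E) {g : U σ} (hg : g ∈ E) (ha : g.a ≠ 0) (hK : E ≤ Ka g.a) : False := by
  have iZ : Ivs E A sZ := ((h.iv_brk h.iv_self h.iv_self).inter h.iv_Zn).congr (fun m hm => ⟨by
    rintro ⟨⟨x, hx, -, y, hy, -, rfl⟩, k⟩
    obtain ⟨c, hc, e⟩ := brk_Ka (hK hx) (hK hy)
    have := (Zn_W hW hg ha k).2 g hg
    rw [e, map_mul, hc] at this
    have c0 : c = 0 := mul_left_cancel₀ (mul_ne_zero h2 (mul_ne_zero ha ((map_ne_zero σ).2 ha)))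
      (by linear_combination this)
    exact ⟨brk_a x y, by rw [e, c0, mul_zero], brk_y x y⟩, fun k =>
      let ⟨b, e⟩ := exists_brk_W ha k
      ⟨⟨g, hg, hg, _, hW (xbW b), hW (xbW b), e.symm⟩, hm, fun y _ => (comm_Z k y).symm⟩⟩) h.toAu
  obtain ⟨c, hc, e⟩ := hK (h.mem3 (g := xa (g.a * (θ σ - σ (θ σ)))) trivial iZ h.iv_Zn (fun y _ hy => comm_Z hy _)
    (fun y _ hy => brk_W _ (Zn_W hW hg ha hy).1) le_rfl (fun _ k => k.1) fun y hy => mem_Zn' hW hK (brk_top _ y) (by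
      simp only [brk_b, xa_a, xa_y, mul_zero, sub_zero, map_mul, σδ, y.hy]; ring))
  rw [← mul_left_cancel₀ ha e, σδ] at hc
  exact θ_sub σ (mul_left_cancel₀ h2 (by linear_combination -hc))

/-- `p = 2`. `Z(E) = U_a = {w ∈ W | b ∈ a F}`, `[Ka a, E] ≤ U_a`, `mem2` gives `E = Ka a`. `V = {v ∈ E | ¬ ∀ z ∈ Z(E), ∃ h ∈ E, [v, h] = z}` is invariant.
If `Z` were invariant so would be `W = {v ∈ V | [v, E] ≤ Z}`, and every `s` stabilises `1 < Z < W < E`, against `h.ne`. So some `α z ∈ Z(E) ∖ Z`. -/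
theorem essC3 (h2 : (2 : K) = 0) (h : Cp ⊤ E A) (hW : sW ≤ E) {g : U σ} (hg : g ∈ E) (ha : g.a ≠ 0) (hK : E ≤ Ka g.a) :
    E = Ka g.a ∧ Ivs E A sV ∧ ∃ α ∈ A, ∃ z ∈ sZ, α z ∈ sW ∧ α z ∉ sZ := by
  have hE : E = Ka g.a := le_antisymm hK fun k hk => h.mem2 trivial h.iv_Zn (fun y _ hy => by
    obtain ⟨c, hc, e⟩ := hk
    obtain ⟨k1, k2⟩ := Zn_W hW hg ha hy
    exact (comm_W k1).2 (by rw [e, map_mul, hc]; linear_combination c * k2 g hg)) le_rfl (fun _ k => k.1) fun y hy => by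
      obtain ⟨c, hc, e⟩ := brk_Ka hk (hK hy)
      exact mem_Zn' hW hK (brk_top k y) (by rw [e, map_mul, hc]; linear_combination g.a * σ g.a * c * h2)
  have hV : sV ≤ E := fun v hv => hE.ge ⟨0, map_zero σ, by rw [mem_sV.1 hv, mul_zero]⟩
  have iX : Iv E A {v | ∀ z ∈ Zn E, ∃ x ∈ E, ⁅v, x⁆ = z} := fun α hα v hv k z hz => by
    obtain ⟨z, -, hz', rfl⟩ := h.surj' h.iv_Zn hα hz.1 hz
    obtain ⟨x, hx, rfl⟩ := k z hz'
    exact ⟨_, h.maps α hα x hx, ((h.hom α hα).map_commutator hv hx).symm⟩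
  have iV : Ivs E A sV := (h.iv_compl iX).congr (fun v hv => ⟨fun k => by_contra fun va => k fun z hz => by
    obtain ⟨k1, k2⟩ := Zn_W hW hg ha hz
    have va' := (map_ne_zero σ).2 va
    have hy : σ (z.b / v.a) = z.b / v.a := by
      rw [map_div₀, div_eq_div_iff va' va]
      linear_combination k2 v hv - σ v.a * z.b * h2
    obtain ⟨b, hb⟩ := exists_tr (x := z.x - v.a * σ v.a * (z.b / v.a)) va (by
      rw [map_sub, map_mul, map_mul, hy, T.sq, z.hx]; ring)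
    refine ⟨⟨0, b, 0, _, map_zero σ, hy⟩, hV rfl, U.ext ((brk_a _ _).trans k1.1.symm) ?_ ?_ ((brk_y _ _).trans k1.2.symm)⟩
    · rw [brk_b, zero_mul, sub_zero]
      exact mul_div_cancel₀ _ va
    · rw [brk_x_V _ (by rfl)]
      linear_combination hb, fun va k => by
    by_cases vy : v.y = 0
    · obtain ⟨x, -, e⟩ := k (xb g.a) (mem_Zn' hW hK (xbW _) (by rw [xb_b]; linear_combination g.a * σ g.a * h2))
      have := brk_b v x
      rw [e, mem_sV.1 va, vy] at this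
      exact ha (by simpa using this)
    · obtain ⟨x, -, e⟩ := k (zx 1 (map_one σ)) (mem_Zn' hW hK ⟨rfl, rfl⟩ (by simp))
      have := brk_b v x
      rw [e, mem_sV.1 va] at this
      rw [comm_iff.1 (comm_V (show x.a = 0 by simpa [vy] using this) va)] at e
      exact zero_ne_one (congrArg U.x e)⟩) h.toAu
  refine ⟨hE, iV, by_contra fun n => ?_⟩
  have iZ : Ivs E A sZ := fun α hα z hz k => by_contra fun k' =>
    n ⟨α, hα, z, k, (Zn_W hW hg ha (h.iv_Zn α hα z hz ⟨hz, fun y _ => (comm_Z k y).symm⟩)).1, k'⟩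
  refine not_ZW h hW iZ ((iV.inter (h.iv_comm h.iv_self iZ)).congr (fun m hm => ⟨fun k => ⟨k.1, ?_⟩,
    fun k => ⟨k.1, fun x _ _ => brk_symm (brk_W x k)⟩⟩) h.toAu)
  have := (brk_b m g).symm.trans (k.2 g hg hg).2.1
  rw [mem_sV.1 k.1] at this
  simpa [ha] using this

end CL.U4
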