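/-
S5210: the field `K` and its fixed field `F`; `q = Nat.card (Fix σ)`.
-/
import Cfsg.Agent.FUS.U4.Defs

set_option autoImplicit false
set_option linter.unusedSimpArgs false
set_option linter.unusedSectionVars false
set_option linter.unusedVariables false

namespace CL.U4

open CL.Fus CL.RF4 Subgroup Cfsg Cfsg.FusionSystem U CL.U5.Un
open CL.U5 (Un Dg ru σu ru_val σu_val map_σ Cp Qd Pr)
open scoped commutatorElement

variable {K : Type*} [Field K] [Finite K] {σ : K →+* K} [T : Un σ] {p : ℕ} [Fact p.Prime] [CharP K p]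
  {F F' : FusionSystem (⊤ : Subgroup (U σ))}

/-- the fixed field -/
abbrev Fld.L (σ : K →+* K) : Subfield K := RingHom.eqLocusField σ (RingHom.id K)

theorem Fld.card_L : Nat.card (Fld.L σ) = Nat.card (Fix σ) := rfl

theorem Fld.two_le : 2 ≤ Nat.card (Fix σ) := Finite.one_lt_card (α := Fld.L σ)

theorem Fld.le_card {s : Set K} (h : ∀ x, σ x = x → x ∈ s) : Nat.card (Fix σ) ≤ s.ncard :=
  Set.ncard_le_ncard (s := {x | σ x = x}) h

/-- `(c, c') ↦ c + c' θ` is a bijection `Fix × Fix → K` (`decomp`). -/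
theorem card_K : Nat.card K = Nat.card (Fix σ) ^ 2 := by
  rw [pow_two, ← Nat.card_prod]
  refine (Nat.card_eq_of_bijective (fun t : Fix σ × Fix σ => t.1.1 + t.2.1 * θ σ) ⟨fun s t e => ?_, fun a => ?_⟩).symm
  · have e' := congrArg σ e
    simp only [map_add, map_mul, s.1.2, s.2.2, t.1.2, t.2.2] at e e'
    have e2 : s.2.1 = t.2.1 := mul_right_cancel₀ (θ_sub σ) (by linear_combination e - e')
    exact Prod.ext (Subtype.ext (by rw [e2] at e; exact add_right_cancel e)) (Subtype.ext e2)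
  · obtain ⟨c, c', h, h', e⟩ := decomp (σ := σ) a
    exact ⟨(⟨c, h⟩, ⟨c', h'⟩), e.symm⟩

/-- the fixed field is the subfield `RingHom.eqLocusField σ (RingHom.id K)`; `FiniteField.pow_card`. -/
theorem fix_pow {y : K} (h : σ y = y) : y ^ Nat.card (Fix σ) = y := by
  have := Fintype.ofFinite (Fld.L σ)
  have e := congrArg Subtype.val (FiniteField.pow_card (⟨y, h⟩ : Fld.L σ))
  rwa [← Nat.card_eq_fintype_card] at e

/-- `q` is a power of `p` (`FiniteField.card` for the subfield). -/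
theorem card_fix (p : ℕ) [Fact p.Prime] [CharP K p] : ∃ n, 0 < n ∧ Nat.card (Fix σ) = p ^ n := by
  have := Fintype.ofFinite (Fld.L σ)
  obtain ⟨n, -, e⟩ := FiniteField.card (Fld.L σ) p
  exact ⟨n, n.2, by rw [← e, ← Nat.card_eq_fintype_card]; rfl⟩

/-- `x ↦ x ^ q` is a ring homomorphism fixing `F`, so `θ ^ q` is a root of `(X - θ)(X - σ θ)`; if `θ ^ q = θ` all `q²` elements are roots of `X ^ q - X`. -/
theorem σ_pow (x : K) : σ x = x ^ Nat.card (Fix σ) := by
  obtain ⟨p, hp⟩ := CharP.exists K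
  have : Fact p.Prime := ⟨CharP.char_is_prime K p⟩
  obtain ⟨n, -, hn⟩ := card_fix (σ := σ) p
  have ad : ∀ x y : K, (x + y) ^ Nat.card (Fix σ) = x ^ Nat.card (Fix σ) + y ^ Nat.card (Fix σ) := fun x y => by
    rw [hn, add_pow_char_pow]
  have key : ∀ x, ∃ c c', x = c + c' * θ σ ∧ σ x = c + c' * σ (θ σ) ∧ x ^ Nat.card (Fix σ) = c + c' * θ σ ^ Nat.card (Fix σ) :=
    fun x => by
      obtain ⟨c, c', h, h', rfl⟩ := decomp (σ := σ) x
      exact ⟨c, c', rfl, by rw [map_add, map_mul, h, h'], by rw [ad, mul_pow, fix_pow h, fix_pow h']⟩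
  have e1 := fix_pow (σ := σ) (y := θ σ + σ (θ σ)) (by rw [map_add, T.sq, add_comm])
  have e2 := fix_pow (σ := σ) (y := θ σ * σ (θ σ)) (by rw [map_mul, T.sq, mul_comm])
  rw [ad] at e1
  rw [mul_pow] at e2
  have e3 : (θ σ ^ Nat.card (Fix σ) - θ σ) * (θ σ ^ Nat.card (Fix σ) - σ (θ σ)) = 0 := by
    linear_combination θ σ ^ Nat.card (Fix σ) * e1 - e2
  rcases mul_eq_zero.1 e3 with e | e
  · exfalso
    have := Fintype.ofFinite K
    have h2 := Fld.two_le (σ := σ)
    obtain ⟨m, hm⟩ := Nat.exists_eq_add_of_le' h2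
    have := Nat.le_of_dvd (by omega) ((FiniteField.forall_pow_eq_one_iff K (m + 1)).1 fun x => Units.ext (by
      obtain ⟨c, c', k1, -, k2⟩ := key x
      rw [sub_eq_zero.1 e, ← k1, hm, pow_succ] at k2
      exact mul_right_cancel₀ x.ne_zero (by rw [Units.val_pow_eq_pow_val, k2, Units.val_one, one_mul])))
    rw [← Nat.card_eq_fintype_card, card_K (σ := σ), hm] at this
    have e : (m + 2) ^ 2 = m * m + 4 * m + 4 := by ring
    omega
  · obtain ⟨c, c', -, k1, k2⟩ := key x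
    rw [k1, k2, sub_eq_zero.1 e]

/-- `s = t / σ t` with `t = θ` or `t = θ + 1`. -/
theorem exists_omega : ∃ s : K, s * σ s = 1 ∧ s ^ 2 ≠ 1 := by
  have key : ∀ t : K, σ t ≠ t → σ t + t ≠ 0 → ∃ s : K, s * σ s = 1 ∧ s ^ 2 ≠ 1 := fun t h1 h2 => by
    have t0 : t ≠ 0 := fun e => h1 (by rw [e, map_zero])
    have t1 : σ t ≠ 0 := (map_ne_zero σ).2 t0
    refine ⟨t / σ t, by rw [map_div₀, T.sq]; field_simp, fun e => mul_ne_zero (sub_ne_zero.2 h1) h2 ?_⟩
    rw [div_pow, div_eq_one_iff_eq (pow_ne_zero 2 t1)] at e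
    linear_combination -e
  by_cases h : σ (θ σ) + θ σ = 0
  · refine key (θ σ + 1) (by simpa using θ_ne σ) fun e => θ_ne σ ?_
    rw [map_add, map_one] at e
    linear_combination h - θ σ * (e - h)
  · exact key _ (θ_ne σ) h

/-- a subgroup of index `≤ p` of `(K, +)` contains an `F`-line. The `q + 1` lines... direct: `φ : K →+ ZMod p` with kernel in `B`; the additive map
`K → (Fix σ →+ ZMod p)`, `a ↦ (c ↦ φ (a c))` from a group of order `q²` to a group of order `q` has a nonzero kernel element. -/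
theorem exists_line (φ : K →+ ZMod p) : ∃ a : K, a ≠ 0 ∧ ∀ c, σ c = c → φ (a * c) = 0 := by
  by_contra! h
  letI := ZMod.algebra (Fld.L σ) p
  let f : K → Module.Dual (ZMod p) (Fld.L σ) := fun a => AddMonoidHom.toZModLinearMap p
    (φ.comp ((AddMonoidHom.mulLeft a).comp (Fld.L σ).subtype.toAddMonoidHom))
  have hf : Function.Injective f := fun a a' e => by_contra fun n => by
    obtain ⟨c, hc, k⟩ := h (a - a') (sub_ne_zero.2 n)
    rw [sub_mul, map_sub, sub_ne_zero] at k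
    exact k (LinearMap.congr_fun e ⟨c, hc⟩)
  have : Finite (Module.Dual (ZMod p) (Fld.L σ)) := Module.finite_of_finite (ZMod p)
  have := Nat.card_le_card_of_injective f hf
  rw [Module.natCard_eq_pow_finrank (K := ZMod p) (V := Module.Dual _ _), Subspace.dual_finrank_eq,
    ← Module.natCard_eq_pow_finrank] at this
  exact this.not_gt card_lt

/-- a derivation `F → K` vanishes: `δ (y ^ n) = n y ^ (n - 1) δ y`, `y ^ q = y`, `q = 0` in `K`. -/
theorem der_zero (δ : K → K) (h : ∀ y y', σ y = y → σ y' = y' → δ (y * y') = y' * δ y + y * δ y') {y : K} (hy : σ y = y) : δ y = 0 := by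
  obtain ⟨p, hp⟩ := CharP.exists K
  have : Fact p.Prime := ⟨CharP.char_is_prime K p⟩
  obtain ⟨n, n0, hn⟩ := card_fix (σ := σ) p
  have k : ∀ m : ℕ, δ (y ^ (m + 1)) = (m + 1 : ℕ) * y ^ m * δ y := fun m => by
    induction m with
    | zero => simp
    | succ m ih => rw [pow_succ, h _ _ (by rw [map_pow, hy]) hy, ih]; push_cast; ring
  obtain ⟨m, hm⟩ := Nat.exists_eq_add_of_le' (Nat.le_of_succ_le (Fld.two_le (σ := σ)))
  have := k m
  rwa [← hm, fix_pow hy, hn, Nat.cast_pow, CharP.cast_eq_zero, zero_pow n0.ne', zero_mul, zero_mul] at this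

/-- `F × Γ → K`, `(m, c) ↦ m + c` is injective, so `|Γ| ≤ q`. If `0 ≠ c ∈ Γ`, `Γ` contains the `(q² - 1) / k` elements `c l / σ l ^ 3`, `k` the order of the kernel
`{l | l = σ l ^ 3}` of `l ↦ l / σ l ^ 3` on `Kˣ`. In the kernel `σ l = l ^ 3`, `l ^ 8 = 1`, so `k ≤ 8`, enough for `q ≥ 9`. Otherwise `q = 5, 7` (`card_fix`, `p` odd), `l ^ (3 q - 1) = 1` (`σ_pow`), so `l ^ 4 = 1`, `k ≤ 4`. -/
theorem gam_zero (h2 : (2 : K) ≠ 0) (hq : 3 < Nat.card (Fix σ)) (Γ : Set K) (h1 : ∀ c ∈ Γ, ∀ l : K, l ≠ 0 → c * l / σ l ^ 3 ∈ Γ)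
    (h3 : ∀ c ∈ Γ, ∀ c' ∈ Γ, σ (c - c') = c - c' → c = c') : ∀ c ∈ Γ, c = 0 := by
  intro c hc
  by_contra c0
  have q2 := Fld.two_le (σ := σ)
  have c1 : Nat.card Γ ≤ Nat.card (Fix σ) := by
    have := Nat.card_le_card_of_injective (fun t : Fix σ × Γ => t.1.1 + t.2.1) fun s t e => by
      have e2 : s.2.1 = t.2.1 := h3 _ s.2.2 _ t.2.2 (by
        rw [show s.2.1 - t.2.1 = t.1.1 - s.1.1 by linear_combination e, map_sub, s.1.2, t.1.2])
      exact Prod.ext (Subtype.ext (by simpa [e2] using e)) (Subtype.ext e2)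
    rw [card_K (σ := σ), Nat.card_prod, pow_two] at this
    exact Nat.le_of_mul_le_mul_left this (by omega)
  let η : Kˣ →* Kˣ := MonoidHom.mk' (fun l => l / Units.map σ.toMonoidHom l ^ 3) fun a b => by
    rw [map_mul, mul_pow, mul_div_mul_comm]
  have ηv : ∀ l : Kˣ, (η l : K) = l / σ l ^ 3 := fun l => by simp [η]
  have c2 : Nat.card η.range ≤ Nat.card Γ := Nat.card_le_card_of_injective
    (fun u => ⟨c * u.1, by obtain ⟨_, l, rfl⟩ := u; rw [ηv, ← mul_div_assoc]; exact h1 c hc l l.ne_zero⟩)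
    fun u v e => Subtype.ext (Units.ext (mul_left_cancel₀ c0 (congrArg Subtype.val e)))
  have c3 := η.ker.index_mul_card
  rw [index_ker, Nat.card_units, card_K (σ := σ)] at c3
  have c4 : ∀ n : ℕ, n ≠ 0 → (∀ l : K, l = σ l ^ 3 → l ≠ 0 → l ^ n = 1) → Nat.card (Fix σ) ^ 2 - 1 ≤ Nat.card (Fix σ) * n :=
    fun n n0 k => by
      have : NeZero n := ⟨n0⟩
      have k1 : η.ker ≤ rootsOfUnity n K := fun l hl => (mem_rootsOfUnity' _ _).2 (k l (by
        have := ηv l
        rw [MonoidHom.mem_ker.1 hl, Units.val_one, eq_comm, div_eq_one_iff_eq (by simp)] at this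
        exact this) l.ne_zero)
      have k2 := card_rootsOfUnity K n
      rw [← c3]
      exact Nat.mul_le_mul (c2.trans c1) ((card_le_of_le k1).trans k2)
  have e8 : ∀ l : K, l = σ l ^ 3 → l ≠ 0 → l ^ 8 = 1 := fun l e l0 => by
    have e' := congrArg σ e
    rw [map_pow, T.sq] at e'
    rw [e'] at e
    exact mul_right_cancel₀ l0 (by linear_combination -e)
  have c5 := c4 8 (by omega) e8
  obtain ⟨p, hp⟩ := CharP.exists K
  have : Fact p.Prime := ⟨CharP.char_is_prime K p⟩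
  obtain ⟨n, n0, hn⟩ := card_fix (σ := σ) p
  have od : Nat.card (Fix σ) % 2 = 1 := by
    rw [hn]
    exact Nat.odd_iff.1 ((this.out.odd_of_ne_two fun e => h2 (by subst e; exact CharTwo.two_eq_zero)).pow)
  have c6 : Nat.card (Fix σ) ≤ 8 := by
    by_contra! k
    have : Nat.card (Fix σ) * 9 ≤ Nat.card (Fix σ) ^ 2 := pow_two (Nat.card (Fix σ)) ▸ Nat.mul_le_mul_left _ k
    omega
  have c7 := c4 4 (by omega) fun l e l0 => by
    have k := e8 l e l0
    rw [σ_pow] at e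
    obtain h | h : Nat.card (Fix σ) = 5 ∨ Nat.card (Fix σ) = 7 := by omega
    · rw [h] at e
      have : l ^ 2 = 1 := mul_right_cancel₀ (pow_ne_zero 7 l0) (by linear_combination l * k + e + l ^ 7 * k)
      linear_combination (l ^ 2 + 1) * this
    · rw [h] at e
      exact mul_right_cancel₀ l0 (by linear_combination -e - (l ^ 13 + l ^ 5) * k)
  obtain h | h : Nat.card (Fix σ) = 5 ∨ Nat.card (Fix σ) = 7 := by omega
  all_goals rw [h] at c7; omega

/-- an `F`-linear map `K → K` is `a ↦ m a + c σ a` (`decomp`; solve for the values at `1, θ`). -/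
theorem lin_form (φ : K → K) (h1 : ∀ a a', φ (a + a') = φ a + φ a') (h2 : ∀ c a, σ c = c → φ (c * a) = c * φ a) :
    ∃ m c, ∀ a, φ a = m * a + c * σ a := by
  refine ⟨(φ (θ σ) - φ 1 * σ (θ σ)) / (θ σ - σ (θ σ)), (φ 1 * θ σ - φ (θ σ)) / (θ σ - σ (θ σ)), fun a => ?_⟩
  obtain ⟨c, c', h, h', rfl⟩ := decomp (σ := σ) a
  have := θ_sub σ
  have e := h2 c 1 h
  rw [mul_one] at e
  rw [h1, h2 _ _ h', e, map_add, map_mul, h, h']
  field_simp
  ring

/-- `q > 3`: the polynomial `X³ - X` has at most three roots. -/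
theorem exists_sq_ne (hq : 3 < Nat.card (Fix σ)) : ∃ l : K, σ l = l ∧ l ≠ 0 ∧ l ^ 2 ≠ 1 := by
  by_contra! h
  have := Fld.le_card (σ := σ) (s := {0, 1, -1}) fun x hx => by
    by_cases x0 : x = 0
    · exact .inl x0
    · exact .inr (sq_eq_one_iff.1 (h x hx x0))
  have := (Set.ncard_insert_le (0 : K) {1, -1}).trans (Nat.add_le_add_right (Set.ncard_insert_le (1 : K) {-1}) 1)
  rw [Set.ncard_singleton] at this
  omega

theorem two_eq_zero_of_card (hq : Nat.card (Fix σ) = 2) : (2 : K) = 0 := by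
  have := fix_pow (σ := σ) (y := 2) (map_ofNat σ 2)
  rw [hq] at this
  linear_combination this

/-- `q ≠ 2`: some element of `F` is not `0, 1`. -/
theorem exists_ne_zero_one (hq : Nat.card (Fix σ) ≠ 2) : ∃ l : K, σ l = l ∧ l ≠ 0 ∧ l ≠ 1 := by
  by_contra! h
  have := Fld.le_card (σ := σ) (s := {0, 1}) fun x hx => or_iff_not_imp_left.2 (h x hx)
  rw [Set.ncard_pair zero_ne_one] at this
  exact hq (le_antisymm this Fld.two_le)

end CL.U4
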