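/-
S5210: essential subgroups not containing `W`.
-/
import Cfsg.Agent.FUS.U4.EsA
import Cfsg.Agent.FUS.U4.Fld

set_option autoImplicit false
set_option linter.unusedSimpArgs false
set_option linter.unusedSectionVars false
set_option linter.unusedVariables false

namespace CL.U4

open CL.Fus CL.RF4 Subgroup Cfsg Cfsg.FusionSystem U CL.U5.Un
open CL.U5 (Un Dg ru σu ru_val σu_val map_σ Cp Qd Pr)
open scoped commutatorElement

variable {K : Type*} [Field K] [Finite K] {σ : K →+* K} [T : Un σ] {p : ℕ} [Fact p.Prime] [CharP K p]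
  {F F' : FusionSystem (⊤ : Subgroup (U σ))} {E : Subgroup (U σ)} {A : Set (U σ → U σ)}

/-- the pair lemma for all maximal `ψ` outside the strongly embedded subgroup: copy the proof of `U5.cp_of_essential` with `Γ = Aut_F(E) ∖ H` (`hH.mem_of_conj_mem'` for the third clause). -/
theorem pair2 {Ω : Type*} [Group Ω] [Finite Ω] {S E B Z N : Subgroup Ω} {F : FusionSystem S} (hS : IsPGroup p S) (hF : F.IsSaturated p)
    (hE : F.IsEssential p E) (q : Qd S E (fa F E) B Z N) : ∃ Γ : Set (MulAut E), Γ.Nonempty ∧ (∀ ψ ∈ Γ, ψ ∈ F.autGroup E ∧ ψ⁻¹ ∈ Γ) ∧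
      (∀ ψ ∈ Γ, ∀ t ∈ S, ∀ ht : t ∈ normalizer (E : Set Ω), t ∉ E → ψ⁻¹ * cjAut E t ht * ψ ∈ Γ) ∧
      ∀ ψ ∈ Γ, (∀ γ ∈ Γ, {y | y ∈ Z ∧ autFun γ y ∈ Z}.ncard ≤ {y | y ∈ Z ∧ autFun ψ y ∈ Z}.ncard) → Pr E B Z (autFun ψ) := by
  have hES : E ≤ S := hE.1.1
  have hc := centralizerIn_le_of_isCentric hE.1
  obtain ⟨H, hH⟩ := exists_relSPE_of_essential hS hF hE
  have hT := sylIn_of_fullyNormalized hS hF hE.2.1
  have hI := autGroup_le_normalizer_inn F E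
  have hn : ∀ {b}, b ∈ B → b ∈ normalizer (E : Set Ω) := fun hb => mem_normalizer_of_comm fun y hy => q.ZE (q.bE _ hb y hy)
  have cT : ∀ {b} (hb : b ∈ B), cjAut E b (hn hb) ∈ autInducedBy S E := fun hb => cjAut_mem_autInducedBy (q.le hb) _
  have cI : ∀ {b} (hb : b ∈ B), b ∉ E → cjAut E b (hn hb) ∉ Inn E := fun hb k => mt (cjAut_mem_inn_iff hES hc (q.le hb) _).1 k
  have bZ : ∀ {b}, b ∈ B → ∀ z ∈ Z, cj b z ∈ Z := fun hb z hz => by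
    simpa [cj, commutatorElement_def] using mul_mem (q.NZ (q.bZ _ hb z hz)) hz
  refine ⟨{γ | γ ∈ F.autGroup E ∧ γ ∉ H}, SetLike.exists_of_lt hH.2.1, fun ψ k => ⟨k.1, inv_mem k.1, mt inv_mem_iff.1 k.2⟩,
    fun ψ k t ht hn' ht' => ⟨mul_mem (mul_mem (inv_mem k.1) (hT.le (cjAut_mem_autInducedBy ht _))) k.1, fun k' => k.2 (inv_mem_iff.1
      (hH.mem_of_conj_mem' hT hI (cjAut_mem_autInducedBy ht hn') (mt (cjAut_mem_inn_iff hES hc ht _).1 ht') (inv_mem k.1)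
        (by rwa [inv_inv])))⟩, ?_⟩
  rintro ψ ⟨hψ, hψ'⟩ mx
  refine ⟨?_, fun z hz hw b hb z' hz' e => ?_⟩
  · by_contra! k
    obtain ⟨b, hb, hb'⟩ := SetLike.not_le_iff_exists.1 q.nle
    set X := F.autGroup E ⊓ stabAut E Z
    have st : ∀ {α}, α ∈ F.autGroup E → (∀ z ∈ Z, autFun α z ∈ Z) → α ∈ X := fun {α} hα k => ⟨hα, fun y hy => ⟨fun k' =>
      autFun_inv_autFun α hy ▸ (au_fa F E).mem_of_inv (X := Z) ⟨α, hα, rfl⟩ (fun y hy => autFun_inv_autFun α hy) (fun y _ => k y)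
        (autFun_mem α hy) k', k y⟩⟩
    have iZ : Iv E {f | ∃ α ∈ X, f = autFun α} Z := by rintro _ ⟨γ, hγ, rfl⟩ y hy k; exact (hγ.2 y hy).2 k
    have iN : Iv E {f | ∃ α ∈ X, f = autFun α} N := q.iv.mono fun _ ⟨γ, hγ, e⟩ => ⟨γ, hγ.1, e⟩
    have h1 := mem_pCore_of_chain (hS.to_le hES) (st (hT.le (cT hb)) fun z hz => autFun_cjAut (hn hb) (q.ZE hz) ▸ bZ hb z hz) le_top
      (U5.stabStep p (hn hb) (((Ch.base (CxF.au_of X) iN fun y _ => q.bN b hb y).step iN iZ fun y _ => q.bZ b hb y).step iZ Iv.top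
        fun y hy _ => q.bE b hb y hy))
    refine hψ' (hH.mem_of_isPGroup_pair hT hI (cT hb) (cI hb hb') (cT hb) (cI hb hb') hψ
      ((CL.Fus.isPGroup_map_pCore X).to_le ((closure_le _).2 ?_)))
    rintro _ (rfl | rfl)
    exacts [h1, (mem_normalizer_iff.1 (le_normalizer_map_pCore X (st hψ k)) _).1 h1]
  by_contra hb'
  have ev : ∀ y ∈ E, autFun (ψ⁻¹ * cjAut E b⁻¹ (hn (inv_mem hb)) * ψ⁻¹⁻¹) y = autFun ψ⁻¹ (cj b⁻¹ (autFun ψ y)) := fun y hy => by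
    rw [inv_inv, autFun_mul _ _ hy, autFun_mul _ _ (autFun_mem ψ hy), autFun_cjAut _ (autFun_mem ψ hy)]
  have e1 : autFun ψ (z' * z) = cj b (autFun ψ z) := by
    rw [isHomOn_autFun ψ (q.ZE hz') (q.ZE hz), ← e]; simp [cj, commutatorElement_def]
  refine (mx _ ⟨mul_mem (mul_mem (inv_mem hψ) (hT.le (cT (inv_mem hb)))) (inv_mem (inv_mem hψ)), fun k => hψ' (inv_mem_iff.1
    (hH.mem_of_conj_mem' hT hI (cT (inv_mem hb)) (cI (inv_mem hb) (mt inv_mem_iff.1 hb')) (inv_mem hψ) k))⟩).not_gt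
    (Set.ncard_lt_ncard ⟨fun y ⟨hy, hy'⟩ => ⟨hy, ?_⟩, fun k => hw ?_⟩)
  · have k := q.bZ _ (inv_mem hb) _ hy'
    rw [ev y (q.ZE hy), show cj b⁻¹ (autFun ψ y) = ⁅b⁻¹, autFun ψ y⁆ * autFun ψ y by simp [cj, commutatorElement_def],
      isHomOn_autFun _ (q.ZE (q.NZ k)) (q.ZE hy'), autFun_inv_autFun ψ (q.ZE hy)]
    exact mul_mem (q.NZ (q.iv _ ⟨_, inv_mem hψ, rfl⟩ _ (q.ZE (q.NZ k)) k)) hy
  · have := (k (show z' * z ∈ {y | y ∈ Z ∧ _} from ⟨mul_mem hz' hz, by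
      rwa [ev _ (q.ZE (mul_mem hz' hz)), e1, cj_inv_cj, autFun_inv_autFun ψ (q.ZE hz)]⟩)).2
    simpa only [e1, cj_inv_cj] using bZ (inv_mem hb) _ this

namespace EsB

theorem cen (h : Cp ⊤ E A) {ψ : U σ → U σ} (hψ : ψ ∈ A) {z y : U σ} (hz : z ∈ sZ) (hy : y ∈ E) : y * ψ z = ψ z * y := by
  obtain ⟨x, hx, rfl⟩ := h.surj hψ hy
  rw [← h.hom ψ hψ hx (Z_le h hz), ← h.hom ψ hψ (Z_le h hz) hx, comm_Z hz]

theorem tr_d (a : K) : a * σ (a * (θ σ - σ (θ σ))) + σ a * (a * (θ σ - σ (θ σ))) = 0 := by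
  simp only [map_mul, map_sub, T.sq]; ring

end EsB
open EsB

/-- `Qd ⊤ E A W Z ⊥`. For `ψ` with `Pr`: `w = ψ z ∉ Z` is central in `E`, `E ⊓ W = C_W(w)`, so `a = w.a ≠ 0` and `b ↦ [w, xb b]` is onto `Z` (`exists_brk_W`); `[b, w] = ψ z'` forces `b ∈ E`, `[b, w] = 1`. Hence `Z ∩ ψ Z = 1`, every `ψ z`, `z ≠ 1`, is outside `V`
with the same centraliser `U_a = {Tr(a σ b) = 0}` in `W`, so `(ψ z).a ∈ a F`, and `z ↦ (ψ z).a / a` is a bijection `Z → F` (`card_sZ`-free: injective map `Fix → Fix`). -/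
theorem essB1 (h : Cp ⊤ E A) (hW : ¬ sW ≤ E) {ψ : U σ → U σ} (hψ : ψ ∈ A) (pr : Pr E sW sZ ψ) : ∃ a : K, a ≠ 0 ∧
    (∀ w ∈ sW, w ∈ E ↔ a * σ w.b + σ a * w.b = 0) ∧ (∀ z ∈ sZ, ψ z ∈ sV → z = 1) ∧ (∀ z ∈ sZ, ψ z ∈ Ka a) ∧
    ∀ c, σ c = c → ∃ z ∈ sZ, (ψ z).a = a * c := by
  have hom := h.hom ψ hψ
  have cA : ∀ z ∈ sZ, ψ z ∉ sZ → ∀ w ∈ sW, w ∈ E ↔ (ψ z).a * σ w.b + σ (ψ z).a * w.b = 0 := fun z hz hz' w hw =>
    ⟨fun k => (comm_W hw).1 (cen h hψ hz k).symm, fun k => pr.2 z hz hz' w hw 1 (one_mem _) (by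
      rw [hom.map_one]; exact comm_iff.1 ((comm_W hw).2 k).symm)⟩
  have cA' : ∀ z ∈ sZ, ψ z ∉ sZ → (ψ z).a ≠ 0 := fun z hz hz' k => hW fun w hw => (cA z hz hz' w hw).2 (by simp [k])
  obtain ⟨z0, hz0, hw0⟩ := pr.1
  have a0 := cA' z0 hz0 hw0
  have cB : ∀ z ∈ sZ, ψ z ∈ sZ → z = 1 := fun z hz hz' => by
    obtain ⟨b, e⟩ := exists_brk_W a0 (inv_mem hz')
    have e' : ⁅(xb b : U σ), ψ z0⁆ = ψ z := by rw [← commutatorElement_inv, e, inv_inv]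
    have k := pr.2 z0 hz0 hw0 (xb b) ⟨rfl, rfl⟩ z hz e'
    rw [comm_iff.1 (cen h hψ hz0 k)] at e'
    exact h.inj hψ (Z_le h hz) (one_mem _) (e'.symm.trans hom.map_one.symm)
  have cC : ∀ z ∈ sZ, ψ z ∈ sV → z = 1 := fun z hz k => cB z hz (by_contra fun k' => cA' z hz k' k)
  have s0 : σ (ψ z0).a ≠ 0 := (map_ne_zero σ).2 a0
  have cD : ∀ z ∈ sZ, σ ((ψ z).a / (ψ z0).a) = (ψ z).a / (ψ z0).a := fun z hz => by
    by_cases k : ψ z ∈ sZ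
    · simp [k.1]
    have k1 := (cA z hz k (xb ((ψ z0).a * (θ σ - σ (θ σ)))) ⟨rfl, rfl⟩).1
      ((cA z0 hz0 hw0 (xb ((ψ z0).a * (θ σ - σ (θ σ)))) ⟨rfl, rfl⟩).2 (tr_d _))
    simp only [xb_b, map_mul, map_sub, T.sq] at k1
    rw [map_div₀, div_eq_div_iff s0 a0]
    exact mul_right_cancel₀ (θ_sub σ) (by linear_combination k1)
  refine ⟨_, a0, cA z0 hz0 hw0, cC, fun z hz => ⟨_, cD z hz, by field_simp⟩, fun c hc => ?_⟩
  have inj : Function.Injective fun x : Fix σ => (⟨(ψ (zx x.1 x.2)).a / (ψ z0).a, cD _ ⟨rfl, rfl, rfl⟩⟩ : Fix σ) := fun x y e => by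
    have hx : zx x.1 x.2 ∈ sZ := ⟨rfl, rfl, rfl⟩
    have hy : zx y.1 y.2 ∈ sZ := ⟨rfl, rfl, rfl⟩
    have e1 : (ψ (zx x.1 x.2)).a = (ψ (zx y.1 y.2)).a := (div_left_inj' a0).1 (congrArg Subtype.val e)
    have e2 := cC _ (mul_mem (inv_mem hx) hy) (by
      rw [hom (inv_mem (Z_le h hx)) (Z_le h hy), hom.map_inv (Z_le h hx), mem_sV, mul_a, inv_a, e1, neg_add_cancel])
    exact Subtype.ext (congrArg U.x (inv_mul_eq_one.1 e2))
  obtain ⟨x, e⟩ := Finite.surjective_of_injective inj ⟨c, hc⟩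
  refine ⟨zx x.1 x.2, ⟨rfl, rfl, rfl⟩, ?_⟩
  rw [← show _ / _ = c from congrArg Subtype.val e]
  field_simp

/-- Suppose `W ≰ E`; `Qd ⊤ E (fa F E) W Z ⊥`. With `pair2` take `ψ ∈ Γ` maximal; by `essB1`, `{y ∈ Z | ψ y ∈ Z} = {1}`, so every `γ ∈ Γ` is maximal, and `Pr`, `essB1` hold for all `γ ∈ Γ`: `γ z ∈ V → z = 1`.
`w = ψ z₀` with `w.a = a`, `y₀ = w.y`; `w` is central in `E`: `g.a y₀ = a g.y` on `E` (`brk_b`), `y₀ ≠ 0` as `E ≰ Q`; so `E ≤ Ka a`. `s = xa (a (θ - σ θ))`: for `b ∈ W`, `s b ∉ E` and `[s b, E] ≤ U_a = E ⊓ W`, so `s b` normalises `E`.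
By the last clause of `essB1` for `ψ⁻¹` (its `a'` lies in `a F`: `xb (a (θ - σ θ)) ∈ E`) for every `e ∈ E` there is `z ∈ Z` with `ψ⁻¹ (e z) ∈ V`. `cj (s b) w` runs through `cj s w · Z` (`exists_brk_W`), so for some `b`,
`γ = ψ⁻¹ (s b) ψ ∈ Γ` maps `z₀ ≠ 1` into `V`, absurd. -/
theorem essB (hF : F.IsSaturated p) (hE : F.IsEssential p E) (hQ : ¬ E ≤ sQ) : sW ≤ E := by
  by_contra hW
  have h := U5.cp_of_essential (isPGroup_top p) hF hE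
  have q : Qd ⊤ E (fa F E) sW sZ ⊥ := ⟨le_top, hW, Z_le h, fun y _ z hz => Normal.conj_mem inferInstance z hz y, bot_le, h.iv_bot,
    fun b hb y _ => brk_symm (brk_W y hb), fun b _ z hz => mem_bot.2 (comm_iff.1 (comm_Z hz b)),
    fun b _ n hn => by rw [mem_bot.1 hn, mul_one, one_mul]⟩
  obtain ⟨Γ, ne, h1, h2, h3⟩ := pair2 (isPGroup_top p) hF hE q
  have mA : ∀ γ ∈ Γ, autFun γ ∈ fa F E := fun γ k => ⟨γ, (h1 γ k).1, rfl⟩
  obtain ⟨ψ, hψ, mx⟩ := Set.exists_max_image Γ (fun γ => {y | y ∈ sZ ∧ autFun γ y ∈ sZ}.ncard) (Set.toFinite _) ne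
  obtain ⟨a, a0, k1, k2, -, k4⟩ := essB1 h hW (mA ψ hψ) (h3 ψ hψ mx)
  have le1 : {y | y ∈ sZ ∧ autFun ψ y ∈ sZ}.ncard ≤ 1 :=
    (Set.ncard_le_ncard (t := {1}) (fun y k => k2 y k.1 (Z_le_V k.2))).trans (Set.ncard_singleton _).le
  have all : ∀ γ ∈ Γ, Pr E sW sZ (autFun γ) := fun γ k => h3 γ k fun γ' k' => (mx γ' k').trans (le1.trans
    ((Set.ncard_pos (Set.toFinite _)).2 ⟨1, one_mem _, by rw [(isHomOn_autFun γ).map_one]; exact one_mem _⟩))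
  obtain ⟨z0, hz0, ea⟩ := k4 1 (map_one σ)
  rw [mul_one] at ea
  have wE : autFun ψ z0 ∈ E := autFun_mem ψ (Z_le h hz0)
  generalize hw : autFun ψ z0 = w at ea wE
  have rel : ∀ g ∈ E, g.a * w.y = a * g.y := fun g hg => by
    have := brk_b g w
    rw [comm_iff.1 (hw ▸ cen h (mA ψ hψ) hz0 hg), ea] at this
    exact (sub_eq_zero.1 this.symm)
  have y0 : w.y ≠ 0 := fun k => hQ fun g hg => by
    have := rel g hg
    rw [k, mul_zero] at this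
    exact (mul_eq_zero.1 this.symm).resolve_left a0
  have hK : ∀ g ∈ E, ∃ c, σ c = c ∧ g.a = a * c := fun g hg => ⟨g.y / w.y, by rw [map_div₀, g.hy, w.hy], by
    rw [← mul_div_assoc, ← rel g hg]; field_simp⟩
  have nrm : ∀ t : U σ, t.a = a * (θ σ - σ (θ σ)) → t.y = 0 → t ∈ normalizer (E : Set (U σ)) := fun t ta ty =>
    mem_normalizer_of_comm fun g hg => (k1 _ (brk_top t g)).2 (by
      rw [brk_b, ta, ty]
      simp only [map_mul, map_sub, T.sq, g.hy, mul_zero, sub_zero]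
      ring)
  set s : U σ := xa (a * (θ σ - σ (θ σ))) with hs
  have eE : cj s w ∈ E := cj_mem_of_mem_normalizer (nrm s rfl rfl) wE
  obtain ⟨a', a0', -, -, -, k4'⟩ := essB1 h hW (mA _ (h1 ψ hψ).2) (all _ (h1 ψ hψ).2)
  obtain ⟨z1, hz1, e1⟩ := k4' 1 (map_one σ)
  obtain ⟨c1, hc1, e1'⟩ := hK _ (autFun_mem ψ⁻¹ (Z_le h hz1))
  obtain ⟨c, hc, e2⟩ := hK _ (autFun_mem ψ⁻¹ eE)
  have c0 : c1 ≠ 0 := fun k => a0' (by rw [← mul_one a', ← e1, e1', k, mul_zero])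
  obtain ⟨z, hz, e3⟩ := k4' (-c / c1) (by rw [map_div₀, map_neg, hc, hc1])
  obtain ⟨b, e4⟩ := exists_brk_W (g := w) (ea ▸ a0) (inv_mem hz)
  have e5 : cj (s * xb b) w = z * cj s w := by
    have : cj (xb b) w = z * w := by
      rw [← inv_inv z, ← e4, commutatorElement_inv]; simp [cj, commutatorElement_def]
    rw [cj_mul, this]
    simp only [cj]
    rw [← mul_assoc s z w, comm_Z hz s]; simp only [mul_assoc]
  have ta : (s * xb b).a = a * (θ σ - σ (θ σ)) := by simp [hs, mul_a]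
  have ty : (s * xb b).y = 0 := by simp [hs, mul_y]
  have tE : s * xb b ∉ E := fun k => by
    have := rel _ k
    rw [ta, ty, mul_zero] at this
    exact mul_ne_zero (mul_ne_zero a0 (θ_sub σ)) y0 this
  have hγ := h2 ψ hψ _ trivial (nrm _ ta ty) tE
  obtain ⟨-, -, -, k5, -⟩ := essB1 h hW (mA _ hγ) (all _ hγ)
  have := k5 z0 hz0 (by
    rw [autFun_mul _ _ (Z_le h hz0), hw, autFun_mul _ _ wE, autFun_cjAut _ wE, e5, isHomOn_autFun _ (Z_le h hz) eE, mem_sV, mul_a,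
      e3, e2, ← mul_one a', ← e1, e1']
    field_simp; ring)
  rw [this, (isHomOn_autFun ψ).map_one] at hw
  exact a0 (by rw [← ea, ← hw]; rfl)

end CL.U4
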