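/-
S5210: the essential subgroups.
-/
import Cfsg.Agent.FUS.U4.EsB

set_option autoImplicit false
set_option linter.unusedSimpArgs false
set_option linter.unusedSectionVars false
set_option linter.unusedVariables false

namespace CL.U4

open CL.Fus CL.RF4 Subgroup Cfsg Cfsg.FusionSystem U CL.U5.Un
open CL.U5 (Un Dg ru σu ru_val σu_val map_σ Cp Qd Pr)
open scoped commutatorElement

variable {K : Type*} [Field K] [Finite K] {σ : K →+* K} [T : Un σ] {p : ℕ} [Fact p.Prime] [CharP K p]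
  {F F' : FusionSystem (⊤ : Subgroup (U σ))} {E : Subgroup (U σ)} {A : Set (U σ → U σ)}

/-- `U5.cp_of_essential`; `essV`, `essQ`, `essB`, `essC1-3`; restrict `α ∈ fa F E` to `V`. -/
theorem ess_cases3 (hF : F.IsSaturated p) (hE : F.IsEssential p E) :
    E = sV ∨ E = sQ ∨ (NT F ∧ (∃ a, a ≠ 0 ∧ E = Ka a) ∧ ∀ f, AF F E f → ∀ v ∈ sV, f v ∈ sV) := by
  have h := U5.cp_of_essential (isPGroup_top p) hF hE
  by_cases h1 : E ≤ sV
  · exact .inl (essV h h1)
  by_cases h2 : E ≤ sQ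
  · exact .inr (.inl (essQ h h2))
  obtain ⟨g, hg, ha⟩ := SetLike.not_le_iff_exists.1 h1
  have hW := essB hF hE h2
  have hK := essC1 h hW h2 hg ha
  by_cases k : (2 : K) = 0
  swap
  · exact (essC2 k h hW hg ha hK).elim
  obtain ⟨e, iv, _, ⟨α, hα, rfl⟩, z, hz, k1, k2⟩ := essC3 k h hW hg ha hK
  have hV : sV ≤ E := fun v hv => e ▸ ⟨0, map_zero σ, by rw [mul_zero]; exact hv⟩
  refine .inr (.inr ⟨⟨autFun α, ⟨(mor_autFun le_top hα).mono hV, fun v hv => iv _ ⟨α, hα, rfl⟩ v (hV hv) hv⟩, z, hz, k1, k2⟩,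
    ⟨g.a, ha, e⟩, fun f hf v hv => ?_⟩)
  obtain ⟨β, hβ, e'⟩ := hf.1.exists_aut (hf.1.img_eq_self hf.2)
  exact e' (hV hv) ▸ iv _ ⟨β, hβ, rfl⟩ v (hV hv) hv

theorem ess_cases (hF : F.IsSaturated p) (hN : ¬ NT F) (hE : F.IsEssential p E) : E = sV ∨ E = sQ := by
  rcases ess_cases3 hF hE with h | h | h
  exacts [.inl h, .inr h, absurd h.1 hN]

end CL.U4
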