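/-
S5210: a second moment count; the algebra of the opposite root group.
-/
import Cfsg.Agent.FUS.U4.Fld

set_option autoImplicit false
set_option linter.unusedSimpArgs false
set_option linter.unusedSectionVars false
set_option linter.unusedVariables false

namespace CL.U4

open CL.Fus CL.RF4 Subgroup Cfsg Cfsg.FusionSystem U CL.U5.Un
open CL.U5 (Un Dg ru σu ru_val σu_val map_σ Cp Qd Pr)
open scoped commutatorElement

variable {K : Type*} [Field K] [Finite K] {σ : K →+* K} [T : Un σ] {p : ℕ} [Fact p.Prime] [CharP K p]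
  {F F' : FusionSystem (⊤ : Subgroup (U σ))}

/-- `c v = #{j | v ∈ W j}`. `Σ c = n M / r`, `Σ c² = n M / r + n (n - 1) M / r²`, so `Σ_v (r c v - n)² = n M (r - 1)` (`M = card α`, `n = card ι`).
The `k` points of `Y` contribute `(r n - n)²`, the `n k (r - 1)` points of the disjoint sets `Z i` contribute `(r - n)²`. Divide by `n (r - 1)`. -/
theorem cnt {α ι : Type*} [Fintype α] [Fintype ι] [Nontrivial ι] [DecidableEq α] (W Z : ι → Finset α) (Y : Finset α) (r k : ℕ) (hr : 1 < r)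
    (hW : ∀ i, r * (W i).card = Fintype.card α) (hWW : ∀ i j, i ≠ j → r ^ 2 * (W i ∩ W j).card = Fintype.card α)
    (hY : ∀ i, Y ⊆ W i) (hk : Y.card = k) (hZ : ∀ i, ∀ v ∈ Z i, ∀ j, v ∈ W j ↔ j = i) (hc : ∀ i, (Z i).card = k * (r - 1)) :
    (k : ℤ) * (Fintype.card ι * (r - 1) + (Fintype.card ι - r) ^ 2) ≤ Fintype.card α := by
  classical
  let c : α → ℤ := fun v => ∑ j, if v ∈ W j then 1 else 0
  have s1 : (r : ℤ) * ∑ v, c v = Fintype.card ι * Fintype.card α := by
    rw [Finset.sum_comm, Finset.mul_sum, Finset.sum_congr rfl (g := fun _ => (Fintype.card α : ℤ)) fun j _ => by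
      rw [Finset.sum_boole, Finset.filter_mem_eq_inter, Finset.univ_inter]; exact_mod_cast hW j]
    simp
  have s2 : (r : ℤ) ^ 2 * ∑ v, c v ^ 2 = Fintype.card ι * ((Fintype.card ι + (r - 1)) * Fintype.card α) := by
    have e : ∀ v, c v ^ 2 = ∑ i, ∑ j, if v ∈ W i ∩ W j then (1 : ℤ) else 0 := fun v => by
      rw [pow_two, Finset.sum_mul_sum]
      refine Finset.sum_congr rfl fun i _ => Finset.sum_congr rfl fun j _ => ?_
      by_cases a : v ∈ W i <;> by_cases b : v ∈ W j <;> simp [a, b]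
    rw [Finset.sum_congr rfl fun v _ => e v, Finset.sum_comm, Finset.mul_sum,
      Finset.sum_congr rfl (g := fun _ => ((Fintype.card ι : ℤ) + (r - 1)) * Fintype.card α) fun i _ => ?_]
    · simp
    rw [Finset.sum_comm, Finset.mul_sum, Finset.sum_congr rfl
      (g := fun j => (Fintype.card α : ℤ) + if j = i then ((r : ℤ) - 1) * Fintype.card α else 0) fun j _ => ?_]
    · rw [Finset.sum_add_distrib]; simp; ring
    rw [Finset.sum_boole, Finset.filter_mem_eq_inter, Finset.univ_inter]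
    split_ifs with a
    · rw [a, Finset.inter_self, ← hW i]; push_cast; ring
    · rw [add_zero]; exact_mod_cast hWW i j (Ne.symm a)
  have s3 : ∑ v, (r * c v - Fintype.card ι) ^ 2 = Fintype.card ι * (r - 1) * Fintype.card α := by
    rw [Finset.sum_congr rfl (g := fun v => (r : ℤ) ^ 2 * c v ^ 2 - 2 * Fintype.card ι * (r * c v) + (Fintype.card ι : ℤ) ^ 2)
      fun v _ => by ring, Finset.sum_add_distrib, Finset.sum_sub_distrib, ← Finset.mul_sum, ← Finset.mul_sum,
      ← Finset.mul_sum, s1, s2, Finset.sum_const, Finset.card_univ, nsmul_eq_mul]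
    ring
  have d1 : Disjoint Y (Finset.univ.biUnion Z) := Finset.disjoint_left.2 fun v a b => by
    obtain ⟨i, -, b⟩ := Finset.mem_biUnion.1 b
    obtain ⟨j, n⟩ := exists_ne i
    exact n ((hZ i v b j).1 (hY j a))
  have s4 := Finset.sum_le_univ_sum_of_nonneg (s := Y ∪ Finset.univ.biUnion Z)
    fun v => sq_nonneg (r * c v - Fintype.card ι)
  rw [s3, Finset.sum_union d1, Finset.sum_biUnion fun i _ j _ n => Finset.disjoint_left.2 fun v a b =>
    n ((hZ j v b i).1 ((hZ i v a i).2 rfl)),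
    Finset.sum_congr rfl (g := fun _ => ((r : ℤ) * Fintype.card ι - Fintype.card ι) ^ 2) fun v a => by simp [c, fun j => hY j a],
    Finset.sum_congr (s₁ := Finset.univ) rfl (g := fun _ => (k : ℤ) * (r - 1) * ((r : ℤ) - Fintype.card ι) ^ 2) fun i _ => by
      rw [Finset.sum_congr rfl (g := fun _ => ((r : ℤ) - Fintype.card ι) ^ 2) fun v a => by
        simp only [c, hZ i v a, Finset.sum_ite_eq', Finset.mem_univ, if_true, mul_one],
        Finset.sum_const, hc, nsmul_eq_mul, Nat.cast_mul, Nat.cast_sub hr.le, Nat.cast_one],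
    Finset.sum_const, Finset.sum_const, hk, Finset.card_univ, nsmul_eq_mul, nsmul_eq_mul] at s4
  have p1 : (0 : ℤ) < Fintype.card ι * (r - 1) := mul_pos (by exact_mod_cast Fintype.card_pos) (by omega)
  exact le_of_mul_le_mul_left (by linarith) p1

/-- `n ≥ q² + 1 > r`, the left side is increasing in `n`. If `k ≥ 2` then `r ≤ q / 2` and `n (n - r - 1) + r² > r² q²`. -/
theorem cnt_k {q k r n : ℕ} (hq : q = k * r) (hk : 0 < k) (hr : 1 < r) (hn : q ^ 2 + 1 ≤ n)
    (h : (k : ℤ) * (n * (r - 1) + (n - r) ^ 2) ≤ q ^ 3 * r) : k = 1 ∧ n < 2 * q ^ 2 + 1 := by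
  have hn' : (q : ℤ) ^ 2 + 1 ≤ n := by exact_mod_cast hn
  have hr' : (2 : ℤ) ≤ r := by exact_mod_cast hr
  have hk' : (0 : ℤ) < k := by exact_mod_cast hk
  have hq' : (q : ℤ) = k * r := by exact_mod_cast hq
  have h1 : (n : ℤ) * (n - r - 1) + r ^ 2 ≤ q ^ 2 * r ^ 2 := le_of_mul_le_mul_left (by rw [hq'] at h ⊢; linarith) hk'
  have k1 : k = 1 := by
    by_contra n1
    have : (2 : ℤ) ≤ k := by omega
    have a : 2 * (r : ℤ) ≤ q := by nlinarith
    have b : (q : ℤ) ^ 2 * (q ^ 2 - r) ≤ n * (n - r - 1) := mul_le_mul (by omega) (by omega) (by nlinarith) (by omega)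
    have c : (r : ℤ) ^ 2 + r ≤ q ^ 2 := by nlinarith
    nlinarith
  refine ⟨k1, ?_⟩
  by_contra n1
  have n2 : 2 * (q : ℤ) ^ 2 + 1 ≤ n := by exact_mod_cast not_lt.1 n1
  rw [k1, Nat.cast_one, one_mul] at hq'
  rw [← hq'] at h1 hr'
  have b : (q : ℤ) ^ 2 * (2 * q ^ 2 - q) ≤ n * (n - q - 1) := mul_le_mul (by omega) (by omega) (by nlinarith) (by omega)
  have c : (q : ℤ) ≤ q ^ 2 := by nlinarith
  nlinarith

/-- `q a y = N(a) y + Tr(a σ(γ y)) - μ(a y)`, `r a` is its inverse on `F`.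
(1) For `F`-independent `a, a'` the first alternative of `hadd` fails (`x = 1`: `q a 0 = 0 ≠ 1` so `r a 1 ≠ 0`); write `a'' = α a + α' a'` over `F` and compare coefficients: `r a x = α r a'' x`, `r a' x = α' r a'' x`.
So all `r a` are `F`-proportional (for dependent `a, a'` go through `a θ`): `r a x = c a * r 1 x`, `q a y = q 1 (d a * y)`, `d a ∈ F`, also for `a = 0` with `d 0 = 0`.
(2) `q (a + a') y - q a y - q a' y = Tr(a σ a') y`; with `a = 1`, `a' = τ` (trace `1`; treat `1 + τ = 0`, `τ = 0` via `d 0 = 0`): `q 1 (e y) = y` for a fixed `e ∈ F`, so `q 1` and all `q a` are `F`-linear: `q a y = D a * y`.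
(3) `ℓ a = D a - N a` is additive, `μ (a y) = Tr(a σ(γ y)) - ℓ a * y`. With `δ y = γ y - y γ 1`: `ℓ a * y - ℓ (a y) = Tr(a σ(δ y))`, hence `δ` is a derivation (`eq_zero_of_tr`), `der_zero`; so `γ` and `ℓ` are `F`-linear,
`ℓ a = m a + σ m σ a` (`lin_form`, values in `F`, `lin_ind`). (4) `D a = N(a + σ m) - N(m) ≠ 0` for `a ≠ 0`; `a = σ m (s - 1)`, `exists_norm_one` gives `m = 0`. -/
theorem hua_alg (γ μ : K → K) (q r : K → K → K) (hγ : ∀ y y', σ y = y → σ y' = y' → γ (y + y') = γ y + γ y')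
    (hμ : ∀ b b', μ (b + b') = μ b + μ b') (hμ' : ∀ b, σ (μ b) = μ b)
    (hq : ∀ a y, q a y = a * σ a * y + (a * σ (γ y) + σ a * γ y) - μ (a * y))
    (h1 : ∀ a, a ≠ 0 → ∀ x, σ x = x → σ (r a x) = r a x ∧ q a (r a x) = x) (h2 : ∀ a, a ≠ 0 → ∀ y, σ y = y → r a (q a y) = y)
    (hadd : ∀ a, a ≠ 0 → ∀ a', a' ≠ 0 → (∀ x, σ x = x → a * r a x + a' * r a' x = 0) ∨
      ∃ a'', a'' ≠ 0 ∧ ∀ x, σ x = x → a * r a x + a' * r a' x = a'' * r a'' x) :
    (∀ y, σ y = y → γ y = γ 1 * y) ∧ ∀ b, μ b = b * σ (γ 1) + σ b * γ 1 := by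
  have s0 : σ 0 = 0 := map_zero σ
  have s1 : σ 1 = 1 := map_one σ
  have γ0 : γ 0 = 0 := by simpa using hγ 0 0 s0 s0
  have μ0 : μ 0 = 0 := by simpa using hμ 0 0
  have q0 : ∀ a, q a 0 = 0 := fun a => by simp [hq, γ0, μ0]
  have qF : ∀ a y, σ y = y → σ (q a y) = q a y := fun a y hy => by
    simp only [hq, map_sub, map_add, map_mul, T.sq, hy, hμ']; ring
  have qa : ∀ a y y', σ y = y → σ y' = y' → q a (y + y') = q a y + q a y' := fun a y y' hy hy' => by
    simp only [hq, hγ y y' hy hy', mul_add, hμ, map_add]; ring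
  have r1 : ∀ a, a ≠ 0 → r a 1 ≠ 0 := fun a ha e => one_ne_zero ((h1 a ha 1 s1).2.symm.trans (by rw [e, q0]))
  have ind : ∀ a, a ≠ 0 → ∀ a', a' ≠ 0 → a * σ a' ≠ σ a * a' → ∀ x, σ x = x → r a x * r a' 1 = r a 1 * r a' x := by
    intro a ha a' ha' n x hx
    have n' := sub_ne_zero.2 n
    rcases hadd a ha a' ha' with e | ⟨b, hb, e⟩
    · have e1 := e 1 s1
      have e2 := congrArg σ e1
      simp only [map_add, map_mul, (h1 a ha 1 s1).1, (h1 a' ha' 1 s1).1, s0] at e2
      exact (r1 a ha (mul_left_cancel₀ n' (by linear_combination σ a' * e1 - a' * e2))).elim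
    · have k : ∀ x, σ x = x → (a * σ a' - σ a * a') * r a x = (b * σ a' - σ b * a') * r b x ∧
          (a * σ a' - σ a * a') * r a' x = (a * σ b - σ a * b) * r b x := fun x hx => by
        have e1 := e x hx
        have e2 := congrArg σ e1
        simp only [map_add, map_mul, (h1 a ha x hx).1, (h1 a' ha' x hx).1, (h1 b hb x hx).1] at e2
        exact ⟨by linear_combination σ a' * e1 - a' * e2, by linear_combination a * e2 - σ a * e1⟩
      obtain ⟨k1, k2⟩ := k x hx
      obtain ⟨k3, k4⟩ := k 1 s1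
      refine mul_left_cancel₀ (mul_ne_zero n' n') ?_
      calc _ = (a * σ a' - σ a * a') * r a x * ((a * σ a' - σ a * a') * r a' 1) := by ring
        _ = (a * σ a' - σ a * a') * r a 1 * ((a * σ a' - σ a * a') * r a' x) := by rw [k1, k2, k3, k4]; ring
        _ = _ := by ring
  have pr : ∀ a, a ≠ 0 → ∀ x, σ x = x → r a x * r 1 1 = r a 1 * r 1 x := fun a ha x hx => by
    by_cases e : σ a = a
    · have t := θ_ne_zero σ
      have e1 := ind a ha _ t (by rw [e]; exact fun k => θ_ne σ (mul_left_cancel₀ ha k)) x hx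
      have e2 := ind _ t 1 one_ne_zero (by simpa using (θ_ne σ).symm) x hx
      exact mul_left_cancel₀ (r1 _ t) (by linear_combination r 1 1 * e1 + r a 1 * e2)
    · exact ind a ha 1 one_ne_zero (by simpa using Ne.symm e) x hx
  have dd : ∀ a, ∃ d, σ d = d ∧ ∀ y, σ y = y → q a y = q 1 (d * y) := fun a => by
    by_cases ha : a = 0
    · exact ⟨0, s0, fun y _ => by rw [zero_mul, q0, ha]; simp [hq, μ0]⟩
    refine ⟨r 1 1 / r a 1, by rw [map_div₀, (h1 a ha 1 s1).1, (h1 1 one_ne_zero 1 s1).1], fun y hy => ?_⟩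
    have e := pr a ha _ (qF a y hy)
    rw [h2 a ha y hy] at e
    rw [show r 1 1 / r a 1 * y = r 1 (q a y) by rw [div_mul_eq_mul_div, div_eq_iff (r1 a ha)]; linear_combination e,
      (h1 1 one_ne_zero _ (qF a y hy)).2]
  obtain ⟨e, he, k⟩ : ∃ e, σ e = e ∧ ∀ y, σ y = y → q 1 (e * y) = y := by
    obtain ⟨d, hd, k⟩ := dd (1 + τ σ)
    obtain ⟨d', hd', k'⟩ := dd (τ σ)
    refine ⟨d - 1 - d', by simp [hd, hd'], fun y hy => ?_⟩
    have a1 := qa 1 ((d - 1 - d') * y) y (by simp [hd, hd', hy]) hy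
    have a2 := qa 1 ((d - 1 - d') * y + y) (d' * y) (by simp [hd, hd', hy]) (by simp [hd', hy])
    rw [show (d - 1 - d') * y + y + d' * y = d * y by ring, ← k y hy, ← k' y hy, a1, hq (1 + τ σ), hq 1 y, hq (τ σ),
      add_mul 1 (τ σ) y, hμ] at a2
    simp only [map_add, map_one, τ_eq] at a2
    linear_combination -a2
  have e0 : e ≠ 0 := fun a => one_ne_zero ((k 1 s1).symm.trans (by rw [a, zero_mul, q0]))
  have q1 : ∀ y, σ y = y → q 1 y = y / e := fun y hy => by
    rw [← k (y / e) (by rw [map_div₀, hy, he]), mul_div_cancel₀ _ e0]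
  have ql : ∀ a y, σ y = y → q a y = q a 1 * y := fun a y hy => by
    obtain ⟨d, hd, k⟩ := dd a
    rw [k y hy, k 1 s1, q1 _ (by rw [map_mul, hd, hy]), q1 _ (by rw [mul_one, hd])]; ring
  obtain ⟨l, hl⟩ : ∃ l : K → K, ∀ a, l a = a * σ (γ 1) + σ a * γ 1 - μ a := ⟨_, fun _ => rfl⟩
  have l1 : ∀ a y, σ y = y → l a * y - l (a * y) = a * σ (γ y - y * γ 1) + σ a * (γ y - y * γ 1) := fun a y hy => by
    have := ql a y hy
    rw [hq, hq, mul_one, mul_one] at this
    simp only [hl, map_sub, map_mul, hy]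
    linear_combination -this
  have δ : ∀ y, σ y = y → γ y - y * γ 1 = 0 := fun y hy => der_zero (σ := σ) (fun y => γ y - y * γ 1) (fun y y' hy hy' =>
    sub_eq_zero.1 (eq_zero_of_tr (σ := σ) fun b => by
      have a1 := l1 b (y * y') (by rw [map_mul, hy, hy'])
      have a2 := l1 b y hy
      have a3 := l1 (b * y) y' hy'
      rw [mul_assoc b] at a3
      simp only [map_sub, map_add, map_mul, hy, hy'] at a1 a2 a3 ⊢
      linear_combination y' * a2 + a3 - a1)) hy
  obtain ⟨m, c, hm⟩ := lin_form (σ := σ) l (fun a a' => by simp only [hl, hμ, map_add]; ring) fun c a hc => by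
    have := l1 a c hc
    rw [δ c hc, s0] at this
    rw [mul_comm c a]; linear_combination -this
  have cm : m - σ c = 0 ∧ σ m - c = 0 := lin_ind (σ := σ) fun a => by
    have : σ (l a) = l a := by simp only [hl, map_sub, map_add, map_mul, T.sq, hμ']; ring
    rw [hm] at this
    simp only [map_add, map_mul, T.sq] at this
    linear_combination -this
  obtain ⟨s, n1, hs⟩ := exists_norm_one (σ := σ)
  have c0 : c = 0 := by
    by_contra n
    have ha := mul_ne_zero n (sub_ne_zero.2 n1)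
    have a1 := h2 _ ha 1 s1
    have a2 := h2 _ ha 0 s0
    have a3 := hm (c * (s - 1))
    rw [hl] at a3
    rw [q0] at a2
    rw [show q (c * (s - 1)) 1 = 0 by
      rw [hq, mul_one, mul_one]
      simp only [map_mul, map_sub, map_one] at a3 ⊢
      linear_combination a3 + c * σ c * hs + c * (s - 1) * cm.1, a2] at a1
    exact zero_ne_one a1
  refine ⟨fun y hy => by linear_combination δ y hy, fun b => ?_⟩
  have := hm b
  rw [hl, c0, show m = 0 by simpa [c0] using cm.1] at this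
  linear_combination -this

end CL.U4
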