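/-
S5210: characteristic subgroups; automorphisms of `V` and `Q` that extend to `S`.
-/
import Cfsg.Agent.FUS.U4.Defs

set_option autoImplicit false
set_option linter.unusedSimpArgs false
set_option linter.unusedSectionVars false
set_option linter.unusedVariables false

namespace CL.U4

open CL.Fus CL.RF4 Subgroup Cfsg Cfsg.FusionSystem U CL.U5.Un
open CL.U5 (Un Dg ru σu ru_val σu_val map_σ Cp Qd Pr)
open scoped commutatorElement

variable {K : Type*} [Field K] [Finite K] {σ : K →+* K} [T : Un σ] {p : ℕ} [Fact p.Prime] [CharP K p]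
  {F F' : FusionSystem (⊤ : Subgroup (U σ))}

namespace Chr

omit [Finite K] in
theorem mZ {y : U σ} (k : ∀ a, y * xa a = xa a * y) (k' : ∀ b, y * xb b = xb b * y) : y ∈ sZ := by
  have h1 : y ∈ sV := V_of_comm k'
  have h2 : y.y = 0 := by
    have := congrArg U.b (comm_iff.1 (k 1))
    rw [brk_b] at this
    simpa using this
  exact ⟨h1, eq_zero_of_tr fun a => by
    have := (comm_W (g := xa a) ⟨h1, h2⟩).1 (k a).symm
    simp only [xa_a] at this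
    linear_combination this, h2⟩

theorem dg_eq {x y : Dd σ} (h1 : ∀ a : K, x.1.l * x.1.ρ a = y.1.l * y.1.ρ a) (h2 : (x.1.m : K) = y.1.m) : x = y := by
  have e : (x.1.l : K) = y.1.l := by simpa using h1 1
  exact Subtype.ext (Dg.ext (Units.ext e) (Units.ext h2)
    (RingEquiv.ext fun a => mul_left_cancel₀ y.1.l.ne_zero (by rw [← h1 a, e])))

theorem ext_of_chain2 {Ω : Type*} [Group Ω] [Finite Ω] {S P : Subgroup Ω} {F : FusionSystem S} (hS : IsPGroup p S)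
    (hF : F.IsSaturated p) (hP : F.IsCentric P) (hn : S ≤ normalizer (P : Set Ω))
    {X Y : Subgroup Ω} (hX : S ≤ normalizer (X : Set Ω)) (hY : S ≤ normalizer (Y : Set Ω))
    (h : ∀ A, Au P A → Iv P A X → Iv P A Y → ∀ s ∈ S, Ch P A s ⊥ ⊤) {f : Ω → Ω} (hf : Mor F P f) (h1 : ∀ x ∈ P, f x ∈ P)
    (h2 : ∀ x ∈ P, x ∈ X → f x ∈ X) (h2' : ∀ x ∈ P, x ∈ Y → f x ∈ Y) : ∃ g, Mor F S g ∧ Set.EqOn g f P := by
  obtain ⟨α, hα, e⟩ := hf.exists_aut (hf.img_eq_self h1)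
  have hT := sylIn_of_fullyNormalized hS hF (fullyNormalized_of_normal F hP.1 hn)
  set N := F.autGroup P ⊓ (stabAut P X ⊓ stabAut P Y) with hN
  have st : ∀ {X : Subgroup Ω}, (∀ x ∈ P, x ∈ X → f x ∈ X) → α ∈ stabAut P X := fun {X} h2 x hx => e hx ▸ ⟨fun k => by
    have h3 : img f (P ⊓ X) = P ⊓ X := (hf.mono inf_le_left).img_eq_self fun y hy => ⟨h1 y hy.1, h2 y hy.1 hy.2⟩
    exact ((hf.mem_img_iff inf_le_left hx).1 (h3.symm ▸ ⟨h1 x hx, k⟩)).2, h2 x hx⟩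
  have hαN : α ∈ N := ⟨hα, st h2, st h2'⟩
  have st' : ∀ {X : Subgroup Ω}, S ≤ normalizer (X : Set Ω) → autInducedBy S P ≤ stabAut P X := fun {X} hX β hβ x hx => by
    obtain ⟨s, hs, e'⟩ := mem_autInducedBy_iff.1 hβ
    rw [e' hx]
    exact (mem_normalizer_iff.1 (hX hs) x).symm
  have hTN : autInducedBy S P ≤ N := le_inf hT.le (le_inf (st' hX) (st' hY))
  have hO := hT.eq_of_le ((CL.Fus.map_pCore_le N).trans inf_le_left) (CL.Fus.isPGroup_map_pCore N) fun β hβ => by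
    obtain ⟨s, hs, hs', rfl⟩ := mem_autInducedBy_iff_cjAut.1 hβ
    exact mem_pCore_of_chain (hS.to_le hP.1) (hTN hβ) le_top
      (CL.U5.stabStep p hs' (h _ (CxF.au_of N) (by rintro _ ⟨γ, hγ, rfl⟩ y hy k; exact (hγ.2.1 y hy).2 k)
        (by rintro _ ⟨γ, hγ, rfl⟩ y hy k; exact (hγ.2.2 y hy).2 k) s hs))
  have h3 := le_normalizer_map_pCore (p := p) N hαN
  rw [hO] at h3
  obtain ⟨g, hg, e'⟩ := exists_extend_of_isCentric hS hF (mor_autFun hP.1 hα) hP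
  exact ⟨g, hg.mono fun s hs => (mem_Nphi_autFun_iff hP.1 hα).2 ⟨hs, hn hs,
    (mem_normalizer_iff.1 h3 _).1 (cjAut_mem_autInducedBy hs (hn hs))⟩, e'.trans e⟩

omit [Finite K] in
theorem cj_V (s : U σ) {v : U σ} (hv : v ∈ sV) : cj s v = cj (xa s.a) v :=
  U.ext (by rw [cj_a, cj_a]) (by rw [cj_b, cj_b, mem_sV.1 hv]; simp) (by rw [cj_x_V s hv, cj_x_V _ hv]; simp) (by rw [cj_y, cj_y])

theorem tv_a (a : K) (v : sV (σ := σ)) : (tv a v).1.a = 0 := (tv a v).2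

end Chr

/-- (pattern `U5.ivS`) `Z = Z(S)` (`iv_Zn`), `W = {g | [g, S] ≤ Z}` (`iv_comm`, `brk_b`), `V = C(W)` (`iv_cent`, `V_of_comm`),
`Q = {g | g ∈ W ∨ (g ∉ V ∧ ∀ s, ∃ h v, [g, h] ∈ Z ∧ v ∈ V ∧ s = h v)}`: for `g.a ≠ 0 ≠ g.y`, `[g, h] ∈ Z` forces `h.a ∈ g.a F`, take `s = xa (g.a θ)`. -/
theorem ivS {A : Set (U σ → U σ)} (hA : Au ⊤ A) : Ivs ⊤ A sZ ∧ Ivs ⊤ A sW ∧ Ivs ⊤ A sV ∧ Ivs ⊤ A sQ := by
  have i1 : Ivs ⊤ A sZ := hA.iv_Zn.congr (fun y hy =>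
    ⟨fun k => Chr.mZ (fun a => k.2 _ trivial) fun b => k.2 _ trivial, fun k => ⟨hy, fun x _ => (comm_Z k x).symm⟩⟩) hA
  have i2 : Ivs ⊤ A sW := (hA.iv_comm hA.iv_self i1).congr (fun y _ => ⟨fun k => ⟨by
      have := (k (zy 1 (map_one σ)) trivial trivial).2.1
      rw [brk_b] at this
      simpa using this, by
      have := (k (xa 1) trivial trivial).2.1
      rw [brk_b] at this
      simpa using this⟩, fun k x _ _ => brk_symm (brk_W x k)⟩) hA
  have i3 : Ivs ⊤ A sV := (hA.iv_cent i2).congr (fun y _ => ⟨fun k => V_of_comm fun b => k _ trivial ⟨rfl, rfl⟩,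
    fun k x _ hx => comm_V (W_le_V hx) k⟩) hA
  have i4 : Iv ⊤ A {g | g ∈ sW ∨ (g ∉ sV ∧ ∀ s : U σ, ∃ h v : U σ, ⁅g, h⁆ ∈ sZ ∧ v ∈ sV ∧ s = h * v)} := by
    rintro α hα g - (h | ⟨h1, h2⟩)
    · exact Or.inl (i2 α hα g trivial h)
    refine Or.inr ⟨hA.iv_compl i3 α hα g trivial h1, fun s => ?_⟩
    obtain ⟨s, -, rfl⟩ := hA.surj hα (mem_top s)
    obtain ⟨h, v, k1, k2, rfl⟩ := h2 s
    have hm := hA.hom α hα
    exact ⟨α h, α v, hm.map_commutator (mem_top g) (mem_top h) ▸ i1 α hα _ trivial k1, i3 α hα v trivial k2, hm trivial trivial⟩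
  refine ⟨i1, i2, i3, i4.congr (fun g _ => ⟨?_, fun k => ?_⟩) hA⟩
  · rintro (h | ⟨h1, h2⟩)
    · exact W_le_Q h
    by_contra hy
    obtain ⟨h, v, k1, k2, e⟩ := h2 (xa (g.a * θ σ))
    have e1 := congrArg U.a e
    rw [mul_a, mem_sV.1 k2, add_zero, xa_a] at e1
    have e2 := k1.2.1
    rw [brk_b, ← e1] at e2
    have e3 : h.y = θ σ * g.y := mul_left_cancel₀ h1 (by linear_combination e2)
    have e4 := h.hy
    rw [e3, map_mul, g.hy] at e4
    exact θ_ne σ (mul_right_cancel₀ hy e4)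
  · by_cases ha : g.a = 0
    · exact Or.inl ⟨ha, k⟩
    refine Or.inr ⟨ha, fun s => ⟨xa s.a, (xa s.a)⁻¹ * s, (brk_Q k rfl).1, ?_, (mul_inv_cancel_left _ _).symm⟩⟩
    rw [mem_sV, mul_a, inv_a, xa_a, neg_add_cancel]

theorem aut_iff (α : MulAut (U σ)) (g : U σ) :
    (α g ∈ sZ ↔ g ∈ sZ) ∧ (α g ∈ sW ↔ g ∈ sW) ∧ (α g ∈ sV ↔ g ∈ sV) ∧ (α g ∈ sQ ↔ g ∈ sQ) := by
  have h := CL.U5.isoOn_top α
  obtain ⟨i1, i2, i3, i4⟩ := ivS (CL.U5.au_pair h)
  exact ⟨CL.U5.iff_of_iv h i1 trivial, CL.U5.iff_of_iv h i2 trivial, CL.U5.iff_of_iv h i3 trivial, CL.U5.iff_of_iv h i4 trivial⟩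

theorem AF.top {f : U σ → U σ} (hf : Mor F ⊤ f) : AF F sV f ∧ AF F sQ f ∧ (∀ w ∈ sW, f w ∈ sW) ∧ ∀ z ∈ sZ, f z ∈ sZ := by
  obtain ⟨f', -, h⟩ := CL.U5.exists_isoOn hf fun _ _ => trivial
  obtain ⟨i1, i2, i3, i4⟩ := ivS (CL.U5.au_pair h)
  exact ⟨⟨hf.mono le_top, fun x hx => i3 f (Or.inl rfl) x trivial hx⟩, ⟨hf.mono le_top, fun x hx => i4 f (Or.inl rfl) x trivial hx⟩,
    fun x hx => i2 f (Or.inl rfl) x trivial hx, fun x hx => i1 f (Or.inl rfl) x trivial hx⟩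

theorem AF.conj (F : FusionSystem (⊤ : Subgroup (U σ))) (P : Subgroup (U σ)) [P.Normal] (s : U σ) : AF F P (cj s) := by
  exact ⟨CL.U5.mor_cj' F P s, (CL.U5.isoOn_cj s).maps⟩

theorem AF.comp {P : Subgroup (U σ)} {f g : U σ → U σ} (hf : AF F P f) (hg : AF F P g) : AF F P (f ∘ g) := by
  exact ⟨hf.1.comp hg.1 hg.2, fun x hx => hf.2 _ (hg.2 x hx)⟩

theorem AF.inv {P : Subgroup (U σ)} {f : U σ → U σ} (hf : AF F P f) : ∃ f', AF F P f' ∧ IsoOn P P f f' := by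
  obtain ⟨f', h1, h2⟩ := CL.U5.exists_isoOn hf.1 hf.2
  exact ⟨f', ⟨h1, h2.maps'⟩, h2⟩

/-- a normal subgroup `P` of `S` is fully normalised (`fullyNormalized_of_normal`), so fully centralised; if `C_S(P) ≤ P` then for a conjugate `R = f P`: `|C_S(R)| ≤ |C_S(P)| = |Z(P)| = |Z(R)|`, so `C_S(R) = Z(R) ≤ R`. -/
theorem centric_of_normal {G : Type*} [Group G] [Finite G] {F : FusionSystem (⊤ : Subgroup G)} (hG : IsPGroup p (⊤ : Subgroup G))
    (hF : F.IsSaturated p) (P : Subgroup G) [P.Normal] (h : ∀ g, (∀ x ∈ P, g * x = x * g) → g ∈ P) : F.IsCentric P := by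
  exact isCentric_of_fullyCentralized (fullyCentralized_of_fullyNormalized hG hF
    (fullyNormalized_of_normal F le_top le_normalizer_of_normal)) hG hF fun g hg => h g fun x hx => (hg.2 x hx).symm

theorem centric_V (hF : F.IsSaturated p) : F.IsCentric sV := by
  exact centric_of_normal (isPGroup_top p) hF _ fun g k => V_of_comm fun b => k (xb b) rfl

theorem centric_Q (hF : F.IsSaturated p) : F.IsCentric sQ := by
  exact centric_of_normal (isPGroup_top p) hF _ fun g k => Z_le_Q (Chr.mZ (fun a => k (xa a) rfl) fun b => k (xb b) rfl)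

/-- `Z` is the set of commutators of `Q` (`brk_Q`, `exists_brk_W`). -/
theorem ivQ {A : Set (U σ → U σ)} (hA : Au sQ A) : Ivs sQ A sZ := by
  refine (hA.iv_brk hA.iv_self hA.iv_self).congr (fun y _ => ⟨?_, fun k => ?_⟩) hA
  · rintro ⟨x, hx, -, x', hx', -, rfl⟩
    exact (brk_Q hx hx').1
  · obtain ⟨b, e⟩ := exists_brk_W (g := xa 1) one_ne_zero k
    exact ⟨xa 1, rfl, rfl, xb b, rfl, rfl, e.symm⟩

theorem AF.mapZ {f : U σ → U σ} (hf : AF F sQ f) : ∀ z ∈ sZ, f z ∈ sZ := by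
  obtain ⟨f', -, h⟩ := hf.inv
  exact fun z hz => ivQ (CL.U5.au_pair h) f (Or.inl rfl) z (Z_le_Q hz) hz

/-- `U5.ext_of_chain` with `X = sW` and the chain `1 < Z < W < Q` (pattern `U5.extQ1`). -/
theorem extQ (hF : F.IsSaturated p) (f : U σ → U σ) (hf : Mor F sQ f) (h1 : ∀ x ∈ sQ, f x ∈ sQ) (h2 : ∀ x ∈ sW, f x ∈ sW) :
    ∃ g, Mor F ⊤ g ∧ Set.EqOn g f (sQ (σ := σ)) := by
  exact CL.U5.ext_of_chain (isPGroup_top p) hF (centric_Q hF) le_normalizer_of_normal (X := sW) le_normalizer_of_normal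
    (fun _ hA h s _ => ((Ch.base hA (ivQ hA) fun y _ k => comm_Z k s).step (ivQ hA) h fun y _ k => brk_W s k).step h Iv.top
      fun y _ _ => brk_top s y) hf h1 fun x _ hx => h2 x hx

/-- as in the proof of `U5.ext_of_chain` with `N = Aut_F(V) ⊓ stabAut Z ⊓ stabAut W` and the chain `1 < Z < W < V` -/
theorem extV (hF : F.IsSaturated p) (f : U σ → U σ) (hf : Mor F sV f) (h1 : ∀ x ∈ sV, f x ∈ sV) (h2 : ∀ x ∈ sZ, f x ∈ sZ)
    (h3 : ∀ x ∈ sW, f x ∈ sW) : ∃ g, Mor F ⊤ g ∧ Set.EqOn g f (sV (σ := σ)) := by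
  exact Chr.ext_of_chain2 (isPGroup_top p) hF (centric_V hF) le_normalizer_of_normal (X := sZ) (Y := sW) le_normalizer_of_normal
    le_normalizer_of_normal
    (fun _ hA hZ h s _ => ((Ch.base hA hZ fun y _ k => comm_Z k s).step hZ h fun y _ k => brk_W s k).step h Iv.top
      fun y _ _ => brk_top s y) hf h1 (fun x _ hx => h2 x hx) fun x _ hx => h3 x hx

theorem mem_Tv {t : MulAut (sV (σ := σ))} : t ∈ Tv σ ↔ ∃ a, t = tv a := by
  constructor
  · intro h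
    obtain ⟨s, -, hs, rfl⟩ := mem_autInducedBy_iff_cjAut.1 h
    exact ⟨s.a, MulEquiv.ext fun v => Subtype.ext (Chr.cj_V s v.2)⟩
  · rintro ⟨a, rfl⟩
    exact cjAut_mem_autInducedBy (mem_top _) _

theorem tv_add (a a' : K) : (tv (a + a') : MulAut (sV (σ := σ))) = tv a * tv a' := by
  refine MulEquiv.ext fun v => Subtype.ext ?_
  change cj (xa (a + a')) v.1 = cj (xa a) (cj (xa a') v.1)
  have hv := mem_sV.1 v.2
  usimp
  simp only [xa_a, xa_b, xa_x, xa_y, hv, map_zero, map_add]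
  and_intros <;> ring

theorem tv_zero : (tv 0 : MulAut (sV (σ := σ))) = 1 := by
  refine MulEquiv.ext fun v => Subtype.ext ?_
  change cj (xa 0) v.1 = v.1
  usimp
  simp

theorem tv_b (a : K) (v : sV (σ := σ)) : (tv a v).1.b = v.1.b + a * v.1.y := by
  rw [tv_coe, cj_b]
  simp

theorem tv_x (a : K) (v : sV (σ := σ)) : (tv a v).1.x = v.1.x + a * σ v.1.b + σ a * v.1.b + a * σ a * v.1.y := by
  rw [tv_coe, cj_x_V _ v.2]
  simp

theorem tv_y (a : K) (v : sV (σ := σ)) : (tv a v).1.y = v.1.y := by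
  rw [tv_coe, cj_y]

theorem sylV (hF : F.IsSaturated p) : SylIn p (Tv σ) (F.autGroup sV) := by
  exact sylIn_of_fullyNormalized (isPGroup_top p) hF (fullyNormalized_of_normal F le_top le_normalizer_of_normal)

theorem vg_of (hF : F.IsSaturated p) (h : ¬ NT F) : VG p (F.autGroup sV) := by
  refine ⟨sylV hF, fun g hg z hz hw => by_contra fun hn => h ⟨autFun g, ⟨mor_autFun le_top hg, fun x hx => autFun_mem g hx⟩, z, hz, ?_⟩⟩
  rw [autFun_coe]
  exact ⟨hw, hn⟩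

theorem dd_eq_of_V {x y : Dd σ} (h : ∀ g ∈ sV (σ := σ), (dd x g).b = (dd y g).b ∧ (dd x g).y = (dd y g).y) : x = y := by
  have e1 : (x.1.m : K) = y.1.m := by simpa using (h (zy 1 (map_one σ)) rfl).2
  exact Chr.dg_eq (fun a => mul_left_cancel₀ y.1.m.ne_zero (by
    have := (h (xb a) rfl).1
    simp only [dd_b, xb_b, e1] at this
    linear_combination this)) e1

theorem dd_eq_of_Q {x y : Dd σ} (h : ∀ g ∈ sQ (σ := σ), (dd x g).a = (dd y g).a ∧ (dd x g).b = (dd y g).b) : x = y := by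
  have e1 : ∀ a, (x.1.l : K) * x.1.ρ a = y.1.l * y.1.ρ a := fun a => (h (xa a) rfl).1
  have e2 : (x.1.l : K) = y.1.l := by simpa using e1 1
  exact Chr.dg_eq e1 (mul_left_cancel₀ y.1.l.ne_zero (by
    have := (h (xb 1) rfl).2
    simpa only [dd_b, xb_b, e2, map_one, mul_one] using this))

/-- `U5.not_dvd_of` -/
theorem not_dvd_DF (hF : F.IsSaturated p) : ¬ p ∣ Nat.card (DF F) := by
  exact CL.U5.not_dvd_of (isPGroup_top p) hF dd _ (fun _ hx => hx) fun x u h => Chr.dg_eq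
    (fun a => by have := congrArg U.a (h (xa a)); rw [cj_a] at this; simpa using this)
    (by have := congrArg U.y (h (zy 1 (map_one σ))); rw [cj_y] at this; simpa using this)

theorem card_sZ : Nat.card (sZ (σ := σ)) = Nat.card (Fix σ) := by
  exact Nat.card_congr
    { toFun := fun g => ⟨g.1.x, g.1.hx⟩
      invFun := fun x => ⟨zx x.1 x.2, rfl, rfl, rfl⟩
      left_inv := fun g => Subtype.ext (U.ext g.2.1.symm g.2.2.1.symm rfl g.2.2.2.symm)
      right_inv := fun _ => rfl }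

theorem card_sW : Nat.card (sW (σ := σ)) = Nat.card K * Nat.card (Fix σ) := by
  rw [← Nat.card_prod]
  exact Nat.card_congr
    { toFun := fun g => (g.1.b, ⟨g.1.x, g.1.hx⟩)
      invFun := fun x => ⟨⟨0, x.1, x.2.1, 0, x.2.2, map_zero σ⟩, rfl, rfl⟩
      left_inv := fun g => Subtype.ext (U.ext g.2.1.symm rfl rfl g.2.2.symm)
      right_inv := fun _ => rfl }

theorem card_sV : Nat.card (sV (σ := σ)) = Nat.card K * Nat.card (Fix σ) ^ 2 := by
  rw [pow_two, ← Nat.card_prod, ← Nat.card_prod]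
  exact Nat.card_congr
    { toFun := fun g => (g.1.b, ⟨g.1.x, g.1.hx⟩, ⟨g.1.y, g.1.hy⟩)
      invFun := fun x => ⟨⟨0, x.1, x.2.1.1, x.2.2.1, x.2.1.2, x.2.2.2⟩, rfl⟩
      left_inv := fun g => Subtype.ext (U.ext (mem_sV.1 g.2).symm rfl rfl rfl)
      right_inv := fun _ => rfl }

end CL.U4
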