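/-
S5210: the conjugates of `Z` and `W` under a group of automorphisms of `V` with Sylow subgroup `T = Aut_S(V)`.
-/
import Cfsg.Agent.FUS.U4.Chr
import Cfsg.Agent.FUS.U4.Fld

set_option autoImplicit false
set_option linter.unusedSimpArgs false
set_option linter.unusedSectionVars false
set_option linter.unusedVariables false

namespace CL.U4

open CL.Fus CL.RF4 Subgroup Cfsg Cfsg.FusionSystem U CL.U5.Un
open CL.U5 (Un Dg ru σu ru_val σu_val map_σ Cp Qd Pr)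
open scoped commutatorElement

variable {K : Type*} [Field K] [Finite K] {σ : K →+* K} [T : Un σ] {p : ℕ} [Fact p.Prime] [CharP K p]
  {F F' : FusionSystem (⊤ : Subgroup (U σ))} {G : Subgroup (MulAut (sV (σ := σ)))} {g g' : MulAut (sV (σ := σ))}

/-- the conjugates of `Z` -/
def Zg (g : MulAut (sV (σ := σ))) : Subgroup (sV (σ := σ)) := (sZ.subgroupOf sV).map g.toMonoidHom

/-- the conjugates of `W` -/
def Wg (g : MulAut (sV (σ := σ))) : Subgroup (sV (σ := σ)) := (sW.subgroupOf sV).map g.toMonoidHom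

theorem mem_Zg {v : sV (σ := σ)} : v ∈ Zg g ↔ (g⁻¹ v).1 ∈ sZ := by
  exact mem_map_equiv

theorem mem_Wg {v : sV (σ := σ)} : v ∈ Wg g ↔ (g⁻¹ v).1 ∈ sW := by
  exact mem_map_equiv

theorem card_Zg : Nat.card (Zg g) = Nat.card (Fix σ) := by
  rw [Zg, card_map_of_injective g.injective, Nat.card_congr (subgroupOfEquivOfLe Z_le_V).toEquiv, card_sZ]

theorem card_Wg : Nat.card (Wg g) = Nat.card K * Nat.card (Fix σ) := by
  rw [Wg, card_map_of_injective g.injective, Nat.card_congr (subgroupOfEquivOfLe W_le_V).toEquiv, card_sW]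

namespace VAx

section

variable {V : Type*} [Group V]

/-- the stabiliser of the chain `1 ≤ Z ≤ W ≤ V` -/
def St (Z W : Subgroup V) : Subgroup (MulAut V) where
  carrier := {g | (∀ v ∈ Z, g v = v) ∧ (∀ v ∈ W, v⁻¹ * g v ∈ Z) ∧ ∀ v, v⁻¹ * g v ∈ W}
  one_mem' := by simp
  mul_mem' {g h} hg hh := ⟨fun v hv => by rw [MulAut.mul_apply, hh.1 v hv, hg.1 v hv], fun v hv => by
    simpa using mul_mem (hh.2.1 v hv) (hg.2.1 (h v) (by simpa using mul_mem hv (hh.2.2 v))),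
    fun v => by simpa using mul_mem (hh.2.2 v) (hg.2.2 (h v))⟩
  inv_mem' {g} hg := ⟨fun v hv => g.injective (by simp [hg.1 v hv]), fun v hv => by
    simpa using inv_mem (hg.2.1 (g⁻¹ v) (by simpa using mul_mem hv (inv_mem (hg.2.2 (g⁻¹ v))))),
    fun v => by simpa using inv_mem (hg.2.2 (g⁻¹ v))⟩

theorem pw {g : MulAut V} {v : V} (h : g (v⁻¹ * g v) = v⁻¹ * g v) (n : ℕ) : (g ^ n) v = v * (v⁻¹ * g v) ^ n := by
  induction n with
  | zero => simp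
  | succ n ih => rw [pow_succ', MulAut.mul_apply, ih, map_mul, map_pow, h, pow_succ', ← mul_assoc, mul_inv_cancel_left]

theorem St_p {Z W : Subgroup V} {p : ℕ} (hp : ∀ v : V, v ^ p = 1) : IsPGroup p (St Z W) := fun g => ⟨2, by
  have h1 : ∀ v ∈ W, (g.1 ^ p) v = v := fun v hv => by rw [pw (g.2.1 _ (g.2.2.1 v hv)), hp, mul_one]
  ext v
  simp only [pow_two, pow_mul, SubgroupClass.coe_pow, OneMemClass.coe_one, MulAut.one_apply]
  rw [pw (h1 _ ((pow_mem g.2 p).2.2 v)), hp, mul_one]⟩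

theorem exists_chi' {V : Type*} [CommGroup V] {p : ℕ} [Fact p.Prime] (hp : ∀ v : V, v ^ p = 1) {H : Subgroup V} {w : V}
    (hw : w ∉ H) : ∃ χ : V → ZMod p, (∀ a b, χ (a * b) = χ a + χ b) ∧ χ w ≠ 0 ∧ ∀ v ∈ H, χ v = 0 := by
  let _ : Module (ZMod p) (Additive V) := AddCommGroup.zmodModule fun x => congrArg Additive.ofMul (hp x.toMul)
  obtain ⟨f, h1, h2⟩ := Submodule.exists_le_ker_of_notMem
    (p := AddSubgroup.toZModSubmodule p H.toAddSubgroup) (v := Additive.ofMul w) hw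
  exact ⟨fun v => f.toFun (.ofMul v), fun a b => f.map_add' _ _, h1, fun v hv => h2 hv⟩

theorem exists_chi {p : ℕ} [Fact p.Prime] (hc : ∀ v w : V, v * w = w * v) (hp : ∀ v : V, v ^ p = 1) {H : Subgroup V} {w : V}
    (hw : w ∉ H) : ∃ χ : V → ZMod p, (∀ a b, χ (a * b) = χ a + χ b) ∧ χ w ≠ 0 ∧ ∀ v ∈ H, χ v = 0 :=
  @exists_chi' V { mul_comm := hc } p _ hp H w hw

/-- iteration of the relation `[v, t] ↦ [v, t']` -/
def Rel (t t' : MulAut V) : ℕ → V → V → Prop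
  | 0, u, u' => u' = u
  | n + 1, u, u' => ∃ v, Rel t t' n u (v⁻¹ * t v) ∧ u' = v⁻¹ * t' v

theorem Rel.cj {t t' : MulAut V} (k : MulAut V) {n : ℕ} {u u' : V} (h : Rel t t' n u u') :
    Rel (k * t * k⁻¹) (k * t' * k⁻¹) n (k u) (k u') := by
  induction n generalizing u' with
  | zero => exact congrArg k h
  | succ n ih => obtain ⟨v, h, rfl⟩ := h; exact ⟨k v, by simpa using ih h, by simp⟩

end

variable (v w : sV (σ := σ)) {a : K}

theorem nb : (v⁻¹ * w).1.b = w.1.b - v.1.b := by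
  change (v.1⁻¹ * w.1).b = _; usimp; simp only [mem_sV.1 v.2]; ring
theorem nx : (v⁻¹ * w).1.x = w.1.x - v.1.x := by
  change (v.1⁻¹ * w.1).x = _; usimp; simp only [mem_sV.1 v.2, map_zero]; ring
theorem ny : (v⁻¹ * w).1.y = w.1.y - v.1.y := by
  change (v.1⁻¹ * w.1).y = _; usimp; ring
theorem tb (a : K) : (v⁻¹ * tv a v).1.b = a * v.1.y := by rw [nb, tv_b]; ring
theorem tx (a : K) : (v⁻¹ * tv a v).1.x = a * σ v.1.b + σ a * v.1.b + a * σ a * v.1.y := by rw [nx, tv_x]; ring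
theorem ty (a : K) : (v⁻¹ * tv a v).1.y = 0 := by rw [ny, tv_y]; ring
theorem tW (a : K) : (v⁻¹ * tv a v).1 ∈ sW := ⟨(v⁻¹ * tv a v).2, ty v a⟩

variable {v w}

theorem vext (hb : v.1.b = w.1.b) (hx : v.1.x = w.1.x) (hy : v.1.y = w.1.y) : v = w :=
  Subtype.ext (U.ext ((mem_sV.1 v.2).trans (mem_sV.1 w.2).symm) hb hx hy)

theorem tZ (ha : a ≠ 0) : (v⁻¹ * tv a v).1 ∈ sZ ↔ v.1 ∈ sW :=
  ⟨fun h => ⟨v.2, (mul_eq_zero.1 ((tb v a).symm.trans h.2.1)).resolve_left ha⟩,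
    fun h => ⟨(v⁻¹ * tv a v).2, by rw [tb, h.2, mul_zero], ty v a⟩⟩

theorem tv_fix (h : v.1 ∈ sW) (e : a * σ v.1.b + σ a * v.1.b = 0) : tv a v = v :=
  vext (by rw [tv_b, h.2]; ring) (by rw [tv_x, h.2]; linear_combination e) (tv_y a v)

theorem tv_Z (a : K) (h : v.1 ∈ sZ) : tv a v = v := tv_fix (Z_le_W h) (by simp [h.2.1])

theorem tv_inj {a a' : K} (h : (tv a : MulAut (sV (σ := σ))) = tv a') : a = a' := by
  have := tb (σ := σ) ⟨zy 1 (map_one σ), rfl⟩ a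
  rw [h, tb] at this
  simpa using this.symm

theorem cj_ne {k : MulAut (sV (σ := σ))} {a a' : K} (ha : a ≠ 0) (e : tv a = k * tv a' * k⁻¹) : a' ≠ 0 := by
  rintro rfl
  rw [tv_zero, mul_one, mul_inv_cancel, ← tv_zero] at e
  exact ha (tv_inj e)

theorem pow_p (p : ℕ) [CharP K p] (v : sV (σ := σ)) : v ^ p = 1 := by
  have : ∀ n : ℕ, (v ^ n).1.b = n * v.1.b ∧ (v ^ n).1.x = n * v.1.x ∧ (v ^ n).1.y = n * v.1.y := fun n => by
    induction n with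
    | zero => simp
    | succ n ih =>
      rw [pow_succ', coe_mul]; usimp; simp only [mem_sV.1 v.2, ih, map_zero]; push_cast; refine ⟨?_, ?_, ?_⟩ <;> ring
  obtain ⟨h1, h2, h3⟩ := this p
  rw [CharP.cast_eq_zero, zero_mul] at h1 h2 h3
  exact vext h1 h2 h3

theorem exists_n (ha : a ≠ 0) {y x : K} (hy : σ y = y) (hx : σ x = x) :
    ∃ v : sV (σ := σ), v.1.y = y ∧ (v⁻¹ * tv a v).1.x = x := by
  obtain ⟨b, e⟩ := exists_tr (σ := σ) ha (x := x - a * σ a * y) (by simp only [map_sub, map_mul, T.sq, hx, hy]; ring)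
  exact ⟨⟨⟨0, b, 0, y, map_zero σ, hy⟩, rfl⟩, rfl, by rw [tx]; linear_combination e⟩

theorem Rel.b {l : K} {n : ℕ} (h : Rel (tv a) (tv (l * a)) n v w) : w.1.b = l ^ n * v.1.b ∧ (v.1.y = 0 → w.1.y = 0) := by
  induction n generalizing w with
  | zero => obtain rfl := h; simp
  | succ n ih =>
    obtain ⟨u, h, rfl⟩ := h
    exact ⟨by rw [tb, pow_succ', mul_assoc, mul_assoc, ← (ih h).1, tb], fun _ => ty _ _⟩

theorem Rel.ex (ha : a ≠ 0) {m y : K} (hm : σ m = m) (hy : σ y = y) (n : ℕ) : ∃ w : sV (σ := σ),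
    Rel (tv a) (tv (m * a)) n ⟨xb (a * y), rfl⟩ w ∧ w.1.b = m ^ n * a * y ∧ w.1.y = 0 ∧
      w.1.x = n * m ^ n * (m - 1) * (a * σ a) * y := by
  induction n with
  | zero => exact ⟨_, rfl, by simp, rfl, by simp⟩
  | succ n ih =>
    obtain ⟨w, h, h1, h2, h3⟩ := ih
    obtain ⟨u, e1, e2⟩ := exists_n ha (y := m ^ n * y) (by simp [hm, hy]) w.1.hx
    refine ⟨_, ⟨u, by rwa [vext (v := u⁻¹ * tv a u) (w := w) (by rw [tb, e1, h1]; ring) e2 (by rw [ty, h2])], rfl⟩,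
      by rw [tb, e1]; ring, ty _ _, ?_⟩
    rw [tx, e1, h3] at e2
    rw [tx, e1, map_mul, hm]
    push_cast
    linear_combination m * e2

theorem Zg_mul (g h : MulAut (sV (σ := σ))) : Zg (g * h) = (Zg h).map g.toMonoidHom := by
  rw [Zg, Zg, map_map]; rfl

theorem Wg_mul (g h : MulAut (sV (σ := σ))) : Wg (g * h) = (Wg h).map g.toMonoidHom := by
  rw [Wg, Wg, map_map]; rfl

theorem mem_Z1 : v ∈ Zg 1 ↔ v.1 ∈ sZ := mem_Zg
theorem mem_W1 : v ∈ Wg 1 ↔ v.1 ∈ sW := mem_Wg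

theorem Zg_eq (h : Zg g ≤ Zg g') : Zg g = Zg g' := eq_of_le_of_card_ge h (by rw [card_Zg, card_Zg])

end VAx

open VAx

/-- the elements of `G` stabilising `1 < Z < W < V` form a `p`-group (`stabPair`, `mem_pCore_of_chain`, or: `u` acts trivially on the factors, so `u ^ p ^ 3 = 1`) containing `T`, so it is `T`. -/
theorem mem_Tv_of (h : SylIn p (Tv σ) G) (hg : g ∈ G) (h1 : ∀ v : sV, v.1 ∈ sZ → g v = v) (h2 : ∀ v : sV, v.1 ∈ sW → (v⁻¹ * g v).1 ∈ sZ)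
    (h3 : ∀ v : sV, (v⁻¹ * g v).1 ∈ sW) : ∃ a, g = tv a := by
  refine mem_Tv.1 (h.eq_of_le (C := G ⊓ St (sZ.subgroupOf sV) (sW.subgroupOf sV)) inf_le_left
    ((St_p (pow_p p)).to_le inf_le_right) (le_inf h.le fun t ht => ?_) ▸ ⟨hg, h1, h2, h3⟩)
  obtain ⟨a, rfl⟩ := mem_Tv.1 ht
  exact ⟨fun v hv => tv_Z a hv, fun v hv => ⟨(v⁻¹ * tv a v).2, (tb v a).trans (mul_eq_zero_of_right _ hv.2), ty v a⟩,
    fun v => tW v a⟩

/-- Sylow: `P ≤ G` a `p`-subgroup of the stabiliser `C` of a structure fixed by `g T g⁻¹`. Here: if `g T g⁻¹ ≤ C ≤ G` and `P ≤ C` is a `p`-group then `P ≤ (c g) T (c g)⁻¹` for some `c ∈ C` (`SylIn.conj`, `of_le`, `exists_conj_le`). -/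
theorem exists_conj_tv (h : SylIn p (Tv σ) G) (hg : g ∈ G) {C P : Subgroup (MulAut (sV (σ := σ)))} (hC : C ≤ G) (h1 : ∀ a, g * tv a * g⁻¹ ∈ C)
    (hP : P ≤ C) (h2 : IsPGroup p P) : ∃ c ∈ C, ∀ t ∈ P, ∃ a, t = c * g * tv a * (c * g)⁻¹ := by
  obtain ⟨b, hb, k⟩ := ((h.conj hg).of_le (C := C) (by
    rintro _ ⟨t, ht, rfl⟩
    obtain ⟨a, rfl⟩ := mem_Tv.1 ht
    exact h1 a) hC).exists_conj_le hP h2
  refine ⟨b⁻¹, inv_mem hb, fun t ht => ?_⟩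
  obtain ⟨s, hs, e⟩ := k t ht
  obtain ⟨a, rfl⟩ := mem_Tv.1 hs
  exact ⟨a, by rw [show t = b⁻¹ * (b * t * b⁻¹) * b by group, ← e]; simp [mul_assoc]⟩

/-- `w = g z = (b, x, 0)`, `b ≠ 0`. `P = C_T(w) = {tv a | Tr(a σ b) = 0}`, `C = C_G(w)`; `k = c g` has `k z = w` and `P ≤ k T k⁻¹`. Write `n t v = v⁻¹ t v`.
`p` odd: `Z` is the image of `n t ∘ n t` for every `1 ≠ t ∈ T` (`2 N(a) y`), so `k Z = Z`, absurd.
`p = 2`, `q > 2`: `P = {tv (b c)}`. For distinct `t, t' ∈ T ∖ 1` with the same image `U = n t V` (that is `t = tv a`, `t' = tv (l a)`, `l ∈ F ∖ {0, 1}`) the relation `φ (n t v) = n t' v` defines `φ : U → U`, `φ (a y, X) = l (a y, X) + (0, (l² - l) N(a) y)`,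
and `Z = {u⁻¹ φ^[q] u ...}`: `φ^[q] u = l ^ q u = l u` (`φ = l + ν`, `ν² = 0`, `q = 0`), so `Z = {(φ^[q] u)⁻¹ φ u}` is defined by `t, t'` alone. Apply this to `t = tv b`, `t' = tv (l b)` in `T` and in `k T k⁻¹`: `k Z = Z`. -/
theorem nt_two (h : SylIn p (Tv σ) G) (hg : g ∈ G) {z : sV (σ := σ)} (hz : z.1 ∈ sZ) (h1 : (g z).1 ∈ sW) (h2 : (g z).1 ∉ sZ) :
    Nat.card (Fix σ) = 2 := by
  by_contra hq
  obtain ⟨l, hl, l0, l1⟩ := exists_ne_zero_one hq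
  have hb : (g z).1.b ≠ 0 := fun e => h2 ⟨h1.1, e, h1.2⟩
  have a0 := mul_ne_zero hb (θ_sub σ)
  obtain ⟨c, hc, hk⟩ := exists_conj_tv h hg (C := G ⊓ MulAction.stabilizer _ (g z))
    (P := Tv σ ⊓ MulAction.stabilizer _ (g z)) inf_le_left (fun a => mem_inf.2
      ⟨mul_mem (mul_mem hg (h.le (mem_Tv.2 ⟨a, rfl⟩))) (inv_mem hg), by simp [tv_Z a hz]⟩) (inf_le_inf_right _ h.le) (h.isPGroup.to_le inf_le_left)
  obtain ⟨a, e⟩ := hk (tv ((g z).1.b * (θ σ - σ (θ σ)))) ⟨mem_Tv.2 ⟨_, rfl⟩, tv_fix h1 (by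
    simp only [map_mul, map_sub, T.sq]; ring)⟩
  obtain ⟨a', e'⟩ := hk (tv (l * ((g z).1.b * (θ σ - σ (θ σ))))) ⟨mem_Tv.2 ⟨_, rfl⟩, tv_fix h1 (by
    simp only [map_mul, map_sub, T.sq, hl]; ring)⟩
  have kz : (c * g) z = g z := hc.2
  generalize (g z).1.b * (θ σ - σ (θ σ)) = s at *
  generalize c * g = k at *
  have ha := cj_ne a0 e
  obtain ⟨m, hm, rfl⟩ : ∃ m, σ m = m ∧ a' = m * a := by
    let v : sV (σ := σ) := ⟨zy 1 (map_one σ), rfl⟩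
    obtain ⟨u, e1, e2⟩ := exists_n a0 (y := l * (k v).1.y) (by simp [hl, U.hy]) ((k v)⁻¹ * tv (l * s) (k v)).1.hx
    have := vext (v := u⁻¹ * tv s u) (by rw [tb, tb, e1]; ring) e2 (by rw [ty, ty])
    rw [e, e'] at this
    have h3 : (k⁻¹ u)⁻¹ * tv a (k⁻¹ u) = v⁻¹ * tv a' v := k.injective (by simpa using this)
    have h4 := tb v a'
    rw [← h3, tb] at h4
    exact ⟨_, (k⁻¹ u).1.hy, by simpa [v, mul_comm] using h4.symm⟩
  have m0 : m ≠ 0 := left_ne_zero_of_mul (cj_ne (mul_ne_zero l0 a0) e')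
  have m1 : m - 1 ≠ 0 := sub_ne_zero.2 (by
    rintro rfl
    rw [one_mul, ← e] at e'
    exact l1 (mul_right_cancel₀ a0 ((tv_inj e').trans (one_mul s).symm)))
  obtain ⟨n, hn⟩ : ∃ n, Nat.card (Fix σ) = n + 1 := Nat.exists_eq_succ_of_ne_zero
    (by have : Nonempty (Fix σ) := ⟨⟨0, map_zero σ⟩⟩; exact Nat.card_pos.ne')
  have pw : ∀ x : K, σ x = x → x ≠ 0 → x ^ n = 1 := fun x hx x0 =>
    mul_right_cancel₀ x0 (by rw [← pow_succ, ← hn, fix_pow hx, one_mul])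
  have hn' : (n : K) = -1 := by
    obtain ⟨r, hr, e⟩ := card_fix (σ := σ) p
    have := congrArg (Nat.cast : ℕ → K) (hn.symm.trans e)
    push_cast at this
    rw [CharP.cast_eq_zero K p, zero_pow hr.ne'] at this
    linear_combination this
  have sa := (map_ne_zero σ).2 ha
  obtain ⟨w, r, w1, w2, w3⟩ := Rel.ex ha hm (y := -z.1.x / ((m - 1) * (a * σ a))) (by
    simp only [map_div₀, map_neg, map_mul, map_sub, map_one, T.sq, hm, U.hx, mul_comm a]) n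
  generalize hu : (⟨xb (a * (-z.1.x / ((m - 1) * (a * σ a)))), rfl⟩ : sV (σ := σ)) = u at r
  have ez : z = u⁻¹ * w := by
    subst hu
    exact vext (by rw [nb, w1, pw m hm m0, hz.2.1]; simp) (by rw [nx, w3, pw m hm m0, hn']; simp; field_simp; ring)
      (by rw [ny, w2, hz.2.2]; simp)
  have r' := r.cj k
  rw [← e, ← e'] at r'
  refine hb ?_
  rw [← kz, ez, map_mul, map_inv, nb, r'.b.1, pw l hl l0, one_mul, sub_self]

theorem NT.two (hF : F.IsSaturated p) (h : NT F) : Nat.card (Fix σ) = 2 := by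
  obtain ⟨f, ⟨hf, hm⟩, z, hz, h1, h2⟩ := h
  obtain ⟨α, hα, e⟩ := hf.exists_aut (hf.img_eq_self hm)
  have k : (α ⟨z, Z_le_V hz⟩).1 = f z := (autFun_of_mem α (Z_le_V hz)).symm.trans (e (Z_le_V hz))
  exact nt_two (sylV hF) hα (z := ⟨z, Z_le_V hz⟩) hz (k ▸ h1) (k ▸ h2)

namespace VG

/-- TI: `g Z ≤ C_V(tv a') ≤ W`, so `g Z = Z` (`nt`); `W = {v | v⁻¹ t v ∈ Z}` for every `1 ≠ t ∈ T`, so `g W = W`. -/
theorem ti (h : VG p G) (hg : g ∈ G) {a a' : K} (ha : a ≠ 0) (e : g * tv a * g⁻¹ = tv a') : Zg g = Zg 1 ∧ Wg g = Wg 1 := by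
  have ha' : a' ≠ 0 := cj_ne (k := g⁻¹) ha (by rw [← e]; group)
  have hZ : Zg g = Zg 1 := Zg_eq fun v hv => by
    have h1 : tv a' v = v := by
      rw [← e, MulAut.mul_apply, MulAut.mul_apply, tv_Z a (mem_Zg.1 hv), MulAut.apply_inv_self]
    simpa [mem_Zg] using h.nt g hg _ (mem_Zg.1 hv) (by simpa using (tZ ha').1 (by rw [h1, inv_mul_cancel]; exact one_mem _))
  refine ⟨hZ, Subgroup.ext fun v => ?_⟩
  rw [mem_Wg, mem_Wg, ← tZ ha, ← tZ ha', ← e]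
  simpa [mem_Zg] using SetLike.ext_iff.1 hZ (g ((g⁻¹ v)⁻¹ * tv a (g⁻¹ v)))

/-- If `W ≰ H₀ = g W ⊔ Z` take `χ : V → ZMod p` trivial on `H₀`, nontrivial on `W` (`V` is an elementary abelian `p`-group). `b ↦ χ (xb b)` and `exists_line` give `a ≠ 0` with `[V, tv a] ≤ ker χ`.
`C = {c ∈ G | χ ∘ c = χ}` contains `tv a` and `g T g⁻¹`; `exists_conj_tv` and `ti` give `c g W = W`, and `χ (c g w) = χ (g w) = 1`. -/
theorem bstar (h : VG p G) (hg : g ∈ G) : Wg 1 ≤ Wg g ⊔ Zg 1 := by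
  intro w hw
  by_contra hn
  obtain ⟨χ, h1, h2, h3⟩ := exists_chi (fun v w => Subtype.ext (comm_V w.2 v.2)) (pow_p p) hn
  obtain ⟨a, ha, k⟩ := exists_line (σ := σ) (AddMonoidHom.mk' (fun b => χ ⟨xb b, rfl⟩) fun b b' => by
    rw [← h1]; congr 1; exact Subtype.ext (by change xb _ = xb _ * xb _; usimp; simp))
  have k0 : ∀ c v, χ (v⁻¹ * c v) = 0 → χ ((c : MulAut (sV (σ := σ))) v) = χ v := fun c v e => by
    rw [← mul_inv_cancel_left v (c v), h1, e, add_zero]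
  let C : Subgroup (MulAut (sV (σ := σ))) :=
    { carrier := {c | c ∈ G ∧ ∀ v, χ (c v) = χ v}
      one_mem' := ⟨one_mem _, fun _ => rfl⟩
      mul_mem' := fun ha hb => ⟨mul_mem ha.1 hb.1, fun v => (ha.2 _).trans (hb.2 v)⟩
      inv_mem' := fun {c} hc => ⟨inv_mem hc.1, fun v => by simpa using (hc.2 (c⁻¹ v)).symm⟩ }
  have hT := fun a => mem_Tv.2 ⟨a, (rfl : tv (σ := σ) a = _)⟩
  obtain ⟨c, hc, e⟩ := exists_conj_tv h.syl hg (C := C) (P := zpowers (tv a)) (fun _ h => h.1)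
    (fun a => ⟨mul_mem (mul_mem hg (h.syl.le (hT a))) (inv_mem hg), fun v => k0 _ v (h3 _ (mem_sup_left (mem_Wg.2 (by
      simpa using tW (g⁻¹ v) a))))⟩) (zpowers_le.2 ⟨h.syl.le (hT a), fun v => k0 _ v (by
      rw [← mul_inv_cancel_left (⟨xb (a * v.1.y), rfl⟩ : sV (σ := σ)) (_ * _), h1, h3 (_⁻¹ * _) (mem_sup_right (mem_Z1.2
        ⟨mem_sV.1 (Subtype.property _), by rw [nb, tb]; simp, by rw [ny, ty]; simp⟩)), add_zero]
      exact k _ v.1.hy)⟩) (h.syl.isPGroup.to_le (zpowers_le.2 (hT a)))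
  obtain ⟨a', e⟩ := e _ (mem_zpowers _)
  rw [← (h.ti (mul_mem hc.1 hg) (cj_ne ha e) e.symm).2, Wg_mul] at hw
  obtain ⟨v, hv, rfl⟩ := hw
  exact h2 ((hc.2 v).trans (h3 v (mem_sup_left hv)))

theorem le_sup (h : VG p G) (hg : g ∈ G) (hg' : g' ∈ G) : Wg g ≤ Wg g' ⊔ Zg g := by
  have := map_mono (f := g.toMonoidHom) (h.bstar (mul_mem (inv_mem hg) hg'))
  rwa [Subgroup.map_sup, ← Wg_mul, ← Wg_mul, ← Zg_mul, mul_one, mul_inv_cancel_left] at this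

theorem inf_le (h : VG p G) (hg : g ∈ G) (hg' : g' ∈ G) : Zg g ⊓ Wg g' ≤ Zg g' := by
  intro v hv
  simpa [mem_Zg] using h.nt _ (mul_mem (inv_mem hg') hg) _ (mem_Zg.1 hv.1) (by simpa using mem_Wg.1 hv.2)

theorem Wg_eq (h : VG p G) (hg : g ∈ G) (hg' : g' ∈ G) (e : Zg g = Zg g') : Wg g = Wg g' := by
  have k : ∀ g : MulAut (sV (σ := σ)), Zg g ≤ Wg g := fun g v hv => mem_Wg.2 (Z_le_W (mem_Zg.1 hv))
  exact le_antisymm ((h.le_sup hg hg').trans (sup_le le_rfl (e ▸ k g'))) ((h.le_sup hg' hg).trans (sup_le le_rfl (e ▸ k g)))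

/-- `v⁻¹ tv a v ∈ W ⊓ g Z ≤ Z` gives `a y = 0`, so `g Z ≤ W`. -/
theorem semireg (h : VG p G) (hg : g ∈ G) {a : K} (ha : a ≠ 0) (e : Zg (tv a * g) = Zg g) : Zg g = Zg 1 := by
  refine Zg_eq fun v hv => h.inf_le hg (one_mem _) ⟨hv, mem_W1.2 ((tZ ha).1 (mem_Z1.1 (h.inf_le hg (one_mem _)
    (mem_inf.2 ⟨mul_mem (inv_mem hv) ?_, mem_W1.2 (tW v a)⟩))))⟩
  rw [← e, Zg_mul]
  exact mem_map_of_mem _ hv

end VG

end CL.U4
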