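import Cfsg.Agent.SOLV.Basic
/-
S5210: `G` is doubly transitive on the `q² + 1` conjugates of `Z`.
-/
import Cfsg.Agent.FUS.U4.VA
import Cfsg.Agent.FUS.U4.Cnt

set_option autoImplicit false
set_option linter.unusedSimpArgs false
set_option linter.unusedSectionVars false
set_option linter.unusedVariables false

namespace CL.U4

open CL.Fus CL.RF4 Subgroup Cfsg Cfsg.FusionSystem U CL.U5.Un
open CL.U5 (Un Dg ru σu ru_val σu_val map_σ Cp Qd Pr)
open scoped commutatorElement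

variable {K : Type*} [Field K] [Finite K] {σ : K →+* K} [T : Un σ] {p : ℕ} [Fact p.Prime] [CharP K p]
  {F F' : FusionSystem (⊤ : Subgroup (U σ))} {G : Subgroup (MulAut (sV (σ := σ)))} {g g' : MulAut (sV (σ := σ))}

namespace VB

theorem Zg_mul (c g : MulAut (sV (σ := σ))) : Zg (c * g) = (Zg g).map c.toMonoidHom := by
  rw [Zg, Zg, map_map]; rfl

theorem Wg_mul (c g : MulAut (sV (σ := σ))) : Wg (c * g) = (Wg g).map c.toMonoidHom := by
  rw [Wg, Wg, map_map]; rfl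

theorem congr (c : MulAut (sV (σ := σ))) (e : Zg g = Zg g') : Zg (c * g) = Zg (c * g') := by
  rw [Zg_mul, Zg_mul, e]

theorem ZW : Zg g ≤ Wg g := fun _ h => mem_Wg.2 (Z_le_W (mem_Zg.1 h))

theorem tv_fix (a : K) {v : sV (σ := σ)} (h : v ∈ Zg 1) : tv a v = v :=
  Subtype.ext (cj_eq_self_iff.2 (comm_Z (mem_Zg.1 h) _))

theorem tv_tv (a b : K) (g : MulAut (sV (σ := σ))) : tv a * (tv b * g) = tv (a + b) * g := by
  rw [tv_add, mul_assoc]

theorem Zg_tv (a : K) : Zg (tv a * 1 : MulAut (sV (σ := σ))) = Zg 1 :=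
  (eq_of_le_of_card_ge (fun v hv => Zg_mul (σ := σ) (tv a) 1 ▸ ⟨v, hv, tv_fix a hv⟩) (card_Zg.trans card_Zg.symm).le).symm

theorem cross {a b : K} (e : Zg (tv a * g) = Zg (tv b * g')) : Zg g' = Zg (tv (-b + a) * g) := by
  have := congr (tv (-b)) e
  rw [tv_tv, tv_tv, neg_add_cancel, tv_zero, one_mul] at this
  exact this.symm

theorem ne1 (hn : Zg g ≠ Zg 1) (a : K) : Zg (tv a * g) ≠ Zg 1 := fun e =>
  hn ((cross (a := 0) (g := 1) (by rw [Zg_tv, e])).trans (Zg_tv _))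

theorem inj (h : VG p G) (hg : g ∈ G) (hn : Zg g ≠ Zg 1) {a b : K} (e : Zg (tv a * g) = Zg (tv b * g)) : a = b := by
  by_contra k
  exact hn (h.semireg hg (fun e' => k (neg_add_eq_zero.1 e').symm) (cross e).symm)

theorem cprod (A B : Subgroup (sV (σ := σ))) :
    Nat.card (A ⊔ B : Subgroup _) * Nat.card (A ⊓ B : Subgroup _) = Nat.card A * Nat.card B :=
  card_sup_mul_card_inf_of_le_normalizer fun a _ => mem_normalizer_iff.2 fun b => by
    rw [show a * b = b * a from Subtype.ext (comm_V b.2 a.2), mul_inv_cancel_right]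

open Classical in
/-- a subgroup as a finite subset of `V₁` -/
noncomputable def fs {Ω : Type*} [Group Ω] (V₁ H : Subgroup Ω) [Fintype V₁] : Finset V₁ :=
  Finset.univ.filter fun v => v.1 ∈ H

theorem mem_fs {Ω : Type*} [Group Ω] {V₁ H : Subgroup Ω} [Fintype V₁] {v : V₁} : v ∈ fs V₁ H ↔ v.1 ∈ H := by
  simp [fs]

theorem card_fs {Ω : Type*} [Group Ω] {V₁ H : Subgroup Ω} [Fintype V₁] (h : H ≤ V₁) : (fs V₁ H).card = Nat.card H := by
  rw [← Nat.card_congr (subgroupOfEquivOfLe h).toEquiv, ← Nat.card_eq_finsetCard]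
  exact Nat.card_congr (Equiv.subtypeEquivRight fun _ => mem_fs)

end VB

open VB


/-- Among the `g ∈ G` with `Zg g ≠ Zg 1` choose `g₁` with `Y = Zg 1 ⊓ Zg g₁` of maximal order `k` (then `|Zg g ⊓ Zg g'| ≤ k` for all distinct conjugates), `r = q / k > 1`, `V₁ = Wg 1 ⊔ Zg g₁` of order `q³ r` (`inf_le`).
`ι = {Z' = Zg g | g ∈ G, Y ≤ Z', Wg g ≤ V₁}` (`W` is a function of `Z'` by `Wg_eq`) contains `Zg 1`, `Zg g₁` (`le_sup`) and is `T`-invariant (`[V, T] ≤ W`, `T` fixes `Y`), so `n ≥ q² + 1` (`semireg`, `card_K`).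
For distinct `i, j`: `Z i ⊓ W j = Y`, `W i ⊔ W j = V₁` (it contains `W j ⊔ Z i`, of order `q³ r`). `cnt` in `α = V₁` with `Z i ∖ Y` and `cnt_k`: `k = 1`, `n ≤ 2 q²`. Then `V₁ = V`, `ι` is the set of all conjugates;
two `T`-orbits besides `Zg 1` would give `n ≥ 2 q² + 1`. -/
theorem VG.two (h : VG p G) (hg : g ∈ G) (hn : Zg g ≠ Zg 1) :
    Zg g ⊓ Wg 1 = ⊥ ∧ ∀ g' ∈ G, Zg g' = Zg 1 ∨ ∃ a, Zg g' = Zg (tv a * g) := by
  classical
  have : Nonempty (Fix σ) := ⟨⟨0, map_zero σ⟩⟩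
  obtain ⟨g₁, ⟨hg₁, hn₁⟩, mx⟩ := Set.exists_max_image {g | g ∈ G ∧ Zg g ≠ Zg 1}
    (fun g => Nat.card (Zg 1 ⊓ Zg g : Subgroup _)) (Set.toFinite _) ⟨g, hg, hn⟩
  have tG : ∀ a, tv a ∈ G := fun a => h.syl.le (mem_Tv.2 ⟨a, rfl⟩)
  set Y := Zg 1 ⊓ Zg g₁ with hY
  set V₁ := Wg 1 ⊔ Zg g₁ with hV
  have le : ∀ a ∈ G, ∀ b ∈ G, Zg a ≠ Zg b → Nat.card (Zg a ⊓ Zg b : Subgroup _) ≤ Nat.card Y := fun a ha b hb n => by
    have := mx (a⁻¹ * b) ⟨mul_mem (inv_mem ha) hb, fun e => n (by simpa using (congr a e).symm)⟩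
    rwa [← card_map_of_injective (f := a.toMonoidHom) a.injective, map_inf _ _ _ a.injective, ← Zg_mul, ← Zg_mul,
      mul_one, mul_inv_cancel_left] at this
  obtain ⟨r, hr⟩ : Nat.card Y ∣ Nat.card (Fix σ) := (card_Zg (σ := σ) (g := 1)) ▸ card_dvd_of_le inf_le_left
  have k0 : 0 < Nat.card Y := Nat.card_pos
  have r1 : 1 < r := by
    rcases r with _ | _ | r
    · exact absurd hr Nat.card_pos.ne'
    · have e : Y = Zg 1 := eq_of_le_of_card_ge inf_le_left (by rw [card_Zg, hr]; simp)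
      exact (hn₁ (eq_of_le_of_card_ge (e.ge.trans inf_le_right) (card_Zg.trans card_Zg.symm).le).symm).elim
    · omega
  have inf : ∀ a ∈ G, ∀ b ∈ G, Zg a ≠ Zg b → Y ≤ Zg a → Y ≤ Zg b → Wg b ⊓ Zg a = Y := fun a ha b hb n h1 h2 =>
    le_antisymm ((le_inf inf_le_right ((inf_comm _ _).le.trans (h.inf_le ha hb))).trans
      (eq_of_le_of_card_ge (le_inf h1 h2) (le a ha b hb n)).ge) (le_inf (h2.trans ZW) h1)
  have sup : ∀ a ∈ G, ∀ b ∈ G, Zg a ≠ Zg b → Y ≤ Zg a → Y ≤ Zg b →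
      Nat.card (Wg b ⊔ Zg a : Subgroup _) = Nat.card K * Nat.card (Fix σ) * r := fun a ha b hb n h1 h2 => by
    have := cprod (Wg b) (Zg a)
    rw [inf a ha b hb n h1 h2, card_Wg, card_Zg] at this
    refine Nat.eq_of_mul_eq_mul_right k0 (this.trans ?_)
    conv_lhs => enter [2]; rw [hr]
    ring
  have cV := sup g₁ hg₁ 1 (one_mem _) hn₁ inf_le_right inf_le_left
  let ι := {Z' : Subgroup (sV (σ := σ)) // ∃ g ∈ G, Z' = Zg g ∧ Y ≤ Zg g ∧ Wg g ≤ V₁}
  choose γ γG γe γY γW using fun i : ι => i.2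
  have ne : ∀ i j : ι, i ≠ j → Zg (γ i) ≠ Zg (γ j) := fun i j n e => n (Subtype.ext (by rw [γe i, γe j, e]))
  let _ := Fintype.ofFinite ι
  let _ := Fintype.ofFinite V₁
  have n1 : Nat.card (Fix σ) ^ 2 + 1 ≤ Fintype.card ι := by
    let φ : Option K → ι := fun o => o.elim ⟨Zg 1, 1, one_mem _, rfl, inf_le_left, le_sup_left⟩ fun a =>
      ⟨Zg (tv a * g₁), _, mul_mem (tG a) hg₁, rfl, fun v hv => Zg_mul (tv a) g₁ ▸ ⟨v, hv.2, tv_fix a hv.1⟩, by
        rw [Wg_mul]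
        rintro _ ⟨v, hv, rfl⟩
        have : v⁻¹ * tv a v ∈ Wg 1 := mem_Wg.2 ⟨(v⁻¹ * tv a v).2, by
          change (v.1⁻¹ * (tv a v).1).y = 0
          rw [mul_y, inv_y, tv_y, neg_add_cancel]⟩
        simpa using mul_mem (h.le_sup hg₁ (one_mem _) hv) (mem_sup_left this)⟩
    have := Nat.card_le_card_of_injective φ (by
      rintro (_ | a) (_ | b) e
      exacts [rfl, (ne1 hn₁ b (congrArg Subtype.val e).symm).elim, (ne1 hn₁ a (congrArg Subtype.val e)).elim,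
        congrArg some (inj h hg₁ hn₁ (congrArg Subtype.val e))])
    rwa [Finite.card_option, card_K (σ := σ), Nat.card_eq_fintype_card (α := ι)] at this
  have : Nontrivial ι := Fintype.one_lt_card_iff_nontrivial.1
    (lt_of_lt_of_le (Nat.succ_lt_succ (pow_pos Nat.card_pos 2)) n1)
  have cV' : Fintype.card V₁ = Nat.card K * Nat.card (Fix σ) * r := Nat.card_eq_fintype_card.symm.trans cV
  have key := cnt (fun i => fs V₁ (Wg (γ i))) (fun i => fs V₁ (Zg (γ i)) \ fs V₁ Y) (fs V₁ Y) r (Nat.card Y) r1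
    (fun i => by rw [card_fs (γW i), card_Wg, cV', mul_comm])
    (fun i j n => by
      have e1 : Wg (γ j) ⊔ Zg (γ i) = V₁ := eq_of_le_of_card_ge (sup_le (γW j) (ZW.trans (γW i)))
        (cV.trans (sup _ (γG i) _ (γG j) (ne i j n) (γY i) (γY j)).symm).le
      have e2 : Wg (γ i) ⊔ Wg (γ j) = V₁ := le_antisymm (sup_le (γW i) (γW j))
        (e1.ge.trans (sup_le le_sup_right (ZW.trans le_sup_left)))
      have e3 := cprod (Wg (γ i)) (Wg (γ j))
      rw [e2, cV, card_Wg, card_Wg, mul_assoc] at e3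
      rw [show fs V₁ (Wg (γ i)) ∩ fs V₁ (Wg (γ j)) = fs V₁ (Wg (γ i) ⊓ Wg (γ j)) from
        Finset.ext fun v => by simp [mem_fs], card_fs (inf_le_left.trans (γW i)), cV', pow_two, mul_assoc,
        Nat.eq_of_mul_eq_mul_left (Nat.mul_pos Nat.card_pos Nat.card_pos) e3, mul_comm])
    (fun i v hv => mem_fs.2 (ZW (γY i (mem_fs.1 hv)))) (card_fs (inf_le_right.trans le_sup_right))
    (fun i v hv j => by
      rw [Finset.mem_sdiff, mem_fs, mem_fs] at hv
      refine ⟨fun e => by_contra fun n => hv.2 ?_, fun e => e ▸ mem_fs.2 (ZW (e ▸ hv.1))⟩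
      exact (inf _ (γG i) _ (γG j) (ne i j (Ne.symm n)) (γY i) (γY j)).le ⟨mem_fs.1 e, hv.1⟩)
    (fun i => by
      rw [Finset.card_sdiff_of_subset fun v hv => mem_fs.2 (γY i (mem_fs.1 hv)), card_fs (ZW.trans (γW i)),
        card_fs (inf_le_right.trans le_sup_right), card_Zg, hr, Nat.mul_sub_one])
  rw [cV', card_K (σ := σ)] at key
  obtain ⟨k1, n2⟩ := cnt_k hr k0 r1 n1 (key.trans_eq (by push_cast; ring))
  refine ⟨eq_bot_iff.2 ((le_inf inf_le_left (h.inf_le hg (one_mem _))).trans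
    (card_le_one_iff_eq_bot _ |>.1 (k1 ▸ le g hg 1 (one_mem _) hn)).le), fun g' hg' => ?_⟩
  by_contra hc
  simp only [not_or, not_exists] at hc
  have Y0 : Y = ⊥ := card_eq_one.1 k1
  have V0 : V₁ = ⊤ := eq_top_of_card_eq _ (by
    rw [k1, one_mul] at hr
    rw [cV, card_sV, ← hr]; ring)
  let e : ∀ c ∈ G, ι := fun c hc => ⟨Zg c, c, hc, rfl, Y0 ▸ bot_le, V0 ▸ le_top⟩
  let φ : Option (K ⊕ K) → ι := fun o => o.elim (e 1 (one_mem _))
    (Sum.elim (fun a => e _ (mul_mem (tG a) hg)) fun a => e _ (mul_mem (tG a) hg'))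
  have := Nat.card_le_card_of_injective φ (by
    rintro (_ | a | a) (_ | b | b) e <;> replace e := congrArg Subtype.val e
    exacts [rfl, (ne1 hn b e.symm).elim, (ne1 hc.1 b e.symm).elim, (ne1 hn a e).elim, by rw [inj h hg hn e],
      (hc.2 _ (cross e)).elim, (ne1 hc.1 a e).elim, (hc.2 _ (cross e.symm)).elim, by rw [inj h hg' hc.1 e]])
  rw [Finite.card_option, Nat.card_sum, card_K (σ := σ), Nat.card_eq_fintype_card (α := ι)] at this
  omega

end CL.U4
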