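/-
S5210: standard position of `Aut_F(V)`.
-/
import Cfsg.Agent.FUS.U4.VB
import Cfsg.Agent.FUS.U4.Ess

set_option autoImplicit false
set_option linter.unusedSimpArgs false
set_option linter.unusedSectionVars false
set_option linter.unusedVariables false

namespace CL.U4

open CL.Fus CL.RF4 Subgroup Cfsg Cfsg.FusionSystem U CL.U5.Un
open CL.U5 (Un Dg ru σu ru_val σu_val map_σ Cp Qd Pr)
open scoped commutatorElement

variable {K : Type*} [Field K] [Finite K] {σ : K →+* K} [T : Un σ] {p : ℕ} [Fact p.Prime] [CharP K p]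
  {F F' : FusionSystem (⊤ : Subgroup (U σ))} {G : Subgroup (MulAut (sV (σ := σ)))} {g g' : MulAut (sV (σ := σ))}

namespace VC

variable {v w : sV (σ := σ)} {k : MulAut (sV (σ := σ))} {γ ψ μ : K →+ K}

theorem vb (v w : sV (σ := σ)) : (v * w).1.b = v.1.b + w.1.b := by rw [coe_mul, mul_b, mem_sV.1 v.2]; ring
theorem vx (v w : sV (σ := σ)) : (v * w).1.x = v.1.x + w.1.x := by rw [coe_mul, mul_x, mem_sV.1 v.2, map_zero]; ring
theorem vy (v w : sV (σ := σ)) : (v * w).1.y = v.1.y + w.1.y := rfl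
theorem ib (v : sV (σ := σ)) : (v⁻¹).1.b = -v.1.b := by rw [coe_inv, inv_b, mem_sV.1 v.2]; ring
theorem ix (v : sV (σ := σ)) : (v⁻¹).1.x = -v.1.x := by rw [coe_inv, inv_x, mem_sV.1 v.2, map_zero]; ring
theorem iy (v : sV (σ := σ)) : (v⁻¹).1.y = -v.1.y := rfl

theorem vext (h1 : v.1.b = w.1.b) (h2 : v.1.x = w.1.x) (h3 : v.1.y = w.1.y) : v = w :=
  Subtype.ext (U.ext ((mem_sV.1 v.2).trans (mem_sV.1 w.2).symm) h1 h2 h3)

/-- the element of `V` with given coordinates -/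
def ve (b x y : K) (hx : σ x = x) (hy : σ y = y) : sV (σ := σ) := ⟨⟨0, b, x, y, hx, hy⟩, rfl⟩

/-- the elements of `g T g⁻¹` -/
abbrev tq (g : MulAut (sV (σ := σ))) (c : K) : MulAut (sV (σ := σ)) := g * tv c * g⁻¹

theorem Z1 : v ∈ Zg 1 ↔ v.1.b = 0 ∧ v.1.y = 0 := mem_Zg.trans ⟨fun h => h.2, fun h => ⟨v.2, h⟩⟩
theorem W1 : v ∈ Wg 1 ↔ v.1.y = 0 := mem_Wg.trans ⟨fun h => h.2, fun h => ⟨v.2, h⟩⟩
theorem Zm : v ∈ Zg (k * g) ↔ k⁻¹ v ∈ Zg g := by rw [mem_Zg, mem_Zg, mul_inv_rev]; rfl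
theorem Wm : v ∈ Wg (k * g) ↔ k⁻¹ v ∈ Wg g := by rw [mem_Wg, mem_Wg, mul_inv_rev]; rfl
theorem Zc (k : MulAut (sV (σ := σ))) (e : Zg g = Zg g') : Zg (k * g) = Zg (k * g') := ext fun v => by rw [Zm, Zm, e]
theorem Zi (hn : Zg g ≠ Zg 1) : Zg g⁻¹ ≠ Zg 1 := fun e => hn (by simpa using (Zc g e).symm)
theorem tv_inv (a : K) : (tv a : MulAut (sV (σ := σ)))⁻¹ = tv (-a) :=
  inv_eq_of_mul_eq_one_right (by rw [← tv_add, add_neg_cancel, tv_zero])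
theorem Zt (a : K) : Zg (tv a : MulAut (sV (σ := σ))) = Zg 1 := ext fun v => by
  rw [← mul_one (tv a), Zm, Z1, Z1, tv_inv, tv_b, tv_y]
  exact and_congr_left fun h => by rw [h, mul_zero, add_zero]
theorem tvG (h : VG p G) (a : K) : tv a ∈ G := h.syl.le (mem_Tv.2 ⟨a, rfl⟩)

theorem ZW (h : VG p G) (hg : g ∈ G) (hg' : g' ∈ G) (hn : Zg g ≠ Zg g') (h1 : v ∈ Zg g) (h2 : v ∈ Wg g') : v = 1 := by
  have := (h.two (mul_mem (inv_mem hg') hg) fun e => hn (by simpa using Zc g' e)).1.le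
    (show g'⁻¹ v ∈ _ from ⟨Zm.2 (by simpa using h1), Wm.1 (by rwa [mul_one])⟩)
  simpa using this

/-- coordinates for `g Z` and `g W` -/
structure Co (g : MulAut (sV (σ := σ))) (γ ψ μ : K →+ K) : Prop where
  hψ : ∀ y, σ (ψ y) = ψ y
  hμ : ∀ b, σ (μ b) = μ b
  Z : ∀ v, v ∈ Zg g ↔ v.1.b = γ v.1.y ∧ v.1.x = ψ v.1.y
  W : ∀ v, v ∈ Wg g ↔ v.1.x = ψ v.1.y + μ (v.1.b - γ v.1.y)

theorem exists_co (h : VG p G) (hg : g ∈ G) (hn : Zg g ≠ Zg 1) : ∃ γ ψ μ, Co g γ ψ μ := by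
  have u1 : ∀ v ∈ Zg g, ∀ w ∈ Zg g, v.1.y = w.1.y → v = w := fun v hv w hw e => inv_mul_eq_one.1
    (ZW h hg (one_mem _) hn (mul_mem (inv_mem hv) hw) (W1.2 (by rw [vy, iy, e, neg_add_cancel])))
  have u2 : ∀ v ∈ Wg g, ∀ w ∈ Wg g, v.1.b = w.1.b → v.1.y = w.1.y → v = w := fun v hv w hw e e' => inv_mul_eq_one.1
    (ZW h (one_mem _) hg hn.symm (Z1.2 ⟨by rw [vb, ib, e, neg_add_cancel], by rw [vy, iy, e', neg_add_cancel]⟩)
      (mul_mem (inv_mem hv) hw))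
  have s1 := (Function.Injective.bijective_of_nat_card_le (f := fun v : Zg g => (⟨v.1.1.y, v.1.1.hy⟩ : Fix σ))
    (fun v w e => Subtype.ext (u1 _ v.2 _ w.2 (congrArg Subtype.val e))) card_Zg.ge).2
  have s2 := (Function.Injective.bijective_of_nat_card_le (f := fun v : Wg g => ((v.1.1.b, ⟨v.1.1.y, v.1.1.hy⟩) : K × Fix σ))
    (fun v w e => Subtype.ext (u2 _ v.2 _ w.2 (congrArg Prod.fst e) (congrArg (fun z : K × Fix σ => z.2.1) e)))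
    (by rw [card_Wg, Nat.card_prod])).2
  have s3 : ∀ c : K, ∃ v ∈ Zg g, v.1.y = τ σ * c + σ (τ σ * c) := fun c =>
    let ⟨v, e⟩ := s1 ⟨_, by rw [map_add, T.sq, add_comm]⟩
    ⟨v, v.2, congrArg Subtype.val e⟩
  have s4 : ∀ b : K, ∃ v ∈ Wg g, v.1.b = b ∧ v.1.y = 0 := fun b =>
    let ⟨v, e⟩ := s2 (b, ⟨0, map_zero σ⟩)
    ⟨v, v.2, congrArg Prod.fst e, congrArg (fun z : K × Fix σ => z.2.1) e⟩
  choose ζ z1 z2 using s3
  choose ω w1 w2 w3 using s4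
  have z3 : ∀ c c', ζ (c + c') = ζ c * ζ c' := fun c c' => u1 _ (z1 _) _ (mul_mem (z1 _) (z1 _)) (by
    rw [vy, z2, z2, z2, mul_add, map_add]; ring)
  have w4 : ∀ c c', ω (c + c') = ω c * ω c' := fun c c' => u2 _ (w1 _) _ (mul_mem (w1 _) (w1 _))
    (by rw [vb, w2, w2, w2]) (by rw [vy, w3, w3, w3, add_zero])
  have z4 : ∀ v : sV (σ := σ), (ζ v.1.y).1.y = v.1.y := fun v => by rw [z2, map_mul, τ_eq, v.1.hy]; ring
  have le : ∀ v ∈ Zg g, v ∈ Wg g := fun v hv => mem_Wg.2 (Z_le_W (mem_Zg.1 hv))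
  refine ⟨AddMonoidHom.mk' (fun c => (ζ c).1.b) fun c c' => by rw [z3, vb], AddMonoidHom.mk' (fun c => (ζ c).1.x) fun c c' => by
    rw [z3, vx], AddMonoidHom.mk' (fun c => (ω c).1.x) fun c c' => by rw [w4, vx], fun _ => U.hx _, fun _ => U.hx _,
    fun v => ⟨fun hv => ?_, fun hv => vext hv.1 hv.2 (z4 v).symm ▸ z1 _⟩, fun v => ?_⟩
  · have := u1 _ hv _ (z1 _) (z4 v).symm
    exact ⟨congrArg (·.1.b) this, congrArg (·.1.x) this⟩
  · have e1 : v.1.b = (ζ v.1.y * ω (v.1.b - (ζ v.1.y).1.b)).1.b := by rw [vb, w2]; ring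
    have e2 : v.1.y = (ζ v.1.y * ω (v.1.b - (ζ v.1.y).1.b)).1.y := by rw [vy, w3, z4, add_zero]
    have m := mul_mem (le _ (z1 v.1.y)) (w1 (v.1.b - (ζ v.1.y).1.b))
    exact ⟨fun hv => (congrArg (·.1.x) (u2 _ hv _ m e1 e2)).trans (vx _ _), fun hv => vext e1 (hv.trans (vx _ _).symm) e2 ▸ m⟩

theorem tq0 (v : sV (σ := σ)) : tq g 0 v = v := by simp [tv_zero]

theorem t1 (c : K) (v : sV (σ := σ)) : v⁻¹ * tq g c v ∈ Wg g := by
  rw [← mul_one g, Wm, W1, mul_one, map_mul, map_inv, vy, iy]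
  simp [tv_y]

theorem t2 (c : K) (hv : v ∈ Wg g) : v⁻¹ * tq g c v ∈ Zg g := by
  rw [← mul_one g, Wm, W1] at hv
  rw [← mul_one g, Zm, Z1, mul_one, map_mul, map_inv, vy, iy, vb, ib]
  simp only [tq, MulAut.mul_apply, MulAut.inv_apply_self, tv_y, tv_b, hv]
  exact ⟨by ring, by ring⟩

theorem t3 (c : K) (hv : v ∈ Zg g) : tq g c v = v := by
  rw [← mul_one g, Zm, Z1] at hv
  have : tv c (g⁻¹ v) = g⁻¹ v := vext (by rw [tv_b, hv.2]; ring) (by rw [tv_x, hv.1, hv.2, map_zero]; ring) (tv_y _ _)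
  rw [MulAut.mul_apply, MulAut.mul_apply, this, MulAut.apply_inv_self]

theorem t4 (h : VG p G) (hg : g ∈ G) (hn : Zg g ≠ Zg 1) {c : K} (hc : c ≠ 0) :
    ∃ a, a ≠ 0 ∧ Zg (tq g c) = Zg (tv a * g) := by
  rcases (h.two hg hn).2 _ (mul_mem (mul_mem hg (tvG h c)) (inv_mem hg)) with e | ⟨a, e⟩
  · exact absurd (h.semireg (inv_mem hg) hc (by simpa [mul_assoc] using Zc g⁻¹ e)) (Zi hn)
  · refine ⟨a, fun ha => Zi hn ?_, e⟩
    rw [ha, tv_zero, one_mul] at e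
    have := Zc (tv (-c) * g⁻¹) e
    rwa [← tv_inv, show (tv c)⁻¹ * g⁻¹ * (g * tv c * g⁻¹) = g⁻¹ by group, inv_mul_cancel_right, tv_inv, Zt] at this

theorem t5 (h : VG p G) (hg : g ∈ G) (hn : Zg g ≠ Zg 1) {a : K} (ha : a ≠ 0) : ∃ c, Zg (tq g c) = Zg (tv a * g) := by
  rcases (h.two (inv_mem hg) (Zi hn)).2 _ (mul_mem (inv_mem hg) (mul_mem (tvG h a) hg)) with e | ⟨c, e⟩
  · exact absurd (h.semireg hg ha (by simpa using Zc g e)) hn
  · exact ⟨c, by simpa [mul_assoc] using (Zc g e).symm⟩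

theorem Co.Zt (C : Co g γ ψ μ) (a : K) : v ∈ Zg (tv a * g) ↔ v.1.b = a * v.1.y + γ v.1.y ∧
    v.1.x = ψ v.1.y + (a * σ a * v.1.y + (a * σ (γ v.1.y) + σ a * γ v.1.y)) := by
  rw [Zm, tv_inv, C.Z, tv_b, tv_x, tv_y, map_neg]
  refine ⟨fun ⟨h1, h2⟩ => ?_, fun ⟨h1, h2⟩ => ?_⟩
  · have h3 : v.1.b = a * v.1.y + γ v.1.y := by linear_combination h1
    rw [h3, map_add, map_mul, v.1.hy] at h2
    exact ⟨h3, by linear_combination h2⟩
  · rw [h1, h2, map_add, map_mul, v.1.hy]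
    exact ⟨by ring, by ring⟩

theorem Co.X (C : Co g γ ψ μ) (c : K) (v : sV (σ := σ)) : (tq g c v).1.x - ψ (tq g c v).1.y -
    μ ((tq g c v).1.b - γ (tq g c v).1.y) = v.1.x - ψ v.1.y - μ (v.1.b - γ v.1.y) := by
  have := (C.W _).1 (t1 c v)
  simp only [vx, vy, vb, ix, iy, ib, map_add, map_sub, map_neg] at this ⊢
  linear_combination this

theorem Co.lin (C : Co g γ ψ μ) (h : VG p G) (hg : g ∈ G) (hn : Zg g ≠ Zg 1) :
    (∀ y, σ y = y → γ y = γ 1 * y) ∧ ∀ b, μ b = b * σ (γ 1) + σ b * γ 1 := by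
  obtain ⟨q, hq⟩ : ∃ q : K → K → K, ∀ a y, q a y = a * σ a * y + (a * σ (γ y) + σ a * γ y) - μ (a * y) := ⟨_, fun _ _ => rfl⟩
  have qF : ∀ a y, σ y = y → σ (q a y) = q a y := fun a y hy => by
    simp only [hq, map_add, map_sub, map_mul, T.sq, hy, C.hμ]; ring
  have q0 : ∀ a, a ≠ 0 → ∀ y, σ y = y → q a y = 0 → y = 0 := fun a ha y hy e => by
    have := ZW (v := ve (a * y + γ y) (ψ y + (a * σ a * y + (a * σ (γ y) + σ a * γ y))) y (by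
      simp only [map_add, map_mul, T.sq, hy, C.hψ]; ring) hy) h (mul_mem (tvG h a) hg) hg (fun e => hn (h.semireg hg ha e))
      ((C.Zt a).2 ⟨rfl, rfl⟩) ((C.W _).2 (by
        rw [hq] at e
        simp only [ve, add_sub_cancel_right]
        linear_combination e))
    exact congrArg (·.1.y) this
  have qi : ∀ a, a ≠ 0 → ∀ y y', σ y = y → σ y' = y' → q a y = q a y' → y = y' := fun a ha y y' hy hy' e =>
    sub_eq_zero.1 (q0 a ha _ (by rw [map_sub, hy, hy']) (by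
      simp only [hq, map_sub, mul_sub] at e ⊢
      linear_combination e))
  have qs : ∀ a x, ∃ y, a ≠ 0 → σ x = x → σ y = y ∧ q a y = x := fun a x => by
    by_cases ha : a ≠ 0 ∧ σ x = x
    · obtain ⟨y, e⟩ := Finite.surjective_of_injective (f := fun y : Fix σ => (⟨q a y, qF a y y.2⟩ : Fix σ))
        (fun y y' e => Subtype.ext (qi a ha.1 _ _ y.2 y'.2 (congrArg Subtype.val e))) ⟨x, ha.2⟩
      exact ⟨y, fun _ _ => ⟨y.2, congrArg Subtype.val e⟩⟩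
    · exact ⟨0, fun h1 h2 => absurd ⟨h1, h2⟩ ha⟩
  choose r hr using qs
  obtain ⟨A, hA⟩ : ∃ A : K → sV (σ := σ) → K, ∀ c v, A c v = (tq g c v).1.b - γ (tq g c v).1.y :=
    ⟨_, fun _ _ => rfl⟩
  have A1 : ∀ c a, a ≠ 0 → Zg (tq g c) = Zg (tv a * g) → ∀ x hx, A c (ve 0 x 0 hx (map_zero σ)) = a * r a x :=
    fun c a ha e x hx => by
      have h1 := C.X c (ve 0 x 0 hx (map_zero σ))
      have h2 : tq g c (ve 0 x 0 hx (map_zero σ)) ∈ Zg (tq g c) := mem_Zg.2 (by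
        rw [MulAut.inv_apply_self]; exact ⟨rfl, rfl, rfl⟩)
      rw [hA]
      generalize tq g c (ve 0 x 0 hx (map_zero σ)) = u at *
      obtain ⟨h3, h4⟩ := (C.Zt a).1 (e ▸ h2)
      rw [h3, add_sub_cancel_right] at h1 ⊢
      simp only [ve, map_zero, sub_zero] at h1
      rw [qi a ha _ _ u.1.hy (hr a x ha hx).1 (by rw [(hr a x ha hx).2, hq]; linear_combination h1 - h4)]
  have A2 : ∀ c c' v, A (c + c') v = A c v + A c' v - A 0 v := fun c c' v => by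
    have h1 := ((C.Z _).1 (t2 c (t1 (g := g) c' v))).1
    have h2 : tq g (c + c') v = tq g c v * tq g c (v⁻¹ * tq g c' v) := by
      rw [← map_mul, mul_inv_cancel_left]; simp [tv_add]
    rw [hA, hA, hA, hA, h2, tq0]
    generalize tq g c (v⁻¹ * tq g c' v) = u at *
    simp only [vb, vy, ib, iy, map_add, map_neg] at h1 ⊢
    linear_combination h1
  have A0 : ∀ x hx, A 0 (ve 0 x 0 hx (map_zero σ)) = 0 := fun x hx => by
    rw [hA, tq0]; simp [ve]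
  refine hua_alg γ μ q r (fun y y' _ _ => map_add γ y y') (map_add μ) C.hμ hq (fun a ha x hx => hr a x ha hx)
    (fun a ha y hy => qi a ha _ _ (hr a _ ha (qF a y hy)).1 hy (hr a _ ha (qF a y hy)).2) fun a ha a' ha' => ?_
  obtain ⟨c, hc⟩ := t5 h hg hn ha
  obtain ⟨c', hc'⟩ := t5 h hg hn ha'
  have A3 : ∀ x hx, a * r a x + a' * r a' x = A (c + c') (ve 0 x 0 hx (map_zero σ)) := fun x hx => by
    rw [A2, A1 c a ha hc, A1 c' a' ha' hc', A0, sub_zero]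
  by_cases e : c + c' = 0
  · exact .inl fun x hx => by rw [A3 x hx, e, A0]
  · obtain ⟨a'', h1, h2⟩ := t4 h hg hn e
    exact .inr ⟨a'', h1, fun x hx => by rw [A3 x hx, A1 _ a'' h1 h2]⟩

theorem exists_std (h : VG p G) (hg : g ∈ G) (hn : Zg g ≠ Zg 1) : ∃ g ∈ G, Zg g ≠ Zg 1 ∧ ∃ ψ : K →+ K, (∀ y, σ (ψ y) = ψ y) ∧
    (∀ a v, v ∈ Zg (tv a * g) ↔ v.1.b = a * v.1.y ∧ v.1.x - ψ v.1.y = a * σ a * v.1.y) ∧
    (∀ v : sV (σ := σ), v.1.x - ψ v.1.y = 0 → v ∈ Wg g) ∧ ∀ c v, (tq g c v).1.x - ψ (tq g c v).1.y = v.1.x - ψ v.1.y := by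
  obtain ⟨γ₀, ψ₀, μ₀, C₀⟩ := exists_co h hg hn
  have h1 := mul_mem (tvG h (-γ₀ 1)) hg
  have h2 : Zg (tv (-γ₀ 1) * g) ≠ Zg 1 := fun e => hn (by
    have := Zc (tv (γ₀ 1)) e
    rwa [← tv_inv, mul_inv_cancel_left, mul_one, Zt] at this)
  obtain ⟨γ, ψ, μ, C⟩ := exists_co h h1 h2
  obtain ⟨h3, h4⟩ := C.lin h h1 h2
  have h5 : γ 1 = 0 := by
    have := ((C₀.Zt _).1 ((C.Z (ve (γ 1) (ψ 1) 1 (C.hψ 1) (map_one σ))).2 ⟨rfl, rfl⟩)).1
    simp only [ve] at this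
    linear_combination this
  simp only [h5, zero_mul, map_zero, mul_zero, add_zero] at h3 h4
  refine ⟨_, h1, h2, ψ, C.hψ, fun a v => ?_, fun v hv => (C.W v).2 (by rw [h4]; linear_combination hv),
    fun c v => by simpa only [h4, sub_zero] using C.X c v⟩
  rw [C.Zt, h3 _ v.1.hy, sub_eq_iff_eq_add']
  simp

theorem exists_aut {f : U σ → U σ} (hf : Mor F sV f) (h : ∀ x ∈ sV, f x ∈ sV) :
    ∃ α ∈ F.autGroup sV, ∀ v : sV (σ := σ), (α v).1 = f v :=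
  ⟨_, hf.equiv_mem_autGroup (hf.img_eq_self h), fun _ => rfl⟩

end VC

open VC

/-- `Z' = Zg g` is a complement to `W`: `Z' = {(γ y, ψ y, y)}` (let `ζ k ∈ Z'` have `y = Tr(τ k)`; `γ k = (ζ k).b`, `ψ k = (ζ k).x` are additive on `K`). `W' = Wg g` is a complement to `Z` (`two` for `g⁻¹`), `W ⊓ W' = {(b, μ b, 0)}`.
So `v ∈ W' ↔ x' v = 0`, `x' v = x - ψ y - μ (b - γ y)`; put `b' v = b - γ y`. `tv a Z' = {b' = a y, x' = q a y}`; `q a` is bijective on `F` for `a ≠ 0` (`Zg (tv a * g) ⊓ W' = ⊥`), inverse `r a`.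
`t' = g tv c g⁻¹` fixes `x'`, adds `A c (x')` to `b'` on `Z` with `A (c + c') = A c + A c'`; for `c ≠ 0`, `t' Z = tv a Z'` with `a ≠ 0`, so `A c = a r a`, and every `a ≠ 0` occurs (`two` for `g⁻¹`, conjugated). `hua_alg`: `γ y = γ 1 y`, `μ b = Tr(b σ(γ 1))`.
Replace `g` by `tv (-γ 1) * g` (or redo with it): `γ = 0`, `μ = 0`, `q a y = N(a) y`. `φ = -ψ`: the singular vectors are the elements of `Z` and of the `tv a Z'`, permuted by `G`.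
`t'` with `A = a r a = x / σ a` preserves `Sing`, fixes `Z'` pointwise and `x'`, and `[W', t'] ≤ Z'`; this forces `t' = tp (σ a)⁻¹` (test `x = 1`, `y = N b`); `c = 0`: `g = 1`. -/
theorem VG.hua (h : VG p G) (hg : g ∈ G) (hn : Zg g ≠ Zg 1) : ∃ (φ : K →+ K) (hφ : ∀ y, σ y = y → σ (φ y) = φ y),
    (∀ k ∈ G, ∀ v : sV (σ := σ), Sing (th φ hφ v.1) → Sing (th φ hφ (k v).1)) ∧
    ∀ c, ∃ k ∈ G, ∀ v : sV (σ := σ), th φ hφ (k v).1 = tp c (th φ hφ v.1) := by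
  obtain ⟨g, hg, hn, ψ, hψ, hZ, hW, hX⟩ := exists_std h hg hn
  have sg : ∀ v : sV (σ := σ), Sing (th (-ψ) (fun y _ => by simp [hψ]) v.1) ↔ (v.1.x - ψ v.1.y) * v.1.y = v.1.b * σ v.1.b :=
    fun v => by rw [sub_eq_add_neg]; rfl
  have s1 : ∀ v : sV (σ := σ), (v.1.x - ψ v.1.y) * v.1.y = v.1.b * σ v.1.b ↔ ∃ k ∈ G, v ∈ Zg k := fun v => by
    refine ⟨fun e => ?_, fun ⟨k, hk, e⟩ => ?_⟩
    · by_cases hy : v.1.y = 0
      · exact ⟨1, one_mem _, Z1.2 ⟨norm_eq_zero (by rw [← e, hy, mul_zero]), hy⟩⟩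
      · exact ⟨_, mul_mem (tvG h (v.1.b / v.1.y)) hg, (hZ _ _).2 ⟨by field_simp, by
          rw [map_div₀, v.1.hy]; field_simp; linear_combination e⟩⟩
    · rcases (h.two hg hn).2 k hk with e' | ⟨a, e'⟩ <;> rw [e'] at e
      · rw [(Z1.1 e).1, (Z1.1 e).2]; simp
      · rw [((hZ a v).1 e).2, ((hZ a v).1 e).1, map_mul, v.1.hy]; ring
  have s2 : ∀ k ∈ G, ∀ v : sV (σ := σ), (v.1.x - ψ v.1.y) * v.1.y = v.1.b * σ v.1.b →
      ((k v).1.x - ψ (k v).1.y) * (k v).1.y = (k v).1.b * σ (k v).1.b := fun k hk v e =>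
    let ⟨k', h1, h2⟩ := (s1 v).1 e
    (s1 _).2 ⟨k * k', mul_mem hk h1, Zm.2 (by rwa [MulAut.inv_apply_self])⟩
  refine ⟨-ψ, fun y _ => by simp [hψ], fun k hk v e => (sg _).2 (s2 k hk v ((sg v).1 e)), fun c => ?_⟩
  by_cases hc : c = 0
  · exact ⟨1, one_mem _, fun v => U.ext v.2 (by simp [hc]) rfl (by simp [hc])⟩
  have hc' : σ c ≠ 0 := (map_ne_zero σ).2 hc
  obtain ⟨e, he⟩ := t5 h hg hn (inv_ne_zero hc')
  have hG : tq g e ∈ G := mul_mem (mul_mem hg (tvG h e)) (inv_mem hg)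
  have hZ' : ∀ v, v ∈ Zg g ↔ v.1.b = 0 ∧ v.1.x - ψ v.1.y = 0 := fun v => by simpa [tv_zero] using hZ 0 v
  have hX := hX e
  have f3 := fun v => t3 (g := g) (v := v) e
  have f2 := fun v => t2 (g := g) (v := v) e
  generalize tq g e = t at *
  have a1 : ∀ x hx, (t (ve 0 x 0 hx (map_zero σ))).1.b = c * x ∧ (t (ve 0 x 0 hx (map_zero σ))).1.y = c * σ c * x := fun x hx => by
    have h1 := hX (ve 0 x 0 hx (map_zero σ))
    obtain ⟨h3, h4⟩ := (hZ _ _).1 (he ▸ mem_Zg.2 (by rw [MulAut.inv_apply_self]; exact ⟨rfl, rfl, rfl⟩) :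
      t (ve 0 x 0 hx (map_zero σ)) ∈ Zg (tv (σ c)⁻¹ * g))
    generalize t (ve 0 x 0 hx (map_zero σ)) = u at *
    rw [h1, map_inv₀, T.sq] at h4
    simp only [ve, map_zero, sub_zero] at h4
    have h5 : u.1.y = c * σ c * x := by rw [h4]; field_simp
    exact ⟨by rw [h3, h5]; field_simp, h5⟩
  have a2 : ∀ v : sV (σ := σ), (t v).1.b = v.1.b + c * (v.1.x - ψ v.1.y) := fun v => by
    have hx : σ (v.1.x - ψ v.1.y) = v.1.x - ψ v.1.y := by rw [map_sub, v.1.hx, hψ]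
    have h1 := ((hZ' _).1 (f2 _ (hW ((ve 0 _ 0 hx (map_zero σ))⁻¹ * v) (by rw [vx, vy, ix, iy]; simp [ve])))).1
    rw [map_mul, map_inv] at h1
    simp only [vb, ib, (a1 _ hx).1] at h1
    simp only [ve] at h1
    linear_combination h1
  have a3 : ∀ v : sV (σ := σ), (t v).1.y = v.1.y + v.1.b * σ c + σ v.1.b * c + c * σ c * (v.1.x - ψ v.1.y) := fun v => by
    have hx : σ (v.1.x - ψ v.1.y - 1) = v.1.x - ψ v.1.y - 1 := by rw [map_sub, map_sub, v.1.hx, hψ, map_one]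
    have hy : σ (v.1.b * σ v.1.b) = v.1.b * σ v.1.b := by rw [map_mul, T.sq, mul_comm]
    obtain ⟨u, u1, u2, u3⟩ : ∃ u : sV (σ := σ), u.1.b = v.1.b ∧ u.1.y = v.1.b * σ v.1.b ∧ u.1.x - ψ u.1.y = 1 :=
      ⟨ve v.1.b (1 + ψ (v.1.b * σ v.1.b)) _ (by rw [map_add, map_one, hψ]) hy, rfl, rfl, add_sub_cancel_right _ _⟩
    have h1 := s2 t hG u (by rw [u3, u2, u1, one_mul])
    rw [hX, a2, u3, u1, map_add, map_mul, map_one] at h1
    have h2 := congrArg (·.1.y) (f3 ((ve 0 _ 0 hx (map_zero σ))⁻¹ * u⁻¹ * v) ((hZ' _).2 ⟨by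
      simp only [vb, ib, u1]; simp [ve], by
      simp only [vx, vy, ix, iy, map_add, map_neg]; simp only [ve, map_zero]; linear_combination -u3⟩))
    simp only [map_mul, map_inv, vy, iy, (a1 _ hx).2, u2] at h2
    simp only [ve] at h2
    linear_combination h2 + h1
  refine ⟨t, hG, fun v => ?_⟩
  simp only [sub_eq_add_neg] at a2 a3 hX
  exact U.ext (t v).2 (a2 v) (hX v) (a3 v)

/-- `vg_of`; `U5.exists_move` with `X = sZ` (`Wg_eq`, `extV`) gives `g`; `F' ` is the transport of `F` along `th φ hφ`. -/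
theorem exists_vstd (hF : F.IsSaturated p) (hN : ¬ NT F) (hV : F.IsEssential p sV) :
    ∃ (β : MulAut (U σ)) (F' : FusionSystem (⊤ : Subgroup (U σ))), Corr β β.symm F F' ∧ VStd F' := by
  have h := vg_of hF hN
  have hz : ∀ α : MulAut (sV (σ := σ)), (∀ v : sV (σ := σ), v.1 ∈ sZ → (α v).1 ∈ sZ) ↔ Zg α = Zg 1 := fun α =>
    ⟨fun k => Subgroup.eq_of_le_of_card_ge (by rintro _ ⟨v, hv, rfl⟩; exact mem_Zg.2 (k v hv)) (card_Zg.trans card_Zg.symm).le,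
      fun e v hv => mem_Zg.1 (e.le ⟨v, hv, rfl⟩)⟩
  obtain ⟨f, _, h1, -, h2, h3⟩ := U5.exists_move (X := sZ) (isPGroup_top p) hF hV fun f h1 h2 h3 => extV hF f h1 h2 h3 (by
    obtain ⟨α, h4, h5⟩ := exists_aut h1 h2
    intro x hx
    rw [← h5 ⟨x, hx.1⟩]
    exact mem_Wg.1 ((h.Wg_eq h4 (one_mem _) ((hz α).1 fun v hv => h5 v ▸ h3 _ hv)).le ⟨⟨x, hx.1⟩, hx, rfl⟩))
  obtain ⟨α, h4, h5⟩ := exists_aut h1 h2.maps
  obtain ⟨φ, hφ, h6, h7⟩ := h.hua h4 fun e => h3 fun x hx => h5 ⟨x, hx.1⟩ ▸ (hz α).2 e ⟨x, hx.1⟩ hx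
  obtain ⟨F', hc⟩ := (U5.isoOn_top (th φ hφ)).exists_corr F
  have e1 : img (th φ hφ) sV = sV := img_eq_of_image_eq (Set.ext fun x =>
    ⟨by rintro ⟨y, hy, rfl⟩; exact hy, fun hx => ⟨(th φ hφ).symm x, hx, (th φ hφ).apply_symm_apply x⟩⟩)
  refine ⟨th φ hφ, F', hc, fun f hf v hv sv => ?_, fun c => ?_⟩
  · obtain ⟨f₀, h8, h9⟩ := hc.exists_mor_img le_top (e1.symm ▸ hf.1)
    obtain ⟨k, hk, e⟩ := exists_aut h8 fun x hx => (show th φ hφ (f₀ x) ∈ sV from h9 x hx ▸ hf.2 _ hx)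
    obtain ⟨v, rfl⟩ := (th φ hφ).surjective v
    have := h6 k hk ⟨v, hv⟩ sv
    rw [e] at this
    exact h9 v hv ▸ this
  · obtain ⟨k, hk, e⟩ := h7 c
    exact e1 ▸ hc.mor_of (mor_autFun le_top hk) fun x hx => by rw [autFun_of_mem _ hx, e]

end CL.U4
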