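/-
S5210: systems whose automizer of `V` preserves the singular vectors.
-/
import Cfsg.Agent.FUS.U4.Chr

set_option autoImplicit false
set_option linter.unusedSimpArgs false
set_option linter.unusedSectionVars false
set_option linter.unusedVariables false

namespace CL.U4

open CL.Fus CL.RF4 Subgroup Cfsg Cfsg.FusionSystem U CL.U5.Un
open CL.U5 (Un Dg ru σu ru_val σu_val map_σ Cp Qd Pr)
open scoped commutatorElement

variable {K : Type*} [Field K] [Finite K] {σ : K →+* K} [T : Un σ] {p : ℕ} [Fact p.Prime] [CharP K p]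
  {F F' : FusionSystem (⊤ : Subgroup (U σ))}

namespace VD

theorem sing_Z {z : U σ} (hz : z ∈ sZ) : Sing z := by simp [Sing, hz.2.1, hz.2.2]

theorem Z_of_sing {w : U σ} (hw : w ∈ sW) (h : Sing w) : w ∈ sZ := by
  refine ⟨hw.1, norm_eq_zero (σ := σ) ?_, hw.2⟩
  rw [← h, hw.2, mul_zero]

theorem cj_V (s : U σ) {g : U σ} (hg : g ∈ sV) : cj s g ∈ sV := by rw [mem_sV, cj_a]; exact hg

theorem cj_mul' (s g h : U σ) : cj s (g * h) = cj s g * cj s h := by simp [cj, mul_assoc]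

end VD
open VD

/-- `W = {v | v ∈ Z ∨ ∀ z ∈ Z, ¬ Sing (v z)}` inside `V` (for `y ≠ 0` solve for `x`); `f Z = Z` by finiteness; use the inverse. -/
theorem sing_W {f f' : U σ → U σ} (i : IsoOn sV sV f f') (h : ∀ v ∈ sV, Sing v → Sing (f v)) (h' : ∀ v ∈ sV, Sing v → Sing (f' v))
    (hZ : ∀ z ∈ sZ, f z ∈ sZ) : ∀ w ∈ sW, f w ∈ sW := by
  intro w hw
  have hv := i.maps w (W_le_V hw)
  refine ⟨hv, ?_⟩
  by_contra hy
  have hs : Set.SurjOn f (sZ (σ := σ)) (sZ (σ := σ)) :=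
    ((Set.toFinite _).injOn_iff_bijOn_of_mapsTo hZ).1 (i.injOn.mono Z_le_V) |>.surjOn
  have hy' : σ (f w).y = (f w).y := (f w).hy
  obtain ⟨z, hz, e⟩ := hs (show zx ((f w).b * σ (f w).b / (f w).y - (f w).x) (by
    rw [map_sub, map_div₀, map_mul, T.sq, hy', (f w).hx, mul_comm]) ∈ sZ from ⟨rfl, rfl, rfl⟩)
  have hm := mul_mem (W_le_V hw) (Z_le_V hz)
  have k : Sing (f (w * z)) := by
    rw [i.hom (W_le_V hw) (Z_le_V hz), e]
    simp only [Sing, mul_x, mul_y, mul_b, zx_a, zx_b, zx_x, zx_y, map_zero, mul_zero, add_zero]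
    field_simp; ring
  have k2 := h' _ (i.maps _ hm) k
  rw [i.left _ hm] at k2
  have k3 : w ∈ sZ := (mul_mem_cancel_right hz).1 (Z_of_sing (mul_mem hw (Z_le_W hz)) k2)
  exact hy (hZ w k3).2.2

/-- `f Z` is a subgroup of singular vectors: if `v = f z₀` has `y ≠ 0`, then with `s = xa (-b / y)`, `cj s v = (0, 0, y)`, and every `v' ∈ cj s (f Z)` has `v'`, `v v'` singular, so `x' = 0`, `b' = 0`. If all `y = 0` then all `b = 0`. -/
theorem sing_pt {f : U σ → U σ} (h1 : IsHomOn sV f) (h2 : ∀ v ∈ sV, f v ∈ sV) (h : ∀ v ∈ sV, Sing v → Sing (f v)) :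
    (∀ z ∈ sZ, f z ∈ sZ) ∨ ∃ s, ∀ z ∈ sZ, wV (cj s (f z)) ∈ sZ := by
  by_cases hy : ∀ z ∈ sZ, (f z).y = 0
  · exact .inl fun z hz => Z_of_sing ⟨h2 z (Z_le_V hz), hy z hz⟩ (h z (Z_le_V hz) (sing_Z hz))
  push Not at hy
  obtain ⟨z0, hz0, hy⟩ := hy
  refine .inr ⟨xa (-(f z0).b / (f z0).y), fun z hz => ?_⟩
  generalize hs : (xa (-(f z0).b / (f z0).y) : U σ) = s
  have hS : ∀ z ∈ sZ, Sing (cj s (f z)) := fun z hz => cj_sing s (h2 z (Z_le_V hz)) (h z (Z_le_V hz) (sing_Z hz))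
  have hV : ∀ z ∈ sZ, (cj s (f z)).a = 0 := fun z hz => cj_V s (h2 z (Z_le_V hz))
  have b0 : (cj s (f z0)).b = 0 := by
    rw [cj_b, mem_sV.1 (h2 z0 (Z_le_V hz0)), ← hs, xa_a]; field_simp; ring
  have y0 : (cj s (f z0)).y ≠ 0 := by rwa [cj_y]
  have k0 := hS z0 hz0
  have k1 := hS z hz
  have k2 := hS _ (mul_mem hz0 hz)
  rw [h1 (Z_le_V hz0) (Z_le_V hz), cj_mul'] at k2
  simp only [Sing, mul_x, mul_y, mul_b, hV z0 hz0, b0, map_zero, zero_mul, add_zero, zero_add] at k0 k1 k2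
  have x0 : (cj s (f z0)).x = 0 := (mul_eq_zero.1 k0).resolve_right y0
  have x1 : (cj s (f z)).x = 0 := (mul_eq_zero.1 (show (cj s (f z)).x * (cj s (f z0)).y = 0 by
    rw [x0] at k2; linear_combination k2 - k1)).resolve_right y0
  have b1 : (cj s (f z)).b = 0 := norm_eq_zero (σ := σ) (by rw [← k1, x1, zero_mul])
  exact ⟨rfl, by rw [wV_b, b1, map_zero, neg_zero], x1⟩

theorem SP.not_NT (h : SP F) : ¬ NT F := by
  rintro ⟨f, hf, z, hz, h1, h2⟩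
  exact h2 (Z_of_sing h1 (h f hf z (Z_le_V hz) (sing_Z hz)))

theorem SP.ext (h : SP F) (hF : F.IsSaturated p) (f : U σ → U σ) (hf : Mor F sV f) (h1 : ∀ x ∈ sV, f x ∈ sV) (h2 : ∀ x ∈ sZ, f x ∈ sZ) :
    ∃ g, Mor F ⊤ g ∧ Set.EqOn g f (sV (σ := σ)) := by
  obtain ⟨f', hf', i⟩ := AF.inv (F := F) ⟨hf, h1⟩
  exact extV hF f hf h1 h2 (sing_W i (h f ⟨hf, h1⟩) (h f' hf') h2)

/-- `wV = cj (xa 1) ∘ tp (-1) ∘ cj (xa 1)` on `V` -/
theorem VStd.wV_mem (h : VStd F) : Mor F sV wV := by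
  have m := ((h.2 (-1)).comp (U5.mor_cj' F sV (xa 1)) fun x hx => cj_V _ hx).cj_comp (s := xa 1) trivial
  refine m.congr fun g hg => ?_
  have hg' : g.a = 0 := hg
  have e1 := cj_x_V (xa 1) (show tp (-1) (cj (xa 1) g) ∈ sV from rfl)
  ext
  · simp only [Function.comp, cj_a, tp_a, wV_a]
  · simp only [Function.comp, cj_b, cj_y, tp_a, tp_b, tp_y, wV_b, cj_x_V _ hg, xa_a, xa_y, hg', map_add, map_sub, map_mul, map_neg,
      map_one, map_zero, g.hy]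
    ring
  · simp only [Function.comp, e1, cj_b, cj_y, tp_a, tp_b, tp_x, tp_y, wV_x, cj_x_V _ hg, xa_a, xa_y, hg', map_add, map_sub, map_mul,
      map_neg, map_one, map_zero, g.hy, g.hx, T.sq]
    ring
  · simp only [Function.comp, cj_b, cj_y, tp_a, tp_b, tp_y, wV_y, cj_x_V _ hg, xa_a, xa_y, hg', map_add, map_sub, map_mul, map_neg,
      map_one, map_zero, g.hy]
    ring

/-- on `V`, `dd (ts σ l l⁻¹) = cj (xa l) ∘ tp (-(σ l)⁻¹) ∘ cj (xa l) ∘ wV`; it extends (`SP.ext`) to `cj u ∘ dd x`, `x ∈ DF F`; `u.a = 0` (test on `zy 1`), `dd_eq_of_V`. -/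
theorem h0_mem (hF : F.IsSaturated p) (h : VStd F) (hS : Std F) (l : Kˣ) : ts σ l l⁻¹ ∈ DF F := by
  have l0 : (l : K) ≠ 0 := l.ne_zero
  have l1 : σ l ≠ 0 := (map_ne_zero σ).2 l0
  have m0 := ((h.2 (-(σ l)⁻¹)).comp (h.wV_mem.cj_comp (s := xa l) trivial) fun x hx => cj_V _ rfl).cj_comp (s := xa l) trivial
  have m : Mor F sV (dd (ts σ l l⁻¹)) := by
    refine m0.congr fun g hg => ?_
    have hg' : g.a = 0 := hg
    have e1 := cj_x_V (xa (l : K)) (show tp (-(σ l)⁻¹) (cj (xa l) (wV g)) ∈ sV from rfl)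
    have e2 := cj_x_V (xa (l : K)) (show wV g ∈ sV from rfl)
    ext
    · simp [Function.comp, cj_a, hg']
    all_goals
      simp only [Function.comp, e1, e2, cj_b, cj_y, tp_a, tp_b, tp_x, tp_y, wV_a, wV_b, wV_x, wV_y, xa_a, xa_y, map_add, map_sub,
        map_mul, map_neg, map_one, map_zero, map_inv₀, g.hy, g.hx, T.sq, dd_b, dd_x, dd_y, ts_l, ts_m, ts_ρ, inv_inv, Units.val_mul,
        σu_val, Units.val_inv_eq_inv_val, RingAut.one_apply]
      field_simp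
      ring
  obtain ⟨g, hg, e⟩ := h.1.ext hF _ m (fun x hx => dd_V _ hx) fun x hx => dd_Z _ hx
  obtain ⟨u, x, hx, e'⟩ := hS.dd_mem hg
  have e2 : ∀ v ∈ sV, cj u (dd x v) = dd (ts σ l l⁻¹) v := fun v hv => (e' v).symm.trans (e hv)
  have ua : u.a = 0 := by
    have := congrArg U.b (e2 (zy 1 (map_one σ)) rfl)
    simpa [cj_b] using this
  refine dd_eq_of_V (x := x) (y := ts σ l l⁻¹) (fun v hv => ?_) ▸ hx
  rw [← e2 v hv, cj_b, cj_y, ua, mem_sV.1 (dd_V x hv)]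
  simp

/-- one step of the comparison (`U5.mor_of_gen`, `sing_pt`, `SP.ext`) -/
theorem leV (hF : F.IsSaturated p) (h1 : SP F) (h : ∀ f, Mor F ⊤ f → Mor F' ⊤ f) (hw : Mor F sV wV) (hw' : Mor F' sV wV)
    {f : U σ → U σ} (hf : AF F sV f) : Mor F' sV f := U5.mor_of_gen (X := sZ) h hf.1 hf.2 hw hw' isoOn_wV (h1.ext hF) (sing_pt hf.1.isHomOn hf.2 (h1 f hf))

end CL.U4
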