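/- S5210, `q = 3`: transport to the ambient group. -/
import Cfsg.Agent.FUS.U4.VC
import Cfsg.Agent.FUS.U4.VD
import Cfsg.Agent.FUS.U4.Ess
import Cfsg.Agent.FUS.U4.CAmb
import Cfsg.Agent.FUS.S4.Tools

set_option autoImplicit false
set_option linter.unusedSectionVars false

namespace CL.U4.C3

open CL.Fus Subgroup Cfsg Cfsg.FusionSystem U CL.U5.Un
open CL.U5 (Un)
open scoped commutatorElement

variable {K : Type*} [Field K] [Finite K] {σ : K →+* K} [T : Un σ] [CharP K 3] {F : FusionSystem (⊤ : Subgroup (U σ))}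

theorem card_sQ : Nat.card (sQ (σ := σ)) = Nat.card K * (Nat.card K * Nat.card (Fix σ)) := by
  rw [← Nat.card_prod, ← Nat.card_prod]
  exact Nat.card_congr
    { toFun := fun g => (g.1.a, g.1.b, ⟨g.1.x, g.1.hx⟩)
      invFun := fun x => ⟨⟨x.1, x.2.1, x.2.2.1, 0, x.2.2.2, map_zero σ⟩, rfl⟩
      left_inv := fun g => Subtype.ext (U.ext rfl rfl rfl (mem_sQ.1 g.2).symm)
      right_inv := fun _ => rfl }

theorem pair (hF : F.IsSaturated 3) (h : VStd F) {f : U σ → U σ} (hf : AF F sV f) :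
    ∃ k, Mor F ⊤ k ∧ ∃ g, (∀ E : FusionSystem (⊤ : Subgroup (U σ)), VStd E → AF E sV g) ∧ ∀ v ∈ sV, f v = g (k v) := by
  have w : ∀ {E : FusionSystem (⊤ : Subgroup (U σ))}, VStd E → AF E sV wV := fun k => ⟨k.wV_mem, isoOn_wV.maps⟩
  rcases sing_pt hf.1.isHomOn hf.2 (h.1 f hf) with k | ⟨s, k⟩
  · obtain ⟨g, hg, e⟩ := h.1.ext hF f hf.1 hf.2 k
    exact ⟨g, hg, id, fun E _ => ⟨mor_id E le_top, fun _ h => h⟩, fun v hv => (e hv).symm⟩
  have a := (w h).comp ((AF.conj F sV s).comp hf)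
  obtain ⟨g, hg, e⟩ := h.1.ext hF _ a.1 a.2 k
  refine ⟨g, hg, cj s⁻¹ ∘ wV, fun E k => (AF.conj E sV _).comp (w k), fun v hv => ?_⟩
  rw [e hv]
  simp only [Function.comp]
  rw [isoOn_wV.left _ (VD.cj_V s (hf.2 v hv)), cj_inv_cj]

variable {Γ Λ : Type*} [Group Γ] [Finite Γ] [MulAction Γ Λ] (L : Low Γ Λ) (hq : Nat.card (Fix σ) = 3)
include hq

theorem imgs {κ : U σ → Γ} {κ' : Γ → U σ} (i : IsoOn ⊤ L.S κ κ') : img κ sV = L.J ∧ img κ sQ = L.Q := by
  obtain ⟨ψ', j⟩ := (isHomOn_monoidHom ⊤ L.ψ).exists_isoOn L.inj.injOn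
  rw [img_monoidHom, ← MonoidHom.range_eq_map] at j
  have c := i.trans j.symm
  have e : ∀ P, img κ P = (img (ψ' ∘ κ) P).map L.ψ := fun P => by
    rw [(i.hom.mono le_top).img_comp, ← img_monoidHom, j.img_img' (i.img_le le_top)]
  have hK : Nat.card K = 9 := by rw [card_K (σ := σ), hq]; rfl
  rw [e, e, eq_Jm (R := img _ sV) (by rw [c.card_img le_top, card_sV, hK, hq]; rfl), eq_Qm (R := img _ sQ)
    (by rw [c.card_img le_top, card_sQ, hK, hq])]
  · exact ⟨rfl, rfl⟩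
  · intro _ k _ k' s
    obtain ⟨x, hx, rfl⟩ := (c.mem_img le_top).1 k
    obtain ⟨y, hy, rfl⟩ := (c.mem_img le_top).1 k'
    rw [← c.right s trivial, ← c.map_inv trivial, ← c.map_inv trivial, ← c.map_mul trivial trivial, ← c.map_mul trivial trivial,
      ← c.map_mul trivial trivial, commute_iff_eq, ← c.map_mul trivial trivial, ← c.map_mul trivial trivial]
    exact congrArg _ (comm_Z (brk_Q hx hy).1 _).symm
  · intro _ k _ k'
    obtain ⟨x, hx, rfl⟩ := (c.mem_img le_top).1 k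
    obtain ⟨y, hy, rfl⟩ := (c.mem_img le_top).1 k'
    rw [← c.map_mul trivial trivial, ← c.map_mul trivial trivial, comm_V hx hy]

theorem glue (ι : U σ →* Γ) (hι : Function.Injective ι) (hr : ι.range = L.S) (hF : F.IsSaturated 3) (h1 : VStd F) :
    F.IsRealizable 3 := by
  obtain ⟨A, hS, hQ, hJ, -⟩ := L.exists_amb
  obtain ⟨ι', i0⟩ := (isHomOn_monoidHom ⊤ ι).exists_isoOn hι.injOn
  rw [img_monoidHom, ← MonoidHom.range_eq_map, hr, ← hS] at i0
  obtain ⟨E1, c1⟩ := i0.symm.exists_corr (fusionSystemOfSubgroup A.H A.S A.SH)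
  have s1 := c1.isSaturated (isSaturated_ofSubgroup (A.sylIn A.SH A.cardH))
  have nt : ∀ {E : FusionSystem (⊤ : Subgroup (U σ))}, E.IsSaturated 3 → ¬ U4.NT E := fun hE h => by have := h.two hE; omega
  have v1 : E1.IsEssential 3 sV := by
    by_contra n
    obtain ⟨-, R, hR, hc⟩ := S4F.constrained_of_unique (isPGroup_top 3) s1 fun R R' hR hR' => by
      rcases ess_cases s1 (nt s1) hR with rfl | rfl
      · exact absurd hR n
      rcases ess_cases s1 (nt s1) hR' with rfl | rfl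
      exacts [absurd hR' n, rfl]
    have b := (le_core hR).trans_eq (c1.core_eq_bot_iff.2 A.core)
    exact one_ne_zero (congrArg U.a (mem_bot.1 (b (centralizerIn_le_of_isCentric hc (x := xa 1)
      ⟨trivial, fun x hx => by rw [mem_bot.1 (b hx)]; simp⟩))))
  obtain ⟨β, E, c2, h2⟩ := exists_vstd s1 (nt s1) v1
  have sE := c2.isSaturated s1
  have c := (c1.trans c2).symm
  generalize ι ∘ β.symm = κ, β ∘ ι' = κ' at c
  have i := c.iso
  obtain ⟨eJ, eQ⟩ := imgs L hq (hS ▸ i)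
  rw [← hJ] at eJ
  rw [← hQ] at eQ
  obtain ⟨F', cF⟩ := i.exists_corr F
  have mJ : ∀ {v}, κ v ∈ A.J ↔ v ∈ sV := fun {v} => eJ ▸ i.map_mem_img_iff le_top trivial
  have ex : ∀ {P g}, AF E P g → ∃ k ∈ A.H, k ∈ normalizer (img κ P : Set Γ) ∧ ∀ v ∈ P, cj k (κ v) = κ (g v) := fun {P g} hg => by
    obtain ⟨-, -, k, hk, e⟩ := mor_ofSubgroup_iff.1 (c.mor hg.1)
    have e' : ∀ v ∈ P, cj k (κ v) = κ (g v) := fun v hv => (e (mem_img_of_mem κ hv)).symm.trans (c.mor_apply g trivial)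
    refine ⟨k, hk, mem_normalizer_of_cj_mem fun x hx => ?_, e'⟩
    obtain ⟨v, hv, rfl⟩ := (i.mem_img le_top).1 hx
    exact e' v hv ▸ mem_img_of_mem κ (hg.2 v hv)
  refine cF.symm.isRealizable (A.realizable F' (cF.isSaturated hF) (fun D hD R hR => ?_) (fun k hk n => ?_) fun f hf => ?_)
  · obtain ⟨D', cD⟩ := i.symm.exists_corr D
    have := i.img_img' hR.1.1
    rcases ess_cases (cD.isSaturated hD) (nt (cD.isSaturated hD)) (cD.isEssential hR) with e | e <;> rw [e] at this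
    exacts [.inl (this.symm.trans eJ), .inr (this.symm.trans eQ)]
  · have m : ∀ x ∈ A.J, cj k x ∈ A.J := fun _ => cj_mem_of_mem_normalizer n
    obtain ⟨f, hf, e⟩ := c.exists_mor_img (P := sV) le_top (eJ ▸ mor_ofSubgroup_iff.2 ⟨A.JS, fun x hx => A.JS (m x hx), k, hk, fun _ _ => rfl⟩)
    obtain ⟨h, hh, g, hg, e'⟩ := pair sE h2 ⟨hf, fun v hv => mJ.1 (e v hv ▸ m _ (mJ.2 hv))⟩
    obtain ⟨h', hh', ih⟩ := AF.inv (P := ⊤) ⟨hh, fun _ _ => trivial⟩
    obtain ⟨x, hx, nx, ex⟩ := ex hh'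
    refine ⟨x, hx, i.img_eq ▸ nx, eJ ▸ cF.mor_of (hg F h1).1 fun v hv => ?_⟩
    have := (AF.top hh'.1).1.2 v hv
    rw [cj_mul, ex v trivial, e _ this, e' _ this, ih.right v trivial]
  · have m := A.wcJ f hf.isHomOn hf.injOn fun _ => hf.map_mem
    obtain ⟨f0, hf0, e⟩ := cF.exists_mor_img (P := sV) le_top (eJ ▸ hf)
    obtain ⟨h, hh, g, hg, e'⟩ := pair hF h1 ⟨hf0, fun v hv => mJ.1 (e v hv ▸ m _ (mJ.2 hv))⟩
    obtain ⟨k, hk, nk, ek⟩ := ex (hg E h2)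
    refine ⟨k, hk, eJ ▸ nk, _, i.img_eq ▸ cF.mor hh, fun x hx => ?_⟩
    obtain ⟨v, hv, rfl⟩ := (i.mem_img le_top).1 (eJ ▸ hx)
    rw [e v hv, e' v hv, cF.mor_apply h trivial, ek _ ((AF.top hh).1.2 v hv)]

end CL.U4.C3
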