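/- S5210, `q = 3`: the trace on the lattice group. -/
import Cfsg.Agent.FUS.U4.CDat
import Cfsg.Agent.SPOR.LeechRep

set_option autoImplicit false
set_option maxRecDepth 100000
set_option exponentiation.threshold 700

namespace CL.U4.C3
open Cfsg CL.Leech CL.MT CL.K CL.Pack
open CL.Golay (E)

namespace Trx

noncomputable local instance inv8 : Invertible (8 : ℚ) := invertibleOfNonzero (by norm_num)

noncomputable def tr (g : Co0) : ℚ := LinearMap.trace ℚ _ (rhoR ℚ g)

theorem tr_conj (k g : Co0) : tr (k * g * k⁻¹) = tr g := by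
  rw [tr, map_mul, LinearMap.trace_mul_comm, ← map_mul, inv_mul_cancel_left]; rfl

theorem tr_eq (j : Co0) : 8 * tr j = ((∑ i, (j • e8 i).1 i : ℤ) : ℚ) := by
  rw [tr, LinearMap.trace_eq_matrix_trace ℚ (Pi.basisFun ℚ GolayPt), Matrix.trace, Finset.mul_sum, Int.cast_sum]
  refine Finset.sum_congr rfl fun i _ => ?_
  have h1 := congrFun (rhoR_castV ℚ j (e8 i)) i
  rw [castV_e8, map_smul] at h1
  simpa [LinearMap.toMatrix_apply, castV] using h1

theorem tr_rep {g : Co0} {f : ℕ → ℕ} (h : RepF g f) {n : ℕ}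
    (e : sumLt (fun i => force (c8 i) fun X => dg (f X) i) 24 = 8 * n) : tr g = n - 24 := by
  have k : ∀ i, (g • e8 i).1 i = (dg (f (c8 (E.enc i))) (E.enc i) : ℤ) - 8 := fun i => by
    have h8 : sqNorm (e8 i : GolayPt → ℤ) ≤ 80 := by rw [sqNorm_e8]; norm_num
    rw [← enc_e8, h _ h8]
    exact (congrFun (vec_enc (bd_of_sqNorm (by rwa [sqNorm_smul]))) i).symm
  have := tr_eq g
  rw [sumLt_eq] at e
  simp only [force_eq] at e
  rw [Finset.sum_congr rfl fun i _ => k i, E.sum_eq, Finset.sum_congr rfl fun i hi => by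
    rw [E.enc_dec i (Finset.mem_range.1 hi)], Finset.sum_sub_distrib, ← Nat.cast_sum, e] at this
  simp at this
  linarith

theorem c1 : sumLt (fun i => force (c8 i) fun X => dg (aw [4] X) i) 24 = 8 * 21 := by decide +kernel
theorem c2 : sumLt (fun i => force (c8 i) fun X => dg (aw [4, 4] X) i) 24 = 8 * 21 := by decide +kernel
theorem c3 : sumLt (fun i => force (c8 i) fun X => dg (aw [5, 4] X) i) 24 = 8 * 30 := by decide +kernel
theorem c4 : sumLt (fun i => force (c8 i) fun X => dg (aw [5, 4, 4] X) i) 24 = 8 * 30 := by decide +kernel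

end Trx

open Trx in
/-- `tr g = LinearMap.trace ℚ _ (rhoR ℚ g)` (local `Invertible (8 : ℚ)`); copy `tr_conj` from `SPOR/Co1/Inv` and `tr_eq` from `SPOR/PA/Tr3`
(`8 * tr g = ∑ i, (g • e8 i).1 i`; do not import them if heavy); `(el 4)⁻¹ = el 4 * el 4` (`rl 4`); evaluate with `rep_wd` for the words `[4], [4, 4], [5, 4], [5, 4, 4]`. -/
theorem exists_tr : ∃ tr : Co0 → ℚ, (∀ k x, tr (k * x * k⁻¹) = tr x) ∧ tr (el 4) = -3 ∧ tr (el 4)⁻¹ = -3 ∧ tr (el 5 * el 4) = 6 ∧
    tr (el 5 * (el 4)⁻¹) = 6 := by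
  have e : (el 4)⁻¹ = el 4 * el 4 := inv_eq_of_mul_eq_one_right (by simpa [RL, wd] using rl 4)
  have h1 := tr_rep (rep_wd (by decide)) c1
  have h2 := tr_rep (rep_wd (by decide)) c2
  have h3 := tr_rep (rep_wd (by decide)) c3
  have h4 := tr_rep (rep_wd (by decide)) c4
  simp only [wd, List.map_cons, List.map_nil, List.prod_cons, List.prod_nil, mul_one] at h1 h2 h3 h4
  refine ⟨tr, tr_conj, ?_, ?_, ?_, ?_⟩
  exacts [by rw [h1]; norm_num, by rw [e, h2]; norm_num, by rw [h3]; norm_num, by rw [e, h4]; norm_num]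

end CL.U4.C3
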