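/-
S5210: matrices for the group `SU₄(q)` of the skew-Hermitian form `antidiag(1, 1, -1, -1)`.
-/
import Cfsg.Agent.FUS.U4.Defs

set_option autoImplicit false
set_option linter.unusedSimpArgs false
set_option linter.unusedSectionVars false
set_option linter.unusedVariables false

namespace CL.U4

open CL.Fus Subgroup Cfsg U CL.U5.Un
open CL.U5 (Un Dg ru σu ru_val σu_val map_σ)

variable {K : Type*} [Field K] [Finite K] {σ : K →+* K} [T : Un σ]

namespace Mo

open Matrix

local notation "M4" => Matrix (Fin 4) (Fin 4) K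

/-- the signs of the form -/
def sg (K : Type*) [Field K] : Fin 4 → K := ![1, 1, -1, -1]

theorem map_sg {Φ : Type*} [FunLike Φ K K] [RingHomClass Φ K K] (f : Φ) (i : Fin 4) : f (sg K i) = sg K i := by
  fin_cases i <;> simp [sg]

/-- the adjoint for the form -/
def adj (σ : K →+* K) (M : M4) : M4 := of fun i j => sg K i * sg K j * σ (M j.rev i.rev)

theorem adj_mul (M N : M4) : adj σ (M * N) = adj σ N * adj σ M := by
  ext i j
  simp only [adj, of_apply, mul_apply, Fin.sum_univ_four, map_add, map_mul]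
  generalize sg K i = a, sg K j = b, i.rev = i', j.rev = j'
  simp [sg, Fin.rev]
  ring

theorem adj_one : adj σ (1 : M4) = 1 := by
  ext i j
  fin_cases i <;> fin_cases j <;> simp [adj, sg, one_apply, Fin.rev]

/-- `SU₄(q)` -/
def Gs (σ : K →+* K) [Un σ] : Subgroup (SpecialLinearGroup (Fin 4) K) where
  carrier := {M | adj σ M.1 * M.1 = 1}
  one_mem' := by
    change adj σ 1 * 1 = 1
    rw [adj_one, mul_one]
  mul_mem' {M N} hM hN := by
    change adj σ (M.1 * N.1) * (M.1 * N.1) = 1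
    rw [adj_mul, mul_assoc, ← mul_assoc (adj σ M.1), hM, one_mul, hN]
  inv_mem' {M} hM := by
    have h : M.1 * (M⁻¹).1 = 1 := congrArg Subtype.val (mul_inv_cancel M)
    change adj σ (M⁻¹).1 * (M⁻¹).1 = 1
    calc _ = adj σ (M⁻¹).1 * (adj σ M.1 * M.1) * (M⁻¹).1 := by rw [hM, mul_one]
      _ = 1 := by rw [← mul_assoc, ← adj_mul, mul_assoc, h, adj_one, mul_one]

/-- an element from a matrix -/
def mk (M : M4) (hd : M.det = 1) (hu : adj σ M * M = 1) : Gs σ := ⟨⟨M, hd⟩, hu⟩

theorem gext {x y : Gs σ} (h : x.1.1 = y.1.1) : x = y := Subtype.ext (Subtype.ext h)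

theorem det_tri {X : M4} (h : ∀ i j, j < i → X i j = 0) : X.det = X 0 0 * X 1 1 * X 2 2 * X 3 3 := by
  rw [det_of_isUpperTriangular fun i j hij => h i j hij, Fin.prod_univ_four]

/-- the matrix of an element of `U σ` -/
def mat (g : U σ) : M4 :=
  !![1, g.a, g.b, g.x - g.b * σ g.a;
     0, 1, g.y, σ g.b - g.y * σ g.a;
     0, 0, 1, -σ g.a;
     0, 0, 0, 1]

theorem mat_mul (g h : U σ) : mat (g * h) = mat g * mat h := by
  ext i j
  fin_cases i <;> fin_cases j <;> simp [mat, mul_apply, Fin.sum_univ_four] <;> usimp <;> ring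

theorem adj_mat (g : U σ) : adj σ (mat g) * mat g = 1 := by
  ext i j
  fin_cases i <;> fin_cases j <;> simp [adj, sg, mat, mul_apply, Fin.sum_univ_four, Fin.rev, T.sq, g.hx, g.hy] <;>
    ring

theorem mat_tri (g : U σ) (i j : Fin 4) (h : j < i) : mat g i j = 0 := by
  fin_cases i <;> fin_cases j <;> first | rfl | exact absurd h (by decide)

/-- the embedding of `U σ` -/
def uu : U σ →* Gs σ := MonoidHom.mk'
  (fun g => mk (mat g) (by rw [det_tri (mat_tri g)]; simp [mat]) (adj_mat g))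
  fun g h => gext (mat_mul g h)

theorem uu_inj : Function.Injective (uu (σ := σ)) := fun g h e => by
  have k : mat g = mat h := congrArg (fun x : Gs σ => x.1.1) e
  have a : g.a = h.a := congrFun (congrFun k 0) 1
  have b : g.b = h.b := congrFun (congrFun k 0) 2
  have c : g.x - g.b * σ g.a = h.x - h.b * σ h.a := congrFun (congrFun k 0) 3
  exact U.ext a b (by rwa [a, b, sub_left_inj] at c) (congrFun (congrFun k 1) 2)

/-- the first reflection -/
def r1 : Gs σ := mk !![0, 1, 0, 0; -1, 0, 0, 0; 0, 0, 0, -1; 0, 0, 1, 0]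
  (by simp [det_succ_row_zero, Fin.sum_univ_succ, Fin.succAbove]) (by
    ext i j
    fin_cases i <;> fin_cases j <;> simp [adj, sg, mul_apply, Fin.sum_univ_four, Fin.rev])

/-- the second reflection -/
def r2 : Gs σ := mk !![1, 0, 0, 0; 0, 0, 1, 0; 0, -1, 0, 0; 0, 0, 0, 1]
  (by simp [det_succ_row_zero, Fin.sum_univ_succ, Fin.succAbove]) (by
    ext i j
    fin_cases i <;> fin_cases j <;> simp [adj, sg, mul_apply, Fin.sum_univ_four, Fin.rev])

theorem r1_u {g : U σ} (hg : g ∈ sV) : r1 * uu g * r1⁻¹ = uu (wV g) := by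
  refine mul_inv_eq_iff_eq_mul.2 (gext ?_)
  change r1.1.1 * mat g = mat (wV g) * r1.1.1
  ext i j
  fin_cases i <;> fin_cases j <;> simp [r1, mk, mat, mul_apply, Fin.sum_univ_four, mem_sV.1 hg, T.sq]

theorem r2_u {g : U σ} (hg : g ∈ sQ) : r2 * uu g * r2⁻¹ = uu (wQ g) := by
  refine mul_inv_eq_iff_eq_mul.2 (gext ?_)
  change r2.1.1 * mat g = mat (wQ g) * r2.1.1
  ext i j
  fin_cases i <;> fin_cases j <;> simp [r2, mk, mat, mul_apply, Fin.sum_univ_four, mem_sQ.1 hg, T.sq]
  ring

/-- the diagonal part -/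
def wt (x : Dd σ) : Fin 4 → Kˣ := ![x.1.l * x.1.m * σu σ x.1.l, x.1.m * σu σ x.1.l, σu σ x.1.l, 1]

theorem wt_rev (x : Dd σ) (i : Fin 4) : σ (wt x i.rev) = wt x 0 * ((wt x i)⁻¹ : Kˣ) := by
  have h1 : σ x.1.l ≠ 0 := (map_ne_zero σ).2 x.1.l.ne_zero
  fin_cases i <;> simp [wt, Fin.rev, T.sq, σm] <;> field_simp

theorem wt_mul (x y : Dd σ) (i : Fin 4) : wt (x * y) i = wt x i * ru x.1.ρ (wt y i) := by
  fin_cases i <;> refine Units.ext ?_ <;> simp [wt, map_σ] <;> ring

/-- the action on matrices -/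
def act (x : Dd σ) (M : M4) : M4 := of fun i j => wt x i * x.1.ρ (M i j) * ((wt x j)⁻¹ : Kˣ)

theorem act_eq (x : Dd σ) (M : M4) : act x M = diagonal (fun i => (wt x i : K)) *
    (x.1.ρ : K →+* K).mapMatrix M * diagonal fun i => (((wt x i)⁻¹ : Kˣ) : K) := by
  ext i j
  simp [act, diagonal_mul, mul_diagonal]

theorem act_mul (x : Dd σ) (M N : M4) : act x (M * N) = act x M * act x N := by
  rw [act_eq, act_eq, act_eq, map_mul]
  simp only [mul_assoc]
  rw [← mul_assoc (diagonal _) (diagonal _), diagonal_mul_diagonal]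
  simp

theorem act_id (x : Dd σ) : act x 1 = 1 := by
  rw [act_eq, map_one, mul_one, diagonal_mul_diagonal]
  simp

theorem act_det (x : Dd σ) (M : M4) : (act x M).det = x.1.ρ M.det := by
  rw [act_eq, det_mul, det_mul, mul_right_comm, ← det_mul, diagonal_mul_diagonal, ← RingHom.map_det]
  simp

theorem act_adj (x : Dd σ) (M : M4) : adj σ (act x M) = act x (adj σ M) := by
  ext i j
  simp only [adj, act, of_apply, map_mul, map_σ, map_sg, Units.val_inv_eq_inv_val, map_inv₀, wt_rev]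
  field_simp

theorem act_comp (x y : Dd σ) (M : M4) : act (x * y) M = act x (act y M) := by
  ext i j
  simp only [act, of_apply, wt_mul, map_mul, mul_inv, ← map_inv, Units.val_mul, ru_val, coe_mul, Dg.mul_ρ,
    RingAut.mul_apply]
  ring

theorem act_one (M : M4) : act (1 : Dd σ) M = M := by
  ext i j
  have : ∀ i, wt (1 : Dd σ) i = 1 := fun i => by fin_cases i <;> simp [wt]
  simp [act, this]

/-- the action on the group -/
def ac (x : Dd σ) (g : Gs σ) : Gs σ := mk (act x g.1.1) (by rw [act_det, g.1.2, map_one])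
  (by rw [act_adj, ← act_mul, show adj σ g.1.1 * g.1.1 = 1 from g.2, act_id])

theorem ac_comp (x y : Dd σ) (g : Gs σ) : ac (x * y) g = ac x (ac y g) := gext (act_comp x y _)

theorem ac_one (g : Gs σ) : ac 1 g = g := gext (act_one _)

/-- diagonal times field automorphisms -/
def phi : Dd σ →* MulAut (Gs σ) := MonoidHom.mk' (fun x =>
  { toFun := ac x
    invFun := ac x⁻¹
    left_inv := fun g => by rw [← ac_comp, inv_mul_cancel, ac_one]
    right_inv := fun g => by rw [← ac_comp, mul_inv_cancel, ac_one]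
    map_mul' := fun g h => gext (act_mul x _ _) }) fun x y => MulEquiv.ext (ac_comp x y)

theorem act_mat (x : Dd σ) (g : U σ) : act x (mat g) = mat (dd x g) := by
  have h1 : σ x.1.l ≠ 0 := (map_ne_zero σ).2 x.1.l.ne_zero
  ext i j
  fin_cases i <;> fin_cases j <;> simp [act, wt, mat, map_σ, T.sq, σm] <;> field_simp

/-- the diagonal of a diagonal element -/
def hv (σ : K →+* K) (s t : Kˣ) : Fin 4 → Kˣ := ![s, t, (σu σ t)⁻¹, (σu σ s)⁻¹]

theorem hv_eq (s t : Kˣ) (i : Fin 4) : hv σ s t i = hv σ s t 3 * wt (ts σ s t) i := by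
  have h1 : σ s ≠ 0 := (map_ne_zero σ).2 s.ne_zero
  have h2 : σ t ≠ 0 := (map_ne_zero σ).2 t.ne_zero
  fin_cases i <;> refine Units.ext ?_ <;> simp [hv, wt, T.sq] <;> field_simp

/-- a diagonal element -/
def hh (s t : Kˣ) (h : σ (s * t) = s * t) : Gs σ := mk (diagonal fun i => (hv σ s t i : K)) (by
    have h1 : σ s ≠ 0 := (map_ne_zero σ).2 s.ne_zero
    have h2 : σ t ≠ 0 := (map_ne_zero σ).2 t.ne_zero
    rw [det_diagonal, Fin.prod_univ_four]
    simp [hv]
    field_simp
    rw [← h, map_mul, mul_comm]) (by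
    ext i j
    fin_cases i <;> fin_cases j <;> simp [adj, sg, mul_diagonal, hv, Fin.rev, T.sq])

theorem hh_u (s t : Kˣ) (h : σ (s * t) = s * t) (g : U σ) : hh s t h * uu g * (hh s t h)⁻¹ = uu (dd (ts σ s t) g) := by
  refine mul_inv_eq_iff_eq_mul.2 (gext ?_)
  change diagonal _ * mat g = mat _ * diagonal _
  ext i j
  rw [← act_mat, diagonal_mul, mul_diagonal, hv_eq s t i, hv_eq s t j]
  simp only [act, of_apply, ts_ρ, RingAut.one_apply, Units.val_mul, Units.val_inv_eq_inv_val]
  field_simp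

theorem hh_pow (s t : Kˣ) (h : σ (s * t) = s * t) : (hh s t h : Gs σ) ^ Nat.card Kˣ = 1 := by
  refine gext ?_
  change diagonal _ ^ _ = 1
  rw [diagonal_pow, ← diagonal_one]
  congr 1
  funext i
  rw [Pi.pow_apply, ← Units.val_pow_eq_pow_val, pow_card_eq_one', Units.val_one]

end Mo

end CL.U4
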