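/-
S5210: the group `SU₄(q)` of the skew-Hermitian form `antidiag(1, 1, -1, -1)`.
-/
import Cfsg.Agent.FUS.U4.ModA
import Cfsg.Agent.CLAS.UniCongr
import Cfsg.Agent.KSG.SpUUnitary
import Cfsg.Agent.TECH.SylIn

set_option autoImplicit false
set_option linter.unusedSimpArgs false
set_option linter.unusedSectionVars false
set_option linter.unusedVariables false

namespace CL.U4

open CL.Fus CL.RF4 Subgroup Cfsg Cfsg.FusionSystem U CL.U5.Un
open CL.U5 (Un Dg ru σu ru_val σu_val map_σ Cp Qd Pr)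
open scoped commutatorElement

variable {K : Type*} [Field K] [Finite K] {σ : K →+* K} [T : Un σ] {p : ℕ} [Fact p.Prime] [CharP K p]
  {F F' : FusionSystem (⊤ : Subgroup (U σ))}

namespace Mo

open Matrix

local notation "M4" => Matrix (Fin 4) (Fin 4) K

theorem form (Y : Gs σ) (i j : Fin 4) : σ (Y.1.1 3 i) * Y.1.1 0 j + σ (Y.1.1 2 i) * Y.1.1 1 j -
    σ (Y.1.1 1 i) * Y.1.1 2 j - σ (Y.1.1 0 i) * Y.1.1 3 j = sg K i.rev * (1 : M4) i.rev j := by
  have : sg K i.rev * sg K i.rev = 1 := by fin_cases i <;> simp [sg, Fin.rev]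
  rw [← show adj σ Y.1.1 * Y.1.1 = 1 from Y.2, mul_apply, Fin.sum_univ_four]
  simp only [adj, of_apply, Fin.rev_rev]
  generalize sg K i.rev = a at *
  simp [sg, Fin.rev]
  linear_combination (-(σ (Y.1.1 3 i) * Y.1.1 0 j + σ (Y.1.1 2 i) * Y.1.1 1 j -
    σ (Y.1.1 1 i) * Y.1.1 2 j - σ (Y.1.1 0 i) * Y.1.1 3 j)) * this

theorem low {X : M4} (h : ∀ i j, j < i → X i j = 0) : X 1 0 = 0 ∧ X 2 0 = 0 ∧ X 3 0 = 0 ∧
    X 2 1 = 0 ∧ X 3 1 = 0 ∧ X 3 2 = 0 := by
  and_intros <;> exact h _ _ (by decide)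

theorem uni {Y : Gs σ} (h : ∀ i j, j < i → Y.1.1 i j = 0) (hd : ∀ i, Y.1.1 i i = 1) : ∃ v, Y = uu v := by
  obtain ⟨z10, z20, z30, z21, z31, z32⟩ := low h
  have k1 : _ = (0 : K) := (form Y 1 3).trans (mul_zero _)
  have k2 : _ = (0 : K) := (form Y 2 2).trans (mul_zero _)
  have k3 : _ = (0 : K) := (form Y 2 3).trans (mul_zero _)
  have k4 : _ = (0 : K) := (form Y 3 3).trans (mul_zero _)
  simp only [hd, z10, z20, z30, z21, z31, z32, map_zero, map_one] at k1 k2 k3 k4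
  have e1 : Y.1.1 2 3 = -σ (Y.1.1 0 1) := by linear_combination -k1
  have e2 : σ (Y.1.1 1 2) = Y.1.1 1 2 := by linear_combination -k2
  rw [e1, e2] at k3
  have e3 : Y.1.1 1 3 = σ (Y.1.1 0 2) - Y.1.1 1 2 * σ (Y.1.1 0 1) := by linear_combination k3
  rw [e1, e3] at k4
  simp only [map_sub, map_neg, map_mul, T.sq, e2] at k4
  refine ⟨⟨Y.1.1 0 1, Y.1.1 0 2, Y.1.1 0 3 + Y.1.1 0 2 * σ (Y.1.1 0 1), Y.1.1 1 2, by
    simp only [map_add, map_mul, T.sq]; linear_combination -k4, e2⟩, gext ?_⟩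
  change _ = mat _
  ext i j
  fin_cases i <;> fin_cases j <;> first | rfl | exact hd _ | assumption | exact (add_sub_cancel_right _ _).symm

theorem tri {x : Gs σ} (hx : x ∈ normalizer ((uu (σ := σ)).range : Set (Gs σ))) (i j : Fin 4)
    (hij : j < i) : x.1.1 i j = 0 := by
  have k : ∀ g : U σ, ∃ g', mat g * x.1.1 = x.1.1 * mat g' := fun g => by
    obtain ⟨g', e⟩ := (mem_normalizer_iff.1 (inv_mem hx) (uu g)).1 ⟨g, rfl⟩
    exact ⟨g', congrArg (fun y : Gs σ => y.1.1) (show uu g * x = x * uu g' by rw [e]; group)⟩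
  obtain ⟨g, e⟩ := k (xa 1)
  obtain ⟨g', e'⟩ := k (zy 1 (map_one σ))
  have a := fun i j => congrFun (congrFun e i) j
  have b := fun i j => congrFun (congrFun e' i) j
  have z10 : x.1.1 1 0 = 0 := by simpa [mat, mul_apply, Fin.sum_univ_four] using a 0 0
  have z30 : x.1.1 3 0 = 0 := by simpa [mat, mul_apply, Fin.sum_univ_four] using a 2 0
  have z20 : x.1.1 2 0 = 0 := by simpa [mat, mul_apply, Fin.sum_univ_four] using b 1 0
  have z31 : x.1.1 3 1 = 0 := by simpa [mat, mul_apply, Fin.sum_univ_four, z20] using a 2 1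
  have z21 : x.1.1 2 1 = 0 := by simpa [mat, mul_apply, Fin.sum_univ_four, z10] using b 1 1
  have z32 : x.1.1 3 2 = 0 := by simpa [mat, mul_apply, Fin.sum_univ_four, z20, z21] using a 2 2
  fin_cases i <;> fin_cases j <;> first | assumption | exact absurd hij (by decide)

theorem dec {x : Gs σ} (hx : x ∈ normalizer ((uu (σ := σ)).range : Set (Gs σ))) :
    ∃ v s t h, x = uu v * hh s t h := by
  have h := tri hx
  obtain ⟨z10, z20, z30, z21, z31, z32⟩ := low h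
  have k1 : _ = (-1 : K) := (form x 0 3).trans (mul_one _)
  have k2 : _ = (-1 : K) := (form x 1 2).trans (mul_one _)
  have k3 := (det_tri h).symm.trans x.1.2
  simp only [z10, z20, z30, z21, z31, z32, map_zero, zero_mul, mul_zero, add_zero, zero_add, sub_zero, zero_sub,
    neg_inj] at k1 k2
  have s0 : x.1.1 0 0 ≠ 0 := fun e => by simp [e] at k1
  have t0 : x.1.1 1 1 ≠ 0 := fun e => by simp [e] at k2
  have hd : ∀ i, x.1.1 i i = hv σ (Units.mk0 _ s0) (Units.mk0 _ t0) i := fun i => by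
    have s1 : σ (x.1.1 0 0) ≠ 0 := (map_ne_zero σ).2 s0
    have t1 : σ (x.1.1 1 1) ≠ 0 := (map_ne_zero σ).2 t0
    fin_cases i <;> simp [hv] <;> field_simp
    · linear_combination k2
    · linear_combination k1
  have hs : σ (Units.mk0 _ s0 * Units.mk0 _ t0) = Units.mk0 _ s0 * Units.mk0 _ t0 := by
    simp only [Units.val_mk0, map_mul]
    linear_combination (-σ (x.1.1 0 0) * σ (x.1.1 1 1)) * k3 +
      x.1.1 0 0 * x.1.1 1 1 * (σ (x.1.1 1 1) * x.1.1 2 2 * k1 + k2)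
  set s := Units.mk0 _ s0
  set t := Units.mk0 _ t0
  have e : ∀ i j, x.1.1 i j = (x * (hh s t hs)⁻¹).1.1 i j * hv σ s t j := fun i j => by
    rw [← mul_diagonal (fun i => (hv σ s t i : K))]
    exact congrArg (fun y : Gs σ => y.1.1 i j) (inv_mul_cancel_right x (hh s t hs)).symm
  obtain ⟨v, hv'⟩ := uni (Y := x * (hh s t hs)⁻¹)
    (fun i j hij => (mul_eq_zero.1 ((e i j).symm.trans (h i j hij))).resolve_right (Units.ne_zero _))
    fun i => mul_right_cancel₀ (hv σ s t i).ne_zero (by rw [← e, one_mul, hd])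
  exact ⟨v, s, t, hs, by rw [← hv', inv_mul_cancel_right]⟩

theorem idx (p : ℕ) [Fact p.Prime] [CharP K p] : ¬ p ∣ (uu (σ := σ)).range.index := by
  have hU : IsPGroup p (uu (σ := σ)).range :=
    (isPGroup_U p).of_surjective _ (MonoidHom.rangeRestrict_surjective _)
  rw [← relIndex_top_right]
  refine (MSS.SylIn.of_normalizer ⟨le_inf le_top le_normalizer, hU, fun Q hQ h1 h2 =>
    le_antisymm (fun x hx => ?_) h1⟩).not_dvd_relIndex
  obtain ⟨v, s, t, hs, rfl⟩ := dec (h2 hx).2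
  have k : ∀ n : ℕ, ∃ w, (uu v * hh s t hs) ^ n = uu w * hh s t hs ^ n := fun n => by
    induction n with
    | zero => exact ⟨1, by simp⟩
    | succ n ih =>
      obtain ⟨w, e⟩ := ih
      exact ⟨v * dd (ts σ s t) w, by rw [pow_succ', e, map_mul, ← hh_u s t hs, pow_succ']; group⟩
  obtain ⟨w, e⟩ := k (Nat.card Kˣ)
  rw [hh_pow, mul_one] at e
  obtain ⟨n, hn⟩ := hQ ⟨_, hx⟩
  have hc : (Nat.card Kˣ).Coprime (orderOf (uu v * hh s t hs : Gs σ)) := by
    refine Nat.Coprime.coprime_dvd_right (orderOf_dvd_of_pow_eq_one (congrArg Subtype.val hn))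
      (Nat.Coprime.pow_right _ ?_)
    have := Fintype.ofFinite K
    obtain ⟨m, -, hm⟩ := FiniteField.card K p
    rw [Nat.card_units, Nat.card_eq_fintype_card, hm]
    exact ((Nat.coprime_self_sub_left (Nat.one_le_pow _ _ (Fact.out : p.Prime).pos)).2
      (Nat.coprime_one_left _)).coprime_dvd_right (dvd_pow_self _ m.ne_zero)
  exact zpowers_le.2 (show _ ∈ uu.range from ⟨w, e.symm⟩) (mem_zpowers_pow_iff.2 hc)

theorem sing (x : Gs σ) {g g' : U σ} (hg : g ∈ sV) (hg' : g' ∈ sV) (e : x * uu g * x⁻¹ = uu g') (h : Sing g) : Sing g' := by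
  have k : ∀ g ∈ sV (σ := σ), mat g = !![0, 0, g.b, g.x; 0, 0, g.y, σ g.b; 0, 0, 0, 0; 0, 0, 0, 0] + 1 := fun g hg => by
    ext i j
    fin_cases i <;> fin_cases j <;> simp [mat, mem_sV.1 hg]
  have e1 : x.1.1 * mat g * x⁻¹.1.1 = mat g' := congrArg (fun y : Gs σ => y.1.1) e
  have e2 : x.1.1 * x⁻¹.1.1 = 1 := congrArg (fun y : Gs σ => y.1.1) (mul_inv_cancel x)
  rw [k g hg, k g' hg', mul_add, add_mul, mul_one, e2, add_left_inj] at e1
  generalize x.1.1 = X, x⁻¹.1.1 = Y at e1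
  have a := fun i j => congrFun (congrFun e1 i) j
  have a1 := a 0 2
  have a2 := a 0 3
  have a3 := a 1 2
  have a4 := a 1 3
  simp [mul_apply, Fin.sum_univ_four] at a1 a2 a3 a4
  rw [Sing] at *
  rw [← a4, ← a1, ← a2, ← a3]
  linear_combination (X 0 0 * X 1 1 - X 0 1 * X 1 0) * (Y 2 2 * Y 3 3 - Y 2 3 * Y 3 2) * h

/-- the model -/
def md (p : ℕ) [Fact p.Prime] [CharP K p] : Md σ p (Gs σ) where
  u := uu
  inj := uu_inj
  idx := idx p
  n1 := r1
  n2 := r2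
  n1u _ := r1_u
  n2u _ := r2_u
  φ := phi
  φu x g := gext (act_mat x g)
  nrm x hx := by
    obtain ⟨v, s, t, h, rfl⟩ := dec hx
    exact ⟨v, s, t, h, fun g => by simp only [cj, map_mul, map_inv, ← hh_u s t h]; group⟩
  sing x _ hg _ hg' := sing x hg hg'

theorem exists_iso {K : Type*} [Field K] [Fintype K] {q : ℕ} (hK : Fintype.card K = q ^ 2)
    [T : Un (Uni.sig hK)] : ∃ f : Gs (Uni.sig hK) →* SU 4 K q, Function.Surjective f ∧
      ∀ x (c : K), Uni.suMat 4 K q (f x) = c • 1 → x.1.1 = c • 1 := by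
  obtain ⟨δ, h0, hδ⟩ : ∃ δ : K, δ ≠ 0 ∧ Uni.sig hK δ = -δ := ⟨_, θ_sub _, by rw [map_sub, T.sq, neg_sub]⟩
  let J : Matrix (Fin 4) (Fin 4) K := !![0, 0, 0, δ; 0, 0, δ, 0; 0, -δ, 0, 0; -δ, 0, 0, 0]
  let J' : Matrix (Fin 4) (Fin 4) K := !![0, 0, 0, -δ⁻¹; 0, 0, -δ⁻¹, 0; 0, δ⁻¹, 0, 0; δ⁻¹, 0, 0, 0]
  have hJ : ∀ M, J * adj (Uni.sig hK) M = SpU.ct hK M * J := fun M => by
    ext i j
    simp only [mul_apply, SpU.ct_apply, ← Uni.sig_apply hK, Fin.sum_univ_four]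
    fin_cases i <;> fin_cases j <;> simp [J, adj, sg, Fin.rev, mul_comm]
  have JJ : J' * J = 1 := by
    ext i j
    fin_cases i <;> fin_cases j <;> simp [J, J', mul_apply, Fin.sum_univ_four, h0]
  obtain ⟨P, ⟨P, rfl⟩, hP, -⟩ := SpU.exists_ct_mul_self hK (s := J) (IsUnit.of_mul_eq_one_right J' JJ) (by
    ext i j
    rw [SpU.ct_apply, ← Uni.sig_apply hK]
    fin_cases i <;> fin_cases j <;> simp [J, hδ])
  have c1 : SpU.ct hK (P⁻¹ : _ˣ).1 * SpU.ct hK P.1 = 1 := by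
    rw [← SpU.ct_mul, Units.mul_inv, SpU.ct_one]
  refine ⟨MonoidHom.mk' (fun x => SpU.mkSU hK (P.1 * x.1.1 * (P⁻¹ : _ˣ).1) ?_ ?_)
    fun x y => Subtype.ext (Subtype.ext ?_), fun A => ⟨mk ((P⁻¹ : _ˣ).1 * A.1.1 * P.1) ?_ ?_,
      Subtype.ext (Subtype.ext ?_)⟩, fun x c h => ?_⟩
  · rw [SpU.ct_mul, SpU.ct_mul]
    calc _ = SpU.ct hK (P⁻¹ : _ˣ).1 * (SpU.ct hK x.1.1 * (SpU.ct hK P.1 * P.1) * x.1.1) * (P⁻¹ : _ˣ).1 := by
          simp only [mul_assoc]
      _ = 1 := by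
        rw [hP, ← hJ, mul_assoc J, show adj _ x.1.1 * x.1.1 = 1 from x.2, mul_one, ← hP, ← mul_assoc,
          c1, one_mul, Units.mul_inv]
  · rw [det_mul, det_mul, x.1.2, mul_one, ← det_mul, Units.mul_inv, det_one]
  · change P.1 * (x.1.1 * y.1.1) * _ = P.1 * x.1.1 * _ * (P.1 * y.1.1 * _)
    simp only [mul_assoc, Units.inv_mul_cancel_left]
  · rw [det_mul, det_mul, A.1.2, mul_one, ← det_mul, Units.inv_mul, det_one]
  · rw [← one_mul (adj _ _), ← JJ, mul_assoc J', hJ, SpU.ct_mul, SpU.ct_mul, mul_assoc J']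
    congr 1
    calc _ = SpU.ct hK P.1 * (SpU.ct hK A.1.1 * (SpU.ct hK (P⁻¹ : _ˣ).1 * (SpU.ct hK P.1 * P.1) *
          (P⁻¹ : _ˣ).1) * A.1.1) * P.1 := by rw [hP]; simp only [mul_assoc]
      _ = J := by
        rw [← mul_assoc (SpU.ct hK _) (SpU.ct hK P.1), c1, one_mul, Units.mul_inv, mul_one,
          SpU.ct_mul_SU, mul_one, hP]
  · change P.1 * ((P⁻¹ : _ˣ).1 * A.1.1 * P.1) * _ = _
    simp only [mul_assoc, Units.mul_inv_cancel_left, Units.mul_inv, mul_one]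
  · change P.1 * x.1.1 * (P⁻¹ : _ˣ).1 = _ at h
    calc x.1.1 = (P⁻¹ : _ˣ).1 * (P.1 * x.1.1 * (P⁻¹ : _ˣ).1) * P.1 := by
          simp only [mul_assoc, Units.inv_mul_cancel_left, Units.inv_mul, mul_one]
      _ = _ := by rw [h, Matrix.mul_smul, Matrix.smul_mul, mul_one, Units.inv_mul]

end Mo

open Mo in
/-- Copy `U5/ModA` + `U5/Model` (you may land a helper file `U4/ModA`, ns `CL.U4.Mo`). `J = antidiag(1, 1, -1, -1)` (`J 0 3 = J 1 2 = 1`, `J 2 1 = J 3 0 = -1`), `Gs = {M ∈ SL₄ | M* J M = J}`, `mat g` as in `Defs`,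
`n1` = the block matrix `diag(u, u)`-type element with rows `(0,1,0,0), (-1,0,0,0), (0,0,0,-1), (0,0,1,0)` (check signs), `n2` = middle block `[[0,1],[-1,0]]`.
`φ x` = conjugation by `diag(l m σl, m σ l, σ l, 1)` (a similitude: weights `w 0 σ(w 3) = w 1 σ(w 2) = l σl m`... use `diag(l, 1, m⁻¹, (σ l m)⁻¹)`) composed with `ρ`. `sing`: `mat g - 1 = vecMulVec c r` for singular `g ∈ V`, so the `2 × 2` minor of the conjugate vanishes.
For the isomorphism with `SU 4 K q` use the Hermitian matrix `(θ - σ θ) • J`. -/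
theorem exists_Md {K : Type*} [Field K] [Fintype K] {q : ℕ} (hK : Fintype.card K = q ^ 2) [Un (Uni.sig hK)] (p : ℕ) [Fact p.Prime] [CharP K p] :
    ∃ G : Subgroup (Matrix.SpecialLinearGroup (Fin 4) K), Nonempty (Md (Uni.sig hK) p G) ∧
      ∃ e : U (Uni.sig hK) →* PSU 4 K q, Function.Injective e ∧ ¬ p ∣ e.range.index := by
  obtain ⟨f, hf, hc⟩ := exists_iso hK
  refine ⟨Gs _, ⟨md p⟩, ((QuotientGroup.mk' _).comp f).comp uu, ?_, fun h => idx (σ := Uni.sig hK) p ?_⟩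
  · refine (injective_iff_map_eq_one _).2 fun g hg => uu_inj ?_
    obtain ⟨c, e⟩ := (Uni.psu_mk_eq_one_iff hK (by norm_num)).1 hg
    have k : mat g = c • 1 := hc _ c e
    have c1 : c = 1 := by simpa [mat] using (congrFun (congrFun k 0) 0).symm
    rw [map_one]
    exact gext (k.trans (by rw [c1, one_smul]; rfl))
  · rw [MonoidHom.range_comp] at h
    exact h.trans (index_map_dvd _ ((QuotientGroup.mk'_surjective _).comp hf))

end CL.U4
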