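/-
S5210, `q = 2`: the field `F4`, automorphisms of `V = 2 ^ 4` as bit matrices, three finite checks.
-/
import Cfsg.Agent.FUS.U4.Chr
import Cfsg.Agent.SPOR.F4

set_option autoImplicit false
set_option linter.unusedSimpArgs false
set_option linter.unusedSectionVars false
set_option linter.unusedVariables false

namespace CL.U4.Two

open CL.Fus Subgroup Cfsg U
open CL.U5 (Un)

/-- the Frobenius of `F4` -/
def σ4 : F4 →+* F4 where
  toFun := F4.inv
  map_one' := rfl
  map_zero' := rfl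
  map_mul' := by decide
  map_add' := by decide

instance : Un σ4 := ⟨by decide, ⟨F4.w, by decide⟩, by decide⟩

instance : CharP F4 2 := CharTwo.of_one_ne_zero_of_two_eq_zero one_ne_zero (by decide)

instance : DecidableEq (U σ4) := fun g h => decidable_of_iff _ (U.ext_iff (x := g) (y := h)).symm

/-- `b = b₀ + b₁ w` as the number `b₀ + 2 b₁` -/
def eb : F4 → ℕ
  | .o => 0 | .l => 1 | .w => 2 | .v => 3

/-- the inverse of `eb` -/
def db : ℕ → F4
  | 0 => .o | 1 => .l | 2 => .w | _ => .v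

/-- a bit as an element of the prime field -/
def bt : Bool → F4
  | false => 0 | true => 1

theorem σ_bt (c : Bool) : σ4 (bt c) = bt c := by cases c <;> rfl

/-- the code of an element of `V` -/
def enc (g : U σ4) : ℕ := eb g.b + 4 * eb g.x + 8 * eb g.y

/-- the element of `V` with a given code -/
def dec (n : ℕ) : U σ4 := ⟨0, db (n % 4), bt (n.testBit 2), bt (n.testBit 3), σ_bt _, σ_bt _⟩

theorem dec_mem (n : ℕ) : dec n ∈ sV := rfl

/-- all elements -/
def els (a b : F4) (x y : Bool) : U σ4 := ⟨a, b, bt x, bt y, σ_bt _, σ_bt _⟩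

theorem exists_els (g : U σ4) : ∃ x y, g = els g.a g.b x y := by
  have k : ∀ c : F4, σ4 c = c → ∃ x, c = bt x := by decide
  obtain ⟨x, hx⟩ := k _ g.hx
  obtain ⟨y, hy⟩ := k _ g.hy
  exact ⟨x, y, U.ext rfl rfl hx hy⟩

theorem forall_U {P : U σ4 → Prop} (h : ∀ a b x y, P (els a b x y)) (g : U σ4) : P g :=
  let ⟨x, y, e⟩ := exists_els g; e ▸ h _ _ x y

theorem forall_V {P : U σ4 → Prop} (h : ∀ b x y, P (els 0 b x y)) (g : U σ4) (hg : g ∈ sV) : P g := by
  obtain ⟨x, y, e⟩ := exists_els g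
  rw [e, mem_sV.1 hg]
  exact h _ x y

theorem dec_enc : ∀ g ∈ sV, dec (enc g) = g := forall_V (by decide)

theorem enc_lt : ∀ g ∈ sV, enc g < 16 := forall_V (by decide)

theorem enc_dec : ∀ n < 16, enc (dec n) = n := by decide

theorem enc_mul : ∀ g ∈ sV, ∀ h ∈ sV, enc (g * h) = enc g ^^^ enc h :=
  forall_V fun b x y => forall_V (by revert b x y; decide)

theorem enc_inj {g h : U σ4} (hg : g ∈ sV) (hh : h ∈ sV) (e : enc g = enc h) : g = h := by rw [← dec_enc g hg, e, dec_enc h hh]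

/-- bit matrices: the images of `1, 2, 4, 8` -/
abbrev M4 := ℕ × ℕ × ℕ × ℕ

/-- a bit matrix applied to a code -/
def ap (m : M4) (v : ℕ) : ℕ :=
  (bif v.testBit 0 then m.1 else 0) ^^^ (bif v.testBit 1 then m.2.1 else 0) ^^^ (bif v.testBit 2 then m.2.2.1 else 0) ^^^
    (bif v.testBit 3 then m.2.2.2 else 0)

/-- the product -/
def cm (m n : M4) : M4 := (ap m n.1, ap m n.2.1, ap m n.2.2.1, ap m n.2.2.2)

/-- the identity -/
def im : M4 := (1, 2, 4, 8)

/-- the matrix of an automorphism of `V` -/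
def mu (g : MulAut (sV (σ := σ4))) : M4 :=
  (enc (g ⟨dec 1, rfl⟩), enc (g ⟨dec 2, rfl⟩), enc (g ⟨dec 4, rfl⟩), enc (g ⟨dec 8, rfl⟩))

/-- the matrices of `T` -/
def tm : F4 → M4
  | .o => (1, 2, 4, 8) | .l => (1, 6, 4, 13) | .w => (5, 2, 4, 14) | .v => (5, 6, 4, 15)

/-- the six involutions `n` with `⟨T, n⟩ = S₃ × ⟨tv a⟩` -/
def nm : F4 → Bool → M4
  | .o, _ => (1, 2, 4, 8)
  | .l, false => (1, 13, 5, 6) | .w, false => (12, 2, 6, 7) | .v, false => (15, 12, 7, 5)
  | .l, true => (1, 9, 5, 3) | .w, true => (8, 2, 6, 1) | .v, true => (11, 8, 7, 2)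

/-- `nm a e` as a map -/
def nn (a : F4) (e : Bool) (g : U σ4) : U σ4 := dec (ap (nm a e) (enc g))

theorem nn_mul (a : F4) (e : Bool) : ∀ g ∈ sV, ∀ h ∈ sV, nn a e (g * h) = nn a e g * nn a e h :=
  forall_V fun b x y => forall_V (by revert a e b x y; decide +kernel)

theorem isoOn_nn (a : F4) (e : Bool) : IsoOn (sV (σ := σ4)) sV (nn a e) (nn a e) :=
  have k : ∀ g ∈ sV, nn a e (nn a e g) = g := forall_V (by revert a e; decide)
  ⟨fun g hg h hh => nn_mul a e g hg h hh, fun _ _ => rfl, fun _ _ => rfl, k, k⟩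

/-- `nm a e` as an automorphism of `V` -/
def nv (a : F4) (e : Bool) : MulAut (sV (σ := σ4)) := (isoOn_nn a e).equiv

theorem nv_coe (a : F4) (e : Bool) (v : sV (σ := σ4)) : (nv a e v : U σ4) = nn a e v := rfl

theorem enc_apply (g : MulAut (sV (σ := σ4))) (v : sV (σ := σ4)) : enc (g v) = ap (mu g) (enc v) := by
  have k : ∀ v ∈ sV, v = (bif (enc v).testBit 0 then dec 1 else 1) * (bif (enc v).testBit 1 then dec 2 else 1) *
      (bif (enc v).testBit 2 then dec 4 else 1) * (bif (enc v).testBit 3 then dec 8 else 1) := forall_V (by decide)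
  have k1 : ∀ (c : Bool) (n : ℕ), enc (g (bif c then ⟨dec n, rfl⟩ else 1)) = bif c then enc (g ⟨dec n, rfl⟩) else 0 := fun c n => by
    cases c
    · simp only [cond_false, map_one]; rfl
    · rfl
  have k2 : v = (bif (enc v).testBit 0 then ⟨dec 1, rfl⟩ else 1) * (bif (enc v).testBit 1 then ⟨dec 2, rfl⟩ else 1) *
      (bif (enc v).testBit 2 then ⟨dec 4, rfl⟩ else 1) * (bif (enc v).testBit 3 then ⟨dec 8, rfl⟩ else 1) := Subtype.ext (by
    refine (k v v.2).trans ?_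
    generalize enc v = n
    cases n.testBit 0 <;> cases n.testBit 1 <;> cases n.testBit 2 <;> cases n.testBit 3 <;> rfl)
  have k3 : ∀ x y : sV (σ := σ4), enc (x * y : sV) = enc x ^^^ enc y := fun x y => enc_mul _ x.2 _ y.2
  conv_lhs => rw [k2]
  simp only [map_mul, k3, k1]
  rfl

theorem mu_mul (g h : MulAut (sV (σ := σ4))) : mu (g * h) = cm (mu g) (mu h) :=
  Prod.ext (enc_apply g _) (Prod.ext (enc_apply g _) (Prod.ext (enc_apply g _) (enc_apply g _)))

theorem mu_inj {g h : MulAut (sV (σ := σ4))} (e : mu g = mu h) : g = h :=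
  MulEquiv.ext fun v => Subtype.ext (enc_inj (g v).2 (h v).2 (by rw [enc_apply, enc_apply, e]))

theorem mu_one : mu 1 = im := by decide

theorem mu_tv (a : F4) : mu (tv a) = tm a := by
  simp only [mu, tv_coe]
  revert a
  decide

theorem mu_nv (a : F4) (e : Bool) : mu (nv a e) = nm a e := by
  simp only [mu, nv_coe]
  revert a e
  decide

/-- what every element of a group with Sylow subgroup `T` satisfies -/
def ok (m : M4) : Prop := (cm (cm m m) (cm m m) = im → cm m m = im) ∧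
  (cm m m = im → cm m (tm .l) = cm (tm .l) m → cm m (tm .w) = cm (tm .w) m → ∃ c, m = tm c)

instance (m : M4) : Decidable (ok m) := by unfold ok; infer_instance

/-- injectivity -/
def iv (m : M4) : Bool := (List.range 15).all fun v => ap m (v + 1) != 0

theorem mu_lt (g : MulAut (sV (σ := σ4))) : (mu g).1 < 16 ∧ (mu g).2.1 < 16 ∧ (mu g).2.2.1 < 16 ∧ (mu g).2.2.2 < 16 :=
  ⟨enc_lt _ (g _).2, enc_lt _ (g _).2, enc_lt _ (g _).2, enc_lt _ (g _).2⟩

theorem iv_mu (g : MulAut (sV (σ := σ4))) : iv (mu g) = true := by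
  simp only [iv, List.all_eq_true, List.mem_range, bne_iff_ne]
  intro v hv k
  have h := enc_apply g ⟨dec (v + 1), rfl⟩
  rw [enc_dec _ (by omega), k] at h
  have := congrArg (fun x : sV => enc x.1) ((map_eq_one_iff g g.injective).1 (Subtype.ext (enc_inj (g _).2 (one_mem _) h)))
  simp only [enc_dec _ (show v + 1 < 16 by omega)] at this
  exact absurd this (Nat.succ_ne_zero v)

theorem all16 {P : ℕ → Prop} [DecidablePred P] {Q : ℕ → Bool} (h : ((List.range 16).all fun i => !decide (P i) || Q i) = true) {i : ℕ}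
    (hi : i < 16) (k : P i) : Q i = true := by
  simpa [k] using List.all_eq_true.1 h i (List.mem_range.2 hi)

theorem cen_aux : ∀ a : F4, a ≠ 0 → ((List.range 16).all fun k => !decide (k = ap (tm a) k) ||
    (List.range 16).all fun i => !decide (ap (i, 0, k, 0) (tm a).1 = ap (tm a) i) ||
    (List.range 16).all fun j => !decide (ap (0, j, k, 0) (tm a).2.1 = ap (tm a) j) ||
    (List.range 16).all fun l => !decide (ap (i, j, k, l) (tm a).2.2.2 = ap (tm a) l) || decide (iv (i, j, k, l) = true →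
    ok (i, j, k, l) → ok (cm (i, j, k, l) (tm .l)) → ok (cm (i, j, k, l) (tm .w)) →
    (∃ c, (i, j, k, l) = tm c) ∨ ∃ e c c', (i, j, k, l) = cm (cm (tm c) (nm a e)) (tm c'))) = true := by decide +kernel

set_option synthInstance.maxSize 1000 in
theorem nrm_aux : ∀ c c' : F4, ((List.range 16).all fun k => !decide (k ≠ 0) ||
    (List.range 16).all fun i => !decide (i = ap (tm c) i ∧ i ^^^ k = ap (tm c') i) ||
    (List.range 16).all fun j => !decide (j ^^^ k = ap (tm c) j ∧ j = ap (tm c') j) ||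
    (List.range 16).all fun l => !decide (cm (i, j, k, l) (tm .l) = cm (tm c) (i, j, k, l)) || decide (
    cm (i, j, k, l) (tm .w) = cm (tm c') (i, j, k, l) → iv (i, j, k, l) = true → ok (cm (cm (i, j, k, l) (i, j, k, l)) (i, j, k, l)) →
    ∀ a e, a ≠ 0 → (∀ c, ok (cm (cm (cm (i, j, k, l) (i, j, k, l)) (cm (nm a e) (i, j, k, l))) (cm (tm c) (nm a e)))) →
    ∃ c, (i, j, k, l) = tm c)) = true := by decide +kernel

theorem cen_chk (g : MulAut (sV (σ := σ4))) (a : F4) (ha : a ≠ 0) (h : cm (mu g) (tm a) = cm (tm a) (mu g)) (h1 : ok (mu g))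
    (h2 : ok (cm (mu g) (tm .l))) (h3 : ok (cm (mu g) (tm .w))) :
    (∃ c, mu g = tm c) ∨ ∃ e c c', mu g = cm (cm (tm c) (nm a e)) (tm c') := by
  have h4 := iv_mu g
  obtain ⟨l1, l2, l3, l4⟩ := mu_lt g
  generalize mu g = m at *
  obtain ⟨i, j, k, l⟩ := m
  simp only [cm, Prod.mk.injEq] at h
  refine of_decide_eq_true (all16 (all16 (all16 (all16 (cen_aux a ha) l3 (Eq.trans ?_ h.2.2.1)) l1 (Eq.trans ?_ h.1)) l2
    (Eq.trans ?_ h.2.1)) l4 h.2.2.2) h4 h1 h2 h3
  · cases a <;> exact (show _ = 0 ^^^ 0 ^^^ k ^^^ 0 by simp)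
  · cases a <;> rfl
  · cases a <;> rfl

set_option synthInstance.maxSize 4000 in
theorem cmp_chk : ∀ a e a' e', a ≠ 0 → a' ≠ 0 → ok (cm (cm (nm a e) (nm a' e')) (tm .w)) →
    ok (cm (cm (cm (nm a e) (tm .l)) (cm (nm a e) (nm a' e'))) (cm (tm .l) (nm a e))) →
    ok (cm (cm (nm a' e') (nm a e)) (tm .w)) →
    ok (cm (cm (cm (nm a' e') (tm .l)) (cm (nm a' e') (nm a e))) (cm (tm .l) (nm a' e'))) → (a = a' ∧ e = e') ∨ (a ≠ a' ∧ e ≠ e') := by
  decide +kernel

theorem nrm_chk (g : MulAut (sV (σ := σ4))) (a : F4) (e : Bool) (ha : a ≠ 0) (h : ∃ c, cm (mu g) (tm .l) = cm (tm c) (mu g))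
    (h' : ∃ c, cm (mu g) (tm .w) = cm (tm c) (mu g)) (h1 : ok (cm (cm (mu g) (mu g)) (mu g)))
    (h2 : ∀ c, ok (cm (cm (cm (mu g) (mu g)) (cm (nm a e) (mu g))) (cm (tm c) (nm a e)))) : ∃ c, mu g = tm c := by
  have h4 := iv_mu g
  obtain ⟨l1, l2, l3, l4⟩ := mu_lt g
  obtain ⟨c, h⟩ := h
  obtain ⟨c', h'⟩ := h'
  generalize mu g = m at *
  obtain ⟨i, j, k, l⟩ := m
  have e1 : 0 ^^^ j ^^^ k ^^^ 0 = _ := congrArg (·.2.1) h
  have e2 : i ^^^ 0 ^^^ 0 ^^^ 0 = _ := congrArg (·.1) h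
  have e3 : 0 ^^^ j ^^^ 0 ^^^ 0 = _ := congrArg (·.2.1) h'
  have e4 : i ^^^ 0 ^^^ k ^^^ 0 = _ := congrArg (·.1) h'
  simp only [Nat.xor_zero, Nat.zero_xor] at e1 e2 e3 e4
  refine of_decide_eq_true (all16 (all16 (all16 (all16 (nrm_aux c c') l3 ?_) l1 ⟨e2, e4⟩) l2 ⟨e1, e3⟩) l4 h) h' h4 h1 a e ha h2
  rintro rfl
  simp only [iv, List.all_eq_true, List.mem_range, bne_iff_ne] at h4
  exact h4 3 (by omega) (show 0 ^^^ 0 ^^^ 0 ^^^ 0 = 0 from rfl)

end CL.U4.Two
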