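/-
S5210, `q = 2`: subgroups of `GL₄(2)` with Sylow subgroup `T`.
-/
import Cfsg.Agent.FUS.U4.Q2A
import Cfsg.Agent.FUS.U4.VA
import Cfsg.Agent.INV.HA.Bas
import Cfsg.Agent.INV.SC.Gen

set_option autoImplicit false
set_option linter.unusedSimpArgs false
set_option linter.unusedSectionVars false
set_option linter.unusedVariables false

namespace CL.U4.Two

open CL.Fus CL.RF4 Subgroup Cfsg Cfsg.FusionSystem U
open CL.U5 (Un Dg Cp)
open scoped commutatorElement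

variable {F E : FusionSystem (⊤ : Subgroup (U σ4))} {G : Subgroup (MulAut (sV (σ := σ4)))} {g : MulAut (sV (σ := σ4))} {a a' : F4} {e e' : Bool}

namespace Q2B

theorem tT (c : F4) : (tv c : MulAut (sV (σ := σ4))) ∈ Tv σ4 := mem_Tv.2 ⟨c, rfl⟩

theorem tt (c : F4) : (tv c : MulAut (sV (σ := σ4))) * tv c = 1 := by
  rw [← tv_add, CharTwo.add_self_eq_zero, tv_zero]

theorem tc (c c' : F4) : (tv c : MulAut (sV (σ := σ4))) * tv c' = tv c' * tv c := by
  rw [← tv_add, ← tv_add, add_comm]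

theorem pz (h : g ^ 4 = 1) : IsPGroup 2 (zpowers g) := fun ⟨_, n, rfl⟩ => ⟨2, Subtype.ext (by
  change (g ^ n) ^ 4 = 1
  rw [← zpow_natCast, ← zpow_mul, mul_comm, zpow_mul, zpow_natCast, h, one_zpow])⟩

theorem mem_T {c : F4} (h : mu g = tm c) : g ∈ Tv σ4 := mem_Tv.2 ⟨c, mu_inj (h.trans (mu_tv c).symm)⟩

end Q2B

open Q2B

/-- `g ^ 4 = 1`: `zpowers g` is conjugate into `T` (`exists_conj_le`), which has exponent `2` (`mem_Tv`, `tv_add`). An involution centralising `T` lies in `T` (`le_of_le_normalizer'`). Translate with `mu_mul, mu_inj, mu_one, mu_tv`. -/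
theorem ok_of_mem (h : SylIn 2 (Tv σ4) G) (hg : g ∈ G) : ok (mu g) := by
  refine ⟨fun k => ?_, fun k k1 k2 => ?_⟩
  · rw [← mu_mul, ← mu_mul, ← mu_one] at k
    obtain ⟨b, -, hb⟩ := h.exists_conj_le (zpowers_le.2 hg) (pz (by rw [← mu_inj k]; simp [pow_succ, mul_assoc]))
    obtain ⟨c, e⟩ := mem_Tv.1 (hb g (mem_zpowers g))
    rw [← mu_mul, ← mu_one, show g * g = b⁻¹ * ((b * g * b⁻¹) * (b * g * b⁻¹)) * b by group, e, tt, mul_one, inv_mul_cancel]
  · rw [← mu_mul, ← mu_one] at k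
    rw [← mu_tv, ← mu_mul, ← mu_mul] at k1 k2
    have k3 : ∀ c, g * tv c = tv c * g := fun c => by
      cases c
      · rw [show F4.o = 0 from rfl, tv_zero, mul_one, one_mul]
      · exact mu_inj k1
      · exact mu_inj k2
      · rw [show F4.v = F4.l + F4.w from rfl, tv_add, ← mul_assoc, mu_inj k1, mul_assoc, mu_inj k2, mul_assoc]
    obtain ⟨c, e⟩ := mem_Tv.1 (h.le_of_le_normalizer' (zpowers_le.2 hg) (pz (by
      rw [show g ^ 4 = (g * g) * (g * g) by simp [pow_succ, mul_assoc], mu_inj k, mul_one])) (zpowers_le.2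
        (SC.mem_norm_of_le fun y hy => by
          obtain ⟨c, rfl⟩ := mem_Tv.1 hy
          rw [k3, mul_inv_cancel_right]
          exact hy)) (mem_zpowers g))
    exact ⟨c, by rw [e, mu_tv]⟩

/-- `cen_chk`; `tv c * tv c = 1` -/
theorem cen (h : SylIn 2 (Tv σ4) G) (hg : g ∈ G) (ha : a ≠ 0) (k : g * tv a = tv a * g) :
    g ∈ Tv σ4 ∨ ∃ e, nv a e ∈ G ∧ ∃ c c', g = tv c * nv a e * tv c' := by
  have k1 := fun c => ok_of_mem h (mul_mem hg (h.le (tT c)))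
  simp only [mu_mul, mu_tv] at k1
  rcases cen_chk g a ha (by rw [← mu_tv, ← mu_mul, ← mu_mul, k]) (ok_of_mem h hg) (k1 _) (k1 _) with ⟨c, e⟩ | ⟨e, c, c', e'⟩
  · exact Or.inl (mem_T e)
  · rw [← mu_tv, ← mu_tv, ← mu_nv, ← mu_mul, ← mu_mul] at e'
    refine Or.inr ⟨e, ?_, c, c', mu_inj e'⟩
    rwa [mu_inj e', mul_mem_cancel_right (h.le (tT c')), mul_mem_cancel_left (h.le (tT c))] at hg

/-- `cmp_chk` -/
theorem cmp (h : SylIn 2 (Tv σ4) G) (ha : a ≠ 0) (ha' : a' ≠ 0) (h1 : nv a e ∈ G) (h2 : nv a' e' ∈ G) :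
    (a = a' ∧ e = e') ∨ (a ≠ a' ∧ e ≠ e') := by
  have l := h.le (tT .l)
  have w := h.le (tT .w)
  have k1 := ok_of_mem h (mul_mem (mul_mem h1 h2) w)
  have k2 := ok_of_mem h (mul_mem (mul_mem (mul_mem h1 l) (mul_mem h1 h2)) (mul_mem l h1))
  have k3 := ok_of_mem h (mul_mem (mul_mem h2 h1) w)
  have k4 := ok_of_mem h (mul_mem (mul_mem (mul_mem h2 l) (mul_mem h2 h1)) (mul_mem l h2))
  simp only [mu_mul, mu_tv, mu_nv] at k1 k2 k3 k4
  exact cmp_chk a e a' e' ha ha' k1 k2 k3 k4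

/-- `nrm_chk` -/
theorem nrm (h : SylIn 2 (Tv σ4) G) (ha : a ≠ 0) (h1 : nv a e ∈ G) (hg : g ∈ G) (k : ∀ c, ∃ c', g * tv c = tv c' * g) : g ∈ Tv σ4 := by
  have k0 : ∀ c, ∃ c', cm (mu g) (tm c) = cm (tm c') (mu g) := fun c =>
    (k c).imp fun c' e => by rw [← mu_tv, ← mu_tv, ← mu_mul, ← mu_mul, e]
  have k1 := ok_of_mem h (mul_mem (mul_mem hg hg) hg)
  have k2 := fun c => ok_of_mem h (mul_mem (mul_mem (mul_mem hg hg) (mul_mem h1 hg)) (mul_mem (h.le (tT c)) h1))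
  simp only [mu_mul, mu_tv, mu_nv] at k1 k2
  obtain ⟨c, e⟩ := nrm_chk g a e ha (k0 _) (k0 _) k1 k2
  exact mem_T e

/-- Burnside (`HA.burn`, `N_G(T) = T` by `nrm`) and generation of `O(G)` by the centralisers of the involutions of `T` (`SC.le_of_four`), `cen`. -/
theorem gen (h : SylIn 2 (Tv σ4) G) (ha : a ≠ 0) (h1 : nv a e ∈ G) {H : Subgroup (MulAut (sV (σ := σ4)))} (hT : Tv σ4 ≤ H)
    (hH : ∀ a e, a ≠ 0 → nv a e ∈ G → nv a e ∈ H) : G ≤ H := by
  have k : ∀ c, c ≠ 0 → ∀ y ∈ PComp.opOf 2 G, Commute y (tv c) → y ∈ H := fun c hc y hy e => by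
    rcases cen h (PComp.opOf_le 2 G hy) hc e with k | ⟨e, k, c1, c2, rfl⟩
    · exact hT k
    · exact mul_mem (mul_mem (hT (tT _)) (hH _ _ hc k)) (hT (tT _))
  have hO : PComp.opOf 2 G ≤ H := SC.le_of_four (a := tv .l) (b := tv .w) (Nat.coprime_two_right.1 (PComp.opOf_coprime 2 G))
    (tt _) (tt _) (tc _ _) (PComp.le_normalizer_opOf 2 G (h.le (tT _))) (PComp.le_normalizer_opOf 2 G (h.le (tT _)))
    (k _ (by decide)) (k _ (by decide)) (by rw [← tv_add]; exact k _ (by decide))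
  intro g hg
  obtain ⟨d, hd, o, ho, rfl⟩ := HA.burn (X := Tv σ4) ⟨h.le, h.isPGroup, fun Q hQ l1 l2 => h.eq_of_le l2 hQ l1⟩
    (fun x hx hn => by
      obtain ⟨c, rfl⟩ := mem_Tv.1 (nrm h ha h1 hx fun c => by
        obtain ⟨c', e⟩ := mem_Tv.1 ((mem_normalizer_iff.1 hn _).1 (tT c))
        exact ⟨c', by rw [← e, inv_mul_cancel_right]⟩)
      refine mem_centralizer_iff.2 fun y hy => ?_
      obtain ⟨c', rfl⟩ := mem_Tv.1 hy
      exact tc _ _) hg
  exact mul_mem (hT hd) (hO ho)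

/-- `w = g z`, `b = w.b ≠ 0`, `tv b` fixes `w` (`Tr(b σ b) = 0`). `exists_conj_tv` with `C = C_G(w)`, `P = zpowers (tv b)`: `k = c g`, `k z = w`, `tv b ∈ k T k⁻¹`, so all `k (tv c) k⁻¹` centralise `tv b` and fix `w`.
If they all lie in `T` then `T = k T k⁻¹` (injective map of `F4` to itself) fixes `w ∉ Z`, false. `cen`. -/
theorem exists_nv (h : SylIn 2 (Tv σ4) G) (hg : g ∈ G) {z : sV (σ := σ4)} (hz : z.1 ∈ sZ) (h1 : (g z).1 ∈ sW) (h2 : (g z).1 ∉ sZ) :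
    ∃ a e, a ≠ 0 ∧ nv a e ∈ G := by
  by_contra hn
  have hb : (g z).1.b ≠ 0 := fun e => h2 ⟨h1.1, e, h1.2⟩
  obtain ⟨c, hc, hk⟩ := exists_conj_tv h hg (C := G ⊓ MulAction.stabilizer _ (g z)) (P := zpowers (tv (g z).1.b))
    inf_le_left (fun a => mem_inf.2 ⟨mul_mem (mul_mem hg (h.le (tT a))) (inv_mem hg), by simp [VAx.tv_Z a hz]⟩)
    (zpowers_le.2 ⟨h.le (tT _), VAx.tv_fix h1 (by rw [mul_comm]; exact CharTwo.add_self_eq_zero _)⟩)
    (h.isPGroup.to_le (zpowers_le.2 (tT _)))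
  obtain ⟨a, e⟩ := hk _ (mem_zpowers _)
  have kz : (c * g) z = g z := hc.2
  have kG : c * g ∈ G := mul_mem hc.1 hg
  generalize c * g = k at *
  have k1 : ∀ d, ∃ d', k * tv d * k⁻¹ = tv d' := fun d => by
    rcases cen h (mul_mem (mul_mem kG (h.le (tT d))) (inv_mem kG)) hb (by
      rw [e]; simp only [mul_assoc, inv_mul_cancel_left]; rw [← mul_assoc (tv d), tc, mul_assoc]) with k | ⟨e, k, -⟩
    · exact mem_Tv.1 k
    · exact (hn ⟨_, e, hb, k⟩).elim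
  choose f hf using k1
  have hs : Function.Surjective f := Finite.surjective_of_injective fun d d' e => VAx.tv_inj (σ := σ4) (by
    have := (hf d).trans ((congrArg tv e).trans (hf d').symm)
    exact mul_left_cancel (mul_right_cancel this))
  refine hb (eq_zero_of_tr (σ := σ4) fun d => ?_)
  obtain ⟨d, rfl⟩ := hs d
  have k2 : tv (f d) (g z) = g z := by
    rw [← hf, ← kz]
    simp [VAx.tv_Z d hz]
  have k3 := tv_x (f d) (g z)
  rw [k2, h1.2] at k3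
  linear_combination -k3

end CL.U4.Two
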