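/-
S5210: the conjugates of `W` under `Aut_F(Q)` are pairwise complementary modulo `Z`.
-/
import Cfsg.Agent.FUS.U4.Chr
import Cfsg.Agent.FUS.U4.Fld

set_option autoImplicit false
set_option linter.unusedSimpArgs false
set_option linter.unusedSectionVars false
set_option linter.unusedVariables false

namespace CL.U4

open CL.Fus CL.RF4 Subgroup Cfsg Cfsg.FusionSystem U CL.U5.Un
open CL.U5 (Un Dg ru σu ru_val σu_val map_σ Cp Qd Pr)
open scoped commutatorElement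

variable {K : Type*} [Field K] [Finite K] {σ : K →+* K} [T : Un σ] {p : ℕ} [Fact p.Prime] [CharP K p]
  {F F' : FusionSystem (⊤ : Subgroup (U σ))}

namespace QAx

/-- the commutator form -/
def om (g h : U σ) : K := g.a * σ h.b + σ g.a * h.b - h.a * σ g.b - σ h.a * g.b

theorem om_map {f : U σ → U σ} (i : IsHomOn sQ f) (m : ∀ x ∈ sQ, f x ∈ sQ) (hZ : ∀ z ∈ sZ, f z = z) {g h : U σ} (hg : g ∈ sQ)
    (hh : h ∈ sQ) : om (f g) (f h) = om g h := by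
  have := i.map_commutator hg hh
  rw [hZ _ (brk_Q hg hh).1] at this
  rw [om, om, ← (brk_Q (m _ hg) (m _ hh)).2, ← this, (brk_Q hg hh).2]

theorem om_zero {f : U σ → U σ} (i : IsHomOn sQ f) (m : ∀ x ∈ sQ, f x ∈ sQ) {g h : U σ} (hg : g ∈ sQ)
    (hh : h ∈ sQ) (e : om g h = 0) : om (f g) (f h) = 0 := by
  have := i.map_commutator hg hh
  rw [eq_one_of_Z (brk_Q hg hh).1 ((brk_Q hg hh).2.trans e), i.map_one] at this
  rw [om, ← (brk_Q (m _ hg) (m _ hh)).2, ← this, one_x]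

theorem eq_of_om {a b : K} (h : ∀ k ∈ sQ (σ := σ), a * σ k.b + σ a * k.b - k.a * σ b - σ k.a * b = 0) : a = 0 ∧ b = 0 :=
  ⟨eq_zero_of_tr (σ := σ) fun c => by simpa using h (xb c) rfl, eq_zero_of_tr (σ := σ) fun c => by
    have := h (xa c) rfl
    simp only [xa_a, xa_b, map_zero] at this
    linear_combination -this⟩

theorem lin3 {f f' : U σ → U σ} (i : IsoOn sQ sQ f f') (hZ : ∀ z ∈ sZ, f z = z) {c₁ c₂ c₃ : K} (e₁ : σ c₁ = c₁) (e₂ : σ c₂ = c₂)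
    (e₃ : σ c₃ = c₃) {g g₁ g₂ g₃ : U σ} (hg : g ∈ sQ) (h₁ : g₁ ∈ sQ) (h₂ : g₂ ∈ sQ) (h₃ : g₃ ∈ sQ)
    (ha : g.a = c₁ * g₁.a + c₂ * g₂.a + c₃ * g₃.a) (hb : g.b = c₁ * g₁.b + c₂ * g₂.b + c₃ * g₃.b) :
    (f g).a = c₁ * (f g₁).a + c₂ * (f g₂).a + c₃ * (f g₃).a ∧ (f g).b = c₁ * (f g₁).b + c₂ * (f g₂).b + c₃ * (f g₃).b := by
  have := eq_of_om (σ := σ) (a := (f g).a - (c₁ * (f g₁).a + c₂ * (f g₂).a + c₃ * (f g₃).a))
    (b := (f g).b - (c₁ * (f g₁).b + c₂ * (f g₂).b + c₃ * (f g₃).b)) fun k hk => by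
      have k0 := om_map i.hom i.maps hZ hg (i.maps' k hk)
      have k1 := om_map i.hom i.maps hZ h₁ (i.maps' k hk)
      have k2 := om_map i.hom i.maps hZ h₂ (i.maps' k hk)
      have k3 := om_map i.hom i.maps hZ h₃ (i.maps' k hk)
      simp only [i.right k hk, om, ha, hb, map_add, map_mul, map_sub, e₁, e₂, e₃] at *
      linear_combination k0 - c₁ * k1 - c₂ * k2 - c₃ * k3
  exact ⟨sub_eq_zero.1 this.1, sub_eq_zero.1 this.2⟩

theorem dv_a (g h : U σ) : (g⁻¹ * h).a = h.a - g.a := by usimp; ring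

theorem dv_b {g h : U σ} (hg : g ∈ sQ) (hh : h ∈ sQ) : (g⁻¹ * h).b = h.b - g.b := by msimp at *; usimp; rw [hg, hh]; ring

theorem dv_Q {g h : U σ} (hg : g ∈ sQ) (hh : h ∈ sQ) : g⁻¹ * h ∈ sQ := mul_mem (inv_mem hg) hh

theorem dv_Z {g h : U σ} (hg : g ∈ sQ) (hh : h ∈ sQ) : g⁻¹ * h ∈ sZ ↔ h.a = g.a ∧ h.b = g.b := by
  rw [mem_sZ, dv_a, dv_b hg hh, sub_eq_zero, sub_eq_zero]
  exact ⟨fun k => ⟨k.1, k.2.1⟩, fun k => ⟨k.1, k.2, dv_Q hg hh⟩⟩

theorem cong {f : U σ → U σ} (hf : AF F sQ f) {g h : U σ} (hg : g ∈ sQ) (hh : h ∈ sQ) (ha : h.a = g.a) (hb : h.b = g.b) :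
    (f h).a = (f g).a ∧ (f h).b = (f g).b := by
  rw [← dv_Z (hf.2 _ hg) (hf.2 _ hh), ← hf.1.map_inv hg, ← hf.1.map_mul (inv_mem hg) hh]
  exact hf.mapZ _ ((dv_Z hg hh).2 ⟨ha, hb⟩)

theorem cj_Z (s : U σ) : ∀ z ∈ sZ, cj s z = z := fun z hz => cj_eq_self_iff.2 (comm_Z hz s)

/-- the conjugate of `cj (zy 1)` -/
def tt (f f' : U σ → U σ) : U σ → U σ := f ∘ cj (zy 1 (map_one σ)) ∘ f'

section
variable {f f' : U σ → U σ} (hf : AF F sQ f) (hf' : AF F sQ f') (i : IsoOn sQ sQ f f')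
include hf hf' i

theorem tt_af : AF F sQ (tt f f') := hf.comp ((AF.conj F sQ _).comp hf')

theorem tt_Z : ∀ z ∈ sZ, tt f f' z = z := fun z hz => by
  simp only [tt, Function.comp, cj_Z _ _ (hf'.mapZ z hz), i.right z (Z_le_Q hz)]

theorem tt_W {g : U σ} (hg : g ∈ sQ) (h : f' g ∈ sW) : tt f f' g = g := by
  simp only [tt, Function.comp, cj_eq_self_iff.2 (comm_V (W_le_V h) (h := zy 1 (map_one σ)) rfl), i.right g hg]

theorem W_of_tt {g : U σ} (hg : g ∈ sQ) (ha : (tt f f' g).a = g.a) (hb : (tt f f' g).b = g.b) : f' g ∈ sW := by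
  have h1 := (cong hf' hg ((tt_af hf hf' i).2 g hg) ha hb).2
  simp only [tt, Function.comp, i.left _ ((AF.conj F sQ _).2 _ (i.maps' g hg)), cj_b, zy_a, zy_y] at h1
  exact ⟨by linear_combination -h1, i.maps' g hg⟩

end

theorem step {X Y : Subgroup (U σ)} (h1 : X ≤ Y) (h2 : Y ≤ sQ) {α β : MulAut (sQ (σ := σ))} (ha : ∀ g ∈ Y, g⁻¹ * autFun α g ∈ X)
    (hb : ∀ g ∈ Y, g⁻¹ * autFun β g ∈ X) : ∀ g ∈ Y, g⁻¹ * autFun (α * β) g ∈ X := fun g hg => by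
  have := mul_mem (hb g hg) (ha _ (mul_mem hg (h1 (hb g hg))))
  rw [autFun_mul _ _ (h2 hg)]
  simpa [mul_assoc] using this

end QAx

open QAx

/-- the commutator form `om g h = [g, h].x` is `F`-bilinear and nondegenerate on `Q / Z`, and preserved by `f`: `om (f g') (f h) = om g' h = c om g h = c om (f g) (f h)`, `f` onto. -/
theorem lin_of_fix {f f' : U σ → U σ} (i : IsoOn sQ sQ f f') (hZ : ∀ z ∈ sZ, f z = z) {c : K} (hc : σ c = c) {g g' : U σ} (hg : g ∈ sQ)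
    (hg' : g' ∈ sQ) (h1 : g'.a = c * g.a) (h2 : g'.b = c * g.b) : (f g').a = c * (f g).a ∧ (f g').b = c * (f g).b := by
  simpa using lin3 i hZ hc (map_zero σ) (map_zero σ) hg' hg hg hg (by simpa using h1) (by simpa using h2)

/-- the image `W' = f W` is `F`-invariant modulo `Z`: `W' = {g ∈ Q | g⁻¹ t g ∈ Z}` for `t = f ∘ cj (zy 1) ∘ f'`, which fixes `Z` pointwise (`AF.mapZ`), `lin_of_fix`. -/
theorem img_smul {f : U σ → U σ} (hf : AF F sQ f) {c : K} (hc : σ c = c) {w : U σ} (hw : w ∈ sW) :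
    ∃ w' ∈ sW, (f w').a = c * (f w).a ∧ (f w').b = c * (f w).b := by
  obtain ⟨f', hf', i⟩ := hf.inv
  obtain ⟨t', -, j⟩ := (tt_af hf hf' i).inv
  have hq := hf.2 w (W_le_Q hw)
  have h1 := lin_of_fix j (tt_Z hf hf' i) hc hq (g' := el (c * (f w).a) (c * (f w).b)) rfl rfl rfl
  rw [tt_W hf hf' i hq (by rwa [i.left w (W_le_Q hw)])] at h1
  exact ⟨_, W_of_tt hf hf' i (g := el (c * (f w).a) (c * (f w).b)) rfl h1.1 h1.2, by rw [i.right _ rfl]; exact ⟨rfl, rfl⟩⟩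

/-- `t` is trivial on the factors of `1 ≤ Z ≤ A ≤ B ≤ C ≤ Q` -/
def St4 (A B C : Subgroup (U σ)) (t : U σ → U σ) : Prop := (∀ z ∈ sZ, t z = z) ∧ (∀ g ∈ A, g⁻¹ * t g ∈ sZ) ∧ (∀ g ∈ B, g⁻¹ * t g ∈ A) ∧
  (∀ g ∈ C, g⁻¹ * t g ∈ B) ∧ ∀ g ∈ sQ, g⁻¹ * t g ∈ C

/-- the `α ∈ Aut_F(Q)` with `St4 A B C (autFun α)` form a `p`-group (`Q ^ p ≤ Z`, `Q / Z` abelian; `mem_pCore_of_chain` or `isPGroup_of_forall_coprime` with `autFun_eq_of_coprime`) containing the Sylow subgroup `Aut_S(Q)`. -/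
theorem cj_of_chain (hF : F.IsSaturated p) {A B C : Subgroup (U σ)} (h1 : sZ ≤ A) (h2 : A ≤ B) (h3 : B ≤ C) (h4 : C ≤ sQ)
    (h : ∀ s, St4 A B C (cj s)) {t : U σ → U σ} (ht : AF F sQ t) (h' : St4 A B C t) : ∃ s, ∀ g ∈ sQ, t g = cj s g := by
  have hT := sylIn_of_fullyNormalized (isPGroup_top p) hF (fullyNormalized_of_normal F (P := sQ) le_top le_normalizer_of_normal)
  have q3 := h3.trans h4
  have q2 := h2.trans q3
  have cg : ∀ {u v : U σ → U σ}, Set.EqOn u v (sQ (σ := σ)) → St4 A B C v → St4 A B C u := fun e k =>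
    ⟨fun z hz => (e (Z_le_Q hz)).trans (k.1 z hz), fun g hg => e (q2 hg) ▸ k.2.1 g hg, fun g hg => e (q3 hg) ▸ k.2.2.1 g hg,
      fun g hg => e (h4 hg) ▸ k.2.2.2.1 g hg, fun g hg => e hg ▸ k.2.2.2.2 g hg⟩
  let N₀ : Submonoid (MulAut (sQ (σ := σ))) :=
    { carrier := {α | St4 A B C (autFun α)}
      one_mem' := cg (v := cj 1) (fun x hx => (autFun_one hx).trans (cj_one x).symm) (h 1)
      mul_mem' := fun {α β} ha hb => ⟨fun z hz => by rw [autFun_mul _ _ (Z_le_Q hz), hb.1 z hz, ha.1 z hz],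
        step h1 q2 ha.2.1 hb.2.1, step h2 q3 ha.2.2.1 hb.2.2.1, step h3 h4 ha.2.2.2.1 hb.2.2.2.1,
        step h4 le_rfl ha.2.2.2.2 hb.2.2.2.2⟩ }
  let N : Subgroup (MulAut (sQ (σ := σ))) :=
    { N₀ with
      inv_mem' := fun {α} ha => by
        obtain ⟨n, hn⟩ := mem_powers_iff_mem_zpowers.2 (inv_mem (mem_zpowers α))
        exact hn ▸ pow_mem (S := N₀) ha n }
  have hQ : IsPGroup p (sQ (σ := σ)) := (isPGroup_U p).to_subgroup _
  have hN : IsPGroup p N := isPGroup_of_forall_coprime fun α hα hc => mulAut_ext_autFun fun x hx => by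
    have hα : St4 A B C (autFun α) := hα
    rw [autFun_one hx]
    exact autFun_eq_of_coprime hQ hc (fun y hy k => autFun_eq_of_coprime hQ hc (fun y hy k => autFun_eq_of_coprime hQ hc
      (fun y hy k => autFun_eq_of_coprime hQ hc (fun y _ k => hα.1 y k) hy (hα.2.1 y k)) hy (hα.2.2.1 y k)) hy (hα.2.2.2.1 y k)) hx
      (hα.2.2.2.2 x hx)
  have hO := hT.eq_of_le (inf_le_left : F.autGroup sQ ⊓ N ≤ _) (hN.to_le inf_le_right) (le_inf hT.le fun β hβ => by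
    obtain ⟨s, -, e⟩ := mem_autInducedBy_iff.1 hβ
    exact cg e (h s))
  obtain ⟨α, hα, e⟩ := ht.1.exists_aut (ht.1.img_eq_self ht.2)
  obtain ⟨s, -, e'⟩ := mem_autInducedBy_iff.1 (hO.le ⟨hα, cg e h'⟩)
  exact ⟨s, fun g hg => (e hg).symm.trans (e' hg)⟩

namespace QAx

/-- `L^⊥` -/
def sP (σ : K →+* K) [Un σ] (l : K) : Subgroup (U σ) where
  carrier := {g | g.y = 0 ∧ g.a * σ l + σ g.a * l = 0}
  one_mem' := by simp
  mul_mem' ha hb := by
    simp only [Set.mem_ofPred_eq] at *; usimp; exact ⟨by simp [ha.1, hb.1], by linear_combination ha.2 + hb.2⟩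
  inv_mem' ha := by simp only [Set.mem_ofPred_eq] at *; usimp; exact ⟨by simp [ha.1], by linear_combination -ha.2⟩

/-- `L` -/
def sL (σ : K →+* K) [Un σ] (l : K) : Subgroup (U σ) where
  carrier := {g | g.y = 0 ∧ g.a = 0 ∧ g.b * σ l - σ g.b * l = 0}
  one_mem' := by simp
  mul_mem' ha hb := by
    simp only [Set.mem_ofPred_eq] at *; usimp; rw [ha.2.1, hb.2.1]
    exact ⟨by simp [ha.1, hb.1], by simp, by rw [map_zero]; linear_combination ha.2.2 + hb.2.2⟩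
  inv_mem' ha := by
    simp only [Set.mem_ofPred_eq] at *; usimp; rw [ha.2.1]
    exact ⟨by simp [ha.1], by simp, by rw [map_zero]; linear_combination -ha.2.2⟩

variable {l : K} {g h : U σ}

theorem mem_sP : g ∈ sP σ l ↔ g.y = 0 ∧ g.a * σ l + σ g.a * l = 0 := Iff.rfl
theorem mem_sL : g ∈ sL σ l ↔ g.y = 0 ∧ g.a = 0 ∧ g.b * σ l - σ g.b * l = 0 := Iff.rfl
theorem om_xb : om g (xb l) = g.a * σ l + σ g.a * l := by simp [om]
theorem Z_le_L : sZ ≤ sL σ l := fun g h => ⟨h.2.2, h.1, by simp [h.2.1]⟩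
theorem L_le_W : sL σ l ≤ sW := fun g h => ⟨h.2.1, h.1⟩
theorem W_le_P : sW ≤ sP σ l := fun g h => ⟨h.2, by simp [h.1]⟩
theorem P_le_Q : sP σ l ≤ sQ := fun g h => h.1

theorem σt : σ (θ σ - σ (θ σ)) = -(θ σ - σ (θ σ)) := by rw [map_sub, T.sq, neg_sub]

theorem mem_L (hg : g ∈ sQ) (k : ∀ h ∈ sP σ l, om g h = 0) : g ∈ sL σ l := by
  refine ⟨hg, eq_zero_of_tr (σ := σ) fun b => om_xb.symm.trans (k _ (W_le_P ⟨rfl, rfl⟩)), mul_left_cancel₀ (θ_sub σ) ?_⟩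
  have := k (xa (l * (θ σ - σ (θ σ)))) ⟨rfl, by rw [xa_a, map_mul, σt]; ring⟩
  simp only [om, xa_a, xa_b, map_mul, σt, map_zero] at this
  linear_combination this

theorem st4_cj (s : U σ) : St4 (sL σ l) sW (sP σ l) (cj s) := by
  have m := (CL.U5.isoOn_cj (P := sQ (σ := σ)) s).maps
  have k1 : ∀ g ∈ sW, g⁻¹ * cj s g ∈ sZ := fun g hg => (dv_Z hg.2 (m _ hg.2)).2 ⟨cj_a .., by rw [cj_b, hg.1, hg.2]; ring⟩
  have k2 : ∀ g ∈ sQ, g⁻¹ * cj s g ∈ sW := fun g hg => ⟨by rw [dv_a, cj_a, sub_self], dv_Q hg (m _ hg)⟩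
  exact ⟨cj_Z s, fun g hg => k1 g (L_le_W hg), fun g hg => Z_le_L (k1 g hg), fun g hg => k2 g hg.1, fun g hg => W_le_P (k2 g hg)⟩

theorem fin2 (hF : F.IsSaturated p) {f f' : U σ → U σ} (hf : AF F sQ f) (hf' : AF F sQ f') (i : IsoOn sQ sQ f f') (hl : l ≠ 0)
    (h0 : f' (xb l) ∈ sW) (h : ∀ g ∈ sP σ l, g⁻¹ * tt f f' g ∈ sL σ l) : ∀ w ∈ sW, f w ∈ sW := by
  have ht := tt_af hf hf' i
  obtain ⟨t', -, j⟩ := ht.inv
  have hw := tt_W hf hf' i (g := xb l) rfl h0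
  have hl' : σ l ≠ 0 := (map_ne_zero σ).2 hl
  obtain ⟨s, hs⟩ := cj_of_chain hF Z_le_L L_le_W W_le_P P_le_Q (st4_cj (l := l)) ht ⟨tt_Z hf hf' i, fun g hg => by
    have e : g.b = g.b / l * l := by field_simp
    have := lin_of_fix j (tt_Z hf hf' i) (c := g.b / l) (by
      rw [map_div₀, div_eq_div_iff hl' hl]; linear_combination -hg.2.2) (g := xb l) rfl hg.1 (by simp [hg.2.1]) e
    rw [hw] at this
    exact (dv_Z hg.1 (ht.2 _ hg.1)).2 ⟨by simpa [hg.2.1] using this.1, this.2.trans e.symm⟩, fun g hg => h g (W_le_P hg),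
    fun g hg => L_le_W (h g hg), fun g hg => ⟨dv_Q hg (ht.2 _ hg), by
      have := om_map j.hom j.maps (tt_Z hf hf' i) hg (h := xb l) rfl
      rw [hw, om_xb, om_xb] at this
      rw [dv_a, map_sub]
      linear_combination this⟩⟩
  have hy : s.y ≠ 0 := fun e => by
    have hq := hf.2 (xa 1) rfl
    have := (W_of_tt hf hf' i hq (by rw [hs _ hq, cj_a]) (by rw [hs _ hq, cj_b, e, mem_sQ.1 hq]; ring)).1
    rw [i.left _ rfl] at this
    exact one_ne_zero this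
  intro w hw
  have hq := hf.2 w hw.2
  have := congrArg U.b (hs _ hq)
  rw [tt_W hf hf' i hq (by rwa [i.left w hw.2]), cj_b, mem_sQ.1 hq] at this
  exact ⟨mul_right_cancel₀ hy (by linear_combination this), hq⟩

theorem red {f : U σ → U σ} (hf : AF F sQ f) {w : U σ} (hw : w ∈ sW) (h1 : f w ∈ sW) (h2 : w ∉ sZ) :
    ∃ f' l, AF F sQ f' ∧ IsoOn sQ sQ f f' ∧ l ≠ 0 ∧ f' (xb l) ∈ sW ∧ (f' (xb l)).b ≠ 0 := by
  obtain ⟨f', hf', i⟩ := hf.inv
  have := cong hf' h1.2 (h := xb (f w).b) rfl h1.1.symm rfl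
  rw [i.left w hw.2] at this
  exact ⟨f', (f w).b, hf', i, fun e => h2 (i.left w hw.2 ▸ hf'.mapZ _ ⟨h1.1, e, h1.2⟩), ⟨this.1.trans hw.1, hf'.2 _ rfl⟩,
    fun e => h2 ⟨hw.1, this.2.symm.trans e, hw.2⟩⟩

theorem sl2 (M : K → K → K → K → Prop) (re : ∀ {a c b d}, M a c b d → σ a = a ∧ σ c = c ∧ σ d = d ∧ a * d - c * b = 1)
    (mul : ∀ {a c b d a' c' b' d'}, M a c b d → M a' c' b' d' → M (a * a' + c * b') (a * c' + c * d') (b * a' + d * b') (b * c' + d * d'))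
    (u : ∀ y, σ y = y → M 1 0 y 1) {a c b d : K} (h : M a c b d) (hc : c ≠ 0) {r : K} (hr : σ r = r) (h0 : r ≠ 0) :
    ∃ a b, M a 0 b r := by
  have n : ∀ {a c b d}, M a c b d → c ≠ 0 → M 0 c (-1 / c) 0 := fun {a c b d} h hc => by
    obtain ⟨e1, e2, e3, e4⟩ := re h
    have := mul (u (-d / c) (by simp [e2, e3])) (mul h (u (-a / c) (by simp [e1, e2])))
    convert this using 1 <;> field_simp <;> first | ring1 | linear_combination e4
  have h1 := n h hc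
  have e := (re h).2.1
  have h2 := n (mul h1 (mul (u (-1 / (c * r)) (by simp [e, hr])) h1)) (by simp [hc, h0])
  have h4 : ∀ {a c b d c' d'}, M a c b d → c = c' → d = d' → ∃ a b, M a c' b d' := fun h e e' => ⟨_, _, e ▸ e' ▸ h⟩
  exact h4 (mul h2 h1) (by ring) (by simp; field_simp)

/-- first coordinate on `L^⊥ / L` -/
def al (l : K) (g : U σ) : K := g.a * σ l

/-- second coordinate on `L^⊥ / L` -/
def be (l : K) (g : U σ) : K := g.b * σ l - σ g.b * l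

/-- the automorphisms fixing `Z` pointwise and `L` modulo `Z` -/
def XX (F : FusionSystem (⊤ : Subgroup (U σ))) (l : K) (k : U σ → U σ) : Prop :=
  AF F sQ k ∧ (∀ z ∈ sZ, k z = z) ∧ (k (xb l)).a = 0 ∧ (k (xb l)).b = l

/-- the matrix on `L^⊥ / L` -/
def MA (l : K) (k : U σ → U σ) (a c b d : K) : Prop := (σ a = a ∧ σ c = c ∧ σ b = b ∧ σ d = d ∧ a * d - c * b = 1) ∧
  ∀ g ∈ sP σ l, al l (k g) = a * al l g + c * be l g ∧ be l (k g) = b * al l g + d * be l g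

theorem XX.mapP {k : U σ → U σ} (h : XX F l k) (hg : g ∈ sP σ l) : k g ∈ sP σ l := ⟨h.1.2 _ hg.1, by
  have := om_map h.1.1.isHomOn h.1.2 h.2.1 hg.1 (h := xb l) rfl
  rw [om_xb, hg.2, om, h.2.2.1, h.2.2.2, map_zero] at this
  linear_combination this⟩

theorem XX.comp {k k' : U σ → U σ} (h : XX F l k) (h' : XX F l k') : XX F l (k ∘ k') :=
  have e := cong h.1 (g := xb l) rfl (h'.1.2 (xb l) rfl) h'.2.2.1 h'.2.2.2
  ⟨h.1.comp h'.1, fun z hz => by rw [Function.comp, h'.2.1 z hz, h.2.1 z hz], e.1.trans h.2.2.1, e.2.trans h.2.2.2⟩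

theorem XX.ma (h2 : (2 : K) ≠ 0) (hl : l ≠ 0) {k : U σ → U σ} (h : XX F l k) : ∃ a c b d, MA l k a c b d := by
  obtain ⟨k', -, j⟩ := h.1.inv
  have hl' : σ l ≠ 0 := (map_ne_zero σ).2 hl
  have ht := θ_sub σ
  have ht' := σt (σ := σ)
  generalize θ σ - σ (θ σ) = t at ht ht'
  have p1 := (h.mapP (g := xa (l * t)) ⟨rfl, by rw [xa_a, map_mul, ht']; ring⟩).2
  have p2 := (h.mapP (g := xb (l * t)) (W_le_P ⟨rfl, rfl⟩)).2
  have o := om_map j.hom j.maps h.2.1 (g := xa (l * t)) (h := xb (l * t)) rfl rfl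
  have s2 : σ 2 = 2 := map_ofNat σ 2
  refine ⟨al l (k (xa (l * t))) / (l * σ l * t), al l (k (xb (l * t))) / (2 * (l * σ l * t)), be l (k (xa (l * t))) / (l * σ l * t),
    be l (k (xb (l * t))) / (2 * (l * σ l * t)), ⟨?_, ?_, ?_, ?_, ?_⟩, fun g hg => ?_⟩
  · simp only [al, map_div₀, map_mul, T.sq, ht']; field_simp; linear_combination -p1
  · simp only [al, map_div₀, map_mul, T.sq, ht', s2]; field_simp; linear_combination -p2
  · simp only [be, map_div₀, map_mul, map_sub, T.sq, ht']; field_simp; ring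
  · simp only [be, map_div₀, map_mul, map_sub, T.sq, ht', s2]; field_simp; ring
  · simp only [om, xa_a, xa_b, xb_a, xb_b, map_mul, ht', map_zero] at o
    simp only [al, be]
    field_simp
    linear_combination -l * o + (k (xb (l * t))).b * p1 - (k (xa (l * t))).b * p2
  · have r1 : σ (al l g / (l * σ l * t)) = al l g / (l * σ l * t) := by
      simp only [al, map_div₀, map_mul, T.sq, ht']; field_simp; linear_combination -hg.2
    have r2 : σ (be l g / (2 * (l * σ l * t))) = be l g / (2 * (l * σ l * t)) := by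
      simp only [be, map_div₀, map_mul, map_sub, T.sq, ht', s2]; field_simp; ring
    have r3 : σ ((g.b * σ l + σ g.b * l) / (2 * (l * σ l))) = (g.b * σ l + σ g.b * l) / (2 * (l * σ l)) := by
      simp only [map_div₀, map_mul, map_add, T.sq, s2]; field_simp; ring
    obtain ⟨e1, e2⟩ := lin3 j h.2.1 r1 r2 r3 hg.1 (g₁ := xa (l * t)) (g₂ := xb (l * t)) (g₃ := xb l) rfl rfl rfl
      (by simp only [al, xa_a, xb_a]; field_simp; ring) (by simp only [be, xa_b, xb_b]; field_simp; ring)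
    rw [h.2.2.1] at e1
    rw [h.2.2.2] at e2
    generalize (g.b * σ l + σ g.b * l) / (2 * (l * σ l)) = c at r3 e1 e2
    refine ⟨?_, ?_⟩
    · rw [al, e1]; simp only [al]; ring
    · rw [be, e2]; simp only [map_add, map_mul _ _ (U.b _), map_mul _ c, r1, r2, r3]; simp only [be]; ring

theorem MA.comp {k k' : U σ → U σ} (h' : XX F l k') {a c b d a' c' b' d' : K} (m : MA l k a c b d) (m' : MA l k' a' c' b' d') :
    MA l (k ∘ k') (a * a' + c * b') (a * c' + c * d') (b * a' + d * b') (b * c' + d * d') := by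
  obtain ⟨⟨e1, e2, e3, e4, e5⟩, e⟩ := m
  obtain ⟨⟨f1, f2, f3, f4, f5⟩, e'⟩ := m'
  refine ⟨⟨by simp [*], by simp [*], by simp [*], by simp [*], by linear_combination (a' * d' - c' * b') * e5 + f5⟩, fun g hg => ?_⟩
  simp only [Function.comp, e _ (h'.mapP hg), e' _ hg]
  exact ⟨by ring, by ring⟩

theorem ma_cj (h2 : (2 : K) ≠ 0) {y : K} (hy : σ y = y) : ∃ k, XX F l k ∧ MA l k 1 0 y 1 := by
  have s2 : σ 2 = 2 := map_ofNat σ 2
  have e : σ (-y / 2) = -y / 2 := by rw [map_div₀, map_neg, hy, s2]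
  refine ⟨cj (zy _ e), ⟨AF.conj F sQ _, cj_Z _, by simp [cj_a], by simp [cj_b]⟩, ⟨by simp, by simp, hy, by simp, by simp⟩, fun g hg => ?_⟩
  simp only [al, be, cj_a, cj_b, zy_a, zy_y, map_sub, map_add, map_mul, e, map_zero]
  refine ⟨by ring, ?_⟩
  field_simp
  linear_combination -y * hg.2

theorem sq_one (h2 : (2 : K) ≠ 0) (hF : F.IsSaturated p) (hS : Std F) (hl : l ≠ 0) {k : U σ → U σ} (h : XX F l k) {a b d : K}
    (m : MA l k a 0 b d) : d ^ 2 = 1 := by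
  have hl' : σ l ≠ 0 := (map_ne_zero σ).2 hl
  obtain ⟨k₁, hk, e⟩ := extQ hF k h.1.1 h.1.2 fun x hx => ⟨mul_right_cancel₀ hl' (by
    simpa [al, hx.1] using (m.2 x (W_le_P hx)).1), h.1.2 x hx.2⟩
  obtain ⟨u, x, hu⟩ := hS k₁ hk
  have hb : ∀ c, (k (xb c)).b = x.1.l * x.1.m * x.1.ρ c := fun c => by simp [← e (x := xb c) rfl, hu, cj_b]
  have hx : ∀ c, σ c = c → x.1.l * σ x.1.l * x.1.m * x.1.ρ c = c := fun c hc => by
    have := h.2.1 (zx c hc) ⟨rfl, rfl, rfl⟩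
    rw [← e (x := zx c hc) rfl, hu, cj_Z _ _ (dd_Z x ⟨rfl, rfl, rfl⟩)] at this
    simpa using congrArg U.x this
  have h1 := hx 1 (map_one σ)
  have ht := θ_sub σ
  have ht' := σt (σ := σ)
  generalize θ σ - σ (θ σ) = t at ht ht'
  have h3 := hx (t ^ 2) (by rw [map_pow, ht']; ring)
  have h4 := (hb l).symm.trans h.2.2.2
  have h5 := (m.2 (xb (l * t)) (W_le_P ⟨rfl, rfl⟩)).2
  have h6 : σ (x.1.ρ t) = -x.1.ρ t := by rw [← map_σ, ht', map_neg]
  rw [map_one, mul_one] at h1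
  rw [h1, one_mul, map_pow] at h3
  rw [be, hb, map_mul x.1.ρ, ← mul_assoc, h4] at h5
  simp only [al, be, xb_a, xb_b, map_mul, h6, ht'] at h5
  have h7 : x.1.ρ t = d * t := mul_left_cancel₀ (mul_ne_zero h2 (mul_ne_zero hl hl')) (by linear_combination h5)
  rw [h7] at h3
  exact mul_right_cancel₀ (pow_ne_zero 2 ht) (by linear_combination h3)

end QAx

/-- Suppose `w₀ ∈ W ∖ Z`, `w = f w₀ ∈ W`. For `v ∈ W ∖ Z`: `L^⊥ v = C_Q(v) = {Tr(a σ v.b) = 0}`, `L v = C_Q(C_Q(v)) = {a = 0, b ∈ v.b F}`; `f` maps `L w₀`, `L^⊥ w₀` onto `L w`, `L^⊥ w`.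
For `p = 2` every `cj s` is trivial on the factors of `1 < Z < L v ≤ L v < L^⊥ v < Q` (`a ∈ v.b F` on `L^⊥ v`). So `t = f ∘ cj (zy 1) ∘ f'` is trivial on the factors for `v = w`, `cj_of_chain` gives `t = cj s`, and
`f W = {g ∈ Q | g⁻¹ t g ∈ Z} = {g.a * s.y = 0}` is `W` (`s.y ≠ 0`, as `f W ≠ Q`). -/
theorem compl2 (h2 : (2 : K) = 0) (hF : F.IsSaturated p) {f : U σ → U σ} (hf : AF F sQ f) (hn : ¬ ∀ w ∈ sW, f w ∈ sW) :
    ∀ w ∈ sW, f w ∈ sW → w ∈ sZ := by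
  intro w hw h1
  by_contra h3
  obtain ⟨f', l, hf', i, hl, h0, h0'⟩ := red hf hw h1 h3
  refine hn (fin2 hF hf hf' i hl h0 fun g hg => mem_L (dv_Q hg.1 ((tt_af hf hf' i).2 g hg.1)) fun h hh => ?_)
  have k : ∀ g ∈ sP σ l, (f' g).a * σ (f' (xb l)).b + σ (f' g).a * (f' (xb l)).b = 0 := fun g hg => by
    have := om_zero i.hom' i.maps' hg.1 (h := xb l) rfl (om_xb.trans hg.2)
    rw [om, h0.1, map_zero] at this
    linear_combination this
  have q1 := i.maps' g hg.1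
  have q2 := (AF.conj F sQ (zy 1 (map_one σ))).2 _ q1
  have := om_zero i.hom i.maps (dv_Q q1 q2) (i.maps' h hh.1) (mul_right_cancel₀ (mul_ne_zero h0' ((map_ne_zero σ).2 h0')) (by
    simp only [om, dv_a, dv_b q1 q2, cj_a, cj_b, zy_a, zy_y, map_sub, map_add, map_mul, map_zero, map_one, sub_self]
    linear_combination (f' h).a * σ (f' (xb l)).b * k g hg + (f' g).a * σ (f' (xb l)).b * k h hh -
      (f' h).a * σ (f' (xb l)).b * (f' g).a * σ (f' (xb l)).b * h2))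
  rwa [i.map_mul (inv_mem q1) q2, i.map_inv q1, i.right g hg.1, i.right h hh.1] at this

/-- `p` odd, `q > 3`. `L = L w`, `L^⊥` as in `compl2`, `l = w.b`, `t₀ = θ - σ θ`; `L ≤ f W ≤ L^⊥` (`img_smul`), `L^⊥ = W · f W`. `X` = the `k ∈ Aut_F(Q)` fixing `Z` pointwise and `L` pointwise modulo `Z`; `F`-linear, preserves `L^⊥`; contains `T` and `T' = f T f'`. On the plane `P = L^⊥ / L` (coordinates `(α, β) ∈ F²`: `a = l t₀ α`, `b ∈ l t₀ β + l F`) let `v = (0, 1)`, `u = (1, n)` spanning `f W / L`.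
`cj (zy y)` : `(α, β) ↦ (α, β - α y)`. (i) If `k ∈ X` maps `v` to `λ v` then `k W = W`, `k = cj s ∘ dd x` on `Q` (`extQ`, `Std`), `b ↦ l' m ρ b` is `F`-linear and fixes `l`, so it is `b ↦ b` or `b ↦ (l / σ l) σ b` (`ρ` fixes `F`; `ρ θ = θ` or `σ θ`): `λ = ± 1`.
(ii) Some `t' ∈ T'` moves `v` (else `T'` is trivial on the factors of `1 < Z < L < W < L^⊥ < Q`: it fixes `u, v`; `cj_of_chain` with `L < W < L^⊥`, conclude as in `compl2`): `t' v = v + c u`, `c ≠ 0`; with `T`, `k v = c u₀` for some `k ∈ X`, `u₀ = (1, 0)`.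
`k T k⁻¹` fixes `u₀` and maps `v` to `v + y u₀` for every `y ∈ F` (`k` is `F`-linear on `P`); with `T` the orbit of `v` contains all `y u₀`, `y ≠ 0`, so all `λ v`. `exists_sq_ne`. -/
theorem complo (h2 : (2 : K) ≠ 0) (hq : 3 < Nat.card (Fix σ)) (hF : F.IsSaturated p) (hS : Std F) {f : U σ → U σ} (hf : AF F sQ f)
    (hn : ¬ ∀ w ∈ sW, f w ∈ sW) : ∀ w ∈ sW, f w ∈ sW → w ∈ sZ := by
  intro w hw h1
  by_contra h3
  obtain ⟨f', l, hf', i, hl, h0, -⟩ := red hf hw h1 h3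
  have e0 := tt_W hf hf' i (g := xb l) rfl h0
  have hX : XX F l (tt f f') := ⟨tt_af hf hf' i, tt_Z hf hf' i, by rw [e0]; rfl, by rw [e0]; rfl⟩
  obtain ⟨a, c, b, d, m⟩ := hX.ma h2 hl
  have hl' : σ l ≠ 0 := (map_ne_zero σ).2 hl
  by_cases hc : c = 0
  · subst hc
    obtain ⟨u, hu, hu'⟩ : ∃ u ∈ sW, f u ∉ sW := by by_contra! k; exact hn k
    have hq := hf.2 u hu.2
    have hP : f u ∈ sP σ l := ⟨hq, by
      have := om_zero i.hom i.maps hu.2 h0.2 (by simp [om, hu.1, h0.1])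
      rwa [i.right _ rfl, om_xb] at this⟩
    have ha : al l (f u) ≠ 0 := mul_ne_zero (fun e => hu' ⟨e, hq⟩) hl'
    have k := m.2 _ hP
    rw [tt_W hf hf' i hq (by rwa [i.left u hu.2])] at k
    have e1 : a = 1 := mul_right_cancel₀ ha (by linear_combination -k.1)
    have e2 : d = 1 := by linear_combination m.1.2.2.2.2 - d * e1
    have e3 : b = 0 := mul_right_cancel₀ ha (by linear_combination -k.2 - be l (f u) * e2)
    refine hn (fin2 hF hf hf' i hl h0 fun g hg => ?_)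
    have k := m.2 g hg
    have q := hX.1.2 g hg.1
    simp only [e1, e2, e3, al, be] at k
    exact ⟨dv_Q hg.1 q, mul_right_cancel₀ hl' (by rw [dv_a]; linear_combination k.1), by
      rw [dv_b hg.1 q, map_sub]; linear_combination k.2⟩
  · obtain ⟨r, hr, r0, r1⟩ := exists_sq_ne hq
    obtain ⟨a', b', k, hk, m'⟩ := sl2 (σ := σ) (fun a c b d => ∃ k, XX F l k ∧ MA l k a c b d)
      (fun ⟨_, _, m⟩ => ⟨m.1.1, m.1.2.1, m.1.2.2.2⟩) (fun ⟨k, h, m⟩ ⟨k', h', m'⟩ => ⟨_, h.comp h', m.comp h' m'⟩)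
      (fun y hy => ma_cj h2 hy) ⟨_, hX, m⟩ hc hr r0
    exact r1 (sq_one h2 hF hS hl hk m')

end CL.U4
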