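/-
S5210: the conjugates of `W` under `Aut_F(Q)` are the lines of `SU₂(q)`.
-/
import Cfsg.Agent.FUS.U4.QA

set_option autoImplicit false
set_option linter.unusedSimpArgs false
set_option linter.unusedSectionVars false
set_option linter.unusedVariables false

namespace CL.U4

open CL.Fus CL.RF4 Subgroup Cfsg Cfsg.FusionSystem U CL.U5.Un
open CL.U5 (Un Dg ru σu ru_val σu_val map_σ Cp Qd Pr)
open scoped commutatorElement

variable {K : Type*} [Field K] [Finite K] {σ : K →+* K} [T : Un σ] {p : ℕ} [Fact p.Prime] [CharP K p]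
  {F F' : FusionSystem (⊤ : Subgroup (U σ))}

namespace QB

/-- `f` is additive modulo `Z` -/
theorem add_ab {f : U σ → U σ} (hf : AF F sQ f) {g h k : U σ} (hg : g ∈ sQ) (hh : h ∈ sQ) (hk : k ∈ sQ) (ea : k.a = g.a + h.a)
    (eb : k.b = g.b + h.b) : (f k).a = (f g).a + (f h).a ∧ (f k).b = (f g).b + (f h).b := by
  have hz : (g * h)⁻¹ * k ∈ sZ := by
    msimp at *; usimp; simp only [hg, hh, hk, ea, eb]; and_intros <;> ring
  have hz' := hf.mapZ _ hz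
  rw [← mul_inv_cancel_left (g * h) k, hf.1.map_mul (mul_mem hg hh) (Z_le_Q hz), hf.1.map_mul hg hh]
  simp only [mul_a, mul_b, hz'.1, hz'.2.1, hz'.2.2, mem_sQ.1 (hf.2 h hh)]
  constructor <;> ring

theorem congr_ab {f : U σ → U σ} (hf : AF F sQ f) {g k : U σ} (hg : g ∈ sQ) (hk : k ∈ sQ) (ea : k.a = g.a) (eb : k.b = g.b) :
    (f k).a = (f g).a ∧ (f k).b = (f g).b := by
  simpa [hf.1.map_one] using add_ab hf hg (one_mem _) hk (by simpa using ea) (by simpa using eb)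

theorem xbW (b : K) : xb b ∈ sW (σ := σ) := ⟨rfl, rfl⟩

theorem xbQ (b : K) : xb b ∈ sQ (σ := σ) := rfl

theorem xb_ab {f : U σ → U σ} (hf : AF F sQ f) {w : U σ} (hw : w ∈ sW) : (f w).a = (f (xb w.b)).a ∧ (f w).b = (f (xb w.b)).b :=
  congr_ab hf (xbQ _) (W_le_Q hw) hw.1 rfl

theorem xb_add {f : U σ → U σ} (hf : AF F sQ f) (b b' : K) :
    (f (xb (b + b'))).a = (f (xb b)).a + (f (xb b')).a ∧ (f (xb (b + b'))).b = (f (xb b)).b + (f (xb b')).b :=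
  add_ab hf (xbQ _) (xbQ _) (xbQ _) (by simp) rfl

theorem xb_inj {f : U σ → U σ} (hf : AF F sQ f) (h : ∀ w ∈ sW, f w ∈ sW → w ∈ sZ) : Function.Injective fun b => (f (xb b)).a :=
  fun b b' e => by
    have k := (xb_add hf (b - b') b').1
    rw [sub_add_cancel] at k
    exact sub_eq_zero.1 (h _ (xbW (b - b')) ⟨by linear_combination e - k, hf.2 _ (xbQ _)⟩).2.1

theorem cjy_a (y : K) (hy : σ y = y) (g : U σ) : (cj (zy y hy) g).a = g.a := cj_a _ _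

theorem cjy_b (y : K) (hy : σ y = y) (g : U σ) : (cj (zy y hy) g).b = g.b - g.a * y := by rw [cj_b]; simp

end QB

open QB

/-- `b ↦ (f (xb b)).a` is an additive bijection of `K`, `f W Z / Z` is the graph of an `F`-linear map `φ` (`img_smul`, `lin_form`: `φ a = m a + c σ a`); `f W` is abelian, so `Tr(a σ(φ a')) = Tr(a' σ(φ a))`, `σ m = m` (`lin_ind`). -/
theorem graph {f : U σ → U σ} (hf : AF F sQ f) (h : ∀ w ∈ sW, f w ∈ sW → w ∈ sZ) : (∀ a, ∃ w ∈ sW, (f w).a = a) ∧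
    ∃ m c, σ m = m ∧ ∀ w ∈ sW, (f w).b = m * (f w).a + c * σ (f w).a := by
  have hi := xb_inj hf h
  choose r hr using Finite.injective_iff_surjective.1 hi
  have hr' : ∀ w ∈ sW, r (f w).a = w.b := fun w hw => hi ((hr _).trans (xb_ab hf hw).1)
  refine ⟨fun a => ⟨_, xbW _, hr a⟩, ?_⟩
  obtain ⟨m, c, e⟩ := lin_form (σ := σ) (fun a => (f (xb (r a))).b) (fun a a' => by
    have : r (a + a') = r a + r a' := hi ((hr _).trans (((xb_add hf _ _).1.trans (congrArg₂ (· + ·) (hr a) (hr a'))).symm))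
    simp only [this, (xb_add hf _ _).2]) fun c a hc => by
      obtain ⟨w, hw, e1, e2⟩ := img_smul hf hc (xbW (r a))
      rw [show (f (xb (r a))).a = a from hr a] at e1
      simp only [← e1, hr' w hw, ← (xb_ab hf hw).2, e2]
  refine ⟨m, c, ?_, fun w hw => by rw [← e, hr' w hw, (xb_ab hf hw).2]⟩
  have k := (brk_Q (hf.2 _ (xbQ (r (θ σ)))) (hf.2 _ (xbQ (r 1)))).2
  rw [← hf.1.map_commutator (xbQ _) (xbQ _), comm_iff.1 (comm_V (W_le_V (xbW _)) (W_le_V (xbW _))), hf.1.map_one, e, e,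
    show (f (xb (r (θ σ)))).a = θ σ from hr _, show (f (xb (r 1))).a = 1 from hr _] at k
  simp only [map_add, map_mul, map_one, T.sq, one_x] at k
  exact sub_eq_zero.1 ((mul_eq_zero.1 (show (σ m - m) * (θ σ - σ (θ σ)) = 0 by linear_combination -k)).resolve_right (θ_sub σ))

/-- `W` has exponent `2`, `(g * g).x = Tr(a σ b)` on `Q`, so `Tr(σ c a²) = 0` for all `a`; squaring is onto. -/
theorem ptQ2 (h2 : (2 : K) = 0) (hF : F.IsSaturated p) : PtQ F := fun f hf => by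
  refine or_iff_not_imp_left.2 fun hn => ?_
  obtain ⟨h1, m, c, hm, e⟩ := graph hf (compl2 h2 hF hf hn)
  have key : ∀ a, σ c * a ^ 2 + c * σ a ^ 2 = 0 := fun a => by
    obtain ⟨w, hw, rfl⟩ := h1 a
    have e1 : w * w = 1 := by
      msimp at hw; usimp; simp only [hw, map_zero]
      exact ⟨by ring, by linear_combination w.b * h2, by linear_combination w.x * h2, by ring⟩
    have e2 := congrArg U.x (hf.1.map_mul (W_le_Q hw) (W_le_Q hw))
    rw [e1, hf.1.map_one, mul_x, mem_sQ.1 (hf.2 w (W_le_Q hw)), e w hw] at e2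
    simp only [map_add, map_mul, T.sq, hm, one_x] at e2
    linear_combination -e2 - ((f w).x + m * (f w).a * σ (f w).a) * h2
  have k1 := key 1
  have k2 := key (θ σ)
  rw [map_one] at k1
  have hc : c = 0 := (mul_eq_zero.1 (show c * (θ σ - σ (θ σ)) ^ 2 = 0 by
    linear_combination k2 - θ σ ^ 2 * k1 + (c * θ σ ^ 2 - c * θ σ * σ (θ σ)) * h2)).resolve_right (pow_ne_zero _ (θ_sub σ))
  exact ⟨m, hm, fun w hw => by rw [e w hw, hc]; ring⟩

/-- `gam_zero` for `Γ = {c | ∃ f m, AF F sQ f, f W ≰ W, σ m = m, f W = graph of m a + c σ a}`. `dd (ts σ l l⁻¹) ∘ f` has `c l / σ l ^ 3`. If `c - c' ∈ F` choose `y` with `cj (zy y) ∘ f` having `m - y + c = m' + c'`; both graphs contain the point with `a = 1`, so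
`f'⁻¹ ∘ cj (zy y) ∘ f` maps some `w ∉ Z` into `W`, hence `W` into `W` (`complo`), and the graphs agree (`lin_ind`). -/
theorem ptQo (h2 : (2 : K) ≠ 0) (hq : 3 < Nat.card (Fix σ)) (hF : F.IsSaturated p) (hS : Std F) (h0 : ∀ l : Kˣ, ts σ l l⁻¹ ∈ DF F) : PtQ F := fun f hf => by
  refine or_iff_not_imp_left.2 fun hn => ?_
  have key := gam_zero h2 hq {c | ∃ f m, AF F sQ f ∧ (¬ ∀ w ∈ sW, f w ∈ sW) ∧ σ m = m ∧ ∀ w ∈ sW, (f w).b = m * (f w).a + c * σ (f w).a}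
    (by
      rintro c ⟨f, m, hf, hn, hm, e⟩ l hl
      have hl' : σ l ≠ 0 := (map_ne_zero σ).2 hl
      refine ⟨_, m / (l * σ l), (AF.top (mem_DF.1 (h0 (Units.mk0 l hl)))).2.1.comp hf, fun k => hn fun w hw => ⟨?_, hf.2 w (W_le_Q hw)⟩,
        by rw [map_div₀, map_mul, hm, T.sq, mul_comm], fun w hw => ?_⟩
      · simpa [hl] using (k w hw).1
      · simp [e w hw]
        field_simp)
    (by
      rintro c ⟨f, m, hf, hn, hm, e⟩ c' ⟨f', m', hf', hn', hm', e'⟩ hc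
      have hy : σ (m - m' + (c - c')) = m - m' + (c - c') := by rw [map_add, hc, map_sub, hm, hm']
      obtain ⟨f'', hf'', i⟩ := hf'.inv
      have h1 := (graph hf (complo h2 hq hF hS hf hn)).1
      obtain ⟨w₁, hw₁, e1⟩ := h1 1
      obtain ⟨w₂, hw₂, e2⟩ := (graph hf' (complo h2 hq hF hS hf' hn')).1 1
      have hg := (AF.conj F sQ (zy _ hy)).comp hf
      have k : ∀ w ∈ sW, (f'' ∘ cj (zy _ hy) ∘ f) w ∈ sW := by
        by_contra k
        refine one_ne_zero (e1.symm.trans (hf.mapZ _ (complo h2 hq hF hS (hf''.comp hg) k w₁ hw₁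
          ⟨?_, (hf''.comp hg).2 _ (W_le_Q hw₁)⟩)).1)
        refine ((congr_ab hf'' (hf'.2 _ (W_le_Q hw₂)) (hg.2 _ (W_le_Q hw₁)) ?_ ?_).1.trans ?_)
        · rw [Function.comp, cjy_a, e1, e2]
        · rw [Function.comp, cjy_b, e w₁ hw₁, e' w₂ hw₂, e1, e2, map_one]; ring
        · rw [i.left _ (W_le_Q hw₂), hw₂.1]
      refine (sub_eq_zero.1 (lin_ind (σ := σ) (x := c' - c) (y := c' - c) fun a => ?_).1).symm
      obtain ⟨w, hw, rfl⟩ := h1 a
      have e3 := e' _ (k w hw)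
      rw [Function.comp, i.right _ (hg.2 _ (W_le_Q hw)), Function.comp, cjy_a, cjy_b, e w hw] at e3
      linear_combination e3)
  obtain ⟨-, m, c, hm, e⟩ := graph hf (complo h2 hq hF hS hf hn)
  exact ⟨m, hm, fun w hw => by rw [e w hw, key c ⟨f, m, hf, hn, hm, e⟩]; ring⟩

theorem ptQ (hq : Nat.card (Fix σ) ≠ 3) (hF : F.IsSaturated p) (hS : Std F) (h0 : ∀ l : Kˣ, ts σ l l⁻¹ ∈ DF F) : PtQ F := by
  by_cases h2 : (2 : K) = 0
  · exact ptQ2 h2 hF
  refine ptQo h2 ?_ hF hS h0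
  have k : Nat.card (Fix σ) ≠ 2 := fun k => h2 (two_eq_zero_of_card k)
  obtain ⟨n, hn, e⟩ := card_fix (σ := σ) p
  have := Nat.one_lt_pow hn.ne' (Fact.out : p.Prime).one_lt
  omega

/-- `f₀ = cj (zy m₀) ∘ f` maps `W` onto `X = {b = 0}` (modulo nothing: `Z ≤ X`). `t y = f₀ ∘ cj (zy y) ∘ f₀'` fixes `Z`, is trivial on `X / Z` and `Q / X`; by `PtQ` (for `y ≠ 0` it does not preserve `W`: `[W, t y] ≤ W ⊓ X = Z` would make it trivial on `Q / Z`) `t y : (a, b) ↦ (a + μ y b, b)`, `μ y ∈ F`;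
`μ` is additive and injective on `F`, so onto. -/
theorem exists_tq (h : PtQ F) {f : U σ → U σ} (hf : AF F sQ f) (hn : ¬ ∀ w ∈ sW, f w ∈ sW) {m : K} (hm : σ m = m) :
    ∃ t, AF F sQ t ∧ (∀ z ∈ sZ, t z = z) ∧ ∀ g ∈ sQ, (t g).a = g.a + m * g.b ∧ (t g).b = g.b := by
  obtain ⟨m₀, hm₀, e⟩ := (h f hf).resolve_left hn
  obtain ⟨f₀, hf₀, e₀⟩ : ∃ f₀, AF F sQ f₀ ∧ ∀ w ∈ sW, (f₀ w).b = 0 :=
    ⟨_, (AF.conj F sQ (zy _ hm₀)).comp hf, fun w hw => by rw [Function.comp, cjy_b, e w hw]; ring⟩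
  obtain ⟨f₁, hf₁, i⟩ := hf₀.inv
  have hc : ∀ w ∈ sW, f₀ w ∈ sW → w ∈ sZ := fun w hw k => i.left w (W_le_Q hw) ▸ hf₁.mapZ _ ⟨k.1, e₀ w hw, k.2⟩
  have ht : ∀ y : Fix σ, AF F sQ (f₀ ∘ cj (zy y.1 y.2) ∘ f₁) := fun y => hf₀.comp ((AF.conj F sQ _).comp hf₁)
  have k1 : ∀ y : Fix σ, ∀ g ∈ sQ, (f₀ (cj (zy y.1 y.2) (f₁ g))).a = g.a + (f₀ (xb (-((f₁ g).a * y.1)))).a ∧
      (f₀ (cj (zy y.1 y.2) (f₁ g))).b = g.b := fun y g hg => by
    have := add_ab hf₀ (hf₁.2 g hg) (xbQ (-((f₁ g).a * y.1))) ((AF.conj F sQ (zy y.1 y.2)).2 _ (hf₁.2 g hg))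
      (by rw [cjy_a]; simp) (by rw [cjy_b]; simp [sub_eq_add_neg])
    rwa [i.right g hg, e₀ _ (xbW _), add_zero] at this
  have k2 : ∀ g ∈ sQ, (f₁ g).a = (f₁ (xb g.b)).a := fun g hg => by
    obtain ⟨w, hw, e1⟩ := (graph hf₀ hc).1 g.a
    have := (add_ab hf₁ (hf₀.2 w (W_le_Q hw)) (xbQ g.b) hg (by simp [e1]) (by simp [e₀ w hw])).1
    rwa [i.left w (W_le_Q hw), hw.1, zero_add] at this
  have k3 : ∀ y : Fix σ, ∃ μ, σ μ = μ ∧ ∀ b, (f₀ (xb (-((f₁ (xb b)).a * y.1)))).a = μ * b := fun y => by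
    rcases h _ (ht y) with k | ⟨μ, hμ, k⟩
    · exact ⟨0, map_zero σ, fun b => by simpa using (k1 y _ (xbQ b)).1.symm.trans (k _ (xbW b)).1⟩
    have k' : ∀ b, b = μ * (f₀ (xb (-((f₁ (xb b)).a * y.1)))).a := fun b => by
      have := k _ (xbW b)
      simp only [Function.comp] at this
      rw [(k1 y _ (xbQ b)).1, (k1 y _ (xbQ b)).2] at this
      simpa using this
    have h0 : μ ≠ 0 := fun h0 => one_ne_zero ((k' 1).trans (by rw [h0, zero_mul]))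
    exact ⟨μ⁻¹, by rw [map_inv₀, hμ], fun b => ((inv_mul_eq_iff_eq_mul₀ h0).2 (k' b)).symm⟩
  choose μ hμ k3 using k3
  have h1 : (f₁ (xb 1)).a ≠ 0 := fun h1 => by
    have := e₀ _ ⟨h1, hf₁.2 _ (xbQ 1)⟩
    rw [i.right _ (xbQ 1)] at this
    exact one_ne_zero this
  obtain ⟨y, hy⟩ := Finite.injective_iff_surjective.1 (show Function.Injective fun y : Fix σ => (⟨μ y, hμ y⟩ : Fix σ) from fun y y' k =>
    Subtype.ext (mul_left_cancel₀ h1 (neg_injective (xb_inj hf₀ hc ((k3 y 1).trans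
      ((congrArg (· * (1 : K)) (congrArg Subtype.val k)).trans (k3 y' 1).symm)))))) ⟨m, hm⟩
  refine ⟨_, ht y, fun z hz => ?_, fun g hg => ⟨?_, (k1 y g hg).2⟩⟩
  · simp only [Function.comp]
    rw [cj_eq_self_iff.2 (comm_Z (hf₁.mapZ z hz) _), i.right z (Z_le_Q hz)]
  · rw [← show μ y = m from congrArg Subtype.val hy, ← k3, ← k2 g hg]
    exact (k1 y g hg).1

/-- one step of the comparison: `f W ≤ W` or `wQ ∘ cj (zy m) ∘ f` preserves `W`; `extQ`; `Mor F' sQ wQ'` from `AF.inv` (pattern `U5.mor_of_gen`). -/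
theorem leQ (hF : F.IsSaturated p) (h1 : PtQ F) (h : ∀ f, Mor F ⊤ f → Mor F' ⊤ f) (hw : Mor F sQ wQ) (hw' : Mor F' sQ wQ)
    {f : U σ → U σ} (hf : AF F sQ f) : Mor F' sQ f := by
  rcases h1 f hf with k | ⟨m, hm, k⟩
  · obtain ⟨g, hg, e⟩ := extQ hF f hf.1 hf.2 k
    exact ((h g hg).mono le_top).congr e
  have hg := (AF.conj F sQ (zy m hm)).comp hf
  have hk := AF.comp ⟨hw, isoOn_wQ.maps⟩ hg
  obtain ⟨g, hg', e⟩ := extQ hF _ hk.1 hk.2 fun w hw => ⟨by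
    simp only [Function.comp, wQ_a]
    rw [cjy_b, k w hw]; ring, rfl⟩
  obtain ⟨w', hw'', i⟩ := AF.inv (F := F') ⟨hw', isoOn_wQ.maps⟩
  refine ((hw''.1.comp (((h g hg').mono le_top).congr e) hk.2).cj_comp (s := (zy m hm)⁻¹) trivial).congr fun x hx => ?_
  have := i.left _ (hg.2 x hx)
  simp only [Function.comp] at this ⊢
  rw [this, cj_inv_cj]

end CL.U4
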