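/-
S5210: the reflection `wQ` and the torus of `SU₂(q)` lie in `F`.
-/
import Cfsg.Agent.FUS.U4.QB

set_option autoImplicit false
set_option linter.unusedSimpArgs false
set_option linter.unusedSectionVars false
set_option linter.unusedVariables false

namespace CL.U4

open CL.Fus CL.RF4 Subgroup Cfsg Cfsg.FusionSystem U CL.U5.Un
open CL.U5 (Un Dg ru σu ru_val σu_val map_σ Cp Qd Pr)
open scoped commutatorElement

variable {K : Type*} [Field K] [Finite K] {σ : K →+* K} [T : Un σ] {p : ℕ} [Fact p.Prime] [CharP K p]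
  {F F' : FusionSystem (⊤ : Subgroup (U σ))}

/-- `U5.exists_move` with `extQ`; `n = t ∘ cj (zy 1) ∘ t`, `t` from `exists_tq` with `m = 1` (matrices `[[1,1],[0,1]] [[1,0],[-1,1]] [[1,1],[0,1]]`), more generally `m`, `y = m⁻¹`. -/
theorem exists_nQ (hF : F.IsSaturated p) (h : PtQ F) (hQ : F.IsEssential p sQ) {m : K} (hm : σ m = m) (h0 : m ≠ 0) :
    ∃ n, AF F sQ n ∧ (∀ z ∈ sZ, n z = z) ∧ ∀ g ∈ sQ, (n g).a = m * g.b ∧ (n g).b = -(m⁻¹ * g.a) := by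
  obtain ⟨f, f', h1, -, i, hn⟩ := CL.U5.exists_move (X := sW) (isPGroup_top p) hF hQ (extQ hF)
  obtain ⟨t, ht, tz, tq⟩ := exists_tq h ⟨h1, i.maps⟩ hn hm
  have c := AF.conj F sQ (zy m⁻¹ (by rw [map_inv₀, hm]))
  refine ⟨_, ht.comp (c.comp ht), fun z hz => ?_, fun g hg => ?_⟩
  · simp only [Function.comp, tz z hz, cj_eq_self_iff.2 (comm_Z hz _)]
  · have h2 := tq _ (c.2 _ (ht.2 g hg))
    simp only [Function.comp, h2, cj_a, cj_b, tq g hg, mem_sQ.1 (ht.2 g hg), zy_a, zy_y]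
    constructor <;> field_simp <;> ring

namespace QC

/-- the cocycle -/
def ζ (ε : U σ → U σ) (g : U σ) : K := (g⁻¹ * ε g).x

variable {ε : U σ → U σ} (h1 : IsHomOn sQ ε) (h2 : ∀ g ∈ sQ, g⁻¹ * ε g ∈ sZ)
include h2

theorem ζ_x {g : U σ} (hg : g ∈ sQ) : (ε g).x = g.x + ζ ε g := by
  obtain ⟨a, b, c⟩ := h2 g hg
  rw [← mul_inv_cancel_left g (ε g), mul_x, b, c, ζ]; simp

include h1

theorem ζ_mul {g k : U σ} (hg : g ∈ sQ) (hk : k ∈ sQ) : ζ ε (g * k) = ζ ε g + ζ ε k := by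
  obtain ⟨a, b, c⟩ := h2 g hg
  rw [ζ, h1 hg hk, mul_inv_rev, mul_assoc, ← mul_assoc g⁻¹, ← mul_assoc, comm_Z (h2 g hg), mul_assoc, mul_x, a]
  simp [ζ]

theorem ζ_congr {g k : U σ} (hg : g ∈ sQ) (hk : k ∈ sQ) (ha : g.a = k.a) (hb : g.b = k.b) : ζ ε g = ζ ε k := by
  have hz : g⁻¹ * k ∈ sZ := by msimp at *; usimp; simp [hg, hk, ha, hb]
  obtain ⟨b, e⟩ := exists_brk_W (g := xa 1) one_ne_zero hz
  have i : ∀ g ∈ sQ, ζ ε g⁻¹ = -ζ ε g := fun g hg => by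
    have := ζ_mul h1 h2 (inv_mem hg) hg
    rw [inv_mul_cancel, ζ, h1.map_one] at this
    exact eq_neg_of_add_eq_zero_left (by simpa using this.symm)
  have m1 : (xa 1 : U σ) ∈ sQ := rfl
  have m2 : (xb b : U σ) ∈ sQ := rfl
  rw [← mul_inv_cancel_left g k, ζ_mul h1 h2 hg (Z_le_Q hz), ← e, commutatorElement_def,
    ζ_mul h1 h2 (mul_mem (mul_mem m1 m2) (inv_mem m1)) (inv_mem m2), ζ_mul h1 h2 (mul_mem m1 m2) (inv_mem m1),
    ζ_mul h1 h2 m1 m2, i _ m1, i _ m2]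
  ring

theorem ζ_add (a b a' b' : K) : ζ ε (el (a + a') (b + b')) = ζ ε (el a b) + ζ ε (el a' b') := by
  rw [← ζ_mul h1 h2 rfl rfl]
  exact ζ_congr h1 h2 rfl (mul_mem (show el a b ∈ sQ from rfl) rfl) rfl (by simp [mul_b])

omit h1 h2 in
theorem cj_x {u g : U σ} (hu : u ∈ sQ) (hg : g ∈ sQ) :
    (cj u g).x = g.x + (u.a * σ g.b + σ u.a * g.b - g.a * σ u.b - σ g.a * u.b) := by
  msimp at *; usimp; simp only [hu, hg]; ring

omit h1 h2 in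
theorem eps {n : U σ → U σ} (hn : AF F sQ n) (h : ∀ g ∈ sQ, (n g).a = 1 * g.b ∧ (n g).b = -(1⁻¹ * g.a)) :
    IsHomOn sQ (wQ' ∘ n) ∧ ∀ g ∈ sQ, g⁻¹ * (wQ' ∘ n) g ∈ sZ :=
  ⟨isoOn_wQ.hom'.comp hn.1.isHomOn hn.2, fun g hg => by
    msimp at *; usimp; simp [h g hg, hg]⟩

omit h1 h2 in
theorem fin {n : U σ → U σ} (hn : AF F sQ n) (h : ∃ u ∈ sQ, ∀ g ∈ sQ, (wQ' ∘ n) g = cj u g) : Mor F sQ wQ := by
  obtain ⟨u, -, e⟩ := h
  have c := AF.conj F sQ u⁻¹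
  refine (hn.comp c).1.congr fun g hg => ?_
  have := congrArg wQ (e _ (c.2 g hg))
  rwa [Function.comp, isoOn_wQ.right _ (hn.2 _ (c.2 g hg)), cj_cj_inv] at this

omit h1 h2 in
theorem diag (hF : F.IsSaturated p) (hS : Std F) {k : U σ → U σ} (hk : AF F sQ k) {d : Dd σ}
    (h : ∀ g ∈ sQ, (k g).a = (dd d g).a ∧ (k g).b = (dd d g).b) : d ∈ DF F ∧ ∃ u ∈ sQ, ∀ g ∈ sQ, k g = cj u (dd d g) := by
  obtain ⟨k', h1, e⟩ := extQ hF k hk.1 hk.2 fun w hw => ⟨(h w hw.2).1.trans (dd_W d hw).1, hk.2 w hw.2⟩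
  obtain ⟨u, x, hx, e'⟩ := hS.dd_mem h1
  replace e : ∀ g ∈ sQ, k g = cj u (dd x g) := fun g hg => (e hg).symm.trans (e' g)
  have hu : u ∈ sQ := by
    have := (h (xa 1) rfl).2
    rw [e _ rfl, cj_b] at this
    simpa [mem_sQ] using this
  obtain rfl : x = d := dd_eq_of_Q fun g hg => by
    have := h g hg
    rwa [e g hg, cj_a, cj_b, mem_sQ.1 hu, mem_sQ.1 (dd_Q x hg), mul_zero, mul_zero, add_zero, sub_zero] at this
  exact ⟨hx, u, hu, e⟩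

end QC

open QC

/-- an automorphism `ε` of `Q`, trivial on `Q / Z`, whose cocycle `ζ g = (g⁻¹ ε g).x` is `F`-linear in `(a, b)` is inner (`lin_form` twice; values in `F`). -/
theorem inner_of_lin {ε : U σ → U σ} (h1 : IsHomOn sQ ε) (h2 : ∀ g ∈ sQ, g⁻¹ * ε g ∈ sZ)
    (h3 : ∀ c, σ c = c → ∀ a b, ((el (c * a) (c * b))⁻¹ * ε (el (c * a) (c * b))).x = c * ((el a b : U σ)⁻¹ * ε (el a b)).x) :
    ∃ u ∈ sQ, ∀ g ∈ sQ, ε g = cj u g := by
  obtain ⟨m, c, e⟩ := lin_form (σ := σ) (fun a => ζ ε (el a 0)) (fun a a' => by simpa using ζ_add h1 h2 a 0 a' 0)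
    fun c a hc => by simpa [ζ] using h3 c hc a 0
  obtain ⟨m', c', e'⟩ := lin_form (σ := σ) (fun a => ζ ε (el 0 a)) (fun a a' => by simpa using ζ_add h1 h2 0 a 0 a')
    fun c a hc => by simpa [ζ] using h3 c hc 0 a
  have k : ∀ {m c : K} {f : K → U σ}, (∀ a, ζ ε (f a) = m * a + c * σ a) → c = σ m := fun {m c f} e => by
    refine (sub_eq_zero.1 (lin_ind (σ := σ) (x := m - σ c) (y := σ m - c) fun a => ?_).2).symm
    have := U.hx ((f a)⁻¹ * ε (f a))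
    rw [← ζ, e, map_add, map_mul, map_mul, T.sq] at this
    linear_combination -this
  obtain rfl := k e
  obtain rfl := k e'
  refine ⟨el (σ m') (-σ m), rfl, fun g hg => ?_⟩
  obtain ⟨a, b, c⟩ := h2 g hg
  have hy := mem_sQ.1 hg
  rw [mul_a, inv_a, neg_add_eq_zero] at a
  rw [mul_y, inv_y, hy, neg_zero, zero_add] at c
  rw [mul_b, inv_b, hy, c] at b
  refine U.ext (by rw [cj_a, a]) (by rw [cj_b, hy]; simp; linear_combination b) ?_ (by rw [cj_y, hy, c])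
  rw [ζ_x h2 hg, cj_x rfl hg, ζ_congr h1 h2 hg (k := el (g.a + 0) (0 + g.b)) rfl (by simp) (by simp), ζ_add h1 h2, e, e']
  simp [T.sq]; ring

/-- `n` from `exists_nQ` (`m = 1`), `ε = wQ' ∘ n`, `h = dd (ts σ s s⁻¹)` (`exists_omega`) is the scalar `ω = s² ≠ 1` on `Q / Z`, trivial on `Z`, commutes with `wQ`. `n h n' h⁻¹ ∈ Aut_F(Q)` is trivial on `Q / Z`, so it is `cj u ∘ dd x` (`extQ`, `Std`) with `u.y = 0`, `x = 1` (`dd_eq_of_Q`).
Its cocycle is `ζ v - ζ (ω⁻¹ v)` transported by `wQ`, so `ζ ((1 - ω⁻¹) v)` and `ζ` are `F`-linear; `inner_of_lin`; `wQ = n ∘ cj u⁻¹`. -/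
theorem wQ_mem (hF : F.IsSaturated p) (h : PtQ F) (hQ : F.IsEssential p sQ) (hS : Std F) (h0 : ∀ l : Kˣ, ts σ l l⁻¹ ∈ DF F) : Mor F sQ wQ := by
  obtain ⟨n, hn, -, nq⟩ := exists_nQ hF h hQ (map_one σ) one_ne_zero
  obtain ⟨h1, h2⟩ := eps hn nq
  obtain ⟨n', hn', i⟩ := hn.inv
  obtain ⟨s, s1, s2⟩ := exists_omega (σ := σ)
  have s0 : s ≠ 0 := fun e => by simp [e] at s1
  have σs : σ s = s⁻¹ := eq_inv_of_mul_eq_one_right s1
  set d := ts σ (Units.mk0 s s0) (Units.mk0 s s0)⁻¹ with hd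
  have da : ∀ g, (dd d g).a = s ^ 2 * g.a ∧ (dd d g).b = s ^ 2 * g.b ∧ (dd d g).x = g.x := fun g => by
    simp [hd, σs]; field_simp; simp
  have D : AF F sQ (dd d) := (AF.top (h0 _)).2.1
  have D' : AF F sQ (dd d⁻¹) := (AF.top (inv_mem (h0 _))).2.1
  have hk := hn'.comp (D'.comp (hn.comp D))
  set k := n' ∘ dd d⁻¹ ∘ n ∘ dd d with hk'
  have e : ∀ g ∈ sQ, dd d (n (k g)) = n (dd d g) := fun g hg => by
    simp only [hk', Function.comp]
    rw [i.right _ (D'.2 _ (hn.2 _ (D.2 g hg)))]; simp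
  have kab : ∀ g ∈ sQ, (k g).a = g.a ∧ (k g).b = g.b := fun g hg => by
    have e1 := congrArg U.a (e g hg)
    have e2 := congrArg U.b (e g hg)
    simp only [da, nq _ (hk.2 g hg), nq _ (D.2 g hg)] at e1 e2
    exact ⟨by simpa [s0] using e2, by simpa [s0] using e1⟩
  obtain ⟨-, u, hu, eu⟩ := diag hF hS hk (d := 1) (by simpa using kab)
  have key : ∀ a b, ζ (wQ' ∘ n) (el ((s ^ 2 - 1) * a) ((s ^ 2 - 1) * b)) = u.a * σ b + σ u.a * b - a * σ u.b - σ a * u.b :=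
    fun a b => by
      have m : (el a b : U σ) ∈ sQ := rfl
      have e1 : ((wQ' ∘ n) (k (el a b))).x = ((wQ' ∘ n) (dd d (el a b))).x := by
        simp only [Function.comp, ← e _ m, wQ'_x, da, map_mul, map_pow, σs]; field_simp
      rw [ζ_x h2 (hk.2 _ m), ζ_x h2 (D.2 _ m), ζ_congr h1 h2 (hk.2 _ m) m (kab _ m).1 (kab _ m).2, eu _ m, map_one,
        MulAut.one_apply, cj_x hu m, (da _).2.2, ζ_congr h1 h2 (D.2 _ m) (k := el ((s ^ 2 - 1) * a + a) ((s ^ 2 - 1) * b + b))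
        rfl (by rw [(da _).1]; simp; ring) (by rw [(da _).2.1]; simp; ring), ζ_add h1 h2] at e1
      simp only [el_a, el_b] at e1
      linear_combination -e1
  refine fin hn (inner_of_lin h1 h2 fun c hc a b => ?_)
  have := sub_ne_zero.2 s2
  have e1 := key (c * (a / (s ^ 2 - 1))) (c * (b / (s ^ 2 - 1)))
  have e2 := key (a / (s ^ 2 - 1)) (b / (s ^ 2 - 1))
  rw [mul_left_comm, mul_left_comm _ c, map_mul, map_mul, hc] at e1
  rw [mul_div_cancel₀ _ this, mul_div_cancel₀ _ this] at e1 e2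
  change ζ _ _ = c * ζ _ _
  rw [e1, e2]; ring

/-- `q = 2`: `F = {0, 1}`, so `inner_of_lin` applies at once. -/
theorem wQ_mem2 (hq : Nat.card (Fix σ) = 2) (hF : F.IsSaturated p) (h : PtQ F) (hQ : F.IsEssential p sQ) : Mor F sQ wQ := by
  obtain ⟨n, hn, -, nq⟩ := exists_nQ hF h hQ (map_one σ) one_ne_zero
  obtain ⟨h1, h2⟩ := eps hn nq
  refine fin hn (inner_of_lin h1 h2 fun c hc a b => ?_)
  have := fix_pow hc
  rw [hq] at this
  obtain rfl | rfl : c = 0 ∨ c = 1 := by grind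
  · rw [zero_mul, zero_mul, zero_mul, show (el 0 0 : U σ) = 1 from rfl, h1.map_one]; simp
  · simp

/-- `n(t⁻¹) ∘ n(1)⁻¹` acts on `Q / Z` as `(a, b) ↦ (t⁻¹ a, t b)`; `extQ`, `Std.dd_mem`, `dd_eq_of_Q`. Then `ts s t = ts s s⁻¹ * ts 1 (s t)`. -/
theorem ts_mem (hF : F.IsSaturated p) (h : PtQ F) (hQ : F.IsEssential p sQ) (hS : Std F) (h0 : ∀ l : Kˣ, ts σ l l⁻¹ ∈ DF F)
    (s t : Kˣ) (e : σ (s * t) = s * t) : ts σ s t ∈ DF F := by
  obtain ⟨n, hn, -, nq⟩ := exists_nQ hF h hQ (map_one σ) one_ne_zero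
  have r0 : (s * t : K) ≠ 0 := (s * t).ne_zero
  obtain ⟨k, hk, -, kq⟩ := exists_nQ hF h hQ (m := (s * t : K)⁻¹) (by rw [map_inv₀, e]) (inv_ne_zero r0)
  obtain ⟨n', hn', i⟩ := hn.inv
  have := (diag hF hS (hk.comp hn') (d := ts σ 1 (s * t)) fun g hg => by
    have := nq _ (hn'.2 g hg)
    rw [i.right g hg] at this
    simp only [Function.comp, kq _ (hn'.2 g hg), dd_a, dd_b, ts_l, ts_m, ts_ρ, Units.val_mul, σu_val, e, this]
    simp [r0]; field_simp; simp).1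
  have := mul_mem (h0 s) this
  rwa [ts_mul, mul_one, inv_mul_cancel_left] at this

end CL.U4
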