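/-
S5210, `q = 2`: comparison of fusion systems.
-/
import Cfsg.Agent.FUS.U4.Q2B
import Cfsg.Agent.FUS.U4.QC
import Cfsg.Agent.FUS.U4.Ess

set_option autoImplicit false
set_option linter.unusedSimpArgs false
set_option linter.unusedSectionVars false
set_option linter.unusedVariables false

namespace CL.U4.Two

open CL.Fus CL.RF4 Subgroup Cfsg Cfsg.FusionSystem U
open CL.U5 (Un Dg Cp)
open scoped commutatorElement

variable {F E : FusionSystem (⊤ : Subgroup (U σ4))} {G : Subgroup (MulAut (sV (σ := σ4)))} {g : MulAut (sV (σ := σ4))} {a a' : F4} {e e' : Bool}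

namespace Q2C

theorem chk1 : ∀ (a b : F4) (x y : Bool), a ≠ 0 → els a b x y * els a b x y = 1 →
    ∃ b' x' y', els a b x y = cj (els 0 b' x' y') (xa a) := by decide +kernel

theorem chk2 : ∀ (b c : F4) (x y x' y' : Bool), els .l b x y * els .l b x y = 1 → els .w c x' y' * els .w c x' y' = 1 →
    els .l b x y * els .w c x' y' = els .w c x' y' * els .l b x y →
    ∃ b' s t, els .l b x y = cj (els 0 b' s t) (xa .l) ∧ els .w c x' y' = cj (els 0 b' s t) (xa .w) := by decide +kernel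

theorem xa_add : ∀ a a' : F4, (xa (a + a') : U σ4) = xa a * xa a' := by decide

theorem xa_sq : ∀ a : F4, (xa a : U σ4) * xa a = 1 := by decide

theorem two_gen : ∀ a a' : F4, a ≠ 0 → a' ≠ 0 → a ≠ a' → ∀ c, c = 0 ∨ c = a ∨ c = a' ∨ c = a + a' := by decide

theorem res {f : U σ4 → U σ4} (hf : AF F sV f) : ∃ γ ∈ F.autGroup sV, ∀ v : sV (σ := σ4), (γ v : U σ4) = f v :=
  let ⟨γ, hγ, e⟩ := hf.1.exists_aut (hf.1.img_eq_self hf.2); ⟨γ, hγ, fun v => (autFun_coe γ v).symm.trans (e v.2)⟩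

theorem mul_tv {R : Subgroup (U σ4)} (hR : sV ≤ R) {f : U σ4 → U σ4} (h1 : IsHomOn R f) {γ : MulAut (sV (σ := σ4))}
    (e : ∀ v : sV (σ := σ4), (γ v : U σ4) = f v) {c : F4} (hc : xa c ∈ R) : γ * tv c = tv (f (xa c)).a * γ :=
  MulEquiv.ext fun v => Subtype.ext (by
    rw [MulAut.mul_apply, MulAut.mul_apply, e, tv_coe, tv_coe, h1.map_cj hc (hR v.2), ← e v, Chr.cj_V _ (γ v).2])

theorem card_fix2 : Nat.card (CL.U5.Un.Fix σ4) = 2 := by rw [Nat.card_eq_fintype_card]; decide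

theorem two : (2 : F4) = 0 := by decide

theorem nv_comm (a : F4) (e : Bool) : nv a e * tv a = tv a * nv a e :=
  have k : ∀ g ∈ sV, nn a e (cj (xa a) g) = cj (xa a) (nn a e g) := forall_V (by revert a e; decide +kernel)
  MulEquiv.ext fun v => Subtype.ext (k v v.2)

/-- the normal subgroup of order eight -/
def sC (a : F4) : Subgroup (U σ4) where
  carrier := {g | g.y = 0 ∧ (g.a = 0 ∨ g.a = a) ∧ (g.b = 0 ∨ g.b = a)}
  one_mem' := ⟨rfl, .inl rfl, .inl rfl⟩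
  mul_mem' {g h} hg hh := by
    have k : ∀ a x y : F4, x = 0 ∨ x = a → y = 0 ∨ y = a → x + y = 0 ∨ x + y = a := by decide
    exact ⟨by rw [mul_y, hg.1, hh.1, add_zero], k _ _ _ hg.2.1 hh.2.1, by
      rw [mul_b, hh.1, mul_zero, add_zero]; exact k _ _ _ hg.2.2 hh.2.2⟩
  inv_mem' {g} hg := ⟨by rw [inv_y, hg.1, neg_zero], hg.2.1, by rw [inv_b, hg.1, mul_zero, zero_sub]; exact hg.2.2⟩

instance (a : F4) (g : U σ4) : Decidable (g ∈ sC a) :=
  inferInstanceAs (Decidable (g.y = 0 ∧ (g.a = 0 ∨ g.a = a) ∧ (g.b = 0 ∨ g.b = a)))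

theorem cj_C (a : F4) : ∀ s g : U σ4, g ∈ sC a → cj s g ∈ sC a := fun s g hg => by
  have k : ∀ a x y c : F4, σ4 c = c → x = 0 ∨ x = a → y = 0 ∨ y = a → x - y * c = 0 ∨ x - y * c = a := by decide
  exact ⟨by rw [cj_y, hg.1], by rw [cj_a]; exact hg.2.1, by
    rw [cj_b, hg.1, mul_zero, add_zero]; exact k _ _ _ _ s.hy hg.2.2 hg.2.1⟩

theorem C_iff (a : F4) (ha : a ≠ 0) : ∀ g : U σ4, g.a = 0 ∨ g.a = a →
    (g ∈ sC a ↔ (g.a = 0 ∧ cj (xa a) g = g) ∨ (g.a ≠ 0 ∧ g * g = 1)) :=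
  forall_U (by revert a; decide +kernel)

theorem Ka_iff (a : F4) (g : U σ4) : g ∈ Ka a ↔ g.a = 0 ∨ g.a = a := by
  have k : ∀ a x : F4, (∃ c, σ4 c = c ∧ x = a * c) ↔ x = 0 ∨ x = a := by decide
  exact k _ _

end Q2C

open Q2C

theorem nv_mem_iff : nv a e ∈ F.autGroup sV ↔ Mor F sV (nn a e) := by
  rw [mem_autGroup_iff le_top]
  exact ⟨fun h => h.congr fun x hx => autFun_of_mem _ hx, fun h => h.congr fun x hx => (autFun_of_mem (nv a e) hx).symm⟩

/-- `H¹(R / V, V) = 0`. `(ε r).a = r.a` (`r⁻¹ ε r` centralises `V`, `V_of_comm`), `R = V ⟨xa a | xa a ∈ R⟩`. Finite checks (`forall_V`, `decide`): if `(xa a v)² = 1` then `xa a v = cj u (xa a)` with `u ∈ V`;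
if `(xa l v₁)² = 1 = (xa w v₂)²` and they commute then one `u ∈ V` serves both. Cases: `xa l, xa w ∈ R`, or at most one `xa a ∈ R`, `a ≠ 0` (two distinct ones generate all). -/
theorem inner_of_fixV {R : Subgroup (U σ4)} (hR : sV ≤ R) {ε : U σ4 → U σ4} (h1 : IsHomOn R ε) (h2 : ∀ v ∈ sV, ε v = v) :
    ∃ u ∈ sV, ∀ r ∈ R, ε r = cj u r := by
  have ea : ∀ r ∈ R, (ε r).a = r.a := fun r hr => by
    have k : (zy 1 (map_one σ4) : U σ4) ∈ sV := rfl
    have k1 := congrArg U.b (h1.map_cj hr (hR k))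
    rw [h2 _ ((U5.isoOn_cj r).maps _ k), h2 _ k] at k1
    simp only [cj_b, zy_a, zy_b, zy_y] at k1
    linear_combination -k1
  have sq : ∀ a, xa a ∈ R → ε (xa a) * ε (xa a) = 1 := fun a h => by rw [← h1 h h, xa_sq, h1.map_one]
  have x0 : (xa 0 : U σ4) = 1 := rfl
  suffices ∃ u ∈ sV, ∀ a, xa a ∈ R → ε (xa a) = cj u (xa a) by
    obtain ⟨u, hu, k⟩ := this
    refine ⟨u, hu, fun r hr => ?_⟩
    have hv : (xa r.a)⁻¹ * r ∈ sV := by rw [mem_sV, mul_a, inv_a, xa_a, neg_add_cancel]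
    have hx : xa r.a ∈ R := by simpa using mul_mem hr (inv_mem (hR hv))
    have e := h1 hx (hR hv)
    rw [mul_inv_cancel_left, k _ hx, h2 _ hv] at e
    rw [e]
    conv_rhs => rw [← mul_inv_cancel_left (xa r.a) r]
    generalize (xa r.a)⁻¹ * r = v at hv
    rw [cj_apply, cj_apply, mul_assoc, ← comm_V (inv_mem hu) hv]
    simp only [mul_assoc]
  by_cases hb : xa .l ∈ R ∧ xa .w ∈ R
  · obtain ⟨x, y, e1⟩ := exists_els (ε (xa .l))
    obtain ⟨x', y', e2⟩ := exists_els (ε (xa .w))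
    rw [ea _ hb.1, xa_a] at e1
    rw [ea _ hb.2, xa_a] at e2
    obtain ⟨b', s, t, k1, k2⟩ := chk2 _ _ x y x' y' (by rw [← e1]; exact sq _ hb.1) (by rw [← e2]; exact sq _ hb.2) (by
      rw [← e1, ← e2, ← h1 hb.1 hb.2, ← h1 hb.2 hb.1, ← xa_add, ← xa_add, add_comm])
    rw [← e1] at k1
    rw [← e2] at k2
    refine ⟨els 0 b' s t, rfl, fun a _ => ?_⟩
    rcases two_gen .l .w (by decide) (by decide) (by decide) a with rfl | rfl | rfl | rfl
    · rw [x0, h1.map_one]; simp [cj]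
    · exact k1
    · exact k2
    · rw [xa_add, h1 hb.1 hb.2, k1, k2]; simp [cj]
  by_cases h0 : ∃ a, a ≠ 0 ∧ xa a ∈ R
  · obtain ⟨a, ha, hx⟩ := h0
    obtain ⟨x, y, e1⟩ := exists_els (ε (xa a))
    rw [ea _ hx, xa_a] at e1
    obtain ⟨b', s, t, k1⟩ := chk1 _ _ x y ha (by rw [← e1]; exact sq _ hx)
    rw [← e1] at k1
    refine ⟨els 0 b' s t, rfl, fun c hc => ?_⟩
    by_cases c0 : c = 0
    · rw [c0, x0, h1.map_one]; simp [cj]
    by_cases ca : a = c
    · rw [← ca]; exact k1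
    have all : ∀ d, xa d ∈ R := fun d => by
      rcases two_gen a c ha c0 ca d with rfl | rfl | rfl | rfl
      exacts [one_mem _, hx, hc, xa_add a c ▸ mul_mem hx hc]
    exact absurd ⟨all _, all _⟩ hb
  · refine ⟨1, one_mem _, fun c hc => ?_⟩
    rw [show c = 0 from by_contra fun k => h0 ⟨c, k, hc⟩, x0, h1.map_one]; simp [cj]

/-- `R ≤ Nphi ⊤ V f`; `exists_extend_of_isCentric` (`centric_V`) gives `k ∈ Mor E R` with `k = f` on `V`; apply `inner_of_fixV` to `f ∘ k⁻¹` on `img k R ≥ V`. -/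
theorem mor_of_V (hE : E.IsSaturated 2) {R : Subgroup (U σ4)} (hR : sV ≤ R) {f : U σ4 → U σ4} (h1 : IsHomOn R f) (h2 : AF E sV f) :
    Mor E R f := by
  obtain ⟨k, hk, e⟩ := exists_extend_of_isCentric (isPGroup_top 2) hE h2.1 (centric_V hE)
  have hk' := hk.mono (show R ≤ _ from fun r hr => mem_Nphi.2 ⟨trivial, le_normalizer_of_normal (mem_top r), f r, trivial,
    fun x hx => h1.map_cj hr (hR hx)⟩)
  obtain ⟨k', i, -⟩ := hk'.exists_isoOn
  obtain ⟨f', -, j⟩ := h2.inv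
  have kv : ∀ v ∈ sV, k (f' v) = v := fun v hv => (e (j.maps' v hv)).trans (j.right v hv)
  obtain ⟨u, -, hu⟩ := inner_of_fixV (R := img k R) (fun v hv => kv v hv ▸ i.maps _ (hR (j.maps' v hv)))
    (h1.comp i.symm.hom i.maps') fun v hv => by
      conv_lhs => rw [← kv v hv]
      rw [Function.comp, i.left _ (hR (j.maps' v hv)), j.right v hv]
  exact (hk'.cj_comp (s := u) trivial).congr fun r hr => by
    rw [Function.comp, ← hu _ (i.maps r hr), Function.comp, i.left r hr]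

/-- `gen` gives `Aut_F(V) ≤ Aut_E(V)`; `alperin_isSubsystemOf`, `ess_cases3`, `mor_of_V` for `S, V, Ka a`; `leQ` with `ptQ2`. -/
theorem le2 (hF : F.IsSaturated 2) (hE : E.IsSaturated 2) (ha : a ≠ 0) (h1 : Mor F sV (nn a e))
    (h : ∀ a e, a ≠ 0 → Mor F sV (nn a e) → Mor E sV (nn a e)) (hw : Mor F sQ wQ) (hw' : Mor E sQ wQ) : F ≤ E := by
  have hG := gen (sylV hF) ha (nv_mem_iff.2 h1) (sylV hE).le fun a e ha k => nv_mem_iff.2 (h a e ha (nv_mem_iff.1 k))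
  have key : ∀ R : Subgroup (U σ4), sV ≤ R → ∀ f, Mor F R f → (∀ v ∈ sV, f v ∈ sV) → Mor E R f := fun R hR f hf m => by
    obtain ⟨γ, hγ, k⟩ := res ⟨hf.mono hR, m⟩
    exact mor_of_V hE hR hf.isHomOn ⟨(mor_autFun le_top (hG hγ)).congr fun x hx => (autFun_of_mem γ hx).trans (k ⟨x, hx⟩), m⟩
  have top : ∀ f, Mor F ⊤ f → Mor E ⊤ f := fun f hf => key ⊤ le_top f hf (AF.top hf).1.2
  refine alperin_isSubsystemOf (isPGroup_top 2) hF fun P f hP hf e => ?_
  have m : ∀ x ∈ P, f x ∈ P := img_le_iff.1 e.le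
  rcases hP with rfl | hP
  · exact top f hf
  rcases ess_cases3 hF hP with rfl | rfl | ⟨-, ⟨a, -, rfl⟩, k⟩
  · exact key _ le_rfl f hf m
  · exact leQ hF (ptQ2 two hF) top hw hw' ⟨hf, m⟩
  · exact key _ (fun v hv => (Ka_iff a v).2 (.inl hv)) f hf (k f ⟨hf, m⟩)

/-- otherwise `V` is normal (`normal_of_essential`, `ess_cases3`, `AF.top`), `le_core` -/
theorem essQ_of_core (hF : F.IsSaturated 2) (hc : F.core = ⊥) : F.IsEssential 2 sQ := by
  by_contra hQ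
  have hN : F.IsNormal sV := normal_of_essential (isPGroup_top 2) hF fun R hR => by
    rcases hR with rfl | hR
    · exact ⟨le_top, fun g hg _ => (AF.top hg).1.1.img_eq_self (AF.top hg).1.2⟩
    rcases ess_cases3 hF hR with rfl | rfl | ⟨-, ⟨a, -, rfl⟩, k⟩
    · exact ⟨le_rfl, fun g _ e => e⟩
    · exact absurd hR hQ
    · have hV : sV ≤ Ka a := fun v hv => (Ka_iff a v).2 (.inl hv)
      exact ⟨hV, fun g hg e => (hg.mono hV).img_eq_self (k g ⟨hg, img_le_iff.1 e.le⟩)⟩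
  have := le_core hN (show zy 1 (map_one σ4) ∈ sV from rfl)
  rw [hc, mem_bot] at this
  exact one_ne_zero (congrArg U.y this)

namespace Q2C

theorem inn_top (hF : F.IsSaturated 2) (ha : a ≠ 0) (h1 : Mor F sV (nn a e)) {f : U σ4 → U σ4} (hf : Mor F ⊤ f) :
    ∃ s, ∀ x, f x = cj s x := by
  obtain ⟨γ, hγ, k⟩ := res (AF.top hf).1
  obtain ⟨c, rfl⟩ := mem_Tv.1 (nrm (sylV hF) ha (nv_mem_iff.2 h1) hγ fun c => ⟨_, mul_tv le_top hf.isHomOn k trivial⟩)
  obtain ⟨u, -, hu⟩ := inner_of_fixV (R := ⊤) le_top (hf.cj_comp (s := (xa c)⁻¹) trivial).isHomOn fun v hv => by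
    rw [Function.comp, ← k ⟨v, hv⟩, tv_coe, cj_inv_cj]
  exact ⟨xa c * u, fun x => by rw [cj_mul, ← hu x trivial, Function.comp, cj_cj_inv]⟩

end Q2C

/-- Otherwise `G = Aut_F(V) ≤ C(tv a)` (`gen`; `nv a e` commutes with `tv a`). `C = {y = 0, g.a ∈ {0, a}, g.b ∈ {0, a}}` is normal in `F` (`normal_of_essential`, `ess_cases3`, `U5.cp_of_essential`):
`V` is not essential (`xa a` stabilises the invariant chain `1 < U_a = C_V(xa a) < V`, `mem2`); `Ka a'`, `a' ≠ a`, is not essential (its automorphisms centralise `tv a'` on `V`, so are in `T` by `cen`; `Z, W` are invariant, `mem3`, `h.ne`);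
on `Ka a`, `C = C_V(xa a) ∪ {g ∉ V | g² = 1}` is invariant; an automorphism of `S` acts on `V` as an element of `T` (`nrm`), so is inner (`inner_of_fixV`);
`f ∈ Aut_F(Q)` or `wQ ∘ cj (zy m) ∘ f` preserves `W` (`ptQ2`, `wQ_mem2`) and extends to `S` (`extQ`), and `wQ'`, `cj` preserve `C`. -/
theorem exists_second (hF : F.IsSaturated 2) (hc : F.core = ⊥) (ha : a ≠ 0) (h1 : Mor F sV (nn a e)) :
    ∃ a' e', a' ≠ 0 ∧ a' ≠ a ∧ Mor F sV (nn a' e') := by
  by_contra hn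
  have hn' : ∀ a' e', a' ≠ 0 → nv a' e' ∈ F.autGroup sV → a' = a := fun a' e' h0 k =>
    by_contra fun k' => hn ⟨a', e', h0, k', nv_mem_iff.1 k⟩
  have hG := gen (H := centralizer {tv a}) (sylV hF) ha (nv_mem_iff.2 h1) (fun t ht => by
    obtain ⟨c, rfl⟩ := mem_Tv.1 ht
    rw [mem_centralizer_singleton_iff, ← tv_add, ← tv_add, add_comm]) fun a' e' h0 k => by
    rw [hn' a' e' h0 k, mem_centralizer_singleton_iff, nv_comm]
  have cm : ∀ {f}, AF F sV f → ∀ v ∈ sV, cj (xa a) v = v → cj (xa a) (f v) = f v := fun {f} hf v hv k => by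
    obtain ⟨γ, hγ, e⟩ := res hf
    have := congrArg (fun α : MulAut (sV (σ := σ4)) => (α ⟨v, hv⟩ : U σ4)) (mem_centralizer_singleton_iff.1 (hG hγ))
    simp only [MulAut.mul_apply, e, tv_coe, k] at this
    exact this.symm
  have top : ∀ f, Mor F ⊤ f → ∀ c ∈ sC a, f c ∈ sC a := fun f hf c hc => by
    obtain ⟨s, hs⟩ := inn_top hF ha h1 hf
    rw [hs]
    exact cj_C a s c hc
  have hN : F.IsNormal (sC a) := normal_of_essential (isPGroup_top 2) hF fun R hR => by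
    suffices sC a ≤ R ∧ ∀ g, AF F R g → ∀ c ∈ sC a, g c ∈ sC a from
      ⟨this.1, fun g hg e => (hg.mono this.1).img_eq_self (this.2 g ⟨hg, img_le_iff.1 e.le⟩)⟩
    rcases hR with rfl | hR
    · exact ⟨le_top, fun g hg => top g hg.1⟩
    have h := U5.cp_of_essential (isPGroup_top 2) hF hR
    rcases ess_cases3 hF hR with rfl | rfl | ⟨-, ⟨a', ha', rfl⟩, k⟩
    · have cc : ∀ y : U σ4, y ∈ centralizer {xa a} ↔ cj (xa a) y = y := fun y => by
        rw [mem_centralizer_singleton_iff, cj_apply, mul_inv_eq_iff_eq_mul, eq_comm]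
      refine absurd (h.mem2 (g := xa a) (B := centralizer {xa a}) (D := centralizer {xa a} ⊓ sV) trivial ?_
        (fun y _ k => (mem_centralizer_singleton_iff.1 k).symm) inf_le_left inf_le_right fun y hy => ⟨?_, brk_a _ _⟩) ha
      · rintro _ ⟨γ, hγ, rfl⟩ y hy k
        exact (cc _).2 (cm ⟨mor_autFun le_top hγ, fun x hx => autFun_mem γ hx⟩ y hy ((cc y).1 k))
      · refine mem_centralizer_singleton_iff.2 ((comm_W (brk_top _ _)).2 ?_).symm
        rw [brk_b, mem_sV.1 hy, xa_a, zero_mul, sub_zero, map_mul, y.hy]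
        linear_combination (a * σ4 a * y.y) * two
    · have ext : ∀ f, AF F sQ f → (∀ w ∈ sW, f w ∈ sW) → ∀ c ∈ sC a, f c ∈ sC a := fun f hf m c hc => by
        obtain ⟨g, hg, e⟩ := extQ hF f hf.1 hf.2 m
        rw [← e hc.1]
        exact top g hg c hc
      refine ⟨fun c hc => hc.1, fun f hf c hc => ?_⟩
      rcases ptQ2 two hF f hf with m | ⟨m, hm, k⟩
      · exact ext f hf m c hc
      have h2 := (AF.conj F sQ (zy m hm)).comp hf
      have h3 := ext _ (AF.comp ⟨wQ_mem2 card_fix2 hF (ptQ2 two hF) hR, isoOn_wQ.maps⟩ h2) (fun w hw => ⟨by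
        simp only [Function.comp, wQ_a, cj_b, k w hw, zy_a, zy_y]; ring, rfl⟩) c hc
      have h4 : cj (zy m hm) (f c) ∈ sC a := ⟨h2.2 c hc.1, h3.2.2, h3.2.1⟩
      simpa only [cj_inv_cj] using cj_C a (zy m hm)⁻¹ _ h4
    have hV : sV ≤ Ka a' := fun v hv => (Ka_iff a' v).2 (.inl hv)
    have nV : ∀ f, AF F (Ka a') f → ∀ x ∈ Ka a', f x ∈ sV → x ∈ sV := fun f hf x hx hx' =>
      (hf.1.mem_img_iff hV hx).1 (by rwa [(hf.1.mono hV).img_eq_self (k f hf)])
    by_cases haa : a' = a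
    · subst haa
      refine ⟨fun c hc => (Ka_iff _ c).2 hc.2.1, fun f hf c hc => ?_⟩
      have hc' := (Ka_iff _ c).2 hc.2.1
      refine (C_iff _ ha _ ((Ka_iff _ _).1 (hf.2 c hc'))).2 ?_
      rcases (C_iff _ ha _ hc.2.1).1 hc with ⟨k1, k2⟩ | ⟨k1, k2⟩
      · exact .inl ⟨k f hf c k1, cm ⟨hf.1.mono hV, k f hf⟩ c k1 k2⟩
      · exact .inr ⟨fun k3 => k1 (nV f hf c hc' k3), by rw [← hf.1.isHomOn hc' hc', k2, hf.1.isHomOn.map_one]⟩
    have inn : ∀ α ∈ fa F (Ka a'), ∃ c, ∀ v ∈ sV, α v = cj (xa c) v := by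
      rintro _ ⟨β, hβ, rfl⟩
      have hf : AF F (Ka a') (autFun β) := ⟨mor_autFun le_top hβ, fun x hx => autFun_mem β hx⟩
      obtain ⟨γ, hγ, e⟩ := res ⟨hf.1.mono hV, k _ hf⟩
      have hx : xa a' ∈ Ka a' := (Ka_iff a' _).2 (.inr rfl)
      have e1 := mul_tv hV hf.1.isHomOn e hx
      rw [((Ka_iff a' _).1 (hf.2 _ hx)).resolve_left fun k3 => ha' (nV _ hf _ hx k3)] at e1
      rcases cen (sylV hF) hγ ha' e1 with k1 | ⟨e', k1, -⟩
      · obtain ⟨c, rfl⟩ := mem_Tv.1 k1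
        exact ⟨c, fun v hv => (e ⟨v, hv⟩).symm⟩
      · exact absurd (hn' a' e' ha' k1) haa
    have iv : ∀ (B : Subgroup (U σ4)) [B.Normal], B ≤ sV → Ivs (Ka a') (fa F (Ka a')) B := fun B _ hB α hα y _ hy => by
      obtain ⟨c, e⟩ := inn α hα
      rw [e y (hB hy)]
      exact (U5.isoOn_cj (P := B) _).maps y hy
    exact (h.ne fun s _ => h.mem3 trivial (iv sZ Z_le_V) (iv sW W_le_V) (fun y _ k => comm_Z k s) (fun y _ k => brk_W s k) le_rfl
      (W_le_V.trans hV) fun y _ => brk_top s y).elim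
  have := le_core hN (show zx 1 (map_one σ4) ∈ sC a from ⟨rfl, .inl rfl, .inl rfl⟩)
  rw [hc, mem_bot] at this
  exact one_ne_zero (congrArg U.x this)

end CL.U4.Two
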