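/-
S5210, `q = 2`: the fusion system of `GL₄(2)`.
-/
import Cfsg.Agent.FUS.U4.Q2A
import Cfsg.Agent.FUS.Realized
import Cfsg.Agent.FUS.GroupFusion

set_option autoImplicit false
set_option linter.unusedSimpArgs false
set_option linter.unusedSectionVars false
set_option linter.unusedVariables false

namespace CL.U4.Two

open CL.Fus CL.RF4 Subgroup Cfsg Cfsg.FusionSystem U
open CL.U5 (Un Dg Cp)
open scoped commutatorElement

variable {F E : FusionSystem (⊤ : Subgroup (U σ4))} {G : Subgroup (MulAut (sV (σ := σ4)))} {g : MulAut (sV (σ := σ4))} {a a' : F4} {e e' : Bool}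

namespace Q2D

/-- `4 × 4` matrices over the prime field -/
abbrev Mt := Matrix (Fin 4) (Fin 4) (ZMod 2)

/-- first coordinate -/
def c0 : F4 → ZMod 2
  | .o => 0 | .l => 1 | .w => 0 | .v => 1

/-- second coordinate -/
def c1 : F4 → ZMod 2
  | .o => 0 | .l => 0 | .w => 1 | .v => 1

/-- unitriangular matrices -/
def ut (a b c d e f : ZMod 2) : Mt := !![1, a, b, c; 0, 1, d, e; 0, 0, 1, f; 0, 0, 0, 1]

theorem ut_mul (a b c d e f a' b' c' d' e' f' : ZMod 2) : ut a b c d e f * ut a' b' c' d' e' f' =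
    ut (a + a') (b + a * d' + b') (c + a * e' + b * f' + c') (d + d') (e + d * f' + e') (f + f') := by
  ext i j
  fin_cases i <;> fin_cases j <;> simp [ut, Matrix.mul_apply, Fin.sum_univ_four] <;> ring

/-- the matrix of an element -/
def mat (g : U σ4) : Mt :=
  ut (c0 g.a) (c0 g.b) (c0 g.x + c0 g.b + c1 g.b + c0 g.b * c1 g.a) (c0 g.y) (c1 g.b + c0 g.y * c1 g.a) (c1 g.a)

theorem ut_eq {a b c d e f a' b' c' d' e' f' : ZMod 2} (h : a = a' ∧ b = b' ∧ c = c' ∧ d = d' ∧ e = e' ∧ f = f') :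
    ut a b c d e f = ut a' b' c' d' e' f' := by
  obtain ⟨rfl, rfl, rfl, rfl, rfl, rfl⟩ := h; rfl

theorem mat_mul (g h : U σ4) : mat (g * h) = mat g * mat h := by
  rw [mat, mat, mat, ut_mul]
  refine ut_eq ?_
  revert g h
  refine forall_U fun a b x y => forall_U ?_
  revert a b x y
  decide +kernel

/-- the embedding -/
def ι : U σ4 →* GL (Fin 4) (ZMod 2) := MonoidHom.toHomUnits ⟨⟨mat, by decide +kernel⟩, mat_mul⟩

theorem ι_inj : Function.Injective ι := (injective_iff_map_eq_one ι).2 fun g e =>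
  forall_U (P := fun g => mat g = 1 → g = 1) (by decide +kernel) g (congrArg Units.val e)

theorem card_U : Nat.card (U σ4) = 64 := by
  rw [← Nat.card_congr (Equiv.ofBijective (fun p : F4 × F4 × Bool × Bool => els p.1 p.2.1 p.2.2.1 p.2.2.2)
    ⟨by decide +kernel, fun g => let ⟨x, y, e⟩ := exists_els g; ⟨(_, _, x, y), e.symm⟩⟩), Nat.card_eq_fintype_card]
  rfl

theorem card_GL : Nat.card (GL (Fin 4) (ZMod 2)) = 20160 := by
  rw [Matrix.card_GL_field]; decide

end Q2D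

open Q2D in
/-- `ι : U σ4 →* GL (Fin 4) (ZMod 2)`, `a = a₀ + a₁ w`, `b = b₀ + b₁ w`: rows `(1, a₀, b₀, x + b₀ + b₁ + b₀ a₁)`, `(0, 1, y, b₁ + y a₁)`, `(0, 0, 1, a₁)`, `(0, 0, 0, 1)` (checked: a homomorphism; `forall_U`, `decide +kernel` entrywise).
`|GL₄(2)| = 20160 = 64 * 315` (`Matrix.card_GL_field`). `n ι(g) n⁻¹ = ι(f g)`: for `nn l false` rows `(1000)(0100)(0001)(0010)`; for `nn w true` rows `(0100)(1000)(0011)(0001)`; for `wQ` rows `(1110)(0011)(0101)(0001)`.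
Pattern: first half of `U5.realizable`. -/
theorem exists_real : ∃ E : FusionSystem (⊤ : Subgroup (U σ4)), E.IsRealizable 2 ∧ Mor E sV (nn .l false) ∧ Mor E sV (nn .w true) ∧
    Mor E sQ wQ := by
  let κ : (⊤ : Subgroup (U σ4)) →* GL (Fin 4) (ZMod 2) := ι.comp (⊤ : Subgroup (U σ4)).subtype
  have hκ : Function.Injective κ := ι_inj.comp (subtype_injective _)
  obtain ⟨e', he⟩ := exists_isoOn_of_injective κ hκ
  obtain ⟨E, hE⟩ := he.symm.exists_corr (groupFusionSystem κ.range)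
  have hr : E.IsRealizedBy κ := hE.symm.isRealizedBy fun x => (homFn_coe κ x).symm
  have hm : ∀ P f, Mor E P f ↔ ∃ g, ∀ x ∈ P, ι (f x) = cj g (ι x) := fun P f =>
    ((isRealizedBy_iff (e := ι) fun _ => rfl).1 hr).2 P f le_top fun _ _ => trivial
  have hc : Nat.card κ.range = 2 ^ 6 := by
    rw [← Nat.card_congr (MonoidHom.ofInjective hκ).toEquiv, card_top, card_U]; rfl
  have hin : ∀ {P : Subgroup (U σ4)} {f} (A B : Mt) (h1 : A * B = 1) (h2 : B * A = 1), (∀ g ∈ P, mat (f g) * A = A * mat g) → Mor E P f :=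
    fun A B h1 h2 h => (hm _ _).2 ⟨⟨A, B, h1, h2⟩, fun g hg => eq_mul_inv_of_mul_eq (Units.ext (h g hg))⟩
  refine ⟨E, isRealizable_of_isRealizedBy hr ⟨(IsPGroup.of_card hc).toSylow fun hd => ?_, rfl⟩,
    hin !![1, 0, 0, 0; 0, 1, 0, 0; 0, 0, 0, 1; 0, 0, 1, 0] !![1, 0, 0, 0; 0, 1, 0, 0; 0, 0, 0, 1; 0, 0, 1, 0] (by decide +kernel)
      (by decide +kernel) (forall_V (by decide +kernel)),
    hin !![0, 1, 0, 0; 1, 0, 0, 0; 0, 0, 1, 1; 0, 0, 0, 1] !![0, 1, 0, 0; 1, 0, 0, 0; 0, 0, 1, 1; 0, 0, 0, 1] (by decide +kernel)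
      (by decide +kernel) (forall_V (by decide +kernel)),
    hin !![1, 1, 1, 0; 0, 0, 1, 1; 0, 1, 0, 1; 0, 0, 0, 1] !![1, 1, 1, 0; 0, 0, 1, 1; 0, 1, 0, 1; 0, 0, 0, 1] (by decide +kernel)
      (by decide +kernel) (forall_U (P := fun g => g.y = 0 → _) (by decide +kernel))⟩
  have := κ.range.card_mul_index
  rw [hc, card_GL] at this
  omega

end CL.U4.Two
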