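/-
S5210: the case `q = 2` with `Z` conjugate into `W ∖ Z`: the system of `A₈ = GL₄(2)`.
-/
import Cfsg.Agent.FUS.U4.Q2C
import Cfsg.Agent.FUS.U4.Q2D

set_option autoImplicit false
set_option linter.unusedSimpArgs false
set_option linter.unusedSectionVars false
set_option linter.unusedVariables false

namespace CL.U4

open CL.Fus CL.RF4 Subgroup Cfsg Cfsg.FusionSystem U CL.U5.Un
open CL.U5 (Un Dg ru σu ru_val σu_val map_σ Cp Qd Pr)
open scoped commutatorElement

namespace Two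

variable {F : FusionSystem (⊤ : Subgroup (U σ4))}

theorem std_case (hF : F.IsSaturated 2) (hc : F.core = ⊥) (h1 : Mor F sV (nn .l false)) (h2 : Mor F sV (nn .w true)) :
    F.IsRealizable 2 := by
  obtain ⟨E, hE, e1, e2, e3⟩ := exists_real
  have key : ∀ {F E : FusionSystem (⊤ : Subgroup (U σ4))}, F.IsSaturated 2 → Mor F sV (nn .l false) → Mor F sV (nn .w true) →
      Mor E sV (nn .l false) → Mor E sV (nn .w true) → ∀ a e, a ≠ 0 → Mor F sV (nn a e) → Mor E sV (nn a e) := by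
    intro F E hF h1 h2 e1 e2 a e ha h
    rcases cmp (sylV hF) ha (by decide) (nv_mem_iff.2 h) (nv_mem_iff.2 h1) with ⟨rfl, rfl⟩ | ⟨-, k⟩
    · exact e1
    rcases cmp (sylV hF) ha (by decide) (nv_mem_iff.2 h) (nv_mem_iff.2 h2) with ⟨rfl, rfl⟩ | ⟨-, k'⟩
    · exact e2
    · cases e <;> contradiction
  have hw := wQ_mem2 (p := 2) (by rw [Nat.card_eq_fintype_card]; decide) hF (ptQ2 (by decide) hF) (essQ_of_core hF hc)
  have hE' := isSaturated_of_isRealizable hE
  rwa [FusionSystem_ext (F := F) (E := E) fun P => (le2 hF hE' (by decide) h1 (key hF h1 h2 e1 e2) hw e3 P).antisymm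
    (le2 hE' hF (by decide) e1 (key hE' e1 e2 h1 h2) e3 hw P)]

/-- a scalar and a central automorphism -/
def bf (c : F4) (t : Bool) (g : U σ4) : U σ4 := ⟨c * g.a, c * g.b, g.x + bt t * g.y, g.y, by
  rw [map_add, map_mul, σ_bt, g.hx, g.hy], g.hy⟩

theorem isoOn_bf {c : F4} (hc : c ≠ 0) (t : Bool) : IsoOn ⊤ ⊤ (bf c t) (bf c⁻¹ t) := by
  have k : c * σ4 c = 1 := by revert c; decide
  refine ⟨fun g _ h _ => U.ext (mul_add ..) ?_ ?_ rfl, fun _ _ => trivial, fun _ _ => trivial, fun g _ => ?_, fun g _ => ?_⟩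
  · simp only [bf, mul_b]; ring
  · simp only [bf, mul_x, mul_y, map_mul]
    linear_combination -(g.a * σ4 h.b + σ4 g.a * h.b + g.a * σ4 g.a * h.y) * k
  all_goals
    revert g
    exact fun g _ => forall_U (P := fun g => bf _ t (bf _ t g) = g) (by clear k; revert c t; decide +kernel) g

theorem exists_bf : ∀ a e a' e', a ≠ 0 → a' ≠ 0 → a' ≠ a → e ≠ e' → ∃ c t, c ≠ 0 ∧
    ((∀ b x y, nn .l false (bf c t (els 0 b x y)) = bf c t (nn a e (els 0 b x y)) ∧
      nn .w true (bf c t (els 0 b x y)) = bf c t (nn a' e' (els 0 b x y))) ∨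
    ∀ b x y, nn .w true (bf c t (els 0 b x y)) = bf c t (nn a e (els 0 b x y)) ∧
      nn .l false (bf c t (els 0 b x y)) = bf c t (nn a' e' (els 0 b x y))) := by
  decide +kernel

theorem q2c (hF : F.IsSaturated 2) (hN : NT F) (hc : F.core = ⊥) : F.IsRealizable 2 := by
  obtain ⟨f, hf, z, hz, h1, h2⟩ := hN
  obtain ⟨α, hα, e⟩ := hf.1.exists_aut (hf.1.img_eq_self hf.2)
  have e' : (α ⟨z, Z_le_V hz⟩ : U σ4) = f z := (autFun_of_mem α (Z_le_V hz)).symm.trans (e (Z_le_V hz))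
  obtain ⟨a, t, ha, h3⟩ := exists_nv (sylV hF) hα (z := ⟨z, Z_le_V hz⟩) hz (e' ▸ h1) (e' ▸ h2)
  obtain ⟨a', t', ha', n, h4⟩ := exists_second hF hc ha (nv_mem_iff.1 h3)
  have n' := ((cmp (sylV hF) ha ha' h3 (nv_mem_iff.2 h4)).resolve_left fun k => n k.1.symm).2
  obtain ⟨c, s, h0, k⟩ := exists_bf a t a' t' ha ha' n n'
  obtain ⟨F', C⟩ := (isoOn_bf h0 s).exists_corr F
  have i : img (bf c s) sV = sV := le_antisymm (img_le_iff.2 fun x hx => by simp [mem_sV, bf, mem_sV.1 hx]) fun x hx => by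
    rw [← (isoOn_bf h0 s).right x trivial]
    exact mem_img_of_mem _ (by simp [mem_sV, bf, mem_sV.1 hx])
  have m : ∀ {a t a' t'}, Mor F sV (nn a t) → (∀ b x y, nn a' t' (bf c s (els 0 b x y)) = bf c s (nn a t (els 0 b x y))) →
      Mor F' sV (nn a' t') := fun h k => i ▸ C.mor_of h (forall_V k)
  refine C.symm.isRealizable ?_
  rcases k with k | k
  · exact std_case (C.isSaturated hF) (C.core_eq_bot_iff.2 hc) (m (nv_mem_iff.1 h3) fun b x y => (k b x y).1) (m h4 fun b x y => (k b x y).2)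
  · exact std_case (C.isSaturated hF) (C.core_eq_bot_iff.2 hc) (m h4 fun b x y => (k b x y).2) (m (nv_mem_iff.1 h3) fun b x y => (k b x y).1)

end Two

variable {K : Type*} [Field K] [Finite K] {σ : K →+* K} [T : Un σ] {p : ℕ} [Fact p.Prime] [CharP K p]
  {F F' : FusionSystem (⊤ : Subgroup (U σ))}

/-- transport along a field isomorphism -/
def mapU {K' : Type*} [Field K'] {σ' : K' →+* K'} [Un σ'] (φ : K ≃+* K') (h : ∀ x, φ (σ x) = σ' (φ x)) (g : U σ) : U σ' :=
  ⟨φ g.a, φ g.b, φ g.x, φ g.y, by rw [← h, g.hx], by rw [← h, g.hy]⟩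

theorem isoOn_mapU {K' : Type*} [Field K'] {σ' : K' →+* K'} [Un σ'] (φ : K ≃+* K') (h : ∀ x, φ (σ x) = σ' (φ x))
    (h' : ∀ x, φ.symm (σ' x) = σ (φ.symm x)) : IsoOn ⊤ ⊤ (mapU φ h) (mapU φ.symm h') :=
  ⟨fun g _ k _ => by ext <;> simp only [mapU, mul_a, mul_b, mul_x, mul_y, map_add, map_mul, h], fun _ _ => trivial, fun _ _ => trivial,
    fun g _ => by ext <;> simp [mapU], fun g _ => by ext <;> simp [mapU]⟩

theorem q2 (hq : Nat.card (Fix σ) = 2) (hF : F.IsSaturated p) (hN : NT F) (hc : F.core = ⊥) : F.IsRealizable p := by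
  obtain rfl : p = 2 := ((Nat.prime_dvd_prime_iff_eq Fact.out Nat.prime_two).1
    ((CharP.cast_eq_zero_iff K p 2).1 (two_eq_zero_of_card hq)))
  have := Fintype.ofFinite K
  let φ : K ≃+* F4 := FiniteField.ringEquivOfCardEq (by rw [← Nat.card_eq_fintype_card, card_K (σ := σ), hq]; rfl)
  have h : ∀ x, φ (σ x) = Two.σ4 (φ x) := fun x => by
    rw [σ_pow (σ := σ), hq, map_pow]
    generalize φ x = y
    revert y
    decide
  have h' : ∀ x, φ.symm (Two.σ4 x) = σ (φ.symm x) := fun x => φ.injective (by rw [h, φ.apply_symm_apply, φ.apply_symm_apply])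
  have i := isoOn_mapU φ h h'
  obtain ⟨F', C⟩ := i.exists_corr F
  obtain ⟨f, hf, z, hz, h1, h2⟩ := hN
  have e : img (mapU φ h) sV = sV := le_antisymm (img_le_iff.2 fun x hx => by simp [mem_sV, mapU, mem_sV.1 hx]) fun x hx => by
    rw [← i.right x trivial]
    exact mem_img_of_mem _ (by simp [mem_sV, mapU, mem_sV.1 hx])
  refine C.symm.isRealizable (Two.q2c (C.isSaturated hF) ⟨_, ⟨e ▸ C.mor hf.1, fun x hx => ?_⟩, mapU φ h z, ?_, ?_, ?_⟩ (C.core_eq_bot_iff.2 hc))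
  · have := hf.2 (mapU φ.symm h' x) (by simp [mem_sV, mapU, mem_sV.1 hx])
    simpa [mem_sV, mapU] using this
  · simpa [mem_sZ, mapU] using hz
  · simpa [mem_sW, Function.comp, i.left z trivial, mapU] using h1
  · simpa [mem_sZ, Function.comp, i.left z trivial, mapU] using h2

end CL.U4
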