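/-
S5210: realisation by `SU₄(q)` extended by diagonal and field automorphisms.
-/
import Cfsg.Agent.FUS.U4.QC
import Cfsg.Agent.FUS.U4.VD
import Cfsg.Agent.FUS.U4.Ess
import Cfsg.Agent.FUS.Realized
import Cfsg.Agent.FUS.GroupFusion

set_option autoImplicit false
set_option linter.unusedSimpArgs false
set_option linter.unusedSectionVars false
set_option linter.unusedVariables false

namespace CL.U4

open CL.Fus CL.RF4 Subgroup Cfsg Cfsg.FusionSystem U CL.U5.Un
open CL.U5 (Un Dg ru σu ru_val σu_val map_σ Cp Qd Pr)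
open scoped commutatorElement

variable {K : Type*} [Field K] [Finite K] {σ : K →+* K} [T : Un σ] {p : ℕ} [Fact p.Prime] [CharP K p]
  {F F' : FusionSystem (⊤ : Subgroup (U σ))}

/-- `alperin_isSubsystemOf`, `ess_cases`, `leV`, `leQ` -/
theorem le_of_gen (hF : F.IsSaturated p) (h1 : SP F) (h2 : PtQ F) (h : ∀ f, Mor F ⊤ f → Mor F' ⊤ f) (hV : Mor F sV wV)
    (hV' : Mor F' sV wV) (hQ : Mor F sQ wQ) (hQ' : Mor F' sQ wQ) : F ≤ F' := by
  refine alperin_isSubsystemOf (isPGroup_top p) hF fun P f hP hf e => ?_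
  have m : ∀ x ∈ P, f x ∈ P := img_le_iff.1 e.le
  rcases hP with rfl | hP
  · exact h f hf
  rcases ess_cases hF h1.not_NT hP with rfl | rfl
  exacts [leV hF h1 h hV hV' ⟨hf, m⟩, leQ hF h2 h hQ hQ' ⟨hf, m⟩]

/-- copy of `U5.realizable`; `SP E` from `M.sing`, `dd_sing`; `PtQ E` from `ptQ`. -/
theorem realizable {G : Type*} [Group G] [Finite G] (M : Md σ p G) (hq : Nat.card (Fix σ) ≠ 3) (hF : F.IsSaturated p) (hP : SP F) (hS : Std F)
    (ht : ∀ s t : Kˣ, σ (s * t) = s * t → ts σ s t ∈ DF F) (h1 : Mor F sV wV) (h2 : Mor F sQ wQ) : F.IsRealizable p := by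
  let H := G ⋊[M.φ.comp (DF F).subtype] DF F
  have : Finite H := Finite.of_equiv _ SemidirectProduct.equivProd.symm
  let ι : U σ →* H := SemidirectProduct.inl.comp M.u
  have hι : Function.Injective ι := SemidirectProduct.inl_injective.comp M.inj
  let κ : (⊤ : Subgroup (U σ)) →* H := ι.comp (⊤ : Subgroup (U σ)).subtype
  have hκ : Function.Injective κ := hι.comp (subtype_injective _)
  obtain ⟨e', he⟩ := exists_isoOn_of_injective κ hκ
  obtain ⟨E, hE⟩ := he.symm.exists_corr (groupFusionSystem κ.range)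
  have hr : E.IsRealizedBy κ := hE.symm.isRealizedBy fun x => (homFn_coe κ x).symm
  have hm : ∀ P f, Mor E P f ↔ ∃ g : H, ∀ x ∈ P, ι (f x) = cj g (ι x) := fun P f =>
    ((isRealizedBy_iff (e := ι) fun _ => rfl).1 hr).2 P f le_top fun _ _ => trivial
  have hκr : κ.range = M.u.range.map SemidirectProduct.inl := by
    rw [MonoidHom.range_comp, range_subtype, ← MonoidHom.range_eq_map, MonoidHom.range_comp]
  have hR : E.IsRealizable p := isRealizable_of_isRealizedBy hr ⟨IsPGroup.toSylow (P := κ.range)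
    ((isPGroup_top p).of_surjective _ κ.rangeRestrict_surjective) (by
      rw [hκr, index_map_of_injective _ SemidirectProduct.inl_injective, SemidirectProduct.range_inl_eq_ker_rightHom, index_ker]
      exact Nat.Prime.not_dvd_mul Fact.out M.idx fun k => not_dvd_DF hF (k.trans (card_subgroup_dvd_card _))), rfl⟩
  have hin : ∀ {P f} (x : G), (∀ g ∈ P, x * M.u g * x⁻¹ = M.u (f g)) → Mor E P f := fun x h =>
    (hm _ _).2 ⟨.inl x, fun g hg => by simp only [ι, cj, MonoidHom.comp_apply, ← h g hg, map_mul, map_inv]⟩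
  have E1 : Mor E sV wV := hin M.n1 M.n1u
  have E2 : Mor E sQ wQ := hin M.n2 M.n2u
  have hr' : ∀ (ψ : DF F) g, cj (SemidirectProduct.inr ψ : H) (ι g) = ι (dd ψ.1 g) := fun ψ g => by
    simp only [ι, cj, MonoidHom.comp_apply, ← M.φu, ← map_inv]
    exact (SemidirectProduct.inl_aut ψ _).symm
  have dec : ∀ {P f}, Mor E P f → ∃ y : H, ∀ g ∈ P, M.u (f g) = y.left * M.u (dd y.right.1 g) * y.left⁻¹ := fun hf =>
    let ⟨y, hy⟩ := (hm _ _).1 hf
    ⟨y, fun g hg => SemidirectProduct.inl_injective (φ := M.φ.comp (DF F).subtype) (by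
      have := hy g hg
      rw [← y.inl_left_mul_inr_right, cj_mul, hr'] at this
      simpa only [ι, cj, MonoidHom.comp_apply, map_mul, map_inv] using this)⟩
  have key : ∀ f, Mor E ⊤ f → ∃ u, ∃ x ∈ DF F, ∀ g, f g = cj u (dd x g) := fun f hf => by
    obtain ⟨y, e⟩ := dec hf
    obtain ⟨u, s, t, st, hx⟩ := M.nrm y.left (mem_normalizer_of_cj_mem (by
      rintro _ ⟨g, rfl⟩
      obtain ⟨g, rfl⟩ := (dd y.right.1).surjective g
      exact ⟨_, e g trivial⟩))
    exact ⟨u, _, mul_mem (ht s t st) y.right.2, fun g => M.inj (by rw [e g trivial, hx, map_mul, MulAut.mul_apply])⟩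
  have FE : ∀ f, Mor F ⊤ f → Mor E ⊤ f := fun f hf => by
    obtain ⟨u, x, hx, e⟩ := hS.dd_mem hf
    refine (hm _ _).2 ⟨ι u * .inr ⟨x, hx⟩, fun g _ => ?_⟩
    rw [cj_mul, hr', e]
    simp only [cj, map_mul, map_inv]
  have h0 : ∀ l : Kˣ, ts σ l l⁻¹ ∈ DF F := fun l => ht l l⁻¹ (by simp)
  have sE := isSaturated_of_isRealizable hR
  have pE : SP E := fun f hf v hv k =>
    let ⟨y, e⟩ := dec hf.1
    M.sing y.left _ (dd_V _ hv) _ (hf.2 v hv) (e v hv).symm (dd_sing _ k)
  rwa [FusionSystem_ext (F := F) (E := E) fun P => (le_of_gen hF hP (ptQ hq hF hS h0) FE h1 E1 h2 E2 P).antisymm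
    (le_of_gen sE pE (ptQ hq sE (fun f hf => let ⟨u, x, _, e⟩ := key f hf; ⟨u, x, e⟩) fun l => FE _ (h0 l))
      (fun f hf => ?_) E1 h1 E2 h2 P)]
  obtain ⟨u, x, hx, e⟩ := key f hf
  exact (Mor.cj_comp hx (s := u) trivial).congr fun g _ => (e g).symm

end CL.U4
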