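/-
S5210: standard position of `Aut_F(S)`.
-/
import Cfsg.Agent.FUS.U4.VD
import Cfsg.Agent.FUS.RF4.BigA

set_option autoImplicit false
set_option linter.unusedSimpArgs false
set_option linter.unusedSectionVars false
set_option linter.unusedVariables false

namespace CL.U4

open CL.Fus CL.RF4 Subgroup Cfsg Cfsg.FusionSystem U CL.U5.Un
open CL.U5 (Un Dg ru σu ru_val σu_val map_σ Cp Qd Pr)
open scoped commutatorElement

variable {K : Type*} [Field K] [Finite K] {σ : K →+* K} [T : Un σ] {p : ℕ} [Fact p.Prime] [CharP K p]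
  {F F' : FusionSystem (⊤ : Subgroup (U σ))}

namespace StdX

theorem core (α : MulAut (U σ)) (h : ∀ v ∈ sV, Sing v → Sing (α v)) (h0 : (α (zy 1 (map_one σ))).b = 0) :
    ∃ d, ∀ v ∈ sV, α v = dd d v := by
  have A := aut_iff α
  have i := CL.U5.isoOn_top α
  obtain ⟨f, ef⟩ := exists_crd i.hom i.maps U.a (fun _ _ _ _ => rfl) (fun a => ⟨xa a, trivial, rfl⟩) fun y _ => (A y).2.2.1
  have aV : ∀ v ∈ sV, (α v).a = 0 := fun v hv => (A v).2.2.1.2 hv
  obtain ⟨m, hm⟩ : ∃ m, m = (α (zy 1 (map_one σ))).y := ⟨_, rfl⟩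
  have m0 : m ≠ 0 := fun e => one_ne_zero ((A (zy 1 (map_one σ))).2.2.2.1 (hm.symm.trans e))
  have mσ : σ m = m := hm ▸ U.hy _
  have x0 : (α (zy 1 (map_one σ))).x = 0 := by
    have := h (zy 1 (map_one σ)) rfl (by simp [Sing])
    rw [Sing, h0, ← hm, zero_mul] at this
    exact (mul_eq_zero.1 this).resolve_right m0
  have hZ : ∀ g : U σ, g.a = 0 ∧ g.b = 0 ∧ g.x = 0 → (α g).a = 0 ∧ (α g).b = 0 ∧ (α g).x = 0 := fun g ⟨g1, g2, g3⟩ => by
    have k1 := h g g1 (by simp [Sing, g2, g3])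
    have k2 := h (g * zy 1 (map_one σ)) (mul_mem (show g ∈ sV from g1) rfl) (by simp [Sing, mul_x, mul_b, g1, g2, g3])
    have k3 := aV g g1
    rw [map_mul] at k2
    simp only [Sing, mul_x, mul_b, mul_y, k3, h0, x0, ← hm, map_zero, zero_mul, add_zero, mul_zero] at k1 k2
    have k4 : (α g).x = 0 := (mul_eq_zero.1 (show (α g).x * m = 0 by linear_combination k2 - k1)).resolve_right m0
    rw [k4, zero_mul] at k1
    exact ⟨k3, norm_eq_zero k1.symm, k4⟩
  have au := CL.U5.au_pair i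
  have hZ' : ∀ g : U σ, g.a = 0 ∧ g.b = 0 ∧ g.x = 0 → (α.symm g).a = 0 ∧ (α.symm g).b = 0 ∧ (α.symm g).x = 0 := fun g hg =>
    au.mem_of_inv (X := {g : U σ | g.a = 0 ∧ g.b = 0 ∧ g.x = 0}) (α := α.symm) (β := α) (Or.inl rfl) i.left (fun y _ => hZ y) trivial hg
  have h' : ∀ v ∈ sV, Sing v → Sing (α.symm v) := fun v hv hs =>
    (au.mem_of_inv (X := {g : U σ | g ∈ sV ∧ Sing g}) (α := α.symm) (β := α) (Or.inl rfl) i.left
      (fun y _ k => ⟨aV y k.1, h y k.1 k.2⟩) trivial ⟨hv, hs⟩).2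
  have bW : ∀ b, α (xb b) ∈ sW := fun b => (A _).2.1.2 ⟨rfl, rfl⟩
  have γ0 : ∀ b, (α (xb b)).x = 0 := fun b => by
    by_contra hx
    have k0 : σ ((α (xb b)).b * σ (α (xb b)).b / (α (xb b)).x) = (α (xb b)).b * σ (α (xb b)).b / (α (xb b)).x := by
      rw [map_div₀, map_mul, T.sq, U.hx, mul_comm]
    obtain ⟨k1, k2, k3⟩ := hZ' (zy _ k0) ⟨rfl, rfl, rfl⟩
    have k4 := h' (α (xb b) * zy _ k0) (mul_mem (bW b).1 (show zy _ k0 ∈ sV from rfl)) (by
      simp only [Sing, mul_x, mul_b, mul_y, (bW b).1, (bW b).2, zy_b, zy_x, zy_y, map_zero, zero_mul, add_zero, mul_zero, zero_add]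
      field_simp)
    rw [map_mul, α.symm_apply_apply] at k4
    simp only [Sing, mul_x, mul_b, mul_y, k1, k2, k3, xb_a, xb_b, xb_x, xb_y, map_zero, zero_mul, add_zero, mul_zero] at k4
    rw [show xb b = (1 : U σ) from U.ext rfl (norm_eq_zero k4.symm) rfl rfl, map_one] at hx
    exact hx rfl
  have zZ : ∀ x hx, α (zx x hx) ∈ sZ := fun x hx => (A _).1.2 ⟨rfl, rfl, rfl⟩
  have R1 : ∀ a y (hy : σ y = y) (hx : σ (a * σ a * y) = a * σ a * y), (α (xb (a * y))).b = f a * (α (zy y hy)).y ∧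
      (α (zx _ hx)).x = f a * σ (f a) * (α (zy y hy)).y := fun a y hy hx => by
    have e : ⁅(xa a : U σ), zy y hy⁆ = xb (a * y) * zx _ hx :=
      U.ext (by simp [brk_a, mul_a]) (by simp [brk_b, mul_b]) (by simp [brk_x, mul_x]) (by simp [brk_y, mul_y])
    have e' := congrArg α e
    obtain ⟨k1, k2, k3⟩ := hZ (zy y hy) ⟨rfl, rfl, rfl⟩
    rw [map_commutatorElement, map_mul] at e'
    have e1 := congrArg U.b e'
    have e2 := congrArg U.x e'
    rw [brk_b, mul_b, k1, ef _ trivial, (bW _).1, (zZ _ _).2.1] at e1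
    rw [brk_x_V _ k1, mul_x, k2, ef _ trivial, (bW _).1, γ0] at e2
    simp only [xa_a, map_zero, zero_mul, mul_zero, add_zero, sub_zero, zero_add] at e1 e2
    exact ⟨e1.symm, e2.symm⟩
  have nσ : ∀ a y : K, σ y = y → σ (a * σ a * y) = a * σ a * y := fun a y hy => by rw [map_mul, map_mul, T.sq, hy, mul_comm a]
  obtain ⟨l, hl⟩ : ∃ l, l = f 1 := ⟨_, rfl⟩
  have l0 : l ≠ 0 := by simp [hl]
  have l0' : σ l ≠ 0 := (map_ne_zero σ).2 l0
  obtain ⟨φ, hφ⟩ : ∃ φ : K ≃+ K, ∀ a, f a = l * φ a :=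
    ⟨f.trans (AddAut.mulLeft (Units.mk0 l l0)⁻¹), fun a => (mul_inv_cancel_left₀ l0 (f a)).symm⟩
  have φ1 : φ 1 = 1 := mul_left_cancel₀ l0 (by rw [← hφ, ← hl, mul_one])
  have B : ∀ a, (α (xb a)).b = l * m * φ a := fun a => by
    have := (R1 a 1 (map_one σ) (nσ _ _ (map_one σ))).1
    rw [mul_one, ← hm, hφ] at this
    rw [this]; ring
  have E : ∀ y hy, (α (zy y hy)).y = m * φ y := fun y hy => by
    have := (R1 1 y hy (nσ _ _ hy)).1
    rw [one_mul, B, ← hl] at this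
    exact mul_left_cancel₀ l0 (by linear_combination -this)
  have M : ∀ a y, σ y = y → φ (a * y) = φ a * φ y := fun a y hy => by
    have := (R1 a y hy (nσ _ _ hy)).1
    rw [B, E, hφ] at this
    exact mul_left_cancel₀ (mul_ne_zero l0 m0) (by linear_combination this)
  have X : ∀ x hx, (α (zx x hx)).x = l * σ l * m * φ x := fun x hx => by
    have := (R1 1 x hx (nσ _ _ hx)).2
    rw [E, ← hl] at this
    rw [show zx x hx = zx _ (nσ 1 x hx) from U.ext rfl rfl (by simp) rfl, this]; ring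
  have n0 : l * σ l * m ≠ 0 := mul_ne_zero (mul_ne_zero l0 l0') m0
  have N : ∀ a, φ (a * σ a) = φ a * σ (φ a) := fun a => by
    have := (R1 a 1 (map_one σ) (nσ _ _ (map_one σ))).2
    rw [X, ← hm, hφ, mul_one, map_mul σ l] at this
    exact mul_left_cancel₀ n0 (by linear_combination this)
  have tσ : ∀ a : K, σ (a + σ a) = a + σ a := fun a => by rw [map_add, T.sq, add_comm]
  have Tr : ∀ a, φ (a + σ a) = φ a + σ (φ a) := fun a => by
    have e : ⁅(xa a : U σ), xb 1⁆ = zx _ (tσ a) :=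
      U.ext (by simp [brk_a]) (by simp [brk_b]) (by simp [brk_x]) (by simp [brk_y])
    have e' := congrArg U.x (congrArg α e)
    rw [map_commutatorElement, brk_x_W _ (bW 1), X, B, ef _ trivial, xa_a, hφ, φ1] at e'
    simp only [map_mul, mσ, map_one] at e'
    exact mul_left_cancel₀ n0 (by linear_combination -e')
  have sq : φ (θ σ * θ σ) = φ (θ σ) * φ (θ σ) := by
    rw [show θ σ * θ σ = θ σ * (θ σ + σ (θ σ)) - θ σ * σ (θ σ) by ring, map_sub, M _ _ (tσ _), N, Tr]; ring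
  have mul : ∀ a b, φ (a * b) = φ a * φ b := fun a b => by
    obtain ⟨c, c', h1, h2, rfl⟩ := decomp (σ := σ) a
    obtain ⟨d, d', h3, h4, rfl⟩ := decomp (σ := σ) b
    rw [show (c + c' * θ σ) * (d + d' * θ σ) = c * d + θ σ * c * d' + θ σ * c' * d + θ σ * θ σ * c' * d' by ring, mul_comm c', mul_comm d']
    simp only [map_add, M _ _ h1, M _ _ h2, M _ _ h3, M _ _ h4, sq]
    ring
  let d : Dd σ := ⟨⟨Units.mk0 l l0, Units.mk0 m m0, { φ with map_mul' := mul }⟩, mσ⟩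
  refine ⟨d, fun v hv => ?_⟩
  have e : v = xb v.b * zx v.x v.hx * zy v.y v.hy :=
    U.ext (by simp [mul_a, mem_sV.1 hv]) (by simp [mul_a, mul_b]) (by simp [mul_a, mul_b, mul_x]) (by simp [mul_y])
  have e1 : α (xb v.b) = dd d (xb v.b) := U.ext (by simp [(bW _).1]) (B _) (by simp [γ0]) (by simp [(bW _).2])
  have e2 : α (zx v.x v.hx) = dd d (zx v.x v.hx) :=
    U.ext (by simp [(zZ _ _).1]) (by simp [(zZ _ _).2.1]) (X _ _) (by simp [(zZ _ _).2.2])
  obtain ⟨k1, k2, k3⟩ := hZ (zy v.y v.hy) ⟨rfl, rfl, rfl⟩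
  have e3 : α (zy v.y v.hy) = dd d (zy v.y v.hy) := U.ext (by simp [k1]) (by simp [k2]) (by simp [k3]) (E _ _)
  rw [e, map_mul, map_mul, map_mul, map_mul, e1, e2, e3]

theorem isoV (α : MulAut (U σ)) : IsoOn sV sV α α.symm :=
  ⟨fun _ _ _ _ => map_mul α _ _, fun x hx => (aut_iff α x).2.2.1.2 hx, fun x hx => (aut_iff α.symm x).2.2.1.2 hx,
    fun x _ => α.symm_apply_apply x, fun x _ => α.apply_symm_apply x⟩

end StdX

/-- `α` and `α⁻¹` preserve `V, W, Z` (`aut_iff`) and `Sing` (finiteness). `α' = cj s ∘ α` maps the `y`-axis `Z' = wV Z` into itself (`sing_pt` for `α ∘ wV`), hence also `W' = wV W = {x = 0}` (`sing_W` for `wV ∘ α' ∘ wV`), so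
`α' (b, x, y) = (β b, ξ x, e y)` with additive bijections. `l m = β 1`, `m = e 1`; normalise `β 1 = e 1 = 1`: `ξ x * e y = N(β b)` when `x y = N b` (`nrm`), so `ξ = e` is multiplicative on `F`, `N(β b) = e (N b)`.
`[xa a, zy y].b = a y` gives `β (a y) = f a * e y`, `f a = (α' (xa a)).a`, so `β (a y) = β a * e y`. `a² = a Tr(a) - N(a)` gives `β (θ²) = (β θ)²`; with `decomp`, `β` is multiplicative: `ρ`. -/
theorem aut_form (α : MulAut (U σ)) (h : ∀ v ∈ sV, Sing v → Sing (α v)) : ∃ u d, ∀ v ∈ sV, α v = cj u (dd d v) := by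
  have y0 : (α (zy 1 (map_one σ))).y ≠ 0 := fun e => one_ne_zero ((aut_iff α (zy 1 (map_one σ))).2.2.2.1 e)
  obtain ⟨s, hs⟩ : ∃ s : U σ, s = xa (-(α (zy 1 (map_one σ))).b / (α (zy 1 (map_one σ))).y) := ⟨_, rfl⟩
  obtain ⟨d, e⟩ := StdX.core (MulAut.conj s * α) (fun v hv k => cj_sing s ((aut_iff α v).2.2.1.2 hv) (h v hv k)) (by
    change (cj s (α _)).b = 0
    rw [cj_b, hs, xa_a, xa_y, div_mul_cancel₀ _ y0]
    ring)
  exact ⟨s⁻¹, d, fun v hv => by rw [← e v hv]; exact (cj_inv_cj s _).symm⟩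

/-- the automorphisms that are inner on `V` -/
def K0 (σ : K →+* K) [Un σ] : Subgroup (MulAut (U σ)) where
  carrier := {α | ∃ u, ∀ v ∈ sV, α v = cj u v}
  one_mem' := ⟨1, fun v _ => by simp [cj]⟩
  mul_mem' := by
    rintro α β ⟨u, e⟩ ⟨u', e'⟩
    exact ⟨u * u', fun v hv => by rw [MulAut.mul_apply, e' v hv, e _ ((U5.isoOn_cj u').maps v hv), cj_mul]⟩
  inv_mem' := by
    rintro α ⟨u, e⟩
    exact ⟨u⁻¹, fun v hv => by rw [MulAut.inv_def, MulEquiv.symm_apply_eq, e _ ((U5.isoOn_cj u⁻¹).maps v hv), cj_cj_inv]⟩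

/-- `α u ∈ u V`-type bookkeeping: if `α = cj u` on `V` then `g⁻¹ u⁻¹ α(g) u` centralises `V`, so `(α g).a = g.a`; `α ^ p` is trivial on `V` (`α ^ n = cj` of an element with `a = n u.a`), and an automorphism trivial on `V` and `S / V` has order dividing `p`. -/
theorem isPGroup_K0 (p : ℕ) [Fact p.Prime] [CharP K p] : IsPGroup p (K0 σ) := by
  obtain ⟨n, hn⟩ := IsPGroup.iff_card.1 (isPGroup_U (σ := σ) p)
  rintro ⟨α, u, e⟩
  have ha : ∀ g, (α g).a = g.a := fun g => by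
    have k : (zy 1 (map_one σ) : U σ) ∈ sV := rfl
    have k1 := congrArg U.b (e _ ((U5.isoOn_cj g).maps _ k))
    rw [show α (cj g (zy 1 (map_one σ))) = cj (α g) (α (zy 1 (map_one σ))) by simp [cj], e _ k] at k1
    simp only [cj_a, cj_b, cj_y, zy_a, zy_b, zy_y] at k1
    linear_combination k1
  have h1 : ∀ k : ℕ, ∀ v ∈ sV, (α ^ k) v = cj (u ^ k) v := fun k => by
    induction k with
    | zero => intro v _; simp [cj]
    | succ k ih => intro v hv; rw [pow_succ, MulAut.mul_apply, e v hv, ih _ ((U5.isoOn_cj u).maps v hv), pow_succ, cj_mul]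
  have h2 : ∀ k : ℕ, ∀ g, ((α ^ k) g).a = g.a := fun k => by
    induction k with
    | zero => intro g; rfl
    | succ k ih => intro g; rw [pow_succ, MulAut.mul_apply, ih, ha]
  have h3 : ∀ v ∈ sV, (α ^ p ^ n) v = v := fun v hv => by rw [h1 _ v hv, ← hn, pow_card_eq_one']; simp [cj]
  have h4 := h2 (p ^ n)
  refine ⟨n + n, Subtype.ext ?_⟩
  change α ^ p ^ (n + n) = 1
  rw [pow_add, pow_mul]
  generalize α ^ p ^ n = β at h3 h4
  refine MulEquiv.ext fun g => ?_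
  have hc : g⁻¹ * β g ∈ sV := by rw [mem_sV, mul_a, inv_a, h4, neg_add_cancel]
  have h5 : ∀ k : ℕ, (β ^ k) g = g * (g⁻¹ * β g) ^ k := fun k => by
    induction k with
    | zero => simp
    | succ k ih => rw [pow_succ', MulAut.mul_apply, ih, map_mul, h3 _ (pow_mem hc k), pow_succ', ← mul_assoc, mul_inv_cancel_left]
  rw [h5, ← hn, pow_card_eq_one', mul_one, MulAut.one_apply]

/-- copy of `U5.exists_std_of` (`coprime_le_conj_of_le_sup` or `coprime_le_conj`), keeping `β ∈ K₀` -/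
theorem exists_std_in {G D : Type*} [Group G] [Finite G] [Group D] [Finite D] {F : FusionSystem (⊤ : Subgroup G)}
    (hG : IsPGroup p (⊤ : Subgroup G)) (hF : F.IsSaturated p) (δ : D →* MulAut G) (K₀ : Subgroup (MulAut G)) (hK : IsPGroup p K₀)
    (hn : ∀ x, δ x ∈ normalizer (K₀ : Set (MulAut G))) (hδ : ∀ α : MulAut G, Mor F ⊤ α → ∃ x, α * (δ x)⁻¹ ∈ K₀) :
    ∃ β ∈ K₀, ∃ F' : FusionSystem (⊤ : Subgroup G), Corr β β.symm F F' ∧ ∀ f, Mor F' ⊤ f → ∃ u x, ∀ g, f g = cj u (δ x g) := by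
  have hS := sylIn_inn_top hG hF
  have hN : ((Inn (⊤ : Subgroup G)).subgroupOf (F.autGroup ⊤)).Normal := inferInstance
  have h2 : (Nat.card ((Inn (⊤ : Subgroup G)).subgroupOf (F.autGroup ⊤))).Coprime
      ((Inn (⊤ : Subgroup G)).subgroupOf (F.autGroup ⊤)).index := by
    obtain ⟨n, hn⟩ := ((isPGroup_subgroupOf_iff hS.le).2 hS.isPGroup).exists_card_eq
    rw [hn]
    exact ((Nat.Prime.coprime_iff_not_dvd Fact.out).2 hS.not_dvd_relIndex).pow_left _
  obtain ⟨H, hH⟩ := exists_right_complement'_of_coprime h2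
  let c : F.autGroup ⊤ →* MulAut G := (MulAut.congr topEquiv).toMonoidHom.comp (Subgroup.subtype _)
  have hc : ∀ (γ : F.autGroup ⊤) g, c γ g = autFun γ.1 g := fun γ g => (autFun_of_mem γ.1 (mem_top g)).symm
  have hA : ∀ α ∈ H.map c, ∃ k ∈ K₀, ∃ x, α = k * δ x := by
    rintro _ ⟨γ, -, rfl⟩
    obtain ⟨t, e⟩ := hδ (c γ) ((mor_autFun le_top γ.2).congr fun g _ => (hc γ g).symm)
    exact ⟨_, e, t, by simp⟩
  obtain ⟨k, hk0, hk⟩ := coprime_le_conj (H.map c) K₀ δ.range (fun α hα => by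
    obtain ⟨k, hk, x, rfl⟩ := hA α hα
    exact mul_mem (le_normalizer hk) (hn x)) (by
    obtain ⟨n, hn⟩ := hK.exists_card_eq
    rw [hn]
    exact (((Nat.Prime.coprime_iff_not_dvd Fact.out).2 fun k => hS.not_dvd_relIndex
      ((k.trans (card_map_dvd H c)).trans hH.symm.index_eq_card.symm.dvd)).pow_left _).symm)
    (Or.inr (have := hK.isNilpotent; inferInstance)) fun α hα => by
      obtain ⟨k, hk, x, rfl⟩ := hA α hα
      exact ⟨k, hk, _, ⟨x, rfl⟩, rfl⟩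
  obtain ⟨F', hF'⟩ := (U5.isoOn_top k⁻¹).exists_corr F
  refine ⟨_, inv_mem hk0, F', hF', fun f hf => ?_⟩
  have h1 := hF'.mor' hf
  rw [hF'.iso.symm.img_eq] at h1
  obtain ⟨γ, hγ, e⟩ := h1.exists_aut h1.img_top
  obtain ⟨⟨n, h⟩, e'⟩ := (hH.existsUnique ⟨γ, hγ⟩).exists
  obtain ⟨u, -, hu⟩ := mem_inn_iff.1 n.2
  obtain ⟨_, ⟨t, rfl⟩, e2⟩ := (mem_smul_pointwise_iff_exists ..).1 (hk (mem_map_of_mem c h.2))
  refine ⟨k⁻¹ u, t, fun g => ?_⟩
  have e3 := e (x := k g) trivial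
  rw [show γ = n.1.1 * h.1.1 from (congrArg Subtype.val e').symm, autFun_mul _ _ (mem_top _), ← hc h.1, ← e2,
    show autFun n.1.1 _ = _ from hu (mem_top _)] at e3
  apply k.injective
  simpa [cj, eq_comm] using e3

/-- `β = cj u` on `V`, so `F` and `F'` have the same automorphisms of `V` -/
theorem exists_std (hF : F.IsSaturated p) (h : VStd F) :
    ∃ (β : MulAut (U σ)) (F' : FusionSystem (⊤ : Subgroup (U σ))), Corr β β.symm F F' ∧ VStd F' ∧ Std F' := by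
  have nK : ∀ (x : Dd σ), ∀ α ∈ K0 σ, dd x * α * (dd x)⁻¹ ∈ K0 σ := by
    rintro x α ⟨u, e⟩
    refine ⟨dd x u, fun v hv => ?_⟩
    rw [MulAut.mul_apply, MulAut.mul_apply, e _ (by rw [← map_inv]; exact dd_V _ hv)]
    simp [cj]
  obtain ⟨β, ⟨u, e⟩, F', hF', hS⟩ := exists_std_in (isPGroup_top p) hF dd (K0 σ) (isPGroup_K0 p)
    (fun x => mem_normalizer_iff.2 fun α => ⟨nK x α, fun k => by simpa [mul_assoc] using nK x⁻¹ _ k⟩) fun α hα => by
      obtain ⟨u, d, e⟩ := aut_form α (h.1 α (AF.top hα).1)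
      exact ⟨d, u, fun v hv => by
        rw [MulAut.mul_apply, e _ (by rw [← map_inv]; exact dd_V _ hv), MulAut.apply_inv_self]⟩
  have i := StdX.isoV β
  have e' : ∀ v ∈ sV, β.symm v = cj u⁻¹ v := fun v hv => by
    rw [MulEquiv.symm_apply_eq, e _ ((U5.isoOn_cj u⁻¹).maps v hv), cj_cj_inv]
  refine ⟨β, F', hF', ⟨fun f hf v hv k => ?_, fun c => ?_⟩, hS⟩
  · have h1 := hF'.mor' hf.1
    rw [i.symm.img_eq] at h1
    have h2 := h.1 _ ⟨h1, fun x hx => i.maps' _ (hf.2 _ (i.maps x hx))⟩ _ (i.maps' v hv) (by rw [e' v hv]; exact cj_sing _ hv k)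
    simp only [Function.comp, MulEquiv.apply_symm_apply] at h2
    rw [← β.apply_symm_apply (f v), e _ (i.maps' _ (hf.2 v hv))]
    exact cj_sing _ (i.maps' _ (hf.2 v hv)) h2
  · have h1 := ((AF.conj F sV u⁻¹).comp (AF.comp ⟨h.2 c, (isoOn_tp c).maps⟩ (AF.conj F sV u)))
    have h2 := hF'.mor_of (f' := tp c) h1.1 fun x hx => by
      rw [e _ (h1.2 x hx), e x hx]
      exact (cj_cj_inv u _).symm
    rwa [i.img_eq] at h2

end CL.U4
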